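import Cfsg.Agent.OrthPlusDeg.Weight
import Cfsg.Agent.SlMinDegree.Stab

/-!
Matrix representations of finite groups: commutant, vectors without fixed part, matrix coefficients
of an eigenvector of a subgroup, the trace formula, weights and compressions.
-/

set_option autoImplicit false
set_option linter.unusedSectionVars false
set_option linter.style.haveILetI false

noncomputable section

namespace CfsgLib.OrthOddDeg

open Matrix CfsgLib.OrthPlusDeg

variable {G : Type*} [Group G] {k : ℕ}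

/-- The commutant consists of the scalars. -/
def Schur (R : G →* Matrix (Fin k) (Fin k) ℂ) : Prop :=
  ∀ X : Matrix (Fin k) (Fin k) ℂ, (∀ g, X * R g = R g * X) → ∃ c : ℂ, X = c • 1

/-- No nonzero vector is fixed by all elements of `S`. -/
def NoFix (R : G →* Matrix (Fin k) (Fin k) ℂ) (S : Set G) : Prop :=
  ∀ y : Fin k → ℂ, (∀ g ∈ S, R g *ᵥ y = y) → y = 0

variable (R : G →* Matrix (Fin k) (Fin k) ℂ)

theorem R_mul_mulVec (g h : G) (y : Fin k → ℂ) : R (g * h) *ᵥ y = R g *ᵥ (R h *ᵥ y) := by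
  rw [map_mul, Matrix.mulVec_mulVec]

theorem R_inv_mulVec (g : G) (y : Fin k → ℂ) : R g⁻¹ *ᵥ (R g *ᵥ y) = y := by
  rw [← R_mul_mulVec, inv_mul_cancel, map_one, Matrix.one_mulVec]

/-- The elements fixing a vector. -/
def vecStab (y : Fin k → ℂ) : Subgroup G where
  carrier := {g | R g *ᵥ y = y}
  mul_mem' {a b} ha hb := by
    show R (a * b) *ᵥ y = y
    rw [R_mul_mulVec, show R b *ᵥ y = y from hb, show R a *ᵥ y = y from ha]
  one_mem' := by
    show R 1 *ᵥ y = y
    rw [map_one, Matrix.one_mulVec]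
  inv_mem' {a} ha := by
    show R a⁻¹ *ᵥ y = y
    conv_lhs => rw [← show R a *ᵥ y = y from ha]
    exact R_inv_mulVec R a y

theorem mem_vecStab {y : Fin k → ℂ} {g : G} : g ∈ vecStab R y ↔ R g *ᵥ y = y := Iff.rfl

theorem fixed_of_le {S : Set G} {H : Subgroup G} (hH : H ≤ Subgroup.closure S) {y : Fin k → ℂ}
    (h : ∀ g ∈ S, R g *ᵥ y = y) : ∀ g ∈ H, R g *ᵥ y = y :=
  fun _ hg => ((Subgroup.closure_le (vecStab R y)).2 h) (hH hg)

section Coeff

variable [Fintype G]

/-- Sums over the whole group vanish on a space without fixed vectors. -/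
theorem sum_mulVec_eq_zero (hnf : NoFix R Set.univ) (y : Fin k → ℂ) : ∑ g, R g *ᵥ y = 0 := by
  refine hnf _ fun h _ => ?_
  rw [Matrix.mulVec_sum]
  exact Fintype.sum_equiv (Equiv.mulLeft h) _ _ fun g => (R_mul_mulVec R h g y).symm

/-- A functional with value one on an eigenvector of a subgroup, semi-invariant with the same
character. -/
theorem exists_functional (H : Subgroup G) (χ : G → ℂ) {w : Fin k → ℂ} (hw : w ≠ 0)
    (hχ : ∀ h ∈ H, R h *ᵥ w = χ h • w) :
    ∃ u : Fin k → ℂ, u ⬝ᵥ w = 1 ∧ ∀ h ∈ H, u ᵥ* R h = χ h • u := by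
  classical
  obtain ⟨i, hi⟩ := Function.ne_iff.1 hw
  simp only [Pi.zero_apply] at hi
  set u0 : Fin k → ℂ := Pi.single i (w i)⁻¹ with hu0
  have hu0w : u0 ⬝ᵥ w = 1 := by rw [hu0, single_dotProduct, inv_mul_cancel₀ hi]
  have hmulχ : ∀ a ∈ H, ∀ b ∈ H, χ (a * b) = χ a * χ b := by
    intro a ha b hb
    have e : χ (a * b) • w = (χ a * χ b) • w := by
      rw [← hχ _ (H.mul_mem ha hb), R_mul_mulVec, hχ b hb, Matrix.mulVec_smul, hχ a ha, smul_smul,
        mul_comm]
    exact smul_left_injective ℂ hw e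
  have hne : ∀ a ∈ H, χ a ≠ 0 := by
    intro a ha h0
    refine hw ?_
    have e := R_inv_mulVec R a w
    rwa [hχ a ha, h0, zero_smul, Matrix.mulVec_zero, eq_comm] at e
  have hH : (Fintype.card H : ℂ) ≠ 0 := Nat.cast_ne_zero.2 Fintype.card_ne_zero
  refine ⟨(Fintype.card H : ℂ)⁻¹ • ∑ h : H, (χ h)⁻¹ • (u0 ᵥ* R h), ?_, fun a ha => ?_⟩
  · rw [smul_dotProduct, sum_dotProduct, Finset.sum_congr rfl (g := fun _ => (1 : ℂ)) (fun h _ => by
      rw [smul_dotProduct, ← Matrix.dotProduct_mulVec, hχ _ h.2, dotProduct_smul, hu0w, smul_eq_mul,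
        smul_eq_mul, mul_one, inv_mul_cancel₀ (hne _ h.2)]), Finset.sum_const, Finset.card_univ,
      nsmul_eq_mul, mul_one, smul_eq_mul, inv_mul_cancel₀ hH]
  · rw [Matrix.smul_vecMul, Matrix.sum_vecMul, smul_comm (χ a)]
    congr 1
    rw [Finset.smul_sum]
    refine Fintype.sum_equiv (Equiv.mulRight (⟨a, ha⟩ : H)) _ _ fun h => ?_
    rw [Matrix.smul_vecMul, Matrix.vecMul_vecMul, ← map_mul, smul_smul, Equiv.coe_mulRight,
      Subgroup.coe_mul, hmulχ _ h.2 _ ha, mul_inv, ← mul_assoc, mul_comm (χ a), mul_assoc,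
      mul_inv_cancel₀ (hne a ha), mul_one]

/-- The matrix coefficient. -/
def coeff (u w : Fin k → ℂ) (g : G) : ℂ := u ⬝ᵥ (R g *ᵥ w)

theorem coeff_biinv (H : Subgroup G) (χ : G → ℂ) {u w : Fin k → ℂ}
    (hχ : ∀ h ∈ H, R h *ᵥ w = χ h • w) (hu : ∀ h ∈ H, u ᵥ* R h = χ h • u)
    {a b : G} (ha : a ∈ H) (hb : b ∈ H) (g : G) :
    coeff R u w (a * g * b) = χ a * χ b * coeff R u w g := by
  rw [coeff, coeff, R_mul_mulVec, hχ b hb, Matrix.mulVec_smul, R_mul_mulVec, dotProduct_smul,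
    Matrix.dotProduct_mulVec, hu a ha, smul_dotProduct, smul_eq_mul, smul_eq_mul]
  ring

/-- The trace formula of an irreducible representation. -/
theorem trace_formula (hs : Schur R) {u w : Fin k → ℂ} (huw : u ⬝ᵥ w = 1) :
    ((k : ℂ) * ∑ g : G, coeff R u w g * coeff R u w g⁻¹ = (Fintype.card G : ℂ)) ∧
      ∀ x : G, (Fintype.card G : ℂ) * (R x).trace = (k : ℂ) * ∑ g : G, coeff R u w (g⁻¹ * x * g) := by
  classical
  set S := ∑ g : G, R g * vecMulVec w u * R g⁻¹ with hS
  obtain ⟨c, hc⟩ := hs S (fun x => by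
    rw [hS, Finset.mul_sum, Finset.sum_mul]
    symm
    refine Fintype.sum_equiv (Equiv.mulLeft x) _ _ fun g => ?_
    simp only [Equiv.coe_mulLeft]
    rw [_root_.mul_inv_rev, map_mul, map_mul]
    simp only [mul_assoc]
    rw [← map_mul R x⁻¹ x, inv_mul_cancel, map_one, mul_one])
  have htr : ∀ x, c * (R x).trace = ∑ g : G, coeff R u w (g⁻¹ * x * g) := by
    intro x
    have h : (R x * S).trace = c * (R x).trace := by
      rw [hc, mul_smul_comm, mul_one, Matrix.trace_smul, smul_eq_mul]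
    rw [← h, hS, Finset.mul_sum, Matrix.trace_sum]
    refine Finset.sum_congr rfl fun g _ => ?_
    rw [← mul_assoc, Matrix.trace_mul_comm, ← mul_assoc, ← mul_assoc, ← map_mul, ← map_mul,
      Matrix.mul_vecMulVec, Matrix.trace_vecMulVec, coeff, dotProduct_comm]
  have h1 : c * (k : ℂ) = (Fintype.card G : ℂ) := by
    have h := htr 1
    rw [map_one, Matrix.trace_one, Fintype.card_fin, Finset.sum_congr rfl (g := fun _ => (1 : ℂ))
      (fun g _ => by rw [mul_one, inv_mul_cancel, coeff, map_one, Matrix.one_mulVec, huw]),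
      Finset.sum_const, Finset.card_univ, nsmul_eq_mul, mul_one] at h
    exact h
  refine ⟨?_, fun x => by rw [← h1, ← htr]; ring⟩
  have h := congrArg (fun M => u ⬝ᵥ (M *ᵥ w)) hc
  simp only [hS, Matrix.sum_mulVec, dotProduct_sum, Matrix.smul_mulVec, Matrix.one_mulVec,
    dotProduct_smul, huw, smul_eq_mul, mul_one] at h
  rw [← h1, ← h, mul_comm]
  congr 1
  refine Finset.sum_congr rfl fun g _ => ?_
  rw [← Matrix.mulVec_mulVec, ← Matrix.mulVec_mulVec, Matrix.vecMulVec_mulVec, op_smul_eq_smul,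
    Matrix.mulVec_smul, dotProduct_smul, coeff, coeff, smul_eq_mul]
  ring

end Coeff

section Weights

variable {F : Type*} [Field F] [Fintype F] [DecidableEq F] {ι : Type*} [Fintype ι] [DecidableEq ι]
variable {S : (ι → F) → Matrix (Fin k) (Fin k) ℂ} {ψ : AddChar F ℂ}
variable (h0 : S 0 = 1) (hadd : ∀ u v, S (u + v) = S u * S v) (hψ : ψ 1 ≠ 1)

/-- A twisted transport of weights. -/
theorem comm_weightProj_twist {L : Matrix (Fin k) (Fin k) ℂ} (δ : ι → F)
    (hL : ∀ v, L * S v = ψ (v ⬝ᵥ δ) • (S v * L)) (w : ι → F) :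
    L * weightProj S ψ w = weightProj S ψ (w - δ) * L := by
  simp only [weightProj]
  rw [mul_smul_comm, smul_mul_assoc, Finset.mul_sum, Finset.sum_mul]
  congr 1
  refine Finset.sum_congr rfl fun v _ => ?_
  rw [mul_smul_comm, smul_mul_assoc, hL, smul_smul, ← AddChar.map_add_eq_mul]
  congr 2
  rw [dotProduct_sub]; ring

include hadd hψ in
theorem weightMult_eq_of_comm {L L' : Matrix (Fin k) (Fin k) ℂ} (hLL : L' * L = 1) {w w' : ι → F}
    (h : L * weightProj S ψ w = weightProj S ψ w' * L) :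
    weightMult S ψ w = weightMult S ψ w' := by
  have hLL' : L * L' = 1 := mul_eq_one_comm.1 hLL
  have e : weightProj S ψ w' = L * weightProj S ψ w * L' := by rw [h, mul_assoc, hLL', mul_one]
  have e2 : ((weightMult S ψ w' : ℕ) : ℂ) = weightMult S ψ w := by
    rw [← trace_weightProj hadd hψ, ← trace_weightProj hadd hψ, e, Matrix.trace_mul_comm, ← mul_assoc,
      hLL, one_mul]
  exact_mod_cast e2.symm

include hadd hψ in
/-- Moved weights do not contribute to a trace. -/
theorem trace_weightProj_moved {L : Matrix (Fin k) (Fin k) ℂ} {w w' : ι → F} (hne : w ≠ w')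
    (h : L * weightProj S ψ w = weightProj S ψ w' * L) : (weightProj S ψ w * L).trace = 0 := by
  rw [← weightProj_idem hadd hψ w, mul_assoc, Matrix.trace_mul_comm, mul_assoc, h, ← mul_assoc,
    weightProj_mul_weightProj hadd hψ, if_neg hne, zero_mul, Matrix.trace_zero]

include hadd hψ in
/-- The zero weight projection fixes exactly the fixed vectors. -/
theorem apply_mulVec_weightProj_zero (v : ι → F) (y : Fin k → ℂ) :
    S v *ᵥ (weightProj S ψ 0 *ᵥ y) = weightProj S ψ 0 *ᵥ y := by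
  rw [Matrix.mulVec_mulVec, mul_weightProj hadd, dotProduct_zero, AddChar.map_zero_eq_one, one_smul]

theorem weightProj_zero_mulVec {y : Fin k → ℂ} (h : ∀ v, S v *ᵥ y = y) :
    weightProj S ψ 0 *ᵥ y = y := by
  have hne : (Fintype.card (ι → F) : ℂ) ≠ 0 := Nat.cast_ne_zero.2 Fintype.card_ne_zero
  simp only [weightProj, dotProduct_zero, neg_zero, AddChar.map_zero_eq_one, one_smul,
    Matrix.smul_mulVec, Matrix.sum_mulVec, h, Finset.sum_const, Finset.card_univ]
  rw [← Nat.cast_smul_eq_nsmul ℂ, smul_smul, inv_mul_cancel₀ hne, one_smul]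

include h0 hadd hψ in
/-- If all nonzero weights vanish the translations act trivially. -/
theorem eq_one_of_weightMult (h : ∀ w, w ≠ 0 → weightMult S ψ w = 0) (v : ι → F) : S v = 1 := by
  have hP : weightProj S ψ 0 = 1 := by
    rw [← sum_weightProj (R := S) h0 hψ]
    exact (Finset.sum_eq_single 0 (fun w _ hw => weightProj_eq_zero hadd hψ (h w hw)) (by simp)).symm
  have e := mul_weightProj (ψ := ψ) hadd v 0
  rwa [hP, mul_one, dotProduct_zero, AddChar.map_zero_eq_one, one_smul] at e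

end Weights

section Irr

variable {F : Type*} [Field F] [Fintype F] [DecidableEq F] {ι : Type*} [Fintype ι] [DecidableEq ι]
variable {ψ : AddChar F ℂ}

/-- Multiplicity-free transitive weights without fixed vectors give a scalar commutant. -/
theorem schur_of_weights (e : (ι → F) → G) (hadd : ∀ u v, R (e (u + v)) = R (e u) * R (e v))
    (h0 : R (e 0) = 1) (hψ : ψ 1 ≠ 1) (hι : ∃ w : ι → F, w ≠ 0)
    (h1 : ∀ w, w ≠ 0 → weightMult (fun v => R (e v)) ψ w = 1)
    (htr : ∀ w w', w ≠ 0 → w' ≠ 0 → ∃ g, R g * weightProj (fun v => R (e v)) ψ w =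
      weightProj (fun v => R (e v)) ψ w' * R g)
    (hnc : ∀ y, (∀ g v, R (g * e v * g⁻¹) *ᵥ y = y) → y = 0) : Schur R := by
  classical
  set P := weightProj (fun v => R (e v)) ψ with hP
  intro X hX
  have hXP : ∀ w, X * P w = P w * X := fun w => by
    simp only [hP, weightProj, mul_smul_comm, smul_mul_assoc, Finset.mul_sum, Finset.sum_mul, hX]
  have hidem : ∀ w, P w * P w = P w := weightProj_idem (R := fun v => R (e v)) hadd hψ
  have htrace : ∀ w, w ≠ 0 → (P w).trace = 1 := fun w hw => by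
    rw [hP, trace_weightProj hadd hψ, h1 w hw, Nat.cast_one]
  have hc : ∀ w, w ≠ 0 → X * P w = (P w * X).trace • P w := fun w hw => by
    rw [← CfsgLib.SlMinDegree.mul_mul_of_trace_one (hidem w) (htrace w hw), mul_assoc, hXP, ← mul_assoc,
      hidem]
  obtain ⟨w0, hw0⟩ := hι
  set c := (P w0 * X).trace with hcdef
  have hconst : ∀ w, w ≠ 0 → (P w * X).trace = c := by
    intro w hw
    obtain ⟨g, hg⟩ := htr w0 w hw0 hw
    have h1' : R g⁻¹ * R g = 1 := by rw [← map_mul, inv_mul_cancel, map_one]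
    have h2 : R g * R g⁻¹ = 1 := by rw [← map_mul, mul_inv_cancel, map_one]
    have hw' : P w = R g * P w0 * R g⁻¹ := by
      rw [hg, mul_assoc, h2, mul_one]
    rw [hw', mul_assoc, ← hX, ← mul_assoc, Matrix.trace_mul_comm, mul_assoc (R g), ← mul_assoc,
      ← mul_assoc, h1', one_mul]
  refine ⟨c, sub_eq_zero.1 ?_⟩
  set Y := X - c • (1 : Matrix (Fin k) (Fin k) ℂ) with hY
  have hYg : ∀ g, Y * R g = R g * Y := fun g => by
    simp only [hY, sub_mul, mul_sub, hX, smul_mul_assoc, mul_smul_comm, one_mul, mul_one]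
  have hY0 : Y = Y * P 0 := by
    conv_lhs => rw [← mul_one Y, ← sum_weightProj (R := fun v => R (e v)) h0 hψ, Finset.mul_sum]
    refine Finset.sum_eq_single 0 (fun w _ hw => ?_) (by simp)
    rw [← hP, hY, sub_mul, hc w hw, hconst w hw, smul_mul_assoc, one_mul, sub_self]
  have hYe : ∀ v, R (e v) * Y = Y := fun v => by
    have hc0 : ∀ v, P 0 * R (e v) = P 0 := fun v => by
      have := weightProj_mul (R := fun v => R (e v)) (ψ := ψ) hadd v 0
      rwa [dotProduct_zero, AddChar.map_zero_eq_one, one_smul] at this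
    rw [← hYg]
    conv_lhs => rw [hY0, mul_assoc, hc0, ← hY0]
  refine Matrix.ext_of_mulVec_single fun i => ?_
  rw [Matrix.zero_mulVec]
  refine hnc _ fun g v => ?_
  rw [Matrix.mulVec_mulVec, map_mul, map_mul]
  have e1 : R g * R (e v) * R g⁻¹ * Y = Y := by
    rw [mul_assoc, ← hYg, mul_assoc, ← mul_assoc (R (e v)), hYe, ← mul_assoc, ← hYg, mul_assoc,
      ← map_mul, mul_inv_cancel, map_one, mul_one]
  rw [e1]

end Irr

section Compress

/-- An idempotent matrix of natural trace `D` factors through `ℂ^D`. -/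
theorem exists_factor' {P : Matrix (Fin k) (Fin k) ℂ} (hP : P * P = P) {D : ℕ} (hD : P.trace = D) :
    ∃ (A : Matrix (Fin k) (Fin D) ℂ) (B : Matrix (Fin D) (Fin k) ℂ), A * B = P ∧ B * A = 1 := by
  classical
  set p : Module.End ℂ (Fin k → ℂ) := Matrix.toLin' P with hp
  have hidem : IsIdempotentElem p := by
    change Matrix.toLin' P * Matrix.toLin' P = Matrix.toLin' P
    rw [Module.End.mul_eq_comp, ← Matrix.toLin'_mul, hP]
  have hproj := LinearMap.IsIdempotentElem.isProj_range p hidem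
  have hrk : Module.finrank ℂ (LinearMap.range p) = D := by
    have h := hproj.trace
    rw [Matrix.trace_toLin'_eq, hD] at h
    exact_mod_cast h.symm
  let e : (Fin D → ℂ) ≃ₗ[ℂ] LinearMap.range p :=
    LinearEquiv.ofFinrankEq _ _ (by rw [Module.finrank_fin_fun, hrk])
  let α : (Fin D → ℂ) →ₗ[ℂ] (Fin k → ℂ) := (LinearMap.range p).subtype ∘ₗ e.toLinearMap
  let β : (Fin k → ℂ) →ₗ[ℂ] (Fin D → ℂ) := e.symm.toLinearMap ∘ₗ p.rangeRestrict
  refine ⟨LinearMap.toMatrix' α, LinearMap.toMatrix' β, ?_, ?_⟩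
  · rw [← LinearMap.toMatrix'_comp]
    have : α ∘ₗ β = p := LinearMap.ext fun x => by simp [α, β]
    rw [this, hp, LinearMap.toMatrix'_toLin']
  · rw [← LinearMap.toMatrix'_comp]
    have : β ∘ₗ α = LinearMap.id := LinearMap.ext fun x => by
      simp only [α, β, LinearMap.comp_apply, LinearEquiv.coe_coe, Submodule.coe_subtype, LinearMap.id_apply]
      rw [LinearEquiv.symm_apply_eq]
      exact Subtype.ext (hproj.map_id _ (e x).2)
    rw [this, LinearMap.toMatrix'_id]


variable {G' : Type*} [Group G']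

/-- Restriction to the image of an idempotent of the commutant. -/
theorem exists_compress (f : G' →* G) {P : Matrix (Fin k) (Fin k) ℂ} (hP : P * P = P) {D : ℕ}
    (hD : P.trace = D) (hc : ∀ h, R (f h) * P = P * R (f h)) :
    ∃ (A : Matrix (Fin k) (Fin D) ℂ) (B : Matrix (Fin D) (Fin k) ℂ)
      (φ : G' →* Matrix (Fin D) (Fin D) ℂ), A * B = P ∧ B * A = 1 ∧
        ∀ h, φ h = B * R (f h) * A ∧ R (f h) * A = A * φ h ∧ B * R (f h) = φ h * B := by
  classical
  obtain ⟨A, B, hAB, hBA⟩ := exists_factor' hP hD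
  have hPA : P * A = A := by rw [← hAB, Matrix.mul_assoc, hBA, Matrix.mul_one]
  have hBP : B * P = B := by rw [← hAB, ← Matrix.mul_assoc, hBA, Matrix.one_mul]
  have hRA : ∀ h, R (f h) * A = A * (B * R (f h) * A) := fun h => by
    rw [← Matrix.mul_assoc, ← Matrix.mul_assoc, hAB, ← hc, Matrix.mul_assoc, hPA]
  have hBR : ∀ h, B * R (f h) = B * R (f h) * A * B := fun h => by
    rw [Matrix.mul_assoc (B * R (f h)), hAB, Matrix.mul_assoc, hc, ← Matrix.mul_assoc, hBP]
  let φ : G' →* Matrix (Fin D) (Fin D) ℂ :=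
    { toFun := fun h => B * R (f h) * A
      map_one' := by rw [map_one, map_one, Matrix.mul_one, hBA]
      map_mul' := fun x y => by
        rw [map_mul, map_mul, Matrix.mul_assoc, Matrix.mul_assoc (R (f x)), hRA y,
          ← Matrix.mul_assoc (R (f x)), ← Matrix.mul_assoc B, ← Matrix.mul_assoc B] }
  exact ⟨A, B, φ, hAB, hBA, fun h => ⟨rfl, hRA h, hBR h⟩⟩

theorem compress_mulVec {D : ℕ} {φ : G' →* Matrix (Fin D) (Fin D) ℂ} (f : G' →* G)
    {A : Matrix (Fin k) (Fin D) ℂ} (h : ∀ x, R (f x) * A = A * φ x) (x : G') (y : Fin D → ℂ) :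
    R (f x) *ᵥ (A *ᵥ y) = A *ᵥ (φ x *ᵥ y) := by
  rw [Matrix.mulVec_mulVec, Matrix.mulVec_mulVec, h]

end Compress

/-- Two commuting operators leaving a nonzero subspace invariant have a common eigenvector in it. -/
theorem exists_common_eigen (U : Submodule ℂ (Fin k → ℂ)) (hU : U ≠ ⊥)
    (A B : Matrix (Fin k) (Fin k) ℂ) (hAB : A * B = B * A) (hA : ∀ y ∈ U, A *ᵥ y ∈ U)
    (hB : ∀ y ∈ U, B *ᵥ y ∈ U) :
    ∃ y ∈ U, y ≠ 0 ∧ (∃ a : ℂ, A *ᵥ y = a • y) ∧ ∃ b : ℂ, B *ᵥ y = b • y := by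
  let LA : Module.End ℂ U := ((Matrix.toLin' A).domRestrict U).codRestrict U fun y => hA y y.2
  haveI : Nontrivial U := Submodule.nontrivial_iff_ne_bot.2 hU
  obtain ⟨a, ha⟩ := Module.End.exists_eigenvalue LA
  have hmem : ∀ y : U, y ∈ LA.eigenspace a ↔ A *ᵥ (y : Fin k → ℂ) = a • (y : Fin k → ℂ) := fun y => by
    rw [Module.End.mem_eigenspace_iff]
    exact ⟨fun h => congrArg Subtype.val h, fun h => Subtype.ext h⟩
  let LB : Module.End ℂ U := ((Matrix.toLin' B).domRestrict U).codRestrict U fun y => hB y y.2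
  have hinv : ∀ y ∈ LA.eigenspace a, LB y ∈ LA.eigenspace a := fun y hy => by
    rw [hmem] at hy ⊢
    show A *ᵥ (B *ᵥ (y : Fin k → ℂ)) = a • (B *ᵥ (y : Fin k → ℂ))
    rw [Matrix.mulVec_mulVec, hAB, ← Matrix.mulVec_mulVec, hy, Matrix.mulVec_smul]
  haveI : Nontrivial (LA.eigenspace a) := Submodule.nontrivial_iff_ne_bot.2 ha
  let LB' : Module.End ℂ (LA.eigenspace a) := LinearMap.restrict LB hinv
  obtain ⟨b, hb⟩ := @Module.End.exists_eigenvalue ℂ ↥(LA.eigenspace a) _ _ _ _ _ _ LB'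
  obtain ⟨⟨y, hy⟩, hyb, hy0⟩ := (Submodule.ne_bot_iff _).1 hb
  refine ⟨y, y.2, fun h => hy0 (Subtype.ext (Subtype.ext h)), ⟨a, (hmem y).1 hy⟩, b, ?_⟩
  have h := congrArg (fun z => (((z : LA.eigenspace a) : U) : Fin k → ℂ)) (Module.End.mem_eigenspace_iff.1 hyb)
  exact h

end CfsgLib.OrthOddDeg
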