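import Cfsg.Agent.OrthOddDeg.RadFix
import Cfsg.Agent.QuadCount.Zeros
import Cfsg.Agent.SlMinDegree.Stab

/-!
The classes of singular vectors under the stabiliser of a singular line of `Omega_{2n+1}(q)`, and their sizes.
-/

set_option autoImplicit false
set_option linter.unusedSectionVars false
set_option linter.style.haveILetI false

noncomputable section

namespace CfsgLib.OrthOddDeg

open Cfsg.Geo CfsgLib.OrthGeo Matrix CfsgLib.OrthPlusDeg CfsgLib.SlMinDegree
open scoped MatrixGroups _root_.Classical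

variable {F : Type*} [Field F] [Fintype F] [DecidableEq F] [NeZero (2 : F)] {n : ℕ}

/-- An Eichler element moving one partner of a singular vector to another one. -/
theorem exists_eo_move (hn : 2 ≤ n) {u a v : Unit ⊕ (Fin n ⊕ Fin n) → F} (hu : qOdd n F u = 0)
    (ha : qOdd n F a = 0) (hv : qOdd n F v = 0) (hua : bo u a = 1) (huv : bo u v = 1) :
    ∃ g : OmOdd n F, act (g : IsoOdd n F) a = v ∧
      ∀ x, bo u x = 0 → bo a x = bo v x → act (g : IsoOdd n F) x = x := by
  set s := bo a v with hs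
  set w := a - v + s • u with hw
  have huw : bo u w = 0 := by
    rw [hw, map_add, map_sub, map_smul, hua, huv, b_self_eq_zero (ndQ n) hu, smul_zero, sub_self, add_zero]
  have hwa : bo w a = 0 := by
    rw [hw, map_add, map_sub, map_smul, LinearMap.add_apply, LinearMap.sub_apply, LinearMap.smul_apply, hua,
      b_self_eq_zero (ndQ n) ha, b_symm (ndQ n) v a, ← hs, smul_eq_mul, mul_one]
    ring
  have hqw : qOdd n F w = -s := by
    rw [hw, q_add (ndQ n), q_sub (ndQ n), q_smul (ndQ n), hu, ha, hv, map_sub, LinearMap.sub_apply,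
      map_smul, map_smul, b_symm (ndQ n) a u, b_symm (ndQ n) v u, hua, huv, ← hs]
    simp
  refine ⟨eo u w, ?_, fun x hx hax => eo_fix hn hu huw hx ?_⟩
  · rw [act_eo hn hu huw, hwa, hua, hqw, hw]
    module
  · rw [hw, map_add, map_sub, map_smul, LinearMap.add_apply, LinearMap.sub_apply, LinearMap.smul_apply, hx,
      hax, smul_zero, sub_self, add_zero]

theorem act_sqO_slH (S : Matrix.SpecialLinearGroup (Fin n) F) (j : Fin n) :
    act ((sqO (slH S) : OmOdd n F) : IsoOdd n F) (eV j) =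
      vec 0 ((S : Matrix (Fin n) (Fin n) F) *ᵥ Pi.single j 1) 0 := by
  show act (levI _) _ = _
  rw [eV, act_levI, Matrix.mulVec_zero]
  rfl

/-- The multiples of a frame vector are reached from it. -/
theorem exists_scale {j r : Fin n} (hjr : j ≠ r) {c : F} (hc : c ≠ 0) :
    ∃ g : OmOdd n F, act (g : IsoOdd n F) (eV j) = c • eV j := by
  obtain ⟨K, hK⟩ := exists_sl_mulVec_eq (ι := Fin n)
    (by rw [Fintype.card_fin]; have := j.2; have := r.2; have := Fin.val_ne_of_ne hjr; omega)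
    (v := (Pi.single j 1 : Fin n → F)) (w := c • Pi.single j 1) (by simp) (by simp [hc])
  exact ⟨sqO (slH K), by rw [act_sqO_slH, hK, eV, vec_smul, mul_zero, smul_zero]⟩

/-- A singular vector not orthogonal to `e_o` is carried to a multiple of `f_o`. -/
theorem exists_to_fV (hn : 2 ≤ n) (o : Fin n) {v : Unit ⊕ (Fin n ⊕ Fin n) → F} (hv : qOdd n F v = 0)
    (hb : bo (eV o) v ≠ 0) :
    ∃ h : OmOdd n F, act (h : IsoOdd n F) (eV o) = eV o ∧
      act (h : IsoOdd n F) v = bo (eV o) v • fV o := by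
  set c := bo (eV o) v with hc
  obtain ⟨g, hg, hgx⟩ := exists_eo_move hn (q_eV o) (q_fV o) (v := c⁻¹ • v)
    (by rw [q_smul (ndQ n), hv, mul_zero]) (by rw [bo_eV_fV, if_pos rfl])
    (by rw [map_smul, ← hc, smul_eq_mul, inv_mul_cancel₀ hb])
  have he := hgx (eV o) (bo_eV_eV o o) (by
    rw [bo_fV_eV, if_pos rfl, map_smul, LinearMap.smul_apply, b_symm (ndQ n) v, ← hc, smul_eq_mul,
      inv_mul_cancel₀ hb])
  refine ⟨g⁻¹, ?_, ?_⟩
  · conv_lhs => rw [← he]
    rw [Subgroup.coe_inv, act_inv_act]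
  · have e : v = c • (c⁻¹ • v) := by rw [smul_smul, mul_inv_cancel₀ hb, one_smul]
    conv_lhs => rw [e, ← hg]
    rw [act_smul, Subgroup.coe_inv, act_inv_act]

/-- A singular vector orthogonal to `e_o` and not on its line is carried to a multiple of `e_p`. -/
theorem exists_to_eV (hn : 2 ≤ n) {o p : Fin n} (hop : o ≠ p) {v : Unit ⊕ (Fin n ⊕ Fin n) → F}
    (hv : qOdd n F v = 0) (hb : bo (eV o) v = 0) (hnm : ∀ c : F, v ≠ c • eV o) :
    ∃ h : OmOdd n F, act (h : IsoOdd n F) (eV o) = eV o ∧ ∃ c : F, act (h : IsoOdd n F) v = c • eV p := by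
  obtain ⟨d, x, y, rfl⟩ := exists_vec v
  rw [bo_eV] at hb
  rw [q_vec] at hv
  obtain ⟨r, hro, hr⟩ : ∃ r, r ≠ o ∧ (x r ≠ 0 ∨ y r ≠ 0) := by
    by_contra hcon
    push Not at hcon
    have hy : y = 0 := funext fun i => by
      by_cases hi : i = o
      · rw [hi, hb]; rfl
      · exact (hcon i hi).2
    have hd : d = 0 := by rw [hy, dotProduct_zero, add_zero] at hv; exact eq_zero_of_pow_eq_zero hv
    refine hnm (x o) ?_
    rw [eV, vec_smul, smul_zero, mul_zero, hd, hy, vec_inj]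
    refine ⟨rfl, funext fun i => ?_, rfl⟩
    by_cases hi : i = o
    · subst hi; simp
    · simp [Pi.single_eq_of_ne hi, (hcon i hi).1]
  have key : ∀ v : Unit ⊕ (Fin n ⊕ Fin n) → F, qOdd n F v = 0 → bo (eV o) v = 0 → bo (fV p) v ≠ 0 →
      ∃ h : OmOdd n F, act (h : IsoOdd n F) (eV o) = eV o ∧ ∃ c : F, act (h : IsoOdd n F) v = c • eV p := by
    intro v hv hb hc0
    obtain ⟨g, hg, hgx⟩ := exists_eo_move hn (q_fV p) (q_eV p) (v := (bo (fV p) v)⁻¹ • v)
      (by rw [q_smul (ndQ n), hv, mul_zero]) (by rw [bo_fV_eV, if_pos rfl])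
      (by rw [map_smul, smul_eq_mul, inv_mul_cancel₀ hc0])
    have he := hgx (eV o) (by rw [bo_fV_eV, if_neg hop.symm])
      (by rw [bo_eV_eV, map_smul, LinearMap.smul_apply, b_symm (ndQ n) v, hb, smul_zero])
    refine ⟨g⁻¹, ?_, bo (fV p) v, ?_⟩
    · conv_lhs => rw [← he]
      rw [Subgroup.coe_inv, act_inv_act]
    · have e : v = bo (fV p) v • ((bo (fV p) v)⁻¹ • v) := by rw [smul_smul, mul_inv_cancel₀ hc0, one_smul]
      conv_lhs => rw [e, ← hg]
      rw [act_smul, Subgroup.coe_inv, act_inv_act]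
  have step : ∀ (g : OmOdd n F) (v : Unit ⊕ (Fin n ⊕ Fin n) → F), act (g : IsoOdd n F) (eV o) = eV o →
      qOdd n F v = 0 → bo (eV o) v = 0 →
      (∃ h : OmOdd n F, act (h : IsoOdd n F) (eV o) = eV o ∧
        ∃ c : F, act (h : IsoOdd n F) (act (g : IsoOdd n F) v) = c • eV p) →
      ∃ h : OmOdd n F, act (h : IsoOdd n F) (eV o) = eV o ∧ ∃ c : F, act (h : IsoOdd n F) v = c • eV p := by
    rintro g v hg - - ⟨h, h1, c, h2⟩
    refine ⟨h * g, ?_, c, ?_⟩
    · rw [Subgroup.coe_mul, act_mul, hg, h1]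
    · rw [Subgroup.coe_mul, act_mul, h2]
  have hfix : ∀ (g : OmOdd n F) (v : Unit ⊕ (Fin n ⊕ Fin n) → F), act (g : IsoOdd n F) (eV o) = eV o →
      bo (eV o) v = 0 → bo (eV o) (act (g : IsoOdd n F) v) = 0 := by
    intro g v hg hb
    rw [← hg, act_b, hb]
  have key2 : ∀ (d : F) (x y : Fin n → F), qOdd n F (vec d x y) = 0 → y o = 0 → x r ≠ 0 →
      ∃ h : OmOdd n F, act (h : IsoOdd n F) (eV o) = eV o ∧
        ∃ c : F, act (h : IsoOdd n F) (vec d x y) = c • eV p := by
    intro d x y hv hb hr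
    by_cases hp : x p = 0
    · have hpr : p ≠ r := fun h => hr (h ▸ hp)
      set g : OmOdd n F := sqO (slH (Matrix.SpecialLinearGroup.transvection hpr (1 : F))) with hg
      have hge : act (g : IsoOdd n F) (eV o) = eV o := by
        rw [hg, act_sqO_slH, eV, vec_inj]
        refine ⟨rfl, ?_, rfl⟩
        show Matrix.transvection p r (1 : F) *ᵥ _ = _
        rw [Matrix.transvection, Matrix.add_mulVec, Matrix.one_mulVec, Matrix.single_mulVec,
          Pi.single_eq_of_ne hro, mul_zero]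
        simp
      refine step g _ hge hv (by rw [bo_eV, hb]) (key _ (by rw [act_q, hv])
        (hfix g _ hge (by rw [bo_eV, hb])) ?_)
      rw [hg]
      show bo (fV p) (act (levI _) _) ≠ 0
      rw [act_levI, bo_fV]
      show (Matrix.transvection p r (1 : F) *ᵥ x) p ≠ 0
      simpa [Matrix.transvection, Matrix.add_mulVec, Matrix.single_mulVec, hp] using hr
    · exact key _ hv (by rw [bo_eV, hb]) (by rw [bo_fV]; exact hp)
  rcases eq_or_ne (x r) 0 with h0 | h0
  · have hge : act ((mO r : OmOdd n F) : IsoOdd n F) (eV o) = eV o := by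
      rw [act_mO_eV, if_neg hro.symm]
    refine step (mO r) _ hge (by rw [q_vec, hv]) (by rw [bo_eV, hb]) ?_
    rw [act_mO]
    refine key2 _ _ _ ?_ ?_ ?_
    · rw [← act_mO, act_q, q_vec, hv]
    · rw [Function.update_of_ne hro.symm, hb]
    · rw [Function.update_self, neg_ne_zero]
      exact hr.resolve_left (not_not.2 h0)
  · exact key2 d x y (by rw [q_vec, hv]) hb h0

/-- Zeros of the form orthogonal to `e_0`. -/
theorem card_perp_zeros (m : ℕ) :
    Nat.card {v : Unit ⊕ (Fin (m + 1) ⊕ Fin (m + 1)) → F //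
      qOdd (m + 1) F v = 0 ∧ v (Sum.inr (Sum.inr 0)) = 0} = Fintype.card F * Fintype.card F ^ (2 * m) := by
  have hsum : ∀ (d : F) (x y : Fin (m + 1) → F), y 0 = 0 →
      qOdd (m + 1) F (vec d x y) = qOdd m F (vec d (Fin.tail x) (Fin.tail y)) := by
    intro d x y hy
    rw [q_vec, q_vec, dotProduct, dotProduct, Fin.sum_univ_succ, hy, mul_zero, zero_add]
    rfl
  have e : {v : Unit ⊕ (Fin (m + 1) ⊕ Fin (m + 1)) → F //
      qOdd (m + 1) F v = 0 ∧ v (Sum.inr (Sum.inr 0)) = 0} ≃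
      F × {w : Unit ⊕ (Fin m ⊕ Fin m) → F // Cfsg.quadFormOdd m F w = 0} :=
    { toFun := fun v => (v.1 (Sum.inr (Sum.inl 0)),
        ⟨vec (v.1 (Sum.inl ())) (Fin.tail fun i => v.1 (Sum.inr (Sum.inl i)))
          (Fin.tail fun i => v.1 (Sum.inr (Sum.inr i))), by
          obtain ⟨v, h1, h2⟩ := v
          obtain ⟨d, x, y, rfl⟩ := exists_vec v
          exact (hsum d x y h2).symm.trans h1⟩)
      invFun := fun p => ⟨vec (p.2.1 (Sum.inl ())) (Fin.cons p.1 fun i => p.2.1 (Sum.inr (Sum.inl i)))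
          (Fin.cons 0 fun i => p.2.1 (Sum.inr (Sum.inr i))), by
          obtain ⟨t, w, hw⟩ := p
          refine ⟨?_, ?_⟩; swap
          · rfl
          obtain ⟨d, x, y, rfl⟩ := exists_vec w
          show qOdd (m + 1) F (vec d (Fin.cons t x : Fin (m + 1) → F) (Fin.cons 0 y : Fin (m + 1) → F)) = 0
          rw [hsum _ _ _ (Fin.cons_zero (α := fun _ => F) 0 y), Fin.tail_cons, Fin.tail_cons]
          exact hw⟩
      left_inv := fun v => by
        obtain ⟨v, h1, h2⟩ := v
        obtain ⟨d, x, y, rfl⟩ := exists_vec v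
        apply Subtype.ext
        show vec d (Fin.cons (x 0) (Fin.tail x) : Fin (m + 1) → F) (Fin.cons 0 (Fin.tail y) : Fin (m + 1) → F) = vec d x y
        rw [← show y 0 = 0 from h2, Fin.cons_self_tail, Fin.cons_self_tail]
      right_inv := fun p => by
        obtain ⟨t, w, hw⟩ := p
        obtain ⟨d, x, y, rfl⟩ := exists_vec w
        refine Prod.ext ?_ (Subtype.ext ?_)
        · rfl
        · show vec d (Fin.tail (Fin.cons t x : Fin (m + 1) → F)) (Fin.tail (Fin.cons 0 y : Fin (m + 1) → F)) = vec d x y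
          rw [Fin.tail_cons, Fin.tail_cons] }
  rw [Nat.card_congr e, Nat.card_prod, CfsgLib.QuadZeros.card_zeros_odd rfl, Nat.card_eq_fintype_card]

end CfsgLib.OrthOddDeg
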