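import Cfsg.Agent.OrthOddDeg.Group

/-!
A subgroup containing the root elements of a part of the frame contains everything fixing the rest.
-/

set_option autoImplicit false
set_option linter.unusedSectionVars false
set_option linter.style.haveILetI false

noncomputable section

namespace CfsgLib.OrthOddDeg

open Cfsg.Geo CfsgLib.OrthGeo Matrix CfsgLib.OrthPlusDeg CfsgLib.Classical.Orth
open scoped MatrixGroups _root_.Classical

variable {F : Type*} [Field F] [Fintype F] [DecidableEq F] [NeZero (2 : F)] {n : ℕ}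

/-- The part of the frame from a given index on. -/
def InW (i0 : ℕ) (v : Unit ⊕ (Fin n ⊕ Fin n) → F) : Prop :=
  ∀ j : Fin n, (j : ℕ) < i0 → bo (eV j) v = 0 ∧ bo (fV j) v = 0

theorem inW_vec {i0 : ℕ} {d : F} {x y : Fin n → F} :
    InW i0 (vec d x y) ↔ ∀ j : Fin n, (j : ℕ) < i0 → y j = 0 ∧ x j = 0 := by
  simp only [InW, bo_eV, bo_fV]

theorem eo_sum (hn : 2 ≤ n) (S : Subgroup (OmOdd n F)) {u : Unit ⊕ (Fin n ⊕ Fin n) → F}
    (hu : qOdd n F u = 0) {α : Type*} (s : Finset α) (f : α → Unit ⊕ (Fin n ⊕ Fin n) → F)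
    (h0 : ∀ i ∈ s, bo u (f i) = 0) (h : ∀ i ∈ s, eo u (f i) ∈ S) :
    bo u (∑ i ∈ s, f i) = 0 ∧ eo u (∑ i ∈ s, f i) ∈ S := by
  induction s using Finset.induction_on with
  | empty => exact ⟨by simp [-bform_apply], by rw [Finset.sum_empty, eo_zero hn hu]; exact one_mem _⟩
  | insert a t ha ih =>
    obtain ⟨h1, h2⟩ := ih (fun i hi => h0 i (Finset.mem_insert_of_mem hi))
      (fun i hi => h i (Finset.mem_insert_of_mem hi))
    rw [Finset.sum_insert ha]
    refine ⟨by rw [map_add, h0 a (Finset.mem_insert_self _ _), h1, add_zero], ?_⟩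
    rw [← eo_add hn hu (h0 a (Finset.mem_insert_self _ _)) h1]
    exact mul_mem (h a (Finset.mem_insert_self _ _)) h2

theorem vec_eq_sum (d : F) (x y : Fin n → F) :
    vec d x y = d • (dV : Unit ⊕ (Fin n ⊕ Fin n) → F) + (∑ r, x r • eV r + ∑ r, y r • fV r) := by
  funext i
  rcases i with ⟨⟩ | i | i <;>
    simp [vec, dV, eV, fV, Finset.sum_apply, Pi.single_apply]

/-- The root elements of a frame vector lie in the subgroup once those of the frame do. -/
theorem eo_mem_of_inW (hn : 2 ≤ n) (S : Subgroup (OmOdd n F)) {i0 : ℕ}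
    {p : Fin n} {u w : Unit ⊕ (Fin n ⊕ Fin n) → F} (hu : u = eV p ∨ u = fV p)
    (hS : ∀ b, (b = dV ∨ ∃ r : Fin n, i0 ≤ (r : ℕ) ∧ (b = eV r ∨ b = fV r)) → ∀ c : F,
        bo u (c • b) = 0 → eo u (c • b) ∈ S)
    (hw : InW i0 w) (hb : bo u w = 0) : eo u w ∈ S := by
  obtain ⟨d, x, y, rfl⟩ := exists_vec w
  rw [inW_vec] at hw
  have hu0 : qOdd n F u = 0 := by rcases hu with rfl | rfl; exacts [q_eV p, q_fV p]
  have hx : ∀ r, bo u (x r • eV r) = 0 := by
    intro r
    rcases hu with rfl | rfl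
    · rw [map_smul, eV, eV, bo_vec]; simp
    · rw [bo_fV] at hb
      rw [map_smul, eV, bo_fV]
      by_cases hr : p = r
      · subst hr; simp [hb]
      · simp [hr]
  have hy : ∀ r, bo u (y r • fV r) = 0 := by
    intro r
    rcases hu with rfl | rfl
    · rw [bo_eV] at hb
      rw [map_smul, fV, bo_eV]
      by_cases hr : p = r
      · subst hr; simp [hb]
      · simp [hr]
    · rw [map_smul, fV, fV, bo_vec]; simp
  have hd : bo u (d • (dV : Unit ⊕ (Fin n ⊕ Fin n) → F)) = 0 := by
    rcases hu with rfl | rfl <;> rw [map_smul, dV] <;> simp [bo_eV, bo_fV, -bform_apply]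
  have h1 := eo_sum hn S hu0 Finset.univ (fun r => x r • eV r) (fun r _ => hx r) (fun r _ => by
    by_cases hr : i0 ≤ (r : ℕ)
    · exact hS _ (Or.inr ⟨r, hr, Or.inl rfl⟩) _ (hx r)
    · show eo u (x r • eV r) ∈ S
      rw [(hw r (by omega)).2, zero_smul, eo_zero hn hu0]
      exact one_mem _)
  have h2 := eo_sum hn S hu0 Finset.univ (fun r => y r • fV r) (fun r _ => hy r) (fun r _ => by
    by_cases hr : i0 ≤ (r : ℕ)
    · exact hS _ (Or.inr ⟨r, hr, Or.inr rfl⟩) _ (hy r)
    · show eo u (y r • fV r) ∈ S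
      rw [(hw r (by omega)).1, zero_smul, eo_zero hn hu0]
      exact one_mem _)
  rw [vec_eq_sum, ← eo_add hn hu0 hd (by rw [map_add, h1.1, h2.1, add_zero]),
    ← eo_add hn hu0 h1.1 h2.1]
  exact mul_mem (hS _ (Or.inl rfl) _ hd) (mul_mem h1.2 h2.2)

theorem eo_fix_frame (hn : 2 ≤ n) {k : ℕ} {p : Fin n} (hp : k ≤ (p : ℕ))
    {u w : Unit ⊕ (Fin n ⊕ Fin n) → F} (hu : u = eV p ∨ u = fV p) (hw : InW k w) (hb : bo u w = 0)
    {j : Fin n} (hj : (j : ℕ) < k) :
    act ((eo u w : OmOdd n F) : IsoOdd n F) (eV j) = eV j ∧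
      act ((eo u w : OmOdd n F) : IsoOdd n F) (fV j) = fV j := by
  have hu0 : qOdd n F u = 0 := by rcases hu with rfl | rfl; exacts [q_eV p, q_fV p]
  have hne : p ≠ j := fun h => by rw [h] at hp; omega
  refine ⟨eo_fix hn hu0 hb ?_ ?_, eo_fix hn hu0 hb ?_ ?_⟩
  · rcases hu with rfl | rfl
    · rw [eV, eV, bo_vec]; simp
    · rw [eV, bo_fV]; simp [hne]
  · rw [b_symm]; exact (hw j hj).1
  · rcases hu with rfl | rfl
    · rw [fV, bo_eV]; simp [hne]
    · rw [fV, fV, bo_vec]; simp
  · rw [b_symm]; exact (hw j hj).2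

variable (hn : 2 ≤ n)
include hn

/-- Root elements reaching a vector with unit coefficient at `e_p`. -/
theorem exists_move_one {p r : Fin n} (hpr : p ≠ r) (d : F) (x y : Fin n → F) (hxy : x r ≠ 0 ∨ y r ≠ 0) :
    ∃ w, (w = eV r ∨ w = fV r) ∧ ∃ c : F, bo (eV p) (c • w) = 0 ∧ ∃ d' x' y',
      act ((eo (eV p) (c • w) : OmOdd n F) : IsoOdd n F) (vec d x y) = vec d' x' y' ∧ x' p = 1 := by
  rcases hxy with h | h
  · have hb : bo (eV p) (((1 - x p) / x r) • fV r : Unit ⊕ (Fin n ⊕ Fin n) → F) = 0 := by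
      rw [map_smul, fV, bo_eV]; simp [hpr]
    refine ⟨fV r, Or.inr rfl, _, hb, ?_⟩
    rw [act_eo hn (q_eV p) hb, map_smul, LinearMap.smul_apply, bo_eV, bo_fV, q_smul (ndQ n), q_fV, mul_zero,
      zero_mul, zero_smul, sub_zero, eV, fV, vec_smul, vec_smul, vec_smul, vec_add, vec_sub]
    exact ⟨_, _, _, rfl, by simp; field_simp; ring⟩
  · have hb : bo (eV p) (((1 - x p) / y r) • eV r : Unit ⊕ (Fin n ⊕ Fin n) → F) = 0 := by
      rw [map_smul, eV, eV, bo_vec]; simp
    refine ⟨eV r, Or.inl rfl, _, hb, ?_⟩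
    rw [act_eo hn (q_eV p) hb, map_smul, LinearMap.smul_apply, bo_eV, bo_eV, q_smul (ndQ n), q_eV, mul_zero,
      zero_mul, zero_smul, sub_zero, eV, eV, vec_smul, vec_smul, vec_smul, vec_add, vec_sub]
    exact ⟨_, _, _, rfl, by simp [hpr]; field_simp; ring⟩

/-- The elimination. -/
theorem elim (S : Subgroup (OmOdd n F)) {i0 : ℕ}
    (hS : ∀ p : Fin n, i0 ≤ (p : ℕ) → ∀ u, (u = eV p ∨ u = fV p) →
      ∀ b, (b = dV ∨ ∃ r : Fin n, i0 ≤ (r : ℕ) ∧ (b = eV r ∨ b = fV r)) → ∀ c : F,
        bo u (c • b) = 0 → eo u (c • b) ∈ S)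
    (g : OmOdd n F) (hg : ∀ j : Fin n, (j : ℕ) < i0 →
      act (g : IsoOdd n F) (eV j) = eV j ∧ act (g : IsoOdd n F) (fV j) = fV j) : g ∈ S := by
  suffices key : ∀ m k, n ≤ k + m → i0 ≤ k → ∀ g : OmOdd n F, (∀ j : Fin n, (j : ℕ) < k →
      act (g : IsoOdd n F) (eV j) = eV j ∧ act (g : IsoOdd n F) (fV j) = fV j) → g ∈ S from
    key n i0 (by omega) le_rfl g hg
  intro m
  induction m with
  | zero =>
    intro k hk _ g hg
    rw [eq_one_of_fix_frame fun i => hg i (by omega)]
    exact one_mem _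
  | succ m ih =>
    intro k hk hik g hg
    rcases Nat.lt_or_ge k n with hkn | hkn
    swap
    · rw [eq_one_of_fix_frame fun i => hg i (by omega)]
      exact one_mem _
    set p : Fin n := ⟨k, hkn⟩ with hp
    -- the subgroup fixing the lower part of the frame
    let T : Subgroup (OmOdd n F) :=
      { carrier := {h | h ∈ S ∧ ∀ j : Fin n, (j : ℕ) < k →
          act (h : IsoOdd n F) (eV j) = eV j ∧ act (h : IsoOdd n F) (fV j) = fV j}
        mul_mem' := fun {a b} ha hb => ⟨mul_mem ha.1 hb.1, fun j hj => by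
          rw [Subgroup.coe_mul, act_mul, act_mul, (hb.2 j hj).1, (hb.2 j hj).2]; exact ha.2 j hj⟩
        one_mem' := ⟨one_mem _, fun j _ => ⟨act_one _, act_one _⟩⟩
        inv_mem' := fun {a} ha => ⟨inv_mem ha.1, fun j hj => by
          rw [Subgroup.coe_inv]
          constructor
          · conv_lhs => rw [← (ha.2 j hj).1]
            exact act_inv_act _ _
          · conv_lhs => rw [← (ha.2 j hj).2]
            exact act_inv_act _ _⟩ }
    have hle : ∀ w : Unit ⊕ (Fin n ⊕ Fin n) → F, InW k w → InW i0 w :=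
      fun w hw j hj => hw j (by omega)
    have hT : ∀ (r : Fin n), k ≤ (r : ℕ) → ∀ u w : Unit ⊕ (Fin n ⊕ Fin n) → F, (u = eV r ∨ u = fV r) →
        InW k w → bo u w = 0 → eo u w ∈ T := fun r hr u w hu hw hb =>
      ⟨eo_mem_of_inW hn S hu (hS r (hik.trans hr) u hu) (hle w hw) hb, fun j hj => eo_fix_frame hn hr hu hw hb hj⟩
    have hdW : ∀ c : F, InW k (c • (dV : Unit ⊕ (Fin n ⊕ Fin n) → F)) := fun c => by
      rw [dV, vec_smul, inW_vec]; intro j _; simp
    have hfW : ∀ (c : F) (r : Fin n), k ≤ (r : ℕ) → InW k (c • (eV r : Unit ⊕ (Fin n ⊕ Fin n) → F)) ∧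
        InW k (c • (fV r : Unit ⊕ (Fin n ⊕ Fin n) → F)) := fun c r hr => by
      refine ⟨?_, ?_⟩
      · rw [eV, vec_smul, inW_vec]
        intro j hj
        have : j ≠ r := fun h => by rw [h] at hj; omega
        simp [this]
      · rw [fV, vec_smul, inW_vec]
        intro j hj
        have : j ≠ r := fun h => by rw [h] at hj; omega
        simp [this]
    -- one step
    suffices step : ∃ h ∈ T, act ((h * g : OmOdd n F) : IsoOdd n F) (eV p) = eV p ∧
        act ((h * g : OmOdd n F) : IsoOdd n F) (fV p) = fV p by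
      obtain ⟨h, hh, he, hf⟩ := step
      have := ih (k + 1) (by omega) (by omega) (h * g) (fun j hj => by
        rcases Nat.lt_succ_iff_lt_or_eq.1 hj with h' | h'
        · rw [Subgroup.coe_mul, act_mul, act_mul, (hg j h').1, (hg j h').2]; exact hh.2 j h'
        · rw [show j = p from Fin.ext h']; exact ⟨he, hf⟩)
      simpa using mul_mem (inv_mem hh.1) this
    have hinv : ∀ h ∈ T, ∀ v, InW k v → InW k (act ((h * g : OmOdd n F) : IsoOdd n F) v) := by
      intro h hh v hv j hj
      have e : act ((h * g : OmOdd n F) : IsoOdd n F) (eV j) = eV j ∧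
          act ((h * g : OmOdd n F) : IsoOdd n F) (fV j) = fV j := by
        rw [Subgroup.coe_mul, act_mul, act_mul, (hg j hj).1, (hg j hj).2]; exact hh.2 j hj
      constructor
      · conv_lhs => rw [← e.1]
        rw [act_b]; exact (hv j hj).1
      · conv_lhs => rw [← e.2]
        rw [act_b]; exact (hv j hj).2
    have hpe : InW k (eV p : Unit ⊕ (Fin n ⊕ Fin n) → F) := by
      have := (hfW 1 p le_rfl).1; rwa [one_smul] at this
    have hpf : InW k (fV p : Unit ⊕ (Fin n ⊕ Fin n) → F) := by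
      have := (hfW 1 p le_rfl).2; rwa [one_smul] at this
    -- it suffices to fix the first vector
    suffices stepE : ∃ h ∈ T, act ((h * g : OmOdd n F) : IsoOdd n F) (eV p) = eV p by
      obtain ⟨h, hh, he⟩ := stepE
      set v := act ((h * g : OmOdd n F) : IsoOdd n F) (fV p)
      have hv0 : qOdd n F v = 0 := by rw [act_q, q_fV]
      have hbv : bo (eV p) v = 1 := by
        conv_lhs => rw [← he]
        rw [act_b, fV, bo_eV, Pi.single_eq_same]
      obtain ⟨hb, he'⟩ := exists_eichler_map (ndQ n) (q_eV p) hv0 (q_fV p) hbv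
        (by rw [fV, bo_eV, Pi.single_eq_same])
      have hw : InW k (v - fV p) := fun j hj => by
        have h1 := hinv h hh _ hpf j hj
        rw [map_sub, map_sub, h1.1, h1.2, (hpf j hj).1, (hpf j hj).2, sub_zero]
        exact ⟨rfl, rfl⟩
      have he2 : act ((eo (eV p) (v - fV p) : OmOdd n F) : IsoOdd n F) v = fV p := by
        show ((((eo (eV p) (v - fV p) : OmOdd n F) : IsoOdd n F) : GL (Unit ⊕ (Fin n ⊕ Fin n)) F) :
          Matrix (Unit ⊕ (Fin n ⊕ Fin n)) (Unit ⊕ (Fin n ⊕ Fin n)) F) *ᵥ v = _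
        rw [coe_eo hn (q_eV p) hb]; exact he'
      refine ⟨eo (eV p) (v - fV p) * h, mul_mem (hT p le_rfl _ _ (Or.inl rfl) hw hb) hh, ?_, ?_⟩
      · rw [mul_assoc, Subgroup.coe_mul, act_mul, he,
          eo_fix hn (q_eV p) hb (b_self_eq_zero (ndQ n) (q_eV p)) (by rw [b_symm]; exact hb)]
      · rw [mul_assoc, Subgroup.coe_mul, act_mul, he2]
    -- from a unit coefficient
    have fin1 : ∀ h ∈ T, ∀ d x y, act ((h * g : OmOdd n F) : IsoOdd n F) (eV p) = vec d x y → x p = 1 →
        ∃ h ∈ T, act ((h * g : OmOdd n F) : IsoOdd n F) (eV p) = eV p := by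
      intro h hh d x y hv hx
      obtain ⟨hb, he'⟩ := exists_eichler_map (ndQ n) (q_fV p) (v := vec d x y) (v' := eV p)
        (by rw [← hv, act_q, q_eV]) (q_eV p) (by rw [bo_fV, hx]) (by rw [eV, bo_fV, Pi.single_eq_same])
      have hw : InW k (vec d x y - eV p) := fun j hj => by
        have h1 := hinv h hh _ hpe j hj
        rw [hv] at h1
        rw [map_sub, map_sub, h1.1, h1.2, (hpe j hj).1, (hpe j hj).2, sub_zero]
        exact ⟨rfl, rfl⟩
      refine ⟨eo (fV p) (vec d x y - eV p) * h, mul_mem (hT p le_rfl _ _ (Or.inr rfl) hw hb) hh, ?_⟩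
      rw [mul_assoc, Subgroup.coe_mul, act_mul, hv]
      show ((((eo (fV p) (vec d x y - eV p) : OmOdd n F) : IsoOdd n F) : GL (Unit ⊕ (Fin n ⊕ Fin n)) F) :
          Matrix (Unit ⊕ (Fin n ⊕ Fin n)) (Unit ⊕ (Fin n ⊕ Fin n)) F) *ᵥ _ = _
      rw [coe_eo hn (q_fV p) hb]; exact he'
    obtain ⟨d, x, y, hv⟩ := exists_vec (act ((1 * g : OmOdd n F) : IsoOdd n F) (eV p))
    have hlow : ∀ j : Fin n, (j : ℕ) < k → y j = 0 ∧ x j = 0 := by
      have := hinv 1 (one_mem _) _ hpe
      rwa [hv, inW_vec] at this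
    have hsing : d ^ 2 + x ⬝ᵥ y = 0 := by rw [← q_vec, ← hv, act_q, q_eV]
    rcases Nat.lt_or_ge (k + 1) n with hk1 | hk1
    · -- another index is available
      have move : ∀ h ∈ T, ∀ d x y, act ((h * g : OmOdd n F) : IsoOdd n F) (eV p) = vec d x y →
          (∃ r : Fin n, k < (r : ℕ) ∧ (x r ≠ 0 ∨ y r ≠ 0)) →
          ∃ h ∈ T, act ((h * g : OmOdd n F) : IsoOdd n F) (eV p) = eV p := by
        rintro h hh d x y hv ⟨r, hr, hxy⟩
        obtain ⟨w, hw, c, hb, d', x', y', he, hx'⟩ :=
          exists_move_one hn (p := p) (r := r) (fun e => by rw [← e] at hr; exact lt_irrefl k hr) d x y hxy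
        refine fin1 (eo (eV p) (c • w) * h) (mul_mem (hT p le_rfl _ _ (Or.inl rfl) ?_ hb) hh) d' x' y' ?_ hx'
        · rcases hw with rfl | rfl
          exacts [(hfW c r hr.le).1, (hfW c r hr.le).2]
        · rw [mul_assoc, Subgroup.coe_mul, act_mul, hv, he]
      by_cases hex : ∃ r : Fin n, k < (r : ℕ) ∧ (x r ≠ 0 ∨ y r ≠ 0)
      · exact move 1 (one_mem _) d x y hv hex
      push Not at hex
      set r : Fin n := ⟨k + 1, hk1⟩ with hr
      have hpr : p ≠ r := fun e => by simpa [hp, hr] using congrArg Fin.val e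
      have hkr : k < (r : ℕ) := Nat.lt_succ_self k
      have hother : ∀ j, j ≠ p → x j = 0 ∧ y j = 0 := fun j hj => by
        rcases Nat.lt_trichotomy (j : ℕ) k with h | h | h
        · exact ⟨(hlow j h).2, (hlow j h).1⟩
        · exact absurd (Fin.ext h) hj
        · exact hex j h
      have hxy : x ⬝ᵥ y = x p * y p :=
        Finset.sum_eq_single p (fun j _ hj => by rw [(hother j hj).1, zero_mul]) (by simp)
      have hrW := (hfW (1 : F) r hkr.le).1
      rw [one_smul] at hrW
      by_cases hyp : y p = 0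
      · have hd : d = 0 := by rw [hxy, hyp, mul_zero, add_zero] at hsing; exact pow_eq_zero_iff two_ne_zero |>.1 hsing
        have hxp : x p ≠ 0 := by
          intro hxp
          have hv0 : act ((1 * g : OmOdd n F) : IsoOdd n F) (eV p) = 0 := by
            rw [hv, hd, ← vec_zero, vec_inj]
            refine ⟨rfl, funext fun j => ?_, funext fun j => ?_⟩ <;> by_cases hj : j = p
            exacts [hj ▸ hxp, (hother j hj).1, hj ▸ hyp, (hother j hj).2]
          have := congrArg (act ((1 * g : OmOdd n F) : IsoOdd n F)⁻¹) hv0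
          rw [act_inv_act, act_zero, ← vec_zero, eV, vec_inj] at this
          simpa using congrFun this.2.1 p
        have hb : bo (fV p) (eV r : Unit ⊕ (Fin n ⊕ Fin n) → F) = 0 := by rw [eV, bo_fV]; simp [hpr]
        refine move (eo (fV p) (eV r) * 1) (mul_mem (hT p le_rfl _ _ (Or.inr rfl) hrW hb) (one_mem _))
          _ _ _ (by
            rw [mul_assoc, Subgroup.coe_mul, act_mul, hv, act_eo hn (q_fV p) hb, bo_eV, bo_fV, q_eV, zero_mul,
              zero_smul, sub_zero, eV, fV, vec_smul, vec_smul, vec_add, vec_sub]) ⟨r, hkr, Or.inl ?_⟩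
        simp [(hex r hkr).1, hxp]
      · have hb : bo (eV p) (eV r : Unit ⊕ (Fin n ⊕ Fin n) → F) = 0 := by rw [eV, eV, bo_vec]; simp
        refine move (eo (eV p) (eV r) * 1) (mul_mem (hT p le_rfl _ _ (Or.inl rfl) hrW hb) (one_mem _))
          _ _ _ (by
            rw [mul_assoc, Subgroup.coe_mul, act_mul, hv, act_eo hn (q_eV p) hb, bo_eV, bo_eV, q_eV, zero_mul,
              zero_smul, sub_zero, eV, eV, vec_smul, vec_smul, vec_add, vec_sub]) ⟨r, hkr, Or.inl ?_⟩
        simp [(hex r hkr).1, hyp, hpr, Ne.symm hpr]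
    · -- the last index
      have hother : ∀ j, j ≠ p → x j = 0 ∧ y j = 0 := fun j hj => by
        have : (j : ℕ) < k := by
          have h1 := j.isLt
          have h2 : (j : ℕ) ≠ k := fun h => hj (Fin.ext h)
          omega
        exact ⟨(hlow j this).2, (hlow j this).1⟩
      have hTd : ∀ u, (u = eV p ∨ u = fV p) → ∀ c : F,
          bo u (c • (dV : Unit ⊕ (Fin n ⊕ Fin n) → F)) = 0 ∧ eo u (c • (dV : Unit ⊕ (Fin n ⊕ Fin n) → F)) ∈ T := by
        intro u hu c
        have hb : bo u (c • (dV : Unit ⊕ (Fin n ⊕ Fin n) → F)) = 0 := by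
          rcases hu with rfl | rfl <;> rw [map_smul, dV] <;> simp [bo_eV, bo_fV, -bform_apply]
        exact ⟨hb, hT p le_rfl _ _ hu (hdW c) hb⟩
      -- a nonzero coefficient at `e_p`
      obtain ⟨h1, hh1, d1, x1, y1, hv1, hx1⟩ : ∃ h ∈ T, ∃ d x y,
          act ((h * g : OmOdd n F) : IsoOdd n F) (eV p) = vec d x y ∧ x p ≠ 0 := by
        by_cases hxp : x p = 0
        · have hx0 : x = 0 := funext fun j => by
            by_cases hj : j = p
            exacts [hj ▸ hxp, (hother j hj).1]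
          have hd : d = 0 := by
            rw [hx0, zero_dotProduct, add_zero] at hsing; exact pow_eq_zero_iff two_ne_zero |>.1 hsing
          have hyp : y p ≠ 0 := by
            intro hyp
            have hv0 : act ((1 * g : OmOdd n F) : IsoOdd n F) (eV p) = 0 := by
              rw [hv, hd, hx0, ← vec_zero, vec_inj]
              refine ⟨rfl, rfl, funext fun j => ?_⟩
              by_cases hj : j = p
              exacts [hj ▸ hyp, (hother j hj).2]
            have := congrArg (act ((1 * g : OmOdd n F) : IsoOdd n F)⁻¹) hv0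
            rw [act_inv_act, act_zero, ← vec_zero, eV, vec_inj] at this
            simpa using congrFun this.2.1 p
          obtain ⟨hb, hm⟩ := hTd (eV p) (Or.inl rfl) 1
          refine ⟨eo (eV p) ((1 : F) • dV) * 1, mul_mem hm (one_mem _), _, _, _, (by
            rw [mul_assoc, Subgroup.coe_mul, act_mul, hv, act_eo hn (q_eV p) hb, bo_eV, one_smul, bo_dV, q_dV,
              one_mul, eV, dV, vec_smul, vec_smul, vec_smul, vec_add, vec_sub, vec_sub]), ?_⟩
          simp [hd, hxp, hyp]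
        · exact ⟨1, one_mem _, d, x, y, hv, hxp⟩
      -- kill the other coefficients
      set t := d1 / x1 p with ht
      obtain ⟨hb2, hm2⟩ := hTd (fV p) (Or.inr rfl) t
      have hv2 : act ((eo (fV p) (t • dV) * h1 * g : OmOdd n F) : IsoOdd n F) (eV p) = x1 p • eV p := by
        have hlow1 := hinv h1 hh1 _ hpe
        rw [hv1, inW_vec] at hlow1
        have hother1 : ∀ j, j ≠ p → x1 j = 0 ∧ y1 j = 0 := fun j hj => by
          have : (j : ℕ) < k := by
            have h1 := j.isLt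
            have h2 : (j : ℕ) ≠ k := fun h => hj (Fin.ext h)
            omega
          exact ⟨(hlow1 j this).2, (hlow1 j this).1⟩
        have hs1 : d1 ^ 2 + x1 p * y1 p = 0 := by
          have : qOdd n F (vec d1 x1 y1) = 0 := by rw [← hv1, act_q, q_eV]
          rw [q_vec, show x1 ⬝ᵥ y1 = x1 p * y1 p from
            Finset.sum_eq_single p (fun j _ hj => by rw [(hother1 j hj).1, zero_mul]) (by simp)] at this
          exact this
        rw [mul_assoc, Subgroup.coe_mul, act_mul, hv1, act_eo hn (q_fV p) hb2, map_smul, LinearMap.smul_apply,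
          bo_dV, bo_fV, q_smul (ndQ n), q_dV, fV, dV, eV, vec_smul, vec_smul, vec_smul, vec_smul, vec_smul,
          vec_add, vec_sub, vec_sub, vec_inj]
        refine ⟨?_, funext fun j => ?_, funext fun j => ?_⟩
        · simp [ht]; field_simp; ring
        · by_cases hj : j = p
          · subst hj; simp
          · simp [hj, (hother1 j hj).1]
        · by_cases hj : j = p
          · subst hj; simp [ht]; field_simp; linear_combination hs1
          · simp [hj, (hother1 j hj).2]
      set a := x1 p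
      set h2 : OmOdd n F := eo (fV p) (t • dV) * h1 with hh2def
      have hh2 : h2 ∈ T := mul_mem hm2 hh1
      -- the coefficient is a square
      set v := act ((h2 * g : OmOdd n F) : IsoOdd n F) (fV p)
      have hbv : bo (eV p) (a • v) = 1 := by
        rw [map_smul, ← LinearMap.smul_apply, ← map_smul, ← hv2, act_b, fV, bo_eV, Pi.single_eq_same]
      obtain ⟨hb3, he3⟩ := exists_eichler_map (ndQ n) (q_eV p) (v := a • v) (v' := fV p)
        (by rw [q_smul (ndQ n), act_q, q_fV, mul_zero]) (q_fV p) hbv (by rw [fV, bo_eV, Pi.single_eq_same])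
      have hw3 : InW k (a • v - fV p) := fun j hj => by
        have h1 := hinv h2 hh2 _ hpf j hj
        rw [map_sub, map_sub, map_smul, map_smul, h1.1, h1.2, (hpf j hj).1, (hpf j hj).2, smul_zero, sub_zero]
        exact ⟨rfl, rfl⟩
      set h3 := eo (eV p) (a • v - fV p) * h2 with hh3def
      have hh3 : h3 ∈ T := mul_mem (hT p le_rfl _ _ (Or.inl rfl) hw3 hb3) hh2
      have hge : act ((h3 * g : OmOdd n F) : IsoOdd n F) (eV p) = a • eV p := by
        rw [hh3def, mul_assoc, Subgroup.coe_mul, act_mul, hv2, act_smul,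
          eo_fix hn (q_eV p) hb3 (b_self_eq_zero (ndQ n) (q_eV p)) (by rw [b_symm]; exact hb3)]
      have hgf : act ((h3 * g : OmOdd n F) : IsoOdd n F) (fV p) = a⁻¹ • fV p := by
        rw [hh3def, mul_assoc, Subgroup.coe_mul, act_mul]
        have e : act ((eo (eV p) (a • v - fV p) : OmOdd n F) : IsoOdd n F) (a • v) = fV p := by
          show ((((eo (eV p) (a • v - fV p) : OmOdd n F) : IsoOdd n F) : GL (Unit ⊕ (Fin n ⊕ Fin n)) F) :
            Matrix (Unit ⊕ (Fin n ⊕ Fin n)) (Unit ⊕ (Fin n ⊕ Fin n)) F) *ᵥ _ = _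
          rw [coe_eo hn (q_eV p) hb3]; exact he3
        rw [act_smul] at e
        conv_rhs => rw [← e]
        rw [inv_smul_smul₀ hx1]
      obtain ⟨s, hs⟩ := isSquare_of_scale hx1 hge hgf (fun j hj => by
        have : (j : ℕ) < k := by
          have h1 := j.isLt
          have h2 : (j : ℕ) ≠ k := fun h => hj (Fin.ext h)
          omega
        rw [Subgroup.coe_mul, act_mul, act_mul, (hg j this).1, (hg j this).2]
        exact hh3.2 j this)
      have hs0 : s ≠ 0 := fun h => hx1 (by rw [hs, h, zero_mul])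
      -- scale to one
      obtain ⟨hb4, hm4⟩ := hTd (fV p) (Or.inr rfl) 1
      obtain ⟨hb5, hm5⟩ := hTd (eV p) (Or.inl rfl) (1 - 1 / s)
      have e4 : act ((eo (fV p) ((1 : F) • dV) : OmOdd n F) : IsoOdd n F) (a • eV p) =
          vec (-a) (a • (Pi.single p 1 : Fin n → F)) (-a • (Pi.single p 1 : Fin n → F)) := by
        rw [act_eo hn (q_fV p) hb4, one_smul, q_dV, one_mul, eV, vec_smul, bo_fV, bo_dV, fV, dV, vec_smul,
          vec_smul, vec_smul, vec_add, vec_sub, vec_sub, vec_inj]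
        simp
      refine fin1 (eo (eV p) ((1 - 1 / s) • dV) * (eo (fV p) ((1 : F) • dV) * h3))
        (mul_mem hm5 (mul_mem hm4 hh3)) _ _ _ (by
          rw [mul_assoc, mul_assoc, Subgroup.coe_mul, act_mul, Subgroup.coe_mul, act_mul, hge, e4,
            act_eo hn (q_eV p) hb5, map_smul, LinearMap.smul_apply, bo_dV, bo_eV, q_smul (ndQ n), q_dV, dV, eV,
            vec_smul, vec_smul, vec_smul, vec_smul, vec_add, vec_sub, vec_sub]) ?_
      simp
      rw [hs]
      field_simp
      ring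

end CfsgLib.OrthOddDeg
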