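import Cfsg.Agent.OrthOddDeg.SL

/-!
A representation of the matrices of square determinant of degree below `[n]`, without vectors fixed by
`SL_n` and with the column condition, has a vector fixed by the `SL_n`-stabiliser of a line.
-/

set_option autoImplicit false
set_option linter.unusedSectionVars false
set_option linter.style.haveILetI false

noncomputable section

namespace CfsgLib.OrthOddDeg

open Matrix CfsgLib.OrthPlusDeg CfsgLib.SlMinDegree
open scoped MatrixGroups _root_.Classical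

variable {F : Type*} [Field F] [Fintype F] [DecidableEq F] {l D : ℕ}

local notation "I₁" => (Unit ⊕ Fin l)
local notation "I₀" => (Unit ⊕ (Unit ⊕ Fin l))

theorem exists_sq_ne_one (hq : 5 ≤ Fintype.card F) : ∃ x : F, x ≠ 0 ∧ x ^ 2 ≠ 1 := by
  by_contra hc
  push Not at hc
  have hsub : (Finset.univ : Finset F) ⊆ {0, 1, -1} := fun x _ => by
    by_cases hx : x = 0
    · simp [hx]
    · rcases sq_eq_one_iff.1 (hc x hx) with h | h <;> simp [h]
  have := (Finset.card_le_card hsub).trans Finset.card_le_three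
  rw [Finset.card_univ] at this
  omega

variable {Ψ : sqDet F (Unit ⊕ (Unit ⊕ Fin l)) →* Matrix (Fin D) (Fin D) ℂ} {ψ : AddChar F ℂ}

/-- The zero weight space has a vector fixed by the small special linear group. -/
theorem exists_zero_fixed (hq : 5 ≤ Fintype.card F) (hodd : Odd (Fintype.card F)) (hψ : ψ 1 ≠ 1)
    (j0 : Fin l)
    (hcol : ∀ y, (∀ (i : I₀) (h : i ≠ Sum.inr (Sum.inr j0)) (a : F),
        Ψ (slH (Matrix.SpecialLinearGroup.transvection h a)) *ᵥ y = y) →
      ∀ g : sqDet F I₀, (∃ s : F, s ≠ 0 ∧ ((g : GL I₀ F) : Matrix I₀ I₀ F) =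
        Matrix.diagonal (Function.update (1 : I₀ → F) (Sum.inr (Sum.inr j0)) (s ^ 2))) → Ψ g *ᵥ y = y)
    (h1 : ∀ w, w ≠ 0 → weightMult (SR Ψ) ψ w = 1)
    (h0 : weightMult (SR Ψ) ψ 0 = geomN (l + 1) (Fintype.card F)) :
    ∃ y : Fin D → ℂ, y ≠ 0 ∧ (∀ v, Ψ (evS v) *ᵥ y = y) ∧
      ∀ M : GL I₁ F, (M : Matrix I₁ I₁ F).det = 1 → Ψ (embS M) *ᵥ y = y := by
  set q := Fintype.card F with hqdef
  set P := weightProj (SR Ψ) ψ with hPdef
  obtain ⟨A, B, φ, hAB, hBA, hφ⟩ := exists_compress Ψ embS (weightProj_idem (SR_add Ψ) hψ 0)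
    (by rw [trace_weightProj (SR_add Ψ) hψ, h0] :
      (weightProj (SR Ψ) ψ 0).trace = ((geomN (l + 1) q : ℕ) : ℂ))
    (comm_embS_zero Ψ)
  by_contra hc
  push Not at hc
  haveI : Nonempty (Fin l) := ⟨j0⟩
  have hl : 1 ≤ l := j0.pos
  have hnf : NoFix φ (Set.range (Matrix.SpecialLinearGroup.toGL (n := I₁) (R := F))) := by
    intro y hy
    by_contra hy0
    refine absurd (hc (A *ᵥ y) (fun h => hy0 ?_) ?_) ?_
    · have := congrArg (B *ᵥ ·) h
      rwa [Matrix.mulVec_mulVec, hBA, Matrix.one_mulVec, Matrix.mulVec_zero] at this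
    · intro v
      have e : A *ᵥ y = P 0 *ᵥ (A *ᵥ y) := by
        rw [Matrix.mulVec_mulVec, hPdef, ← hAB, Matrix.mul_assoc, hBA, Matrix.mul_one]
      rw [e]
      exact apply_mulVec_weightProj_zero (S := SR Ψ) (SR_add Ψ) hψ v _
    · rintro ⟨M, hM, hne⟩
      refine hne ?_
      rw [compress_mulVec Ψ embS (fun x => (hφ x).2.1), hy M (mem_range_toGL.2 hM)]
  obtain ⟨hs, u, w, α, β, huw, ⟨a, ha⟩, hχ, -, hoff, htr⟩ :=
    point_data (R := φ) (κ := Fin l) hq hodd (by rw [Fintype.card_fin]) hnf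
  have hsq := alpha_square hψ hAB hBA hφ hs huw hχ hoff j0 hcol
  have key : ∀ t : Fˣ, t * t ≠ 1 → α t = 1 := by
    intro t ht2
    have ht : t ≠ 1 := fun h => ht2 (by rw [h, one_mul])
    have hti : t⁻¹ ≠ 1 := fun h => ht (inv_eq_one.1 h)
    have htt : t ≠ t⁻¹ := fun h => ht2 (by rw [eq_inv_iff_mul_eq_one] at h; exact h)
    set j : I₁ := Sum.inr j0 with hj
    set d1 : I₁ → Fˣ := Function.update 1 (Sum.inl ()) t⁻¹ with hd1
    set d2 : I₁ → Fˣ := fun i => if i = Sum.inl () then t else if i = j then t⁻¹ else 1 with hd2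
    have hp1 : ∏ i, d1 i = t⁻¹ := by
      rw [hd1, Finset.prod_update_of_mem (Finset.mem_univ _)]; simp
    have hp2 : ∏ i, d2 i = 1 := by
      rw [Fintype.prod_eq_mul (Sum.inl ()) j (by simp [hj])]
      · simp [hd2, hj]
      · rintro x ⟨hx, hx'⟩; simp [hd2, hx, hx']
    -- traces on the zero weight space
    have htrφ : ∀ M, (φ M).trace = (P 0 * Ψ (embS M)).trace := fun M => by
      rw [(hφ M).1, Matrix.trace_mul_cycle, hAB]
    have hsumP : ∀ g, (Ψ g).trace =
        (P 0 * Ψ g).trace + ∑ x ∈ (Finset.univ : Finset (I₁ → F)).erase 0, (P x * Ψ g).trace := by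
      intro g
      rw [Finset.add_sum_erase Finset.univ (fun x => (P x * Ψ g).trace) (Finset.mem_univ (0 : I₁ → F)),
        ← Matrix.trace_sum, ← Finset.sum_mul,
        hPdef, sum_weightProj (R := SR Ψ) (SR_zero Ψ) hψ, one_mul]
    have hdet1 : detU (diagG d1) = t⁻¹ := Units.ext (by rw [coe_detU, det_diagG, hp1])
    have hdet2 : ((diagG d2 : GL I₁ F) : Matrix I₁ I₁ F).det = 1 := by
      rw [det_diagG, hp2, Units.val_one]
    have hh1 : (Ψ (embS (diagG d1))).trace = (φ (diagG d1)).trace := by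
      rw [hsumP, htrφ, add_eq_left]
      refine Finset.sum_eq_zero fun x hx => ?_
      refine trace_weightProj_moved (SR_add Ψ) hψ (fun e => Finset.ne_of_mem_erase hx ?_)
        (comm_blk Ψ (coe_embS _) x)
      rw [hdet1, inv_inv] at e
      funext i
      have h := congrFun e i
      simp only [Pi.smul_apply, smul_eq_mul, coe_diagG, Matrix.mulVec_diagonal, hd1] at h
      by_contra hx0
      by_cases hi : i = Sum.inl ()
      · subst hi
        rw [Function.update_self, ← mul_assoc, ← Units.val_mul] at h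
        refine ht2 (inv_eq_one.1 (Units.ext ?_))
        rw [Units.val_one, _root_.mul_inv_rev]
        exact (mul_eq_right₀ hx0).1 h.symm
      · rw [Function.update_of_ne hi, Pi.one_apply, Units.val_one, one_mul] at h
        exact hti (Units.ext ((mul_eq_right₀ hx0).1 h.symm))
    have hh2 : (Ψ (embS (diagG d2))).trace = (φ (diagG d2)).trace + ((q : ℂ) ^ (l - 1) - 1) := by
      rw [hsumP, htrφ, add_right_inj]
      set M2 : Matrix.SpecialLinearGroup I₁ F := ⟨(diagG d2 : GL I₁ F), hdet2⟩ with hM2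
      have e : embS (diagG d2) = slH (emb M2) := by
        apply Subtype.ext
        rw [coe_embS_of_det _ hdet2]
        apply Units.ext
        rw [coe_slH, coe_embG]
        show _ = fromBlocks _ (replicateRow Unit (0 : I₁ → F)) _ _
        rw [show replicateRow Unit (0 : I₁ → F) = 0 from by ext; simp [replicateRow]]
      have hw1 : (wproj (Ψ.comp slH) ψ (w0 F l)).trace = 1 := by
        have : (P (w0 F l)).trace = 1 := by
          rw [hPdef, trace_weightProj (SR_add Ψ) hψ, h1 _ w0_ne_zero, Nat.cast_one]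
        exact this
      have hq1 : ∀ m, 1 ≤ m → m ≤ 3 → ¬ (q - 1) ∣ m := fun m h1 h3 h => by
        have := Nat.le_of_dvd h1 h; omega
      rw [e]
      refine (Finset.sum_congr rfl (g := fun x => if (M2 : Matrix I₁ I₁ F) *ᵥ x = x then (1 : ℂ) else 0)
        (fun x hx => trace_wproj_emb (Ψ.comp slH) hψ hw1 hl (Or.inr (hq1 3 (by norm_num) le_rfl))
          (Or.inr (hq1 2 (by norm_num) (by norm_num))) (Finset.ne_of_mem_erase hx) M2)).trans ?_
      rw [Finset.sum_boole, Finset.filter_erase]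
      have hfilt : ((Finset.univ : Finset (I₁ → F)).filter fun x => (M2 : Matrix I₁ I₁ F) *ᵥ x = x) =
          (Finset.univ : Finset (I₁ → F)).filter fun x => ∀ i ∈ ({Sum.inl (), j} : Finset I₁), x i = 0 := by
        refine Finset.filter_congr fun x _ => ?_
        show (Matrix.diagonal fun i => (d2 i : F)) *ᵥ x = x ↔ _
        simp only [Finset.mem_insert, Finset.mem_singleton, forall_eq_or_imp, forall_eq, funext_iff,
          Matrix.mulVec_diagonal]
        constructor
        · intro h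
          refine ⟨?_, ?_⟩
          · by_contra h0
            have := h (Sum.inl ())
            rw [mul_eq_right₀ h0] at this
            exact ht (Units.ext (by simpa [hd2] using this))
          · by_contra h0
            have := h j
            rw [mul_eq_right₀ h0] at this
            exact hti (Units.ext (by simpa [hd2, hj] using this))
        · rintro ⟨h1, h2⟩ i
          by_cases hi : i = Sum.inl ()
          · rw [hi, h1, mul_zero]
          by_cases hi' : i = j
          · rw [hi', h2, mul_zero]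
          simp [hd2, hi, hi']
      rw [hfilt, Finset.card_erase_of_mem (Finset.mem_filter.2 ⟨Finset.mem_univ _, fun i _ => rfl⟩), card_vanish,
        Finset.card_pair (by simp [hj]), Fintype.card_sum, Fintype.card_unit,
        Fintype.card_fin, show 1 + l - 2 = l - 1 by omega, ← hqdef,
        Nat.cast_sub (Nat.one_le_pow _ _ (by omega)), Nat.cast_pow, Nat.cast_one]
    -- the two elements are conjugate
    have hconj : (Ψ (embS (diagG d1))).trace = (Ψ (embS (diagG d2))).trace := by
      set σ : Equiv.Perm I₀ := Equiv.swap (Sum.inl ()) (Sum.inr j) * Equiv.swap (Sum.inr (Sum.inl ())) (Sum.inr j)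
        with hσ
      let K : sqDet F I₀ := ⟨permG σ, by
        rw [mem_sqDet, det_permG, hσ, Equiv.Perm.sign_mul, Equiv.Perm.sign_swap (by simp),
          Equiv.Perm.sign_swap (by simp [hj])]
        simp⟩
      have e : K * embS (diagG d1) = embS (diagG d2) * K := by
        apply Subtype.ext
        rw [Subgroup.coe_mul, Subgroup.coe_mul, coe_embS, coe_embS_of_det _ hdet2, hdet1, inv_inv]
        show permG σ * (scalG t * embG (diagG d1)) = embG (diagG d2) * permG σ
        rw [show (embG (diagG d2) : GL I₀ F) = scalG 1 * embG (diagG d2) by rw [map_one, one_mul],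
          scal_diag, scal_diag, permG_diagG]
        congr 2
        funext i
        have hjne : j ≠ Sum.inl () := Sum.inr_ne_inl
        rw [hσ]
        rcases i with ⟨⟩ | i
        · show Sum.elim (fun _ => t) d1 (Equiv.swap (Sum.inl ()) (Sum.inr j)
            (Equiv.swap (Sum.inr (Sum.inl ())) (Sum.inr j) (Sum.inl ()))) = (1 : Fˣ)
          rw [Equiv.swap_apply_of_ne_of_ne (a := (Sum.inr (Sum.inl ()) : I₀)) Sum.inl_ne_inr Sum.inl_ne_inr,
            Equiv.swap_apply_left]
          exact Function.update_of_ne hjne _ _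
        · show Sum.elim (fun _ => t) d1 (Equiv.swap (Sum.inl ()) (Sum.inr j)
            (Equiv.swap (Sum.inr (Sum.inl ())) (Sum.inr j) (Sum.inr i))) = d2 i
          rw [hd2]
          by_cases hi : i = Sum.inl ()
          · rw [hi, Equiv.swap_apply_left, Equiv.swap_apply_right]
            exact (if_pos rfl).symm
          by_cases hi' : i = j
          · rw [hi', Equiv.swap_apply_right, Equiv.swap_apply_of_ne_of_ne Sum.inr_ne_inl
              (fun h => hjne (Sum.inr_injective h).symm)]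
            show d1 (Sum.inl ()) = _
            simp only [if_neg hjne, if_true, hd1, Function.update_self]
          rw [Equiv.swap_apply_of_ne_of_ne (a := (Sum.inr (Sum.inl ()) : I₀))
              (fun h => hi (Sum.inr_injective h)) (fun h => hi' (Sum.inr_injective h)),
            Equiv.swap_apply_of_ne_of_ne Sum.inr_ne_inl (fun h => hi' (Sum.inr_injective h))]
          show d1 i = _
          simp only [if_neg hi, if_neg hi', hd1, Function.update_of_ne hi, Pi.one_apply]
      have e2 : embS (diagG d2) = K * embS (diagG d1) * K⁻¹ := eq_mul_inv_of_mul_eq e.symm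
      rw [e2, map_mul, Matrix.trace_mul_comm, ← map_mul, ← mul_assoc, inv_mul_cancel, one_mul]
    rw [hh1, hh2] at hconj
    -- the two induced values
    have c1 := htr (diagG d1)
    rw [sum_eigTerm_diag α β d1 {t⁻¹, 1} (fun i => by
      by_cases hi : i = Sum.inl () <;> simp [hd1, hi]), hp1, Finset.sum_pair hti] at c1
    have e1a : ((Finset.univ : Finset I₁).filter fun i => d1 i = t⁻¹).card = 1 := by
      rw [Finset.card_eq_one]
      refine ⟨Sum.inl (), Finset.ext fun i => ?_⟩
      by_cases hi : i = Sum.inl () <;> simp [hd1, hi, ht, Ne.symm ht]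
    have e1b : ((Finset.univ : Finset I₁).filter fun i => d1 i = 1).card = l := by
      have : ((Finset.univ : Finset I₁).filter fun i => d1 i = 1) = Finset.univ.erase (Sum.inl ()) := by
        ext i
        by_cases hi : i = Sum.inl () <;> simp [hd1, hi, ht]
      rw [this, Finset.card_erase_of_mem (Finset.mem_univ _)]
      simp
    rw [e1a, e1b, map_one, one_mul, pow_one] at c1
    have c2 := htr (diagG d2)
    rw [sum_eigTerm_diag α β d2 {t, t⁻¹, 1} (fun i => by
      by_cases hi : i = Sum.inl () <;> by_cases hi' : i = j <;> simp [hd2, hi, hi']), hp2, map_one, one_mul,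
      Finset.sum_insert (by simp [htt, ht]), Finset.sum_pair hti] at c2
    have e2a : ((Finset.univ : Finset I₁).filter fun i => d2 i = t).card = 1 := by
      rw [Finset.card_eq_one]
      refine ⟨Sum.inl (), Finset.ext fun i => ?_⟩
      by_cases hi : i = Sum.inl () <;> by_cases hi' : i = j <;>
        simp [hd2, hi, hi', htt.symm, Ne.symm ht]
    have e2b : ((Finset.univ : Finset I₁).filter fun i => d2 i = t⁻¹).card = 1 := by
      rw [Finset.card_eq_one]
      refine ⟨j, Finset.ext fun i => ?_⟩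
      by_cases hi : i = Sum.inl () <;> by_cases hi' : i = j <;>
        simp [hd2, hi, hi', htt, ht, Ne.symm ht]
    have e2c : ((Finset.univ : Finset I₁).filter fun i => d2 i = 1).card = l - 1 := by
      have : ((Finset.univ : Finset I₁).filter fun i => d2 i = 1) =
          (Finset.univ.erase (Sum.inl ())).erase j := by
        ext i
        by_cases hi : i = Sum.inl () <;> by_cases hi' : i = j <;> simp [hd2, hi, hi', ht, hti]
      rw [this, Finset.card_erase_of_mem (Finset.mem_erase.2 ⟨by simp [hj], Finset.mem_univ _⟩),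
        Finset.card_erase_of_mem (Finset.mem_univ _)]
      simp
    rw [e2a, e2b, e2c, map_one, one_mul, pow_one] at c2
    set c := α t with hc
    have hc2 : c * c = 1 := by rw [hc, ← map_mul]; exact hsq t
    have hci : α t⁻¹ = c := by
      have : α t⁻¹ * c = 1 := by rw [hc, ← map_mul, inv_mul_cancel, map_one]
      rw [← mul_one (α t⁻¹), ← hc2, ← mul_assoc, this, one_mul]
    rcases mul_self_eq_one_iff.1 hc2 with h | h
    · exact h
    exfalso
    rw [hci, h] at c1 c2
    have hN : ((q : ℂ) ^ l - 1) = ((q : ℂ) - 1) * (geomN l q : ℂ) := by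
      have := congrArg (Nat.cast : ℕ → ℂ) (sub_one_mul_geomN l (show 1 ≤ q by omega))
      push_cast [Nat.cast_sub (show 1 ≤ q by omega)] at this
      linear_combination -this
    have hpow : (q : ℂ) ^ l = q * (q : ℂ) ^ (l - 1) := by rw [← pow_succ', Nat.sub_add_cancel hl]
    have hq1 : (q : ℂ) - 1 ≠ 0 := by
      rw [sub_ne_zero]
      exact_mod_cast (show q ≠ 1 by omega)
    have heq : β t⁻¹ * ((geomN l q : ℂ) - 1) = (geomN l q : ℂ) - 3 := by
      refine mul_left_cancel₀ hq1 ?_
      linear_combination (-1 : ℂ) * c1 + c2 + ((q : ℂ) - 1) * hconj - β t⁻¹ * hN + hN - hpow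
    have hb : ‖β t⁻¹‖ = 1 := by
      refine Complex.norm_eq_one_of_pow_eq_one (n := q - 1) ?_ (by omega)
      rw [← map_pow, hqdef, ← Fintype.card_units, pow_card_eq_one, map_one]
    have hn := congrArg (‖·‖) heq
    simp only [norm_mul, hb, one_mul] at hn
    rw [show ((geomN l q : ℂ) - 1) = (((geomN l q : ℝ) - 1 : ℝ) : ℂ) by push_cast; rfl,
      show ((geomN l q : ℂ) - 3) = (((geomN l q : ℝ) - 3 : ℝ) : ℂ) by push_cast; rfl,
      Complex.norm_real, Complex.norm_real, Real.norm_eq_abs, Real.norm_eq_abs, abs_eq_abs] at hn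
    have hN2 : geomN l q = 2 := by
      rcases hn with h | h
      · linarith
      · exact_mod_cast (show (geomN l q : ℝ) = 2 by linarith)
    obtain ⟨l', rfl⟩ : ∃ l', l = l' + 1 := ⟨l - 1, by omega⟩
    rw [geomN_succ'] at hN2
    rcases Nat.eq_zero_or_pos (geomN l' q) with h0 | h0
    · rw [h0] at hN2; omega
    · have := Nat.le_mul_of_pos_right q h0; omega
  by_cases ha2 : a * a = 1
  · obtain ⟨x, hx, hx2⟩ := exists_sq_ne_one hq
    set s := Units.mk0 x hx with hs'
    have hs2 : s * s ≠ 1 := fun h => hx2 (by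
      have := congrArg Units.val h
      rwa [Units.val_mul, Units.val_one, hs', Units.val_mk0, ← sq] at this)
    refine ha ?_
    have h' : (a * s⁻¹) * (a * s⁻¹) ≠ 1 := fun h => hs2 (by
      rw [mul_mul_mul_comm, ha2, one_mul, ← mul_inv, inv_eq_one] at h
      exact h)
    rw [show a = a * s⁻¹ * s by rw [inv_mul_cancel_right], map_mul, key _ h', key _ hs2, one_mul]
  · exact ha (key a ha2)

/-- A vector fixed by the stabiliser of a line in `SL_n`. -/
theorem exists_sl_fixed (hq : 5 ≤ Fintype.card F) (hodd : Odd (Fintype.card F)) (j0 : Fin l) (hD0 : D ≠ 0)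
    (hD : D < geomN (l + 2) (Fintype.card F)) (hnf : NoFix (Ψ.comp slH) Set.univ)
    (hcol : ∀ y, (∀ (i : I₀) (h : i ≠ Sum.inr (Sum.inr j0)) (a : F),
        Ψ (slH (Matrix.SpecialLinearGroup.transvection h a)) *ᵥ y = y) →
      ∀ g : sqDet F I₀, (∃ s : F, s ≠ 0 ∧ ((g : GL I₀ F) : Matrix I₀ I₀ F) =
        Matrix.diagonal (Function.update (1 : I₀ → F) (Sum.inr (Sum.inr j0)) (s ^ 2))) → Ψ g *ᵥ y = y) :
    ∃ w : Fin D → ℂ, w ≠ 0 ∧ ∀ S : Matrix.SpecialLinearGroup I₀ F,
      (∃ c : F, (S : Matrix I₀ I₀ F) *ᵥ Pi.single (Sum.inl ()) 1 =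
        c • (Pi.single (Sum.inl ()) 1 : I₀ → F)) → Ψ (slH S) *ᵥ w = w := by
  obtain ⟨ψ, hψ⟩ : ∃ ψ : AddChar F ℂ, ψ 1 ≠ 1 :=
    AddChar.exists_apply_ne_zero.2 (one_ne_zero : (1 : F) ≠ 0)
  have hl : 1 ≤ l := j0.pos
  set q := Fintype.card F with hqdef
  obtain ⟨h1, hs, hdeg, h0⟩ := sl_degree Ψ hl hq hψ hD0 hD hnf
  obtain ⟨y, hy0, hyev, hysl⟩ := exists_zero_fixed hq hodd hψ j0 hcol h1 h0
  obtain ⟨γ, hγ⟩ := exists_units_generator F
  let Dt : Fˣ →* GL I₁ F :=
    { toFun := fun a => diagG (Function.update (1 : I₁ → Fˣ) (Sum.inl ()) a)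
      map_one' := Units.ext (by rw [coe_diagG, Units.val_one, ← Matrix.diagonal_one]; congr 1; funext i; by_cases hi : i = Sum.inl () <;> simp [hi])
      map_mul' := fun a b => Units.ext (by
        rw [Units.val_mul, coe_diagG, coe_diagG, coe_diagG, Matrix.diagonal_mul_diagonal]
        congr 1; funext i
        by_cases hi : i = Sum.inl () <;> simp [hi]) }
  have hdetD : ∀ a : Fˣ, ((Dt a : GL I₁ F) : Matrix I₁ I₁ F).det = (a : F) := fun a => by
    show ((diagG _ : GL I₁ F) : Matrix I₁ I₁ F).det = _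
    rw [det_diagG, Finset.prod_update_of_mem (Finset.mem_univ _)]
    simp
  let U : Submodule ℂ (Fin D → ℂ) :=
    { carrier := {z | (∀ v, Ψ (evS v) *ᵥ z = z) ∧
        ∀ M : GL I₁ F, (M : Matrix I₁ I₁ F).det = 1 → Ψ (embS M) *ᵥ z = z}
      add_mem' := fun {a b} ha hb => ⟨fun v => by rw [Matrix.mulVec_add, ha.1, hb.1],
        fun M hM => by rw [Matrix.mulVec_add, ha.2 M hM, hb.2 M hM]⟩
      zero_mem' := ⟨fun v => Matrix.mulVec_zero _, fun M _ => Matrix.mulVec_zero _⟩
      smul_mem' := fun c z hz => ⟨fun v => by rw [Matrix.mulVec_smul, hz.1],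
        fun M hM => by rw [Matrix.mulVec_smul, hz.2 M hM]⟩ }
  have hU : U ≠ ⊥ := fun h => hy0 (by
    have : y ∈ U := ⟨hyev, hysl⟩
    rwa [h, Submodule.mem_bot] at this)
  have hUinv : ∀ z ∈ U, Ψ (embS (Dt γ)) *ᵥ z ∈ U := by
    rintro z ⟨hz1, hz2⟩
    refine ⟨fun v => ?_, fun S hS => ?_⟩
    · set M := Dt γ
      have e : evS v * embS M =
          embS M * evS (((detU M : Fˣ) : F) • (v ᵥ* (M : Matrix I₁ I₁ F))) := by
        apply Subtype.ext
        rw [Subgroup.coe_mul, Subgroup.coe_mul, coe_evS, coe_evS, coe_embS, scalG_emb_mul_evG,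
          Matrix.smul_vecMul, smul_smul, ← Units.val_mul, inv_mul_cancel, Units.val_one, one_smul,
          Matrix.vecMul_vecMul, ← Units.val_mul, mul_inv_cancel, Units.val_one, Matrix.vecMul_one]
      rw [← R_mul_mulVec, e, R_mul_mulVec, hz1]
    · rw [← R_mul_mulVec, ← map_mul, show S * Dt γ = Dt γ * ((Dt γ)⁻¹ * S * Dt γ) by group, map_mul,
        R_mul_mulVec, hz2 _ (by rw [Units.val_mul, Units.val_mul, Matrix.det_units_conj', hS])]
  obtain ⟨w, ⟨hwev, hwsl⟩, hw0, ⟨c, hc⟩, -⟩ := exists_common_eigen U hU _ _ rfl hUinv hUinv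
  obtain ⟨θ, hθ⟩ := exists_eigen_hom Ψ (embS.comp Dt) hw0 hγ hc
  let τ : Matrix.SpecialLinearGroup I₀ F →* GL I₀ F := Matrix.SpecialLinearGroup.toGL
  set H : Subgroup (Matrix.SpecialLinearGroup I₀ F) := (lineStab (F := F) (κ := I₁)).comap τ with hH
  set χ : Matrix.SpecialLinearGroup I₀ F → ℂ := fun S =>
    extHom θ (((S : Matrix I₀ I₀ F) (Sum.inl ()) (Sum.inl ()))⁻¹) with hχdef
  have hχ : ∀ S ∈ H, (Ψ.comp slH) S *ᵥ w = χ S • w := by
    intro S hS
    obtain ⟨a, v, M, heq, ha, hdet⟩ := lineStab_decomp hS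
    have hdet' : (a : F) * (M : Matrix I₁ I₁ F).det = 1 := hdet.symm.trans S.2
    have hau : (detU M)⁻¹ = a := inv_eq_of_mul_eq_one_left (Units.ext (by
      rw [Units.val_mul, coe_detU, Units.val_one]; exact hdet'))
    have e : slH S = evS ((a : F) • v) * embS M := by
      apply Subtype.ext
      show τ S = _
      rw [heq, Subgroup.coe_mul, coe_evS, coe_embS, hau, scalG_mul_evG, mul_assoc]
    set d : Fˣ := detU M with hd
    have hS1 : ((M * (Dt d)⁻¹ : GL I₁ F) : Matrix I₁ I₁ F).det = 1 := by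
      have e1 : ((M * (Dt d)⁻¹ : GL I₁ F) : Matrix I₁ I₁ F).det * ((Dt d : GL I₁ F) : Matrix I₁ I₁ F).det =
          (M : Matrix I₁ I₁ F).det := by
        rw [← Matrix.det_mul, ← Units.val_mul, inv_mul_cancel_right]
      rw [hdetD, hd, coe_detU] at e1
      exact (mul_eq_right₀ M.det_ne_zero).1 e1
    show Ψ (slH S) *ᵥ w = _
    rw [e, show M = M * (Dt d)⁻¹ * Dt d by rw [inv_mul_cancel_right], map_mul embS, R_mul_mulVec,
      R_mul_mulVec, show Ψ (embS (Dt d)) *ᵥ w = θ d • w from hθ d, Matrix.mulVec_smul, hwsl _ hS1,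
      Matrix.mulVec_smul, hwev]
    congr 1
    show θ d = extHom θ (((τ S : GL I₀ F) : Matrix I₀ I₀ F) (Sum.inl ()) (Sum.inl ()))⁻¹
    rw [← ha, ← Units.val_inv_eq_inv_val, extHom_coe, ← hau, inv_inv]
  by_cases hθ1 : ∀ a, θ a = 1
  · refine ⟨w, hw0, fun S hS => ?_⟩
    have h := hχ S hS
    obtain ⟨a, v, M, -, ha, -⟩ := lineStab_decomp (show τ S ∈ lineStab from hS)
    have h1 : χ S = 1 := by
      show extHom θ (((τ S : GL I₀ F) : Matrix I₀ I₀ F) (Sum.inl ()) (Sum.inl ()))⁻¹ = 1
      rw [← ha, ← Units.val_inv_eq_inv_val, extHom_coe, hθ1]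
    rwa [h1, one_smul] at h
  exfalso
  push Not at hθ1
  obtain ⟨a, ha⟩ := hθ1
  obtain ⟨u, huw, hu⟩ := exists_functional (Ψ.comp slH) H χ hw0 hχ
  set e₀ : I₀ → F := Pi.single (Sum.inl ()) 1 with he₀
  have he0 : e₀ ≠ 0 := fun h => one_ne_zero (show (1 : F) = 0 by simpa [he₀] using congrFun h (Sum.inl ()))
  have hχval : ∀ (S : Matrix.SpecialLinearGroup I₀ F) (c : F), (S : Matrix I₀ I₀ F) *ᵥ e₀ = c • e₀ → χ S = extHom θ c⁻¹ := fun S c hS => by
    show extHom θ (((τ S : GL I₀ F) : Matrix I₀ I₀ F) (Sum.inl ()) (Sum.inl ()))⁻¹ = _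
    rw [eq_apply_of_mulVec (g := τ S) hS]
  have hoff : ∀ g, g ∉ H → coeff (Ψ.comp slH) u w g = 0 := by
    intro g hg
    set y := (g : Matrix I₀ I₀ F) *ᵥ e₀ with hy
    have hyne : ∀ c : F, c • e₀ ≠ y := fun c hc => hg ⟨c, hc.symm⟩
    have hind1 : LinearIndependent F ![e₀, y] := (LinearIndependent.pair_iff' he0).2 hyne
    have hind2 : LinearIndependent F ![(a : F) • e₀, y] :=
      (LinearIndependent.pair_iff' (smul_ne_zero a.ne_zero he0)).2 fun c => by
        rw [smul_smul]; exact hyne _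
    obtain ⟨h, hh⟩ := CfsgLib.Classical.Linear.exists_sl_map_family (κ := Fin 2) (ι := I₀)
      (by simp; omega) hind1 hind2
    have hhe : (h : Matrix I₀ I₀ F) *ᵥ e₀ = (a : F) • e₀ := hh 0
    have hhy : (h : Matrix I₀ I₀ F) *ᵥ y = y := hh 1
    have hh' : ((g⁻¹ * h⁻¹ * g : Matrix.SpecialLinearGroup I₀ F) : Matrix I₀ I₀ F) *ᵥ e₀ = (1 : F) • e₀ := by
      have hinv : ((h⁻¹ : Matrix.SpecialLinearGroup I₀ F) : Matrix I₀ I₀ F) *ᵥ y = y := by
        conv_lhs => rw [← hhy]
        rw [Matrix.mulVec_mulVec, ← Matrix.SpecialLinearGroup.coe_mul, inv_mul_cancel,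
          Matrix.SpecialLinearGroup.coe_one, Matrix.one_mulVec]
      rw [Matrix.SpecialLinearGroup.coe_mul, Matrix.SpecialLinearGroup.coe_mul, ← Matrix.mulVec_mulVec,
        ← Matrix.mulVec_mulVec, ← hy, hinv, hy, Matrix.mulVec_mulVec, ← Matrix.SpecialLinearGroup.coe_mul,
        inv_mul_cancel, Matrix.SpecialLinearGroup.coe_one, Matrix.one_mulVec, one_smul]
    have e := coeff_biinv (Ψ.comp slH) H χ hχ hu (a := h) (b := g⁻¹ * h⁻¹ * g) ⟨_, hhe⟩ ⟨_, hh'⟩ g
    rw [show h * g * (g⁻¹ * h⁻¹ * g) = g by group, hχval h _ hhe, hχval _ _ hh', inv_one, map_one, mul_one,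
      ← Units.val_inv_eq_inv_val, extHom_coe] at e
    by_contra h0
    refine ha ?_
    have h1 := (mul_eq_right₀ h0).1 e.symm
    calc θ a = θ a * θ a⁻¹ := by rw [h1, mul_one]
      _ = 1 := by rw [← map_mul, mul_inv_cancel, map_one]
  have hin : ∀ g ∈ H, coeff (Ψ.comp slH) u w g * coeff (Ψ.comp slH) u w g⁻¹ = 1 := by
    intro g hg
    have hc : ∀ x ∈ H, coeff (Ψ.comp slH) u w x = χ x := fun x hx => by
      rw [coeff, hχ x hx, dotProduct_smul, huw, smul_eq_mul, mul_one]
    have e := coeff_biinv (Ψ.comp slH) H χ hχ hu hg (inv_mem hg) 1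
    rw [mul_one, mul_inv_cancel, coeff, map_one, Matrix.one_mulVec, huw, mul_one] at e
    rw [hc g hg, hc _ (inv_mem hg)]
    exact e.symm
  obtain ⟨hdegree, -⟩ := trace_formula (Ψ.comp slH) hs huw
  rw [← Finset.sum_filter_add_sum_filter_not Finset.univ (fun g => g ∈ H),
    Finset.sum_congr rfl (g := fun _ => (1 : ℂ)) (fun g hg => hin g (Finset.mem_filter.1 hg).2),
    Finset.sum_eq_zero (s := Finset.filter (fun g => ¬ g ∈ H) Finset.univ) (fun g hg => by
      rw [hoff g (Finset.mem_filter.1 hg).2, zero_mul]), Finset.sum_const, nsmul_eq_mul, mul_one,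
    add_zero] at hdegree
  have hcount : D * ((Finset.univ : Finset (Matrix.SpecialLinearGroup I₀ F)).filter fun g => g ∈ H).card =
      Fintype.card (Matrix.SpecialLinearGroup I₀ F) := by exact_mod_cast hdegree
  have horb : ∀ f : (I₀ → F) → ℕ, ∑ g : Matrix.SpecialLinearGroup I₀ F, f ((g : Matrix I₀ I₀ F) *ᵥ e₀) =
      ((Finset.univ : Finset (Matrix.SpecialLinearGroup I₀ F)).filter
        fun g : Matrix.SpecialLinearGroup I₀ F => (g : Matrix I₀ I₀ F) *ᵥ e₀ = e₀).card •
        ∑ v ∈ (Finset.univ : Finset (I₀ → F)).erase 0, f v := fun f => by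
    refine sum_orbit τ _ (fun g => Finset.mem_erase.2 ⟨fun h => he0 ?_, Finset.mem_univ _⟩) (fun v hv => ?_) f
    · have := congrArg (((τ g)⁻¹ : GL I₀ F).1 *ᵥ ·) h
      simpa [Matrix.mulVec_mulVec, ← Units.val_mul, -Matrix.coe_units_inv] using this
    · obtain ⟨g, hg⟩ := exists_sl_mulVec_eq (by simp; omega) he0 (Finset.ne_of_mem_erase hv)
      exact ⟨g, hg⟩
  set c0 := ((Finset.univ : Finset (Matrix.SpecialLinearGroup I₀ F)).filter
    fun g : Matrix.SpecialLinearGroup I₀ F => (g : Matrix I₀ I₀ F) *ᵥ e₀ = e₀).card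
  have hcardG : Fintype.card (Matrix.SpecialLinearGroup I₀ F) = c0 * (q ^ (l + 2) - 1) := by
    have h := horb fun _ => 1
    rw [Finset.sum_const, Finset.sum_const, Finset.card_univ, Finset.card_erase_of_mem (Finset.mem_univ _),
      Finset.card_univ, Fintype.card_fun, Fintype.card_sum, Fintype.card_sum, Fintype.card_unit,
      Fintype.card_fin, show 1 + (1 + l) = l + 2 by ring, ← hqdef] at h
    simp only [smul_eq_mul, mul_one] at h
    exact h
  have hcardH : ((Finset.univ : Finset (Matrix.SpecialLinearGroup I₀ F)).filter fun g => g ∈ H).card =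
      c0 * (q - 1) := by
    have h := horb fun v => if ∃ c : F, v = c • e₀ then 1 else 0
    simp only [Finset.sum_boole, smul_eq_mul, Nat.cast_id] at h
    refine Eq.trans ?_ (h.trans (congrArg (c0 * ·) ?_))
    · congr 1
      refine Finset.ext fun g => ?_
      simp only [Finset.mem_filter]
      exact Iff.rfl
    · have hinj : Function.Injective fun c : F => c • e₀ := smul_left_injective F he0
      rw [hqdef, ← Finset.card_univ, ← Finset.card_erase_of_mem (Finset.mem_univ (0 : F)),
        ← Finset.card_image_of_injective _ hinj]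
      congr 1
      ext v
      simp only [Finset.mem_filter, Finset.mem_erase, Finset.mem_univ, and_true, Finset.mem_image]
      constructor
      · rintro ⟨hv0, c, rfl⟩
        exact ⟨c, fun h => hv0 (by rw [h, zero_smul]), rfl⟩
      · rintro ⟨c, hc, rfl⟩
        exact ⟨(smul_ne_zero hc he0), c, rfl⟩
  rw [hcardH, hcardG] at hcount
  have hgs := sub_one_mul_geomN (l + 2) (show 1 ≤ q by omega)
  have hc0 : 0 < c0 := Nat.pos_of_ne_zero fun h => Fintype.card_ne_zero (hcardG.trans (by rw [h, zero_mul]))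
  rw [mul_left_comm, show q ^ (l + 2) - 1 = geomN (l + 2) q * (q - 1) by rw [mul_comm]; omega] at hcount
  have := Nat.eq_of_mul_eq_mul_right (show 0 < q - 1 by omega) (Nat.eq_of_mul_eq_mul_left hc0 hcount)
  omega

end CfsgLib.OrthOddDeg
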