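import Cfsg.Agent.OrthOddDeg.Weights
import Cfsg.Agent.OrthOddDeg.SLMain

/-!
A representation of small degree of `Omega_{2n+1}(q)` has a vector fixed by the centre of the Siegel
radical.
-/

set_option autoImplicit false
set_option linter.unusedSectionVars false
set_option linter.style.haveILetI false

noncomputable section

namespace CfsgLib.OrthOddDeg

open Cfsg.Geo Matrix CfsgLib.OrthPlusDeg CfsgLib.SlMinDegree
open scoped MatrixGroups _root_.Classical

variable {F : Type*} [Field F] [Fintype F] [DecidableEq F] [NeZero (2 : F)] {n k : ℕ}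
variable (R : OmOdd n F →* Matrix (Fin k) (Fin k) ℂ) {ψ : AddChar F ℂ}

theorem zR_mul_range {D : ℕ} {A : Matrix (Fin k) (Fin D) ℂ} {B : Matrix (Fin D) (Fin k) ℂ}
    {w : Fin n × Fin n → F} (hAB : A * B = weightProj (zR R) ψ w) (hBA : B * A = 1)
    (v : Fin n × Fin n → F) : R (zO v) * A = ψ (v ⬝ᵥ w) • A := by
  have h1 : weightProj (zR R) ψ w * A = A := by rw [← hAB, Matrix.mul_assoc, hBA, Matrix.mul_one]
  calc R (zO v) * A = zR R v * weightProj (zR R) ψ w * A := by rw [Matrix.mul_assoc, h1]; rfl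
    _ = _ := by rw [mul_weightProj (zR_add R), Matrix.smul_mul, h1]

/-- The extension by zero at one index. -/
def extL (L : Fin n) (x : {i : Fin n // i ≠ L} → F) : Fin n → F :=
  fun i => if h : i = L then 0 else x ⟨i, h⟩

theorem extL_self (L : Fin n) (x : {i : Fin n // i ≠ L} → F) : extL L x L = 0 := dif_pos rfl

theorem extL_ne {L i : Fin n} (h : i ≠ L) (x : {i : Fin n // i ≠ L} → F) : extL L x i = x ⟨i, h⟩ :=
  dif_neg h

theorem extL_add (L : Fin n) (x y : {i : Fin n // i ≠ L} → F) : extL L (x + y) = extL L x + extL L y := by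
  funext i
  by_cases h : i = L
  · subst h; simp [extL]
  · simp [extL, h]

theorem extL_zero (L : Fin n) : extL L (0 : {i : Fin n // i ≠ L} → F) = 0 := by
  funext i
  by_cases h : i = L
  · subst h; simp [extL]
  · simp [extL, h]

theorem dot_wedge_single (a L : Fin n) (x y : Fin n → F) :
    y ⬝ᵥ (wedge (Pi.single a (1 : F)) (Pi.single L 1) *ᵥ x) = y a * x L - y L * x a := by
  rw [wedge, Matrix.sub_mulVec, Matrix.vecMulVec_mulVec, Matrix.vecMulVec_mulVec, op_smul_eq_smul,
    op_smul_eq_smul, dotProduct_sub, dotProduct_smul, dotProduct_smul, single_dotProduct,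
    single_dotProduct, dotProduct_single, dotProduct_single]
  simp only [smul_eq_mul]
  ring

theorem diag_mul_transvection (d : Fin n → Fˣ) {i L : Fin n} (c : F) :
    Matrix.diagonal (fun j => (d j : F)) * Matrix.transvection i L c =
      Matrix.transvection i L ((d i : F) * c * ((d L : F))⁻¹) * Matrix.diagonal (fun j => (d j : F)) := by
  ext p r
  have := (d L).ne_zero
  simp only [Matrix.diagonal_mul, Matrix.mul_diagonal, Matrix.transvection, Matrix.add_apply,
    Matrix.one_apply, Matrix.single_apply]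
  by_cases h' : i = p ∧ L = r
  · rw [if_pos h', if_pos h']
    obtain ⟨rfl, rfl⟩ := h'
    by_cases h : i = L
    · subst h; rw [if_pos rfl]; field_simp
    · rw [if_neg h]; field_simp; ring
  · rw [if_neg h', if_neg h']
    by_cases h : p = r
    · subst h; ring
    · simp [h]

theorem wedge_transvection {a i L : Fin n} (hi : i ≠ L) (c : F) :
    (Matrix.transvection i L c)ᵀ * wedge (Pi.single a (1 : F)) (Pi.single L 1) * Matrix.transvection i L c =
      wedge (Pi.single a (1 : F)) (Pi.single L 1) := by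
  have h := congr_wedge (Matrix.transvection i L c)ᵀ (Pi.single a (1 : F)) (Pi.single L 1)
  rw [Matrix.transpose_transpose] at h
  have e : ∀ x : Fin n → F, (Matrix.transvection i L c)ᵀ *ᵥ x = x + (c * x i) • (Pi.single L 1 : Fin n → F) := by
    intro x
    funext j
    simp only [Matrix.transvection, Matrix.transpose_add, Matrix.transpose_one, Matrix.transpose_single,
      Matrix.add_mulVec, Matrix.one_mulVec, Matrix.single_mulVec, Pi.add_apply, Pi.smul_apply, smul_eq_mul,
      Function.update_apply, Pi.single_apply, Pi.zero_apply, mul_ite, mul_one, mul_zero]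
  rw [h, e, e, show (Pi.single L (1 : F) : Fin n → F) i = 0 from Pi.single_eq_of_ne hi 1, mul_zero, zero_smul,
    add_zero]
  ext p r
  simp only [wedge_apply, Pi.add_apply, Pi.smul_apply, smul_eq_mul]
  ring

theorem mul_fin_one {D : ℕ} (A : Matrix (Fin D) (Fin 1) ℂ) (M : Matrix (Fin 1) (Fin 1) ℂ) :
    A * M = M 0 0 • A := by
  ext p r
  obtain rfl : r = 0 := Subsingleton.elim _ _
  simp [Matrix.mul_apply, mul_comm]

variable (hn : 3 ≤ n) (hq : 5 ≤ Fintype.card F) (hψ : ψ 1 ≠ 1) (hk0 : k ≠ 0) (hnf : NoFix R Set.univ)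
  (hsmall : k * (Fintype.card F ^ 2 - 1) < Fintype.card F ^ (2 * n) - 1)
include hn hq hψ hk0 hnf hsmall

set_option maxHeartbeats 800000 in
/-- A vector fixed by the centre of the radical. -/
theorem exists_fixZ : ∃ y : Fin k → ℂ, y ≠ 0 ∧ FixZ R y := by
  set q := Fintype.card F with hqdef
  set a : Fin n := ⟨0, by omega⟩
  set L : Fin n := ⟨n - 1, by omega⟩
  have haL : a ≠ L := fun h => by have := congrArg Fin.val h; simp [a, L] at this; omega
  set W : Matrix (Fin n) (Fin n) F := wedge (Pi.single a (1 : F)) (Pi.single L 1) with hWdef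
  have hWaL : W a L = 1 := by simp [hWdef, wedge_apply, haL, haL.symm]
  have hW : IsWedge W :=
    ⟨fun h => one_ne_zero (show (1 : F) = 0 by rw [← hWaL, h, Matrix.zero_apply]), _, _, hWdef.symm⟩
  have hμ := (rad_structure R hn hq hψ hk0 hnf hsmall).1 W hW
  obtain ⟨A, B, hAB, hBA, hU0, hUU⟩ := exists_heis R (show 2 ≤ n by omega) hψ (flat2 W)
  have hpair : ∀ x y : Fin n → F, y ⬝ᵥ (sq2 (flat2 W) *ᵥ x) = y a * x L - y L * x a :=
    fun x y => dot_wedge_single a L x y
  set U : (Fin n → F) → Matrix (Fin (weightMult (zR R) ψ (flat2 W))) (Fin (weightMult (zR R) ψ (flat2 W))) ℂ := fun x => B * R (uO x) * A with hU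
  replace hU0 : U 0 = 1 := hU0
  set S : ({i : Fin n // i ≠ L} → F) → Matrix (Fin (weightMult (zR R) ψ (flat2 W))) (Fin (weightMult (zR R) ψ (flat2 W))) ℂ := fun x => U (extL L x) with hS
  have hS0 : S 0 = 1 := by simp only [hS, extL_zero]; exact hU0
  have hUU' : ∀ x y, U x * U y = ψ (y ⬝ᵥ (sq2 (flat2 W) *ᵥ x)) • U (x + y) := hUU
  have hSadd : ∀ u v, S (u + v) = S u * S v := fun u v => by
    simp only [hS]
    rw [hUU', hpair, extL_self, extL_self, mul_zero, zero_mul, sub_zero, AddChar.map_zero_eq_one, one_smul,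
      extL_add]
  -- the shift
  set δ : {i : Fin n // i ≠ L} → F := Pi.single ⟨a, haL⟩ 1 with hδ
  have hshift : ∀ (w : {i : Fin n // i ≠ L} → F) (t : F),
      weightMult S ψ (w + t • δ) = weightMult S ψ w := by
    intro w t
    set s : F := -(t / 2) with hs
    have hLL : U (-(s • (Pi.single L 1 : Fin n → F))) * U (s • Pi.single L 1) = 1 := by
      rw [hUU', hpair, ← neg_smul]
      simp only [Pi.smul_apply, smul_eq_mul, Pi.single_apply, if_neg haL]
      rw [mul_zero, zero_mul, mul_zero, mul_zero, sub_zero, AddChar.map_zero_eq_one, one_smul, neg_smul,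
        neg_add_cancel, hU0]
    have hcm : ∀ v, U (s • Pi.single L 1) * S v =
        ψ (v ⬝ᵥ ((-t) • δ)) • (S v * U (s • Pi.single L 1)) := by
      intro v
      simp only [hS]
      rw [hUU', hUU', hpair, hpair, add_comm (extL L v), smul_smul, ← AddChar.map_add_eq_mul]
      congr 2
      simp only [Pi.smul_apply, smul_eq_mul, Pi.single_apply, if_neg haL, if_pos rfl, extL_self,
        extL_ne haL, dotProduct_smul, hδ, dotProduct_single, hs, if_true]
      field_simp
      ring
    have := weightMult_eq_of_comm hSadd hψ hLL (comm_weightProj_twist (ψ := ψ) ((-t) • δ) hcm w)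
    rw [this, neg_smul, sub_neg_eq_add]
  -- Levi elements
  set P := weightProj (zR R) ψ (flat2 W) with hP
  set Y : sqDet F (Fin n) → Matrix (Fin (weightMult (zR R) ψ (flat2 W))) (Fin (weightMult (zR R) ψ (flat2 W))) ℂ := fun g => B * R (sqO g) * A with hY
  have hlev : ∀ g : sqDet F (Fin n), ((g : GL (Fin n) F) : Matrix (Fin n) (Fin n) F)ᵀ * W *
      ((g : GL (Fin n) F) : Matrix (Fin n) (Fin n) F) = W → R (sqO g) * P = P * R (sqO g) := by
    intro g hg
    have h := levi_comm R (ψ := ψ) g W
    rwa [hg] at h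
  have hYmul : ∀ g h : sqDet F (Fin n), R (sqO h) * P = P * R (sqO h) → Y g * Y h = Y (g * h) := by
    intro g h hh
    simp only [hY]
    rw [cmp_mul hAB hBA _ hh, ← map_mul, ← map_mul]
  have hY1 : Y 1 = 1 := by simp only [hY]; rw [map_one, map_one, Matrix.mul_one, hBA]
  have hYU : ∀ g : sqDet F (Fin n), R (sqO g) * P = P * R (sqO g) → ∀ x,
      Y g * U x = U (((g : GL (Fin n) F) : Matrix (Fin n) (Fin n) F) *ᵥ x) * Y g := by
    intro g hg x
    simp only [hY, hU]
    rw [cmp_mul hAB hBA _ (uO_comm_weight R (by omega) x (flat2 W)), cmp_mul hAB hBA _ hg, ← map_mul,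
      ← map_mul, sqO_uO (by omega)]
  -- diagonal elements
  have hdiag : ∀ d : Fin n → Fˣ, (d a : F) * (d L : F) = 1 →
      (diagonal fun j => (d j : F))ᵀ * W * diagonal (fun j => (d j : F)) = W := by
    intro d hd
    ext p r
    rw [Matrix.diagonal_transpose, Matrix.mul_diagonal, Matrix.diagonal_mul, hWdef, wedge_apply]
    simp only [Pi.single_apply]
    by_cases h1 : p = a <;> by_cases h2 : r = L <;> by_cases h3 : p = L <;> by_cases h4 : r = a <;>
      simp_all [mul_comm]
  have hdP : ∀ (d : Fin n → Fˣ) (g : sqDet F (Fin n)),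
      ((g : GL (Fin n) F) : Matrix (Fin n) (Fin n) F) = diagonal (fun j => (d j : F)) →
      R (sqO g) * P = P * R (sqO g) → ∀ w : {i : Fin n // i ≠ L} → F,
      Y g * weightProj S ψ (fun i => (d i : F) * w i) = weightProj S ψ w * Y g := by
    intro d g hg hgP w
    refine comm_weightProj (Equiv.piCongrRight fun i : {i : Fin n // i ≠ L} => (d i).mulLeft)
      (fun v => ?_) (fun v => ?_)
    · simp only [hS]
      rw [hYU g hgP, hg]
      congr 2
      funext j
      rw [Matrix.mulVec_diagonal]
      by_cases hj : j = L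
      · subst hj; rw [extL_self, extL_self, mul_zero]
      · rw [extL_ne hj, extL_ne hj]; rfl
    · simp only [dotProduct]
      refine Finset.sum_congr rfl fun i _ => ?_
      show (d i : F) * v i * w i = _
      ring
  -- the weights away from the middle
  have hsum : ∑ w, weightMult S ψ w = q := by rw [sum_weightMult hS0 hSadd hψ, hμ]
  have hmid : ∀ w, weightMult S ψ w ≠ 0 → ∀ i : {i : Fin n // i ≠ L}, (i : Fin n) ≠ a → w i = 0 := by
    intro w hw i hi
    by_contra hwi
    obtain ⟨σ, hσ, hσ2⟩ := exists_sq_ne_one hq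
    set d : Fin n → Fˣ := Function.update 1 (i : Fin n) (Units.mk0 σ hσ ^ 2) with hd
    have hdet : IsSquare ((diagG d : GL (Fin n) F) : Matrix (Fin n) (Fin n) F).det := by
      rw [det_diagG, hd, Finset.prod_update_of_mem (Finset.mem_univ _)]
      simp [sq]
    set g : sqDet F (Fin n) := ⟨diagG d, mem_sqDet.2 hdet⟩ with hg
    have hgP := hlev g (hdiag d (by simp [hd, hi.symm, i.2.symm]))
    have hLL : Y g⁻¹ * Y g = 1 := by rw [hYmul _ _ hgP, inv_mul_cancel, hY1]
    have he := weightMult_eq_of_comm hSadd hψ hLL (hdP d g rfl hgP w)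
    set w' : {i : Fin n // i ≠ L} → F := fun j => (d j : F) * w j with hw'
    have hne : w' i ≠ w i := by
      simp only [hw', hd, Function.update_self, Units.val_pow_eq_pow_val, Units.val_mk0]
      intro h
      exact hσ2 ((mul_eq_right₀ hwi).1 h)
    set f : F ⊕ F → ({i : Fin n // i ≠ L} → F) := Sum.elim (fun t => w + t • δ) (fun t => w' + t • δ) with hf
    have hδi : δ i = 0 := by
      rw [hδ, Pi.single_apply, if_neg (fun h => hi (congrArg Subtype.val h))]
    have hδa : δ ⟨a, haL⟩ = 1 := by simp [hδ]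
    have hinj : Function.Injective f := by
      rintro (t | t) (t' | t') h <;>
        have h1 := congrFun h i <;> have h2 := congrFun h ⟨a, haL⟩ <;>
        simp only [hf, Sum.elim_inl, Sum.elim_inr, Pi.add_apply, Pi.smul_apply, smul_eq_mul, hδi, hδa,
          mul_zero, add_zero, mul_one, add_right_inj] at h1 h2
      · rw [h2]
      · exact absurd h1.symm hne
      · exact absurd h1 hne
      · rw [h2]
    have hle : (Finset.univ.image f).card • 1 ≤ ∑ w, weightMult S ψ w := by
      refine le_trans (Finset.card_nsmul_le_sum _ _ _ fun x hx => ?_)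
        (Finset.sum_le_sum_of_subset (Finset.subset_univ _))
      obtain ⟨z, -, rfl⟩ := Finset.mem_image.1 hx
      rcases z with t | t <;> simp only [hf, Sum.elim_inl, Sum.elim_inr]
      · rw [hshift]; omega
      · rw [hshift, he]; omega
    rw [Finset.card_image_of_injective _ hinj, Finset.card_univ, Fintype.card_sum, hsum, smul_eq_mul,
      mul_one] at hle
    omega
  have hone : weightMult S ψ 0 = 1 := by
    have hsub : ∑ w ∈ Finset.univ.image (fun t : F => t • δ), weightMult S ψ w = q := by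
      rw [Finset.sum_subset (Finset.subset_univ _) fun w _ hw => ?_, hsum]
      by_contra hne
      refine hw (Finset.mem_image.2 ⟨w ⟨a, haL⟩, Finset.mem_univ _, funext fun i => ?_⟩)
      by_cases hi : (i : Fin n) = a
      · obtain rfl : i = ⟨a, haL⟩ := Subtype.ext hi
        simp [hδ]
      · rw [hmid w hne i hi, Pi.smul_apply, hδ, Pi.single_apply,
          if_neg (fun h => hi (congrArg Subtype.val h)), smul_zero]
    rw [Finset.sum_image fun t _ t' _ h => by simpa [hδ] using congrFun h ⟨a, haL⟩] at hsub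
    rw [Finset.sum_congr rfl (fun t _ => show weightMult S ψ (t • δ) = weightMult S ψ 0 by
      rw [← hshift 0 t, zero_add]), Finset.sum_const, Finset.card_univ, ← hqdef, smul_eq_mul] at hsub
    exact Nat.eq_of_mul_eq_mul_left (by omega) (hsub.trans (mul_one q).symm)
  obtain ⟨A', B', hAB', hBA'⟩ := exists_factor' (weightProj_idem hSadd hψ 0)
    (show (weightProj S ψ 0).trace = (1 : ℕ) by rw [trace_weightProj hSadd hψ, hone])
  -- the character of the stabiliser
  set χ : sqDet F (Fin n) → ℂ := fun g => (B' * Y g * A') 0 0 with hχ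
  have hχ1 : χ 1 = 1 := by simp only [hχ, hY1, Matrix.mul_one, hBA', Matrix.one_apply_eq]
  have hYA : ∀ g, Y g * weightProj S ψ 0 = weightProj S ψ 0 * Y g → Y g * A' = χ g • A' := by
    intro g hg
    rw [cmp_range hAB' hBA' hg, mul_fin_one]
  have hχmul : ∀ g h : sqDet F (Fin n), R (sqO h) * P = P * R (sqO h) →
      Y h * weightProj S ψ 0 = weightProj S ψ 0 * Y h → χ (g * h) = χ g * χ h := by
    intro g h hh hh'
    simp only [hχ]
    rw [← hYmul g h hh, Matrix.mul_assoc, Matrix.mul_assoc (Y g), hYA h hh', Matrix.mul_smul, Matrix.mul_smul,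
      ← Matrix.mul_assoc, Matrix.smul_apply, smul_eq_mul, mul_comm]
  set T : ∀ i : Fin n, i ≠ L → F → sqDet F (Fin n) :=
    fun i hi c => slH (Matrix.SpecialLinearGroup.transvection hi c) with hT
  have hTcoe : ∀ i hi c, ((T i hi c : GL (Fin n) F) : Matrix (Fin n) (Fin n) F) = Matrix.transvection i L c :=
    fun i hi c => rfl
  have hTP : ∀ i hi c, R (sqO (T i hi c)) * P = P * R (sqO (T i hi c)) := by
    intro i hi c
    refine hlev _ ?_
    rw [hTcoe, hWdef]
    exact wedge_transvection hi c
  have hTS : ∀ i hi c, Y (T i hi c) * weightProj S ψ 0 = weightProj S ψ 0 * Y (T i hi c) := by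
    intro i hi c
    refine comm_weightProj (Equiv.refl _) (fun v => ?_) (fun _ => rfl)
    simp only [hS, Equiv.refl_apply]
    rw [hYU _ (hTP i hi c), hTcoe]
    congr 2
    rw [Matrix.transvection, Matrix.add_mulVec, Matrix.one_mulVec, Matrix.single_mulVec, extL_self, mul_zero]
    simp
  have hTadd : ∀ i hi c c', T i hi (c + c') = T i hi c * T i hi c' := fun i hi c c' => by
    simp only [hT, ← map_mul, ← Matrix.SpecialLinearGroup.transvection_add]
  have hT0 : ∀ i hi, T i hi 0 = 1 := fun i hi => by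
    have h := hTadd i hi 0 0
    rwa [add_zero, left_eq_mul] at h
  have hχT : ∀ i hi c, χ (T i hi c) = 1 := by
    intro i hi
    obtain ⟨σ, hσ, hσ2⟩ := exists_sq_ne_one hq
    obtain ⟨d, hdW, hdet, hdl⟩ : ∃ d : Fin n → Fˣ, (d a : F) * (d L : F) = 1 ∧
        IsSquare ((diagG d : GL (Fin n) F) : Matrix (Fin n) (Fin n) F).det ∧
        (d i : F) * ((d L : F))⁻¹ = σ ^ 2 := by
      by_cases hia : i = a
      · subst hia
        refine ⟨Function.update (Function.update 1 L (Units.mk0 σ hσ)⁻¹) a (Units.mk0 σ hσ), ?_, ?_, ?_⟩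
        · simp [haL.symm, hσ]
        · rw [det_diagG, Finset.prod_update_of_mem (Finset.mem_univ _), Finset.prod_update_of_mem
            (by simp [haL.symm])]
          simp
        · simp [haL.symm, sq]
      · refine ⟨Function.update 1 i (Units.mk0 σ hσ ^ 2), ?_, ?_, ?_⟩
        · simp [Ne.symm hia, hi.symm]
        · rw [det_diagG, Finset.prod_update_of_mem (Finset.mem_univ _)]
          simp [sq]
        · simp [hi.symm]
    set g : sqDet F (Fin n) := ⟨diagG d, mem_sqDet.2 hdet⟩ with hg
    have hgP := hlev g (hdiag d hdW)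
    have hgS : Y g * weightProj S ψ 0 = weightProj S ψ 0 * Y g := by
      have h := hdP d g rfl hgP 0
      rwa [show (fun j : {i : Fin n // i ≠ L} => (d j : F) * (0 : {i : Fin n // i ≠ L} → F) j) = 0 from
        funext fun j => mul_zero _] at h
    have hg0 : χ g ≠ 0 := fun h => one_ne_zero (show (1 : ℂ) = 0 by
      rw [← hχ1, ← inv_mul_cancel g, hχmul _ _ hgP hgS, h, mul_zero])
    have hconj : ∀ c, g * T i hi c = T i hi (σ ^ 2 * c) * g := fun c => by
      apply Subtype.ext; apply Units.ext
      rw [Subgroup.coe_mul, Subgroup.coe_mul, Units.val_mul, Units.val_mul, hTcoe, hTcoe]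
      show diagonal (fun j => (d j : F)) * _ = _ * diagonal (fun j => (d j : F))
      rw [diag_mul_transvection, ← hdl]
      congr 2
      ring
    have hinv : ∀ c, χ (T i hi (σ ^ 2 * c)) = χ (T i hi c) := fun c => by
      have h := congrArg χ (hconj c)
      rw [hχmul _ _ (hTP i hi c) (hTS i hi c), hχmul _ _ hgP hgS, mul_comm] at h
      exact (mul_right_cancel₀ hg0 h).symm
    have hne : ∀ c, χ (T i hi c) ≠ 0 := fun c h => one_ne_zero (show (1 : ℂ) = 0 by
      rw [← hχ1, ← hT0 i hi, ← add_neg_cancel c, add_comm, hTadd, hχmul _ _ (hTP i hi c) (hTS i hi c), h,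
        mul_zero])
    intro c
    have h := hinv (c / (σ ^ 2 - 1))
    have hs : σ ^ 2 - 1 ≠ 0 := sub_ne_zero.2 hσ2
    rw [show σ ^ 2 * (c / (σ ^ 2 - 1)) = c + c / (σ ^ 2 - 1) by field_simp; ring, hTadd,
      hχmul _ _ (hTP i hi _) (hTS i hi _)] at h
    exact (mul_eq_right₀ (hne _)).1 h
  set y0 : Fin (weightMult (zR R) ψ (flat2 W)) → ℂ := A' *ᵥ 1 with hy0
  have hy : ∀ i hi c, R (sqO (T i hi c)) *ᵥ (A *ᵥ y0) = A *ᵥ y0 := by
    intro i hi c
    rw [Matrix.mulVec_mulVec, cmp_range hAB hBA (hTP i hi c), ← Matrix.mulVec_mulVec, hy0,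
      Matrix.mulVec_mulVec _ (B * R (sqO (T i hi c)) * A), show B * R (sqO (T i hi c)) * A * A' = A' by
        show Y (T i hi c) * A' = A'
        rw [hYA _ (hTS i hi c), hχT, one_smul]]
  refine ⟨R (mO L)⁻¹ *ᵥ (A *ᵥ y0), fun h0 => ?_, m_trick (by omega) L (fun p r hp hr c => ?_) hy⟩
  · have h1 := congrArg (R (mO L) *ᵥ ·) h0
    rw [← R_mul_mulVec, mul_inv_cancel, map_one, Matrix.one_mulVec, Matrix.mulVec_zero] at h1
    have h2 : (1 : Fin 1 → ℂ) = 0 := by
      rw [← Matrix.one_mulVec (1 : Fin 1 → ℂ), ← hBA', ← Matrix.mulVec_mulVec, ← hy0,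
        ← Matrix.one_mulVec y0, ← hBA, ← Matrix.mulVec_mulVec, h1, Matrix.mulVec_zero, Matrix.mulVec_zero]
    simpa using congrFun h2 0
  · rw [Matrix.mulVec_mulVec, zR_mul_range R hAB hBA]
    have e : (c • (Pi.single (p, r) 1 : Fin n × Fin n → F)) ⬝ᵥ flat2 W = 0 := by
      rw [smul_dotProduct, single_dotProduct, one_mul, show flat2 W (p, r) = W p r from rfl, hWdef, wedge_apply]
      simp [Pi.single_apply, hp, hr]
    rw [e, AddChar.map_zero_eq_one, one_smul]

end CfsgLib.OrthOddDeg
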