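import Cfsg.Agent.OrthOddDeg.Basic
import Cfsg.Agent.SlMinDegree.Bound
import Cfsg.Agent.OrthPlusDeg.AltOrbit

/-!
Representations of `GL_m(q)` of degree `(q^m-1)/(q-1)` and one more, without vectors fixed by `SL_m`.
-/

set_option autoImplicit false
set_option linter.unusedSectionVars false
set_option linter.style.haveILetI false

noncomputable section

namespace CfsgLib.OrthOddDeg

open Matrix CfsgLib.OrthPlusDeg CfsgLib.SlMinDegree
open scoped MatrixGroups

variable {F : Type*} [Field F] [Fintype F] [DecidableEq F] {κ : Type} [Fintype κ] [DecidableEq κ]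

local notation "GL₁" => GL (Unit ⊕ κ) F

/-- The translations. -/
def evG (v : κ → F) : GL (Unit ⊕ κ) F :=
  Matrix.SpecialLinearGroup.toGL (ev (Multiplicative.ofAdd v))

theorem coe_evG (v : κ → F) : ((evG v : GL₁) : Matrix (Unit ⊕ κ) (Unit ⊕ κ) F) =
    fromBlocks 1 (replicateRow Unit v) 0 1 := rfl

theorem evG_add (u v : κ → F) : evG (u + v) = evG u * evG v := by
  rw [evG, evG, evG, ofAdd_add, map_mul, map_mul]

theorem evG_zero : evG (0 : κ → F) = 1 := by rw [evG, ofAdd_zero, map_one, map_one]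

/-- The complementary block. -/
def embG : GL κ F →* GL (Unit ⊕ κ) F where
  toFun M := ⟨fromBlocks 1 0 0 (M : Matrix κ κ F), fromBlocks 1 0 0 ((M⁻¹ : GL κ F) : Matrix κ κ F),
    by rw [fromBlocks_multiply]; simp, by rw [fromBlocks_multiply]; simp⟩
  map_one' := Units.ext (show fromBlocks _ _ _ _ = _ by simp)
  map_mul' M N := Units.ext (show fromBlocks _ _ _ _ = fromBlocks _ _ _ _ * fromBlocks _ _ _ _ by
    rw [fromBlocks_multiply]; simp)

theorem coe_embG (M : GL κ F) : ((embG M : GL₁) : Matrix (Unit ⊕ κ) (Unit ⊕ κ) F) =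
    fromBlocks 1 0 0 (M : Matrix κ κ F) := rfl

theorem det_embG (M : GL κ F) : ((embG M : GL₁) : Matrix (Unit ⊕ κ) (Unit ⊕ κ) F).det =
    (M : Matrix κ κ F).det := by
  rw [coe_embG, det_fromBlocks_zero₂₁, det_one, one_mul]

/-- The first torus. -/
def scalG : Fˣ →* GL (Unit ⊕ κ) F where
  toFun a := ⟨fromBlocks (Matrix.of fun _ _ => (a : F)) 0 0 1,
    fromBlocks (Matrix.of fun _ _ => ((a⁻¹ : Fˣ) : F)) 0 0 1,
    by rw [fromBlocks_multiply, ← fromBlocks_one]; congr 1 <;> first | (simp; done) | (ext i j; simp [Matrix.mul_apply]),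
    by rw [fromBlocks_multiply, ← fromBlocks_one]; congr 1 <;> first | (simp; done) | (ext i j; simp [Matrix.mul_apply])⟩
  map_one' := Units.ext (show fromBlocks _ _ _ _ = _ by
    rw [Units.val_one]; ext i j
    rcases i with i | i <;> rcases j with j | j <;> simp [Matrix.one_apply])
  map_mul' a b := Units.ext (show fromBlocks _ _ _ _ = fromBlocks _ _ _ _ * fromBlocks _ _ _ _ by
    rw [fromBlocks_multiply]; congr 1 <;> first | (simp; done) | (ext i j; simp [Matrix.mul_apply]))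

theorem coe_scalG (a : Fˣ) : ((scalG a : GL₁) : Matrix (Unit ⊕ κ) (Unit ⊕ κ) F) =
    fromBlocks (Matrix.of fun _ _ => (a : F)) 0 0 1 := rfl

theorem embG_mul_evG (M : GL κ F) (v : κ → F) :
    (embG M : GL₁) * evG v = evG (v ᵥ* ((M⁻¹ : GL κ F) : Matrix κ κ F)) * embG M := by
  apply Units.ext
  rw [Units.val_mul, Units.val_mul, coe_embG, coe_evG, coe_evG, fromBlocks_multiply, fromBlocks_multiply]
  congr 1 <;> try simp [-Matrix.coe_units_inv]
  rw [← Matrix.replicateRow_vecMul, Matrix.vecMul_vecMul, ← Units.val_mul, inv_mul_cancel,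
    Units.val_one, Matrix.vecMul_one]

theorem scalG_mul_evG (a : Fˣ) (v : κ → F) :
    (scalG a : GL₁) * evG v = evG ((a : F) • v) * scalG a := by
  apply Units.ext
  rw [Units.val_mul, Units.val_mul, coe_scalG, coe_evG, coe_evG, fromBlocks_multiply, fromBlocks_multiply]
  congr 1 <;> try simp
  ext i j
  simp [Matrix.mul_apply]

theorem scalG_comm_embG (a : Fˣ) (M : GL κ F) :
    (scalG a : GL₁) * embG M = embG M * scalG a := by
  apply Units.ext
  rw [Units.val_mul, Units.val_mul, coe_scalG, coe_embG, fromBlocks_multiply, fromBlocks_multiply]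
  congr 1 <;> simp

/-- Permutation matrices. -/
def permG {ι : Type} [Fintype ι] [DecidableEq ι] (σ : Equiv.Perm ι) : GL ι F :=
  ⟨Equiv.Perm.permMatrix F σ, Equiv.Perm.permMatrix F σ⁻¹,
    by rw [← Matrix.permMatrix_mul, inv_mul_cancel, Matrix.permMatrix_one],
    by rw [← Matrix.permMatrix_mul, mul_inv_cancel, Matrix.permMatrix_one]⟩

theorem permG_mul {ι : Type} [Fintype ι] [DecidableEq ι] (σ : Equiv.Perm ι) {i j : ι} (a : F) :
    ((permG σ : GL ι F) : Matrix ι ι F) * transvection (σ i) (σ j) a =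
      transvection i j a * ((permG σ : GL ι F) : Matrix ι ι F) := by
  show σ.toPEquiv.toMatrix * _ = _ * σ.toPEquiv.toMatrix
  rw [PEquiv.toMatrix_toPEquiv_mul, PEquiv.mul_toMatrix_toPEquiv]
  ext x y
  simp [transvection, Matrix.submatrix_apply, Matrix.one_apply, Matrix.single_apply, Equiv.eq_symm_apply]

/-- A vector fixed by all conjugates of the translations is fixed by `SL`. -/
theorem fixed_sl_of_conj [Nonempty κ] {k : ℕ} (R : GL₁ →* Matrix (Fin k) (Fin k) ℂ) (y : Fin k → ℂ)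
    (h : ∀ g v, R (g * evG v * g⁻¹) *ᵥ y = y) :
    ∀ g ∈ Set.range (Matrix.SpecialLinearGroup.toGL (n := Unit ⊕ κ) (R := F)), R g *ᵥ y = y := by
  rintro _ ⟨S, rfl⟩
  refine CfsgLib.Classical.Linear.sl_induction
    (P := fun S => R (Matrix.SpecialLinearGroup.toGL S) *ᵥ y = y) (by simp)
    (fun i j hij a => ?_) (fun A B hA hB => by rw [map_mul, R_mul_mulVec, hB, hA]) S
  obtain ⟨x0⟩ := ‹Nonempty κ›
  obtain ⟨σ, hσi, hσj⟩ := exists_perm_pair hij (show (Sum.inl () : Unit ⊕ κ) ≠ Sum.inr x0 by simp)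
  have e : Matrix.SpecialLinearGroup.toGL (Matrix.SpecialLinearGroup.transvection hij a) =
      permG σ * evG (Pi.single x0 a) * (permG σ)⁻¹ := by
    refine eq_mul_inv_of_mul_eq (Units.ext ?_)
    rw [Units.val_mul, Units.val_mul, coe_evG]
    have h1 : (fromBlocks 1 (replicateRow Unit (Pi.single x0 a)) 0 1 : Matrix (Unit ⊕ κ) (Unit ⊕ κ) F) =
        transvection (Sum.inl ()) (Sum.inr x0) a := by
      ext p q
      rcases p with p | p <;> rcases q with q | q <;>
        simp [transvection, Matrix.single_apply, Matrix.one_apply, replicateRow, Pi.single_apply, eq_comm]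
    rw [h1, ← hσi, ← hσj, permG_mul σ a]
    rfl
  rw [e]
  exact h _ _

variable {k : ℕ} (R : GL (Unit ⊕ κ) F →* Matrix (Fin k) (Fin k) ℂ) {ψ : AddChar F ℂ}

/-- The translations in the representation. -/
def evR (v : κ → F) : Matrix (Fin k) (Fin k) ℂ := R (evG v)

theorem evR_zero : evR R 0 = 1 := by rw [evR, evG_zero, map_one]

theorem evR_add (u v : κ → F) : evR R (u + v) = evR R u * evR R v := by
  rw [evR, evG_add, map_mul]; rfl

theorem embG_comm_weight (M : GL κ F) (w : κ → F) :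
    R (embG M) * weightProj (evR R) ψ w =
      weightProj (evR R) ψ ((M : Matrix κ κ F) *ᵥ w) * R (embG M) := by
  refine comm_weightProj
    { toFun := fun v => v ᵥ* ((M⁻¹ : GL κ F) : Matrix κ κ F)
      invFun := fun v => v ᵥ* (M : Matrix κ κ F)
      left_inv := fun v => by
        simp only [Matrix.vecMul_vecMul, ← Units.val_mul, inv_mul_cancel, Units.val_one, Matrix.vecMul_one]
      right_inv := fun v => by
        simp only [Matrix.vecMul_vecMul, ← Units.val_mul, mul_inv_cancel, Units.val_one, Matrix.vecMul_one] }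
    (fun v => ?_) (fun v => ?_)
  · rw [evR, evR, ← map_mul, ← map_mul, embG_mul_evG]; rfl
  · show (v ᵥ* _) ⬝ᵥ ((M : Matrix κ κ F) *ᵥ w) = _
    rw [Matrix.dotProduct_mulVec, Matrix.vecMul_vecMul, ← Units.val_mul, inv_mul_cancel, Units.val_one,
      Matrix.vecMul_one]

theorem scalG_comm_weight (a : Fˣ) (w : κ → F) :
    R (scalG a) * weightProj (evR R) ψ w =
      weightProj (evR R) ψ (((a⁻¹ : Fˣ) : F) • w) * R (scalG a) := by
  refine comm_weightProj
    { toFun := fun v => (a : F) • v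
      invFun := fun v => ((a⁻¹ : Fˣ) : F) • v
      left_inv := fun v => by simp [smul_smul]
      right_inv := fun v => by simp [smul_smul] }
    (fun v => ?_) (fun v => ?_)
  · rw [evR, evR, ← map_mul, ← map_mul, scalG_mul_evG]; rfl
  · show ((a : F) • v) ⬝ᵥ _ = _
    simp [smul_dotProduct, dotProduct_smul]

omit [DecidableEq F] in
theorem exists_gl_mulVec {v w : κ → F} (hv : v ≠ 0) (hw : w ≠ 0) :
    ∃ M : GL κ F, (M : Matrix κ κ F) *ᵥ v = w := by
  classical
  rcases Nat.lt_or_ge (Fintype.card κ) 2 with h | h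
  · haveI : Subsingleton κ := Fintype.card_le_one_iff_subsingleton.1 (by omega)
    obtain ⟨x, hx⟩ := Function.ne_iff.1 hv
    obtain ⟨x', hx'⟩ := Function.ne_iff.1 hw
    have hxx : x' = x := Subsingleton.elim _ _
    subst hxx
    refine ⟨GeneralLinearGroup.mkOfDetNeZero ((w x' / v x') • (1 : Matrix κ κ F)) ?_, ?_⟩
    · rw [Matrix.det_smul, Matrix.det_one, mul_one]
      exact pow_ne_zero _ (div_ne_zero hx' hx)
    · funext i
      obtain rfl : i = x' := Subsingleton.elim _ _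
      show ((_ • (1 : Matrix κ κ F)) *ᵥ v) i = _
      rw [Matrix.smul_mulVec, Matrix.one_mulVec, Pi.smul_apply, smul_eq_mul, div_mul_cancel₀ _ hx]
  · obtain ⟨S, hS⟩ := exists_sl_mulVec_eq h hv hw
    exact ⟨Matrix.SpecialLinearGroup.toGL S, hS⟩

variable {R}

/-- All nonzero weights have multiplicity one. -/
theorem weights_one [Nonempty κ] (hψ : ψ 1 ≠ 1) (hk : k ≠ 0)
    (hk2 : k < 2 * (Fintype.card F ^ Fintype.card κ - 1))
    (hnf : NoFix R (Set.range (Matrix.SpecialLinearGroup.toGL (n := Unit ⊕ κ) (R := F)))) :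
    (∀ w, w ≠ 0 → weightMult (evR R) ψ w = 1) ∧
      k = weightMult (evR R) ψ 0 + (Fintype.card F ^ Fintype.card κ - 1) := by
  classical
  set μ := weightMult (evR R) ψ
  obtain ⟨x0⟩ := ‹Nonempty κ›
  have hone : (Pi.single x0 1 : κ → F) ≠ 0 := fun h => one_ne_zero (show (1 : F) = 0 by simpa using congrFun h x0)
  set a := μ (Pi.single x0 1)
  have hconst : ∀ w, w ≠ 0 → μ w = a := fun w hw => by
    obtain ⟨M, rfl⟩ := exists_gl_mulVec hone hw
    exact (weightMult_eq_of_comm (evR_add R) hψ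
      (by rw [← map_mul, inv_mul_cancel, map_one] : R (embG M)⁻¹ * R (embG M) = 1)
      (embG_comm_weight R M _)).symm
  have hsum : k = μ 0 + (Fintype.card F ^ Fintype.card κ - 1) * a := by
    have h := sum_weightMult (R := evR R) (evR_zero R) (evR_add R) hψ
    rw [← Finset.add_sum_erase _ _ (Finset.mem_univ (0 : κ → F)),
      Finset.sum_congr rfl (g := fun _ => a) (fun w hw => hconst w (Finset.ne_of_mem_erase hw)),
      Finset.sum_const, Finset.card_erase_of_mem (Finset.mem_univ _), Finset.card_univ, Fintype.card_fun,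
      smul_eq_mul] at h
    exact h.symm
  have ha : a = 1 := by
    have ha2 : a < 2 := by
      by_contra h
      have := Nat.mul_le_mul_left (Fintype.card F ^ Fintype.card κ - 1) (Nat.le_of_not_lt h)
      omega
    by_contra hne
    have ha0 : a = 0 := by omega
    have hev : ∀ v, R (evG v) = 1 := eq_one_of_weightMult (evR_zero R) (evR_add R) hψ
      (fun w hw => (hconst w hw).trans ha0)
    set y : Fin k → ℂ := Pi.single ⟨0, Nat.pos_of_ne_zero hk⟩ 1 with hy
    have hy0 : y = 0 := hnf y (fixed_sl_of_conj R y fun g v => by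
      rw [map_mul, map_mul, hev, mul_one, ← map_mul, mul_inv_cancel, map_one, Matrix.one_mulVec])
    exact one_ne_zero (show (1 : ℂ) = 0 by simpa [hy] using congrFun hy0 ⟨0, Nat.pos_of_ne_zero hk⟩)
  exact ⟨fun w hw => (hconst w hw).trans ha, by rw [ha, mul_one] at hsum; exact hsum⟩

theorem schur_gl [Nonempty κ] (hψ : ψ 1 ≠ 1) (h1 : ∀ w, w ≠ 0 → weightMult (evR R) ψ w = 1)
    (hnf : NoFix R (Set.range (Matrix.SpecialLinearGroup.toGL (n := Unit ⊕ κ) (R := F)))) :
    Schur R := by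
  obtain ⟨x0⟩ := ‹Nonempty κ›
  refine schur_of_weights R evG (evR_add R) (evR_zero R) hψ
    ⟨Pi.single x0 1, fun h => one_ne_zero (show (1 : F) = 0 by simpa using congrFun h x0)⟩ h1 (fun w w' hw hw' => ?_)
    fun y hy => hnf y (fixed_sl_of_conj R y hy)
  obtain ⟨M, rfl⟩ := exists_gl_mulVec hw hw'
  exact ⟨_, embG_comm_weight R M w⟩

theorem trace_evG (hψ : ψ 1 ≠ 1) (h1 : ∀ w, w ≠ 0 → weightMult (evR R) ψ w = 1)
    (hsum : k = weightMult (evR R) ψ 0 + (Fintype.card F ^ Fintype.card κ - 1)) {v : κ → F} (hv : v ≠ 0) :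
    (R (evG v)).trace = (k : ℂ) - (Fintype.card F : ℂ) ^ Fintype.card κ := by
  classical
  have h := trace_apply (R := evR R) (evR_zero R) (evR_add R) hψ v
  rw [← Finset.add_sum_erase _ _ (Finset.mem_univ (0 : κ → F)),
    Finset.sum_congr rfl (g := fun w => ψ (v ⬝ᵥ w)) (fun w hw => by
      rw [h1 w (Finset.ne_of_mem_erase hw), Nat.cast_one, mul_one]),
    Finset.sum_erase_eq_sub (Finset.mem_univ _), sum_psi_pairing hψ, if_neg hv, dotProduct_zero,
    AddChar.map_zero_eq_one, one_mul] at h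
  show (evR R v).trace = _
  have hq : 1 ≤ Fintype.card F ^ Fintype.card κ := Nat.one_le_pow _ _ Fintype.card_pos
  rw [h]
  conv_rhs => rw [hsum, Nat.cast_add, Nat.cast_sub hq]
  push_cast
  ring

/-- A matrix of the form of a transvection. -/
def IsTvG (g : GL (Unit ⊕ κ) F) : Prop :=
  ∃ a f : Unit ⊕ κ → F, a ≠ 0 ∧ f ≠ 0 ∧ f ⬝ᵥ a = 0 ∧
    (g : Matrix (Unit ⊕ κ) (Unit ⊕ κ) F) = 1 + vecMulVec a f

theorem isTvG_conj (x : GL (Unit ⊕ κ) F) {g : GL (Unit ⊕ κ) F} (h : IsTvG g) : IsTvG (x * g * x⁻¹) := by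
  obtain ⟨a, f, ha, hf, hfa, hg⟩ := h
  refine ⟨(x : Matrix (Unit ⊕ κ) (Unit ⊕ κ) F) *ᵥ a,
    f ᵥ* ((x⁻¹ : GL₁) : Matrix (Unit ⊕ κ) (Unit ⊕ κ) F), fun h0 => ha ?_, fun h0 => hf ?_, ?_, ?_⟩
  · have := congrArg (((x⁻¹ : GL₁) : Matrix (Unit ⊕ κ) (Unit ⊕ κ) F) *ᵥ ·) h0
    simpa [Matrix.mulVec_mulVec, ← Units.val_mul, -Matrix.coe_units_inv] using this
  · have := congrArg (· ᵥ* (x : Matrix (Unit ⊕ κ) (Unit ⊕ κ) F)) h0
    simpa [Matrix.vecMul_vecMul, ← Units.val_mul, -Matrix.coe_units_inv] using this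
  · rw [Matrix.dotProduct_mulVec, Matrix.vecMul_vecMul, ← Units.val_mul, inv_mul_cancel, Units.val_one,
      Matrix.vecMul_one, hfa]
  · rw [Units.val_mul, Units.val_mul, hg, Matrix.mul_add, Matrix.mul_one, Matrix.add_mul, ← Units.val_mul,
      mul_inv_cancel, Units.val_one, Matrix.mul_vecMulVec, Matrix.vecMulVec_mul]

open scoped _root_.Classical in
/-- No representation of degree `[m]+1` lacks vectors fixed by `SL_m`. -/
theorem excl [Nonempty κ] (hq : 5 ≤ Fintype.card F) (hodd : Odd (Fintype.card F))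
    (hk : k = geomN (Fintype.card κ + 1) (Fintype.card F) + 1)
    (hnf : NoFix R (Set.range (Matrix.SpecialLinearGroup.toGL (n := Unit ⊕ κ) (R := F)))) : False := by
  obtain ⟨ψ, hψ⟩ : ∃ ψ : AddChar F ℂ, ψ 1 ≠ 1 :=
    AddChar.exists_apply_ne_zero.2 (one_ne_zero : (1 : F) ≠ 0)
  set q := Fintype.card F with hqdef
  set r := Fintype.card κ with hr
  have hr1 : 1 ≤ r := Fintype.card_pos
  have hgs := sub_one_mul_geomN (r + 1) (show 1 ≤ q by omega)
  have hgs0 := sub_one_mul_geomN r (show 1 ≤ q by omega)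
  have hsucc := geomN_succ r q
  have hkey : geomN r q + 3 < q ^ r := by
    have h4 : 4 * geomN r q + 1 ≤ q ^ r := by
      rw [← hgs0]; exact Nat.add_le_add_right (Nat.mul_le_mul_right _ (by omega)) _
    have : q ≤ q ^ r := Nat.le_self_pow (by omega) q
    have := le_geomN r (show 1 ≤ q by omega)
    omega
  obtain ⟨h1, hsum⟩ := weights_one hψ (show k ≠ 0 by omega) (by rw [← hqdef, ← hr]; omega) hnf
  have hs := schur_gl hψ h1 hnf
  set T := (Finset.univ : Finset GL₁).filter IsTvG with hT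
  have hTcard : T.card = (tvSet F (Unit ⊕ κ)).card := by
    rw [hT, tvSet, ← Finset.card_image_of_injective _ (Matrix.SpecialLinearGroup.toGL_injective
      (n := Unit ⊕ κ) (R := F))]
    congr 1
    ext g
    simp only [Finset.mem_filter, Finset.mem_univ, true_and, Finset.mem_image]
    constructor
    · rintro ⟨a, f, ha, hf, hfa, hg⟩
      have hd : (g : Matrix (Unit ⊕ κ) (Unit ⊕ κ) F).det = 1 := by
        rw [hg, Matrix.vecMulVec_eq Unit, Matrix.det_one_add_replicateCol_mul_replicateRow, hfa, add_zero]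
      exact ⟨⟨(g : Matrix (Unit ⊕ κ) (Unit ⊕ κ) F), hd⟩, ⟨a, f, ha, hf, hfa, hg⟩, Units.ext rfl⟩
    · rintro ⟨S, ⟨a, f, ha, hf, hfa, hg⟩, rfl⟩
      exact ⟨a, f, ha, hf, hfa, hg⟩
  have hval : ∀ g ∈ T, (R g).trace = (k : ℂ) - (q : ℂ) ^ r := by
    intro g hg
    obtain ⟨a, f, ha, hf, hfa, hgeq⟩ := (Finset.mem_filter.1 hg).2
    have hone : (Pi.single (Sum.inl ()) 1 : Unit ⊕ κ → F) ≠ 0 :=
      fun h => one_ne_zero (show (1 : F) = 0 by simpa using congrFun h (Sum.inl ()))
    obtain ⟨K, hK⟩ := exists_gl_mulVec hone ha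
    set f' := f ᵥ* (K : Matrix (Unit ⊕ κ) (Unit ⊕ κ) F) with hf'
    have hf'0 : f' (Sum.inl ()) = 0 := by
      rw [← hfa, ← hK, Matrix.dotProduct_mulVec, dotProduct_single, mul_one]
    have hfne : f' ∘ Sum.inr ≠ 0 := by
      intro h0
      refine hf ?_
      have : f' = 0 := by
        funext i
        rcases i with i | i
        · exact hf'0
        · exact congrFun h0 i
      have e := congrArg (· ᵥ* ((K⁻¹ : GL₁) : Matrix (Unit ⊕ κ) (Unit ⊕ κ) F)) this
      simpa [hf', Matrix.vecMul_vecMul, ← Units.val_mul, -Matrix.coe_units_inv] using e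
    have hge : g = K * evG (f' ∘ Sum.inr) * K⁻¹ := by
      refine eq_mul_inv_of_mul_eq (Units.ext ?_)
      rw [Units.val_mul, Units.val_mul, hgeq, coe_evG, Matrix.add_mul, Matrix.one_mul, Matrix.vecMulVec_mul,
        ← hK, ← hf', show (fromBlocks 1 (replicateRow Unit (f' ∘ Sum.inr)) 0 1 :
          Matrix (Unit ⊕ κ) (Unit ⊕ κ) F) = 1 + vecMulVec (Pi.single (Sum.inl ()) 1) f' from ?_,
        Matrix.mul_add, Matrix.mul_one, Matrix.mul_vecMulVec]
      ext p p'
      rcases p with p | p <;> rcases p' with p' | p' <;>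
        simp [Matrix.one_apply, vecMulVec_apply, replicateRow, hf'0]
    rw [hge, map_mul, Matrix.trace_mul_comm, ← map_mul, ← mul_assoc, inv_mul_cancel, one_mul,
      trace_evG hψ h1 hsum hfne]
  set S := ∑ g ∈ T, R g with hS
  obtain ⟨c, hc⟩ := hs S (fun x => by
    rw [hS, Finset.mul_sum, Finset.sum_mul]
    refine Finset.sum_equiv ((MulAut.conj x⁻¹).toEquiv) (fun g => ?_) (fun g _ => ?_)
    · simp only [hT, Finset.mem_filter, Finset.mem_univ, true_and, MulEquiv.toEquiv_eq_coe,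
        MulEquiv.coe_toEquiv, MulAut.conj_apply, inv_inv]
      refine ⟨fun h => ?_, fun h => ?_⟩
      · simpa using isTvG_conj x⁻¹ h
      · simpa [mul_assoc] using isTvG_conj x h
    · simp only [MulEquiv.toEquiv_eq_coe, MulEquiv.coe_toEquiv, MulAut.conj_apply, inv_inv]
      rw [← map_mul, ← map_mul]
      congr 1
      group)
  have hck : c * k = (T.card : ℂ) * ((k : ℂ) - (q : ℂ) ^ r) := by
    have h := congrArg Matrix.trace hc
    rw [hS, Matrix.trace_sum, Finset.sum_congr rfl hval, Finset.sum_const, nsmul_eq_mul, Matrix.trace_smul,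
      Matrix.trace_one, Fintype.card_fin, smul_eq_mul] at h
    exact h.symm
  have hint : IsIntegral ℤ c := by
    haveI : Nonempty (Fin k) := ⟨⟨0, by omega⟩⟩
    have hx : IsIntegral ℤ (∑ g ∈ T, MonoidAlgebra.single g (1 : ℤ)) := IsIntegral.of_finite ℤ _
    have h := hx.map (MonoidAlgebra.lift ℤ (Matrix (Fin k) (Fin k) ℂ) GL₁ R)
    rw [map_sum] at h
    simp only [MonoidAlgebra.lift_single, one_smul] at h
    rw [← hS, hc, ← Algebra.algebraMap_eq_smul_one] at h
    exact (isIntegral_algebraMap_iff (algebraMap ℂ (Matrix (Fin k) (Fin k) ℂ)).injective).1 h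
  have hrat : c = algebraMap ℚ ℂ ((T.card : ℚ) * ((k : ℚ) - (q : ℚ) ^ r) / k) := by
    have hk0 : (k : ℂ) ≠ 0 := Nat.cast_ne_zero.2 (by omega)
    simp only [map_div₀, map_mul, map_sub, map_pow, map_natCast]
    rw [eq_div_iff hk0, hck]
  obtain ⟨z, hz⟩ := IsIntegrallyClosed.isIntegral_iff.1
    ((isIntegral_algebraMap_iff (algebraMap ℚ ℂ).injective).1 (hrat ▸ hint))
  have hzk : z * (k : ℤ) = (T.card : ℤ) * ((k : ℤ) - (q : ℤ) ^ r) := by
    have hk0 : (k : ℚ) ≠ 0 := Nat.cast_ne_zero.2 (by omega)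
    rw [eq_div_iff hk0, eq_intCast] at hz
    exact_mod_cast hz
  have hdvd : k ∣ T.card * q ^ r := by
    rw [← Int.natCast_dvd_natCast]
    refine ⟨(T.card : ℤ) - z, ?_⟩
    push_cast
    linear_combination hzk
  have hTc : T.card = geomN (r + 1) q * (q ^ r - 1) := by
    have h := card_tvSet (F := F) (ι := Unit ⊕ κ) (r + 1) (by simp [hr, add_comm]) (by omega)
    rw [show r + 1 - 1 = r by omega, ← hqdef, show q ^ (r + 1) - 1 = (q - 1) * geomN (r + 1) q by omega,
      mul_assoc, ← hTcard] at h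
    exact Nat.eq_of_mul_eq_mul_left (by omega) h
  rw [hTc] at hdvd
  have hcop1 : Nat.Coprime k (geomN (r + 1) q) := by
    rw [hk, Nat.coprime_self_add_left]; exact Nat.coprime_one_left _
  have hcop2 : Nat.Coprime k q := by
    have hmod : geomN (r + 1) q = 1 + q * geomN r q := geomN_succ' r q
    rw [hk, hmod, show 1 + q * geomN r q + 1 = 2 + geomN r q * q by ring, Nat.coprime_add_mul_right_left]
    exact (Nat.prime_two.coprime_iff_not_dvd).2 hodd.not_two_dvd_nat
  have h2 : k ∣ q ^ r - 1 :=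
    hcop1.dvd_of_dvd_mul_left ((hcop2.pow_right r).dvd_of_dvd_mul_right hdvd)
  have := Nat.le_of_dvd (by omega) h2
  omega

end CfsgLib.OrthOddDeg
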