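import Cfsg.Agent.OrthOddDeg.GL

/-!
A representation of `GL_m(q)` of degree `(q^m-1)/(q-1)` without vectors fixed by `SL_m` is induced
from a nontrivial character of the stabiliser of a line.
-/

set_option autoImplicit false
set_option linter.unusedSectionVars false
set_option linter.style.haveILetI false

noncomputable section

namespace CfsgLib.OrthOddDeg

open Matrix CfsgLib.OrthPlusDeg CfsgLib.SlMinDegree
open scoped MatrixGroups _root_.Classical

variable {F : Type*} [Field F] [Fintype F]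

/-- A character of the units, zero at zero. -/
def extHom (θ : Fˣ →* ℂ) : F →* ℂ where
  toFun x := if h : x = 0 then 0 else θ (Units.mk0 x h)
  map_one' := by rw [dif_neg one_ne_zero, Units.mk0_one, map_one]
  map_mul' x y := by
    by_cases hx : x = 0
    · simp [hx]
    by_cases hy : y = 0
    · simp [hy]
    rw [dif_neg (mul_ne_zero hx hy), dif_neg hx, dif_neg hy, ← map_mul, Units.mk0_mul]

theorem extHom_coe (θ : Fˣ →* ℂ) (a : Fˣ) : extHom θ (a : F) = θ a := by
  show (if h : (a : F) = 0 then 0 else θ (Units.mk0 (a : F) h)) = θ a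
  rw [dif_neg a.ne_zero, Units.mk0_val]

theorem extHom_ne_zero (θ : Fˣ →* ℂ) {x : F} (hx : x ≠ 0) : extHom θ x ≠ 0 := by
  intro h
  have := map_mul (extHom θ) x x⁻¹
  rw [mul_inv_cancel₀ hx, map_one, h, zero_mul] at this
  exact one_ne_zero this

variable {G : Type*} [Group G] {k : ℕ}

/-- An eigenvector of a generator of a cyclic torus is an eigenvector of the torus. -/
theorem exists_eigen_hom {T : Type*} [Group T] [Finite T] [IsCyclic T] (R : G →* Matrix (Fin k) (Fin k) ℂ)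
    (f : T →* G) {w : Fin k → ℂ} (hw : w ≠ 0) {γ : T} (hγ : ∀ a, a ∈ Submonoid.powers γ) {c : ℂ}
    (hc : R (f γ) *ᵥ w = c • w) : ∃ θ : T →* ℂ, ∀ a, R (f a) *ᵥ w = θ a • w := by
  have hall : ∀ a, ∃ c : ℂ, R (f a) *ᵥ w = c • w := by
    intro a
    obtain ⟨n, rfl⟩ := hγ a
    refine ⟨c ^ n, ?_⟩
    show R (f (γ ^ n)) *ᵥ w = _
    induction n with
    | zero => rw [pow_zero, map_one, map_one, Matrix.one_mulVec, pow_zero, one_smul]
    | succ m ih =>
      rw [pow_succ, map_mul, R_mul_mulVec, hc, Matrix.mulVec_smul, ih, smul_smul, pow_succ']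
  choose θ hθ using hall
  exact ⟨{ toFun := θ
           map_one' := smul_left_injective ℂ hw (by
             show θ 1 • w = (1 : ℂ) • w
             rw [← hθ, map_one, map_one, Matrix.one_mulVec, one_smul])
           map_mul' := fun a b => smul_left_injective ℂ hw (by
             show θ (a * b) • w = (θ a * θ b) • w
             rw [← hθ, map_mul, R_mul_mulVec, hθ, Matrix.mulVec_smul, hθ, smul_smul, mul_comm]) },
    hθ⟩

theorem exists_units_generator (F : Type*) [Field F] [Fintype F] :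
    ∃ γ : Fˣ, ∀ a : Fˣ, a ∈ Submonoid.powers γ := by
  obtain ⟨γ, hγ⟩ := IsCyclic.exists_generator (α := Fˣ)
  exact ⟨γ, fun a => mem_powers_iff_mem_zpowers.2 (hγ a)⟩

variable [DecidableEq F]

/-- Reindexing of the general linear group. -/
def glCongr {ι ι' : Type} [Fintype ι] [DecidableEq ι] [Fintype ι'] [DecidableEq ι'] (e : ι ≃ ι') :
    GL ι F ≃* GL ι' F :=
  Units.mapEquiv (Matrix.reindexAlgEquiv F F e).toMulEquiv

theorem det_glCongr {ι ι' : Type} [Fintype ι] [DecidableEq ι] [Fintype ι'] [DecidableEq ι'] (e : ι ≃ ι')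
    (M : GL ι F) : ((glCongr e M : GL ι' F) : Matrix ι' ι' F).det = (M : Matrix ι ι F).det :=
  Matrix.det_reindex_self e _

theorem mem_range_toGL {ι : Type} [Fintype ι] [DecidableEq ι] {g : GL ι F} :
    g ∈ Set.range (Matrix.SpecialLinearGroup.toGL (n := ι) (R := F)) ↔
      (g : Matrix ι ι F).det = 1 := by
  constructor
  · rintro ⟨S, rfl⟩; exact S.2
  · intro h; exact ⟨⟨(g : Matrix ι ι F), h⟩, Units.ext rfl⟩

variable {κ : Type} [Fintype κ] [DecidableEq κ]

local notation "GL₁" => GL (Unit ⊕ κ) F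
local notation "e₁" => (Pi.single (Sum.inl ()) 1 : Unit ⊕ κ → F)

/-- The stabiliser of the first line. -/
def lineStab : Subgroup (GL (Unit ⊕ κ) F) where
  carrier := {g | ∃ c : F, (g : Matrix (Unit ⊕ κ) (Unit ⊕ κ) F) *ᵥ e₁ = c • e₁}
  mul_mem' {a b} := by
    rintro ⟨c, hc⟩ ⟨d, hd⟩
    exact ⟨d * c, by rw [Units.val_mul, ← Matrix.mulVec_mulVec, hd, Matrix.mulVec_smul, hc, smul_smul]⟩
  one_mem' := ⟨1, by rw [Units.val_one, Matrix.one_mulVec, one_smul]⟩
  inv_mem' {a} := by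
    rintro ⟨c, hc⟩
    have h := congrArg (((a⁻¹ : GL₁) : Matrix (Unit ⊕ κ) (Unit ⊕ κ) F) *ᵥ ·) hc
    simp only [Matrix.mulVec_mulVec, Matrix.mulVec_smul, ← Units.val_mul, inv_mul_cancel, Units.val_one,
      Matrix.one_mulVec] at h
    have hc0 : c ≠ 0 := by
      rintro rfl
      rw [zero_smul] at h
      exact one_ne_zero (show (1 : F) = 0 by simpa using congrFun h (Sum.inl ()))
    refine ⟨c⁻¹, ?_⟩
    conv_rhs => rw [h]
    rw [smul_smul, inv_mul_cancel₀ hc0, one_smul]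

theorem mem_lineStab {g : GL₁} : g ∈ lineStab ↔
    ∃ c : F, (g : Matrix (Unit ⊕ κ) (Unit ⊕ κ) F) *ᵥ e₁ = c • e₁ := Iff.rfl

theorem eq_apply_of_mulVec {g : GL₁} {c : F}
    (h : (g : Matrix (Unit ⊕ κ) (Unit ⊕ κ) F) *ᵥ e₁ = c • e₁) :
    (g : Matrix (Unit ⊕ κ) (Unit ⊕ κ) F) (Sum.inl ()) (Sum.inl ()) = c := by
  have := congrFun h (Sum.inl ())
  simpa [Matrix.mulVec_single_one] using this

theorem lineStab_decomp {g : GL₁} (hg : g ∈ lineStab) :
    ∃ (a : Fˣ) (v : κ → F) (M : GL κ F), g = scalG a * evG v * embG M ∧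
      (a : F) = (g : Matrix (Unit ⊕ κ) (Unit ⊕ κ) F) (Sum.inl ()) (Sum.inl ()) ∧
      (g : Matrix (Unit ⊕ κ) (Unit ⊕ κ) F).det = (a : F) * (M : Matrix κ κ F).det := by
  obtain ⟨c, hc⟩ := hg
  set G0 := (g : Matrix (Unit ⊕ κ) (Unit ⊕ κ) F) with hG0
  have hcol : ∀ i, G0 (Sum.inr i) (Sum.inl ()) = 0 := fun i => by
    have := congrFun hc (Sum.inr i)
    simpa [Matrix.mulVec_single_one] using this
  have h00 := eq_apply_of_mulVec hc
  have hblock : G0 = fromBlocks (Matrix.of fun _ _ => c) (G0.toBlocks₁₂) 0 G0.toBlocks₂₂ := by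
    conv_lhs => rw [← fromBlocks_toBlocks G0]
    congr 1
    · ext ⟨⟩ ⟨⟩; exact h00
    · ext i ⟨⟩; exact hcol i
  have hdet : G0.det = c * G0.toBlocks₂₂.det := by
    conv_lhs => rw [hblock]
    rw [det_fromBlocks_zero₂₁, Matrix.det_unique, Matrix.of_apply]
  have hne : c * G0.toBlocks₂₂.det ≠ 0 := hdet ▸ g.det_ne_zero
  set M := GeneralLinearGroup.mkOfDetNeZero G0.toBlocks₂₂ (right_ne_zero_of_mul hne)
  refine ⟨Units.mk0 c (left_ne_zero_of_mul hne),
    (fun j => c⁻¹ * G0 (Sum.inl ()) (Sum.inr j)) ᵥ* ((M⁻¹ : GL κ F) : Matrix κ κ F), M, ?_, h00.symm,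
    hdet⟩
  apply Units.ext
  rw [Units.val_mul, Units.val_mul, coe_scalG, coe_evG, coe_embG, fromBlocks_multiply, fromBlocks_multiply]
  conv_lhs => rw [← hG0, hblock]
  congr 1
  · simp
  · rw [Matrix.mul_zero, zero_add, Matrix.zero_mul, add_zero, Matrix.mul_assoc]
    ext ⟨⟩ j
    have hv : ((fun j => c⁻¹ * G0 (Sum.inl ()) (Sum.inr j)) ᵥ* ((M⁻¹ : GL κ F) : Matrix κ κ F)) ᵥ*
        (M : Matrix κ κ F) = fun j => c⁻¹ * G0 (Sum.inl ()) (Sum.inr j) := by
      rw [Matrix.vecMul_vecMul, ← Units.val_mul, inv_mul_cancel, Units.val_one, Matrix.vecMul_one]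
    rw [← Matrix.replicateRow_vecMul, hv]
    simp [Matrix.mul_apply, left_ne_zero_of_mul hne, toBlocks₁₂]
  · simp
  · simp [M]

/-- Every vector off the first line is moved to every other by the stabiliser of the line. -/
theorem exists_lineStab_map {v v' : Unit ⊕ κ → F} (hv : ∀ c : F, v ≠ c • e₁) (hv' : ∀ c : F, v' ≠ c • e₁) :
    ∃ h : GL₁, h ∈ lineStab ∧ (h : Matrix (Unit ⊕ κ) (Unit ⊕ κ) F) *ᵥ v = v' := by
  have key : ∀ u : Unit ⊕ κ → F, (∀ c : F, u ≠ c • e₁) → u ∘ Sum.inr ≠ 0 := by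
    intro u hu h
    refine hu (u (Sum.inl ())) (funext fun i => ?_)
    rcases i with i | i
    · simp
    · simpa using congrFun h i
  obtain ⟨M, hM⟩ := exists_gl_mulVec (key v hv) (key v' hv')
  obtain ⟨x, hx⟩ := Function.ne_iff.1 (key v' hv')
  refine ⟨evG (Pi.single x ((v' (Sum.inl ()) - v (Sum.inl ())) / v' (Sum.inr x))) * embG M, ⟨1, ?_⟩, ?_⟩
  · rw [Units.val_mul, coe_evG, coe_embG, fromBlocks_multiply, fromBlocks_mulVec, one_smul]
    funext i
    rcases i with i | i <;> simp [Function.comp_def, dotProduct, Matrix.mulVec]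
  · rw [Units.val_mul, ← Matrix.mulVec_mulVec, coe_evG, coe_embG, fromBlocks_mulVec, fromBlocks_mulVec]
    funext i
    rcases i with i | i
    · simp only [Sum.elim_comp_inl, Sum.elim_comp_inr, Sum.elim_inl, Matrix.one_mulVec, Pi.add_apply,
        Matrix.zero_mulVec, add_zero, zero_add, hM]
      have e : (replicateRow Unit (Pi.single x ((v' (Sum.inl ()) - v (Sum.inl ())) / v' (Sum.inr x))) *ᵥ
          (v' ∘ Sum.inr)) i = (v' (Sum.inl ()) - v (Sum.inl ())) := by
        show Pi.single x _ ⬝ᵥ (v' ∘ Sum.inr) = _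
        rw [single_dotProduct]
        exact div_mul_cancel₀ _ hx
      rw [e]
      simp
    · simp only [Sum.elim_comp_inl, Sum.elim_comp_inr, Sum.elim_inr, Matrix.one_mulVec, Pi.add_apply,
        Matrix.zero_mulVec, zero_add, hM]
      rfl

/-- The number of group elements moving the first vector to a given one does not depend on it. -/
theorem card_fibre {v : Unit ⊕ κ → F} (hv : v ≠ 0) :
    ((Finset.univ : Finset GL₁).filter fun g : GL₁ => (g : Matrix (Unit ⊕ κ) (Unit ⊕ κ) F) *ᵥ e₁ = v).card =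
      ((Finset.univ : Finset GL₁).filter fun g : GL₁ => (g : Matrix (Unit ⊕ κ) (Unit ⊕ κ) F) *ᵥ e₁ = e₁).card := by
  obtain ⟨K, hK⟩ := exists_gl_mulVec
    (show e₁ ≠ 0 from fun h => one_ne_zero (show (1 : F) = 0 by simpa using congrFun h (Sum.inl ()))) hv
  refine Finset.card_equiv (Equiv.mulLeft ((K⁻¹ : GL₁))) fun g => ?_
  simp only [Finset.mem_filter, Finset.mem_univ, true_and, Equiv.coe_mulLeft, Units.val_mul,
    ← Matrix.mulVec_mulVec]
  constructor
  · intro h
    rw [h, ← hK, Matrix.mulVec_mulVec, ← Units.val_mul, inv_mul_cancel, Units.val_one, Matrix.one_mulVec]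
  · intro h
    have := congrArg ((K : Matrix (Unit ⊕ κ) (Unit ⊕ κ) F) *ᵥ ·) h
    simpa [Matrix.mulVec_mulVec, ← Units.val_mul, hK, -Matrix.coe_units_inv] using this

theorem sum_fibre {M : Type*} [AddCommMonoid M] (f : (Unit ⊕ κ → F) → M) :
    ∑ g : GL₁, f ((g : Matrix (Unit ⊕ κ) (Unit ⊕ κ) F) *ᵥ e₁) =
      ((Finset.univ : Finset GL₁).filter fun g : GL₁ => (g : Matrix (Unit ⊕ κ) (Unit ⊕ κ) F) *ᵥ e₁ = e₁).card •
        ∑ v ∈ (Finset.univ : Finset (Unit ⊕ κ → F)).erase 0, f v := by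
  rw [Finset.smul_sum, ← Finset.sum_fiberwise_of_maps_to
    (t := (Finset.univ : Finset (Unit ⊕ κ → F)).erase 0)
    (g := fun g : GL₁ => (g : Matrix (Unit ⊕ κ) (Unit ⊕ κ) F) *ᵥ e₁)]
  · refine Finset.sum_congr rfl fun v hv => ?_
    rw [Finset.sum_congr rfl (g := fun _ => f v) (fun g hg => by rw [(Finset.mem_filter.1 hg).2]),
      Finset.sum_const, card_fibre (Finset.ne_of_mem_erase hv)]
  · intro g _
    refine Finset.mem_erase.2 ⟨fun h => ?_, Finset.mem_univ _⟩
    have := congrArg (((g⁻¹ : GL₁) : Matrix (Unit ⊕ κ) (Unit ⊕ κ) F) *ᵥ ·) h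
    simp only [Matrix.mulVec_mulVec, ← Units.val_mul, inv_mul_cancel, Units.val_one, Matrix.one_mulVec,
      Matrix.mulVec_zero] at this
    exact one_ne_zero (show (1 : F) = 0 by simpa using congrFun this (Sum.inl ()))

variable {R : GL (Unit ⊕ κ) F →* Matrix (Fin k) (Fin k) ℂ}

/-- A vector fixed by the translations and by the small `SL`. -/
theorem exists_fixed_vector [Nonempty κ] (hq : 5 ≤ Fintype.card F) (hodd : Odd (Fintype.card F))
    {ψ : AddChar F ℂ} (hψ : ψ 1 ≠ 1) (hk : k = geomN (Fintype.card κ + 1) (Fintype.card F))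
    (hsum : k = weightMult (evR R) ψ 0 + (Fintype.card F ^ Fintype.card κ - 1)) :
    ∃ y : Fin k → ℂ, y ≠ 0 ∧ (∀ v, R (evG v) *ᵥ y = y) ∧
      ∀ M : GL κ F, (M : Matrix κ κ F).det = 1 → R (embG M) *ᵥ y = y := by
  set D := weightMult (evR R) ψ 0 with hDdef
  have hD : D = geomN (Fintype.card κ) (Fintype.card F) + 1 := by
    have h1 := geomN_succ (Fintype.card κ) (Fintype.card F)
    have : 1 ≤ Fintype.card F ^ Fintype.card κ := Nat.one_le_pow _ _ (by omega)
    omega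
  set P := weightProj (evR R) ψ 0
  have hcomm : ∀ M : GL κ F, R (embG M) * P = P * R (embG M) := fun M => by
    have := embG_comm_weight R (ψ := ψ) M 0
    rwa [Matrix.mulVec_zero] at this
  obtain ⟨A, B, φ, hAB, hBA, hφ⟩ := exists_compress R embG (weightProj_idem (evR_add R) hψ 0)
    (trace_weightProj (evR_add R) hψ 0) hcomm
  obtain ⟨y, hy, hy0⟩ : ∃ y : Fin D → ℂ, (∀ M : GL κ F, (M : Matrix κ κ F).det = 1 → φ M *ᵥ y = y) ∧
      y ≠ 0 := by
    rcases Nat.lt_or_ge (Fintype.card κ) 2 with h2 | h2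
    · haveI : Subsingleton κ := Fintype.card_le_one_iff_subsingleton.1 (by omega)
      refine ⟨fun _ => 1, fun M hM => ?_, fun h => ?_⟩
      · have : M = 1 := by
          refine Units.ext (Matrix.ext fun i j => ?_)
          obtain rfl : j = i := Subsingleton.elim _ _
          rw [Units.val_one, Matrix.one_apply_eq, ← hM, Matrix.det_eq_elem_of_subsingleton _ j]
        rw [this, map_one, Matrix.one_mulVec]
      · exact one_ne_zero (show (1 : ℂ) = 0 from congrFun h ⟨0, by omega⟩)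
    · by_contra hc
      push Not at hc
      obtain ⟨e⟩ : Nonempty (κ ≃ Unit ⊕ Fin (Fintype.card κ - 1)) :=
        ⟨Fintype.equivOfCardEq (by simp; omega)⟩
      haveI : Nonempty (Fin (Fintype.card κ - 1)) := ⟨⟨0, by omega⟩⟩
      refine excl (R := φ.comp (glCongr e).symm.toMonoidHom) hq hodd ?_ fun y hy => ?_
      · rw [← hDdef, hD, Fintype.card_fin, Nat.sub_add_cancel (by omega)]
      · refine hc y fun M hM => ?_
        have := hy (glCongr e M) (mem_range_toGL.2 (by rw [det_glCongr, hM]))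
        simpa using this
  refine ⟨A *ᵥ y, fun h => hy0 ?_, fun v => ?_, fun M hM => ?_⟩
  · have := congrArg (B *ᵥ ·) h
    rwa [Matrix.mulVec_mulVec, hBA, Matrix.one_mulVec, Matrix.mulVec_zero] at this
  · have e : A *ᵥ y = P *ᵥ (A *ᵥ y) := by
      rw [Matrix.mulVec_mulVec, show P = A * B from hAB.symm, Matrix.mul_assoc, hBA, Matrix.mul_one]
    rw [e]
    exact apply_mulVec_weightProj_zero (S := evR R) (evR_add R) hψ v _
  · rw [compress_mulVec R embG (fun x => (hφ x).2.1), hy M hM]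

/-- The value of the inducing character at an eigenvalue. -/
def eigTerm (α β : Fˣ →* ℂ) (x : GL (Unit ⊕ κ) F) (v : Unit ⊕ κ → F) : ℂ :=
  if h : ∃ c : F, (x : Matrix (Unit ⊕ κ) (Unit ⊕ κ) F) *ᵥ v = c • v then
    extHom α h.choose * extHom β (x : Matrix (Unit ⊕ κ) (Unit ⊕ κ) F).det
  else 0

theorem eigTerm_of_eigen (α β : Fˣ →* ℂ) {x : GL₁} {v : Unit ⊕ κ → F} (hv : v ≠ 0) {c : F}
    (h : (x : Matrix (Unit ⊕ κ) (Unit ⊕ κ) F) *ᵥ v = c • v) :
    eigTerm α β x v = extHom α c * extHom β (x : Matrix (Unit ⊕ κ) (Unit ⊕ κ) F).det := by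
  have hex : ∃ c : F, (x : Matrix (Unit ⊕ κ) (Unit ⊕ κ) F) *ᵥ v = c • v := ⟨c, h⟩
  rw [eigTerm, dif_pos hex, smul_left_injective F hv (hex.choose_spec.symm.trans h)]

theorem eigTerm_of_not (α β : Fˣ →* ℂ) {x : GL₁} {v : Unit ⊕ κ → F}
    (h : ∀ c : F, (x : Matrix (Unit ⊕ κ) (Unit ⊕ κ) F) *ᵥ v ≠ c • v) : eigTerm α β x v = 0 := by
  rw [eigTerm, dif_neg (fun ⟨c, hc⟩ => h c hc)]

/-- The character of the line stabiliser. -/
def stabChar (α β : Fˣ →* ℂ) (g : GL (Unit ⊕ κ) F) : ℂ :=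
  extHom α ((g : Matrix (Unit ⊕ κ) (Unit ⊕ κ) F) (Sum.inl ()) (Sum.inl ())) *
    extHom β (g : Matrix (Unit ⊕ κ) (Unit ⊕ κ) F).det

/-- An eigenvector of the line stabiliser. -/
theorem exists_line_eigen [Nonempty κ] {y : Fin k → ℂ} (hy0 : y ≠ 0) (hev : ∀ v, R (evG v) *ᵥ y = y)
    (hsl : ∀ M : GL κ F, (M : Matrix κ κ F).det = 1 → R (embG M) *ᵥ y = y) :
    ∃ (w : Fin k → ℂ) (α β : Fˣ →* ℂ), w ≠ 0 ∧ ∀ g ∈ lineStab, R g *ᵥ w = stabChar α β g • w := by
  obtain ⟨γ, hγ⟩ := exists_units_generator F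
  obtain ⟨x0⟩ := ‹Nonempty κ›
  let D : Fˣ →* GL κ F :=
    { toFun := fun a => GeneralLinearGroup.mkOfDetNeZero
        (Matrix.diagonal (Function.update (1 : κ → F) x0 (a : F))) (by
          rw [det_diagonal, Finset.prod_update_of_mem (Finset.mem_univ x0)]; simp)
      map_one' := Units.ext (show Matrix.diagonal _ = (1 : Matrix κ κ F) by
        rw [← Matrix.diagonal_one]; congr 1; funext i
        by_cases hi : i = x0 <;> simp [hi])
      map_mul' := fun a b => Units.ext (show Matrix.diagonal _ = Matrix.diagonal _ * Matrix.diagonal _ by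
        rw [Matrix.diagonal_mul_diagonal]; congr 1; funext i
        by_cases hi : i = x0 <;> simp [hi]) }
  have hdetD : ∀ a : Fˣ, ((D a : GL κ F) : Matrix κ κ F).det = (a : F) := fun a => by
    show (Matrix.diagonal (Function.update (1 : κ → F) x0 (a : F))).det = _
    rw [det_diagonal, Finset.prod_update_of_mem (Finset.mem_univ x0)]; simp
  let U : Submodule ℂ (Fin k → ℂ) :=
    { carrier := {z | (∀ v, R (evG v) *ᵥ z = z) ∧
        ∀ M : GL κ F, (M : Matrix κ κ F).det = 1 → R (embG M) *ᵥ z = z}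
      add_mem' := fun {a b} ha hb => ⟨fun v => by rw [Matrix.mulVec_add, ha.1, hb.1],
        fun M hM => by rw [Matrix.mulVec_add, ha.2 M hM, hb.2 M hM]⟩
      zero_mem' := ⟨fun v => Matrix.mulVec_zero _, fun M _ => Matrix.mulVec_zero _⟩
      smul_mem' := fun c {a} ha => ⟨fun v => by rw [Matrix.mulVec_smul, ha.1],
        fun M hM => by rw [Matrix.mulVec_smul, ha.2 M hM]⟩ }
  have hU : U ≠ ⊥ := fun h => hy0 (by
    have : y ∈ U := ⟨hev, hsl⟩
    rwa [h, Submodule.mem_bot] at this)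
  have hUinv : ∀ z ∈ U, ∀ M : GL κ F, R (embG M) *ᵥ z ∈ U := by
    rintro z ⟨h1, h2⟩ M
    refine ⟨fun v => ?_, fun S hS => ?_⟩
    · have e : evG v * embG M = embG M * evG (v ᵥ* (M : Matrix κ κ F)) := by
        rw [embG_mul_evG, Matrix.vecMul_vecMul, ← Units.val_mul, mul_inv_cancel, Units.val_one,
          Matrix.vecMul_one]
      rw [← R_mul_mulVec, e, R_mul_mulVec, h1]
    · rw [← R_mul_mulVec, ← map_mul, show S * M = M * (M⁻¹ * S * M) by group, map_mul, R_mul_mulVec,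
        h2 _ (by rw [Units.val_mul, Units.val_mul, Matrix.det_units_conj', hS])]
  obtain ⟨w, ⟨hwev, hwsl⟩, hw0, ⟨a1, ha1⟩, b1, hb1⟩ := exists_common_eigen U hU (R (scalG γ))
    (R (embG (D γ))) (by rw [← map_mul, ← map_mul, scalG_comm_embG])
    (fun z ⟨h1, h2⟩ => ⟨fun v => by
        have e : (evG v : GL₁) * scalG γ = scalG γ * evG (((γ⁻¹ : Fˣ) : F) • v) := by
          rw [scalG_mul_evG, smul_smul, ← Units.val_mul, mul_inv_cancel, Units.val_one, one_smul]
        rw [← R_mul_mulVec, e, R_mul_mulVec, h1],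
      fun M hM => by rw [← R_mul_mulVec, ← scalG_comm_embG, R_mul_mulVec, h2 M hM]⟩)
    (fun z hz => hUinv z hz _)
  obtain ⟨θ1, hθ1⟩ := exists_eigen_hom R (scalG : Fˣ →* GL₁) hw0 hγ ha1
  obtain ⟨θ2, hθ2⟩ := exists_eigen_hom R (embG.comp D : Fˣ →* GL₁) hw0 hγ hb1
  refine ⟨w, { toFun := fun a => θ1 a * θ2 a⁻¹
               map_one' := by simp
               map_mul' := fun a b => by rw [map_mul, _root_.mul_inv_rev, map_mul]; ring }, θ2, hw0, ?_⟩
  intro g hg
  obtain ⟨a, v, M, rfl, ha, hdet⟩ := lineStab_decomp hg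
  set d : Fˣ := Units.mk0 ((M : Matrix κ κ F).det) M.det_ne_zero with hd
  have hS : ((M * (D d)⁻¹ : GL κ F) : Matrix κ κ F).det = 1 := by
    have e : ((M * (D d)⁻¹ : GL κ F) : Matrix κ κ F).det * ((D d : GL κ F) : Matrix κ κ F).det =
        (M : Matrix κ κ F).det := by
      rw [← Matrix.det_mul, ← Units.val_mul, inv_mul_cancel_right]
    rw [hdetD, hd, Units.val_mk0] at e
    exact (mul_eq_right₀ M.det_ne_zero).1 e
  have hM : embG M = (embG (M * (D d)⁻¹) : GL₁) * (embG.comp D) d := by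
    rw [MonoidHom.comp_apply, ← map_mul, inv_mul_cancel_right]
  rw [R_mul_mulVec, R_mul_mulVec, hM, R_mul_mulVec, hθ2, Matrix.mulVec_smul, hwsl _ hS, Matrix.mulVec_smul,
    hwev, Matrix.mulVec_smul, hθ1, smul_smul]
  congr 1
  have hdu : (((scalG a * evG v * (embG (M * (D d)⁻¹) * (embG.comp D) d)) : GL₁) :
      Matrix (Unit ⊕ κ) (Unit ⊕ κ) F).det = ((a * d : Fˣ) : F) := by
    rw [← hM, hdet, Units.val_mul, hd, Units.val_mk0]
  rw [hM] at ha
  rw [stabChar, ← ha, hdu, extHom_coe, extHom_coe]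
  show θ2 d * θ1 a = θ1 a * θ2 a⁻¹ * θ2 (a * d)
  rw [mul_assoc, ← map_mul, inv_mul_cancel_left, mul_comm]

/-- The representation is induced from a nontrivial character. -/
theorem point_data [Nonempty κ] (hq : 5 ≤ Fintype.card F) (hodd : Odd (Fintype.card F))
    (hk : k = geomN (Fintype.card κ + 1) (Fintype.card F))
    (hnf : NoFix R (Set.range (Matrix.SpecialLinearGroup.toGL (n := Unit ⊕ κ) (R := F)))) :
    Schur R ∧ ∃ (u w : Fin k → ℂ) (α β : Fˣ →* ℂ), u ⬝ᵥ w = 1 ∧ (∃ a, α a ≠ 1) ∧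
      (∀ g ∈ lineStab, R g *ᵥ w = stabChar α β g • w) ∧ (∀ g ∈ lineStab, u ᵥ* R g = stabChar α β g • u) ∧
      (∀ g, g ∉ lineStab → coeff R u w g = 0) ∧
      ∀ x : GL₁, ((Fintype.card F : ℂ) - 1) * (R x).trace =
        ∑ v ∈ (Finset.univ : Finset (Unit ⊕ κ → F)).erase 0, eigTerm α β x v := by
  obtain ⟨ψ, hψ⟩ : ∃ ψ : AddChar F ℂ, ψ 1 ≠ 1 :=
    AddChar.exists_apply_ne_zero.2 (one_ne_zero : (1 : F) ≠ 0)
  set q := Fintype.card F with hqdef
  set r := Fintype.card κ with hr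
  have hr1 : 1 ≤ r := Fintype.card_pos
  have hgs := sub_one_mul_geomN (r + 1) (show 1 ≤ q by omega)
  have hgs0 := sub_one_mul_geomN r (show 1 ≤ q by omega)
  have hsucc := geomN_succ r q
  have hk0 : k ≠ 0 := by have := le_geomN (r + 1) (show 1 ≤ q by omega); omega
  have hk2 : k < 2 * (q ^ r - 1) := by
    have h4 : 4 * geomN r q + 1 ≤ q ^ r := by
      rw [← hgs0]; exact Nat.add_le_add_right (Nat.mul_le_mul_right _ (by omega)) _
    have : q ≤ q ^ r := Nat.le_self_pow (by omega) q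
    have := le_geomN r (show 1 ≤ q by omega)
    omega
  obtain ⟨h1, hsum⟩ := weights_one hψ hk0 hk2 hnf
  have hs := schur_gl hψ h1 hnf
  refine ⟨hs, ?_⟩
  obtain ⟨y, hy0, hyev, hysl⟩ := exists_fixed_vector hq hodd hψ hk hsum
  obtain ⟨w, α, β, hw0, hχ⟩ := exists_line_eigen hy0 hyev hysl
  obtain ⟨u, huw, hu⟩ := exists_functional R (lineStab (F := F) (κ := κ)) (stabChar α β) hw0 hχ
  obtain ⟨hdeg, htrace⟩ := trace_formula R hs huw
  set H := (Finset.univ : Finset GL₁).filter fun g => g ∈ lineStab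
  set c0 := ((Finset.univ : Finset GL₁).filter fun g : GL₁ =>
    (g : Matrix (Unit ⊕ κ) (Unit ⊕ κ) F) *ᵥ e₁ = e₁).card
  have hc0 : 0 < c0 := Finset.card_pos.2 ⟨1, Finset.mem_filter.2 ⟨Finset.mem_univ _, by rw [Units.val_one, Matrix.one_mulVec]⟩⟩
  have he1 : e₁ ≠ 0 := fun h => one_ne_zero (show (1 : F) = 0 by simpa using congrFun h (Sum.inl ()))
  have hcardG : Fintype.card GL₁ = c0 * (q ^ (r + 1) - 1) := by
    have h := sum_fibre (κ := κ) (F := F) (fun _ => (1 : ℕ))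
    rw [Finset.sum_const, Finset.sum_const, Finset.card_univ, Finset.card_erase_of_mem (Finset.mem_univ _),
      Finset.card_univ, Fintype.card_fun, Fintype.card_sum, Fintype.card_unit] at h
    rw [smul_eq_mul, mul_one, add_comm 1, ← hqdef, ← hr] at h
    simpa only [smul_eq_mul, mul_one] using h
  have hcardH : H.card = c0 * (q - 1) := by
    have h := sum_fibre (κ := κ) (F := F) (fun v => if ∃ c : F, v = c • e₁ then (1 : ℕ) else 0)
    simp only [Finset.sum_boole, smul_eq_mul, Nat.cast_id] at h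
    refine Eq.trans ?_ (h.trans (congrArg (c0 * ·) ?_))
    · congr 1
      refine Finset.ext fun g => ?_
      simp only [H, Finset.mem_filter, mem_lineStab]
    · have hinj : Function.Injective fun c : F => c • e₁ := smul_left_injective F he1
      rw [hqdef, ← Finset.card_univ, ← Finset.card_erase_of_mem (Finset.mem_univ (0 : F)),
        ← Finset.card_image_of_injective _ hinj]
      congr 1
      ext v
      simp only [Finset.mem_filter, Finset.mem_erase, Finset.mem_univ, and_true, Finset.mem_image]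
      constructor
      · rintro ⟨hv0, c, rfl⟩
        exact ⟨c, fun h => hv0 (by rw [h, zero_smul]), rfl⟩
      · rintro ⟨c, hc, rfl⟩
        exact ⟨(smul_ne_zero hc he1), c, rfl⟩
  have hbet : ∀ g : GL₁, extHom β (g : Matrix (Unit ⊕ κ) (Unit ⊕ κ) F).det ≠ 0 :=
    fun g => extHom_ne_zero β g.det_ne_zero
  have hin : ∀ g ∈ lineStab (F := F) (κ := κ), coeff R u w g = stabChar α β g := fun g hg => by
    rw [coeff, hχ g hg, dotProduct_smul, huw, smul_eq_mul, mul_one]
  have hinv : ∀ g ∈ lineStab (F := F) (κ := κ), coeff R u w g * coeff R u w g⁻¹ = 1 := fun g hg => by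
    rw [hin g hg, hin _ (inv_mem hg)]
    have e := coeff_biinv R lineStab (stabChar α β) hχ hu hg (inv_mem hg) 1
    rw [mul_one, mul_inv_cancel, coeff, map_one, Matrix.one_mulVec, huw, mul_one] at e
    exact e.symm
  -- the inducing character is nontrivial
  have hα : ∃ a, α a ≠ 1 := by
    by_contra hc
    push Not at hc
    have hχβ : ∀ g ∈ lineStab (F := F) (κ := κ),
        stabChar α β g = extHom β (g : Matrix (Unit ⊕ κ) (Unit ⊕ κ) F).det := by
      intro g hg
      obtain ⟨a, v, M, rfl, ha, -⟩ := lineStab_decomp hg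
      rw [stabChar, ← ha, extHom_coe, hc, one_mul]
    let δ : GL₁ → ℂ := fun g => coeff R u w g / extHom β (g : Matrix (Unit ⊕ κ) (Unit ⊕ κ) F).det
    have hδ : ∀ g g' : GL₁, g ∉ lineStab → g' ∉ lineStab → δ g = δ g' := by
      intro g g' hg hg'
      obtain ⟨h, hh, hhv⟩ := exists_lineStab_map (fun c hc => hg ⟨c, hc⟩) (fun c hc => hg' ⟨c, hc⟩)
      have hb : (h * g)⁻¹ * g' ∈ lineStab (F := F) (κ := κ) := ⟨1, by
        rw [Units.val_mul, ← Matrix.mulVec_mulVec, ← hhv, Matrix.mulVec_mulVec, ← Units.val_mul,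
          Matrix.mulVec_mulVec, ← Units.val_mul, mul_assoc, inv_mul_cancel, Units.val_one,
          Matrix.one_mulVec, one_smul]⟩
      have e := coeff_biinv R lineStab (stabChar α β) hχ hu hh hb g
      rw [mul_inv_cancel_left, hχβ h hh, hχβ _ hb] at e
      have e2 : extHom β (g' : Matrix (Unit ⊕ κ) (Unit ⊕ κ) F).det =
          extHom β (h : Matrix (Unit ⊕ κ) (Unit ⊕ κ) F).det *
            extHom β (((h * g)⁻¹ * g' : GL₁) : Matrix (Unit ⊕ κ) (Unit ⊕ κ) F).det *
            extHom β (g : Matrix (Unit ⊕ κ) (Unit ⊕ κ) F).det := by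
        rw [← map_mul, ← map_mul]
        congr 1
        rw [mul_comm, ← mul_assoc, mul_comm (g : Matrix (Unit ⊕ κ) (Unit ⊕ κ) F).det, ← Matrix.det_mul,
          ← Matrix.det_mul, ← Units.val_mul, ← Units.val_mul, mul_inv_cancel_left]
      simp only [δ]
      rw [e, e2, mul_div_mul_left _ _ (mul_ne_zero (hbet _) (hbet _))]
    obtain ⟨g0, hg0⟩ : ∃ g : GL₁, g ∉ lineStab := by
      obtain ⟨x0⟩ := ‹Nonempty κ›
      have hx : (Pi.single (Sum.inr x0) 1 : Unit ⊕ κ → F) ≠ 0 :=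
        fun h => one_ne_zero (show (1 : F) = 0 by simpa using congrFun h (Sum.inr x0))
      obtain ⟨K, hK⟩ := exists_gl_mulVec he1 hx
      refine ⟨K, fun ⟨c, hc⟩ => one_ne_zero (show (1 : F) = 0 from ?_)⟩
      have := congrFun (hK.symm.trans hc) (Sum.inr x0)
      simpa using this
    set a0 := δ g0
    have hsum0 : ∑ g : GL₁, δ g = 0 := by
      have hy : ∑ g : GL₁, (extHom β (g : Matrix (Unit ⊕ κ) (Unit ⊕ κ) F).det)⁻¹ • (R g *ᵥ w) = 0 := by
        refine hnf _ fun s hs => ?_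
        rw [Matrix.mulVec_sum]
        refine Fintype.sum_equiv (Equiv.mulLeft s) _ _ fun g => ?_
        rw [Equiv.coe_mulLeft, Matrix.mulVec_smul, ← R_mul_mulVec, Units.val_mul, Matrix.det_mul,
          mem_range_toGL.1 hs, one_mul]
      have h := congrArg (u ⬝ᵥ ·) hy
      simp only [dotProduct_sum, dotProduct_smul, dotProduct_zero, smul_eq_mul] at h
      rw [← h]
      exact Finset.sum_congr rfl fun g _ => by simp only [δ, coeff, div_eq_inv_mul]
    have hone : ∀ g ∈ lineStab (F := F) (κ := κ), δ g = 1 := fun g hg => by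
      simp only [δ]
      rw [hin g hg, hχβ g hg, div_self (hbet g)]
    have hprod : ∀ g : GL₁, coeff R u w g * coeff R u w g⁻¹ = δ g * δ g⁻¹ := fun g => by
      simp only [δ]
      rw [div_mul_div_comm, ← map_mul, ← Matrix.det_mul, ← Units.val_mul, mul_inv_cancel, Units.val_one,
        Matrix.det_one, map_one, div_one]
    have split : ∀ f : GL₁ → ℂ, ∀ c : ℂ, (∀ g, g ∈ lineStab → f g = 1) →
        (∀ g, g ∉ lineStab → f g = c) →
        ∑ g, f g = (H.card : ℂ) + ((Fintype.card GL₁ : ℂ) - H.card) * c := by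
      intro f c h1 h2
      rw [← Finset.sum_filter_add_sum_filter_not Finset.univ (fun g => g ∈ lineStab),
        Finset.sum_congr rfl (g := fun _ => (1 : ℂ)) (fun g hg => h1 g (Finset.mem_filter.1 hg).2),
        Finset.sum_congr rfl (g := fun _ => c) (fun g hg => h2 g (Finset.mem_filter.1 hg).2),
        Finset.sum_const, Finset.sum_const, nsmul_eq_mul, nsmul_eq_mul, mul_one]
      congr 1
      congr 1
      rw [← Finset.compl_filter, Finset.card_compl, Nat.cast_sub (Finset.card_le_univ _)]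
    have e1 := split δ a0 hone (fun g hg => hδ g g0 hg hg0)
    rw [hsum0] at e1
    have e2 := split (fun g => coeff R u w g * coeff R u w g⁻¹) (a0 * a0) (fun g hg => hinv g hg)
      (fun g hg => by rw [hprod, hδ g g0 hg hg0, hδ g⁻¹ g0 (fun h => hg (by simpa using inv_mem h)) hg0])
    rw [e2] at hdeg
    have key : ((k : ℂ) + 1) * H.card * (Fintype.card GL₁ : ℂ) =
        (Fintype.card GL₁ : ℂ) * Fintype.card GL₁ := by
      have e3 : (H.card : ℂ) * H.card = ((Fintype.card GL₁ : ℂ) - H.card) ^ 2 * (a0 * a0) := by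
        linear_combination (((Fintype.card GL₁ : ℂ) - H.card) * a0 - H.card) * e1
      have e4 : (k : ℂ) * H.card * Fintype.card GL₁ =
          (Fintype.card GL₁ : ℂ) * ((Fintype.card GL₁ : ℂ) - H.card) := by
        linear_combination ((Fintype.card GL₁ : ℂ) - H.card) * hdeg + (k : ℂ) * e3
      linear_combination e4
    rw [hcardH, hcardG] at key
    have key' : (k + 1) * (c0 * (q - 1)) * (c0 * (q ^ (r + 1) - 1)) =
        c0 * (q ^ (r + 1) - 1) * (c0 * (q ^ (r + 1) - 1)) := by exact_mod_cast key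
    have hpos : 0 < c0 * (q ^ (r + 1) - 1) := hcardG ▸ Fintype.card_pos
    have h5 := Nat.eq_of_mul_eq_mul_right hpos key'
    rw [← mul_assoc, mul_comm (k + 1) c0, mul_assoc] at h5
    have h6 := Nat.eq_of_mul_eq_mul_left hc0 h5
    rw [hk, Nat.add_mul, one_mul, mul_comm] at h6
    omega
  -- the coefficient vanishes off the stabiliser
  have hoff : ∀ g : GL₁, g ∉ lineStab → coeff R u w g = 0 := by
    intro g hg
    obtain ⟨a, ha⟩ := hα
    set y := (g : Matrix (Unit ⊕ κ) (Unit ⊕ κ) F) *ᵥ e₁ with hy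
    obtain ⟨x, hx⟩ : ∃ x, y (Sum.inr x) ≠ 0 := by
      by_contra h
      push Not at h
      refine hg ⟨y (Sum.inl ()), funext fun i => ?_⟩
      rcases i with i | i
      · simp [hy]
      · simpa [hy] using h i
    set f : Unit ⊕ κ → F := e₁ - (y (Sum.inl ()) / y (Sum.inr x)) • Pi.single (Sum.inr x) 1 with hf
    have hfe : f ⬝ᵥ e₁ = 1 := by simp [hf]
    have hfy : f ⬝ᵥ y = 0 := by
      simp only [hf, sub_dotProduct, smul_dotProduct, single_dotProduct, one_mul, smul_eq_mul]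
      rw [div_mul_cancel₀ _ hx, sub_self]
    set Mh : Matrix (Unit ⊕ κ) (Unit ⊕ κ) F := 1 + vecMulVec (((a : F) - 1) • e₁) f
    have hdet : Mh.det = (a : F) := by
      simp only [Mh]
      rw [Matrix.vecMulVec_eq Unit, Matrix.det_one_add_replicateCol_mul_replicateRow, dotProduct_smul, hfe,
        smul_eq_mul, mul_one, add_sub_cancel]
    set h : GL₁ := GeneralLinearGroup.mkOfDetNeZero Mh (hdet ▸ a.ne_zero)
    have happ : ∀ v, (h : Matrix (Unit ⊕ κ) (Unit ⊕ κ) F) *ᵥ v = v + ((f ⬝ᵥ v) * ((a : F) - 1)) • e₁ := by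
      intro v
      show Mh *ᵥ v = _
      simp only [Mh]
      rw [Matrix.add_mulVec, Matrix.one_mulVec, Matrix.vecMulVec_mulVec, op_smul_eq_smul, smul_smul]
    have hhy : (h : Matrix (Unit ⊕ κ) (Unit ⊕ κ) F) *ᵥ y = y := by rw [happ, hfy, zero_mul, zero_smul, add_zero]
    have hhe : (h : Matrix (Unit ⊕ κ) (Unit ⊕ κ) F) *ᵥ e₁ = (a : F) • e₁ := by
      rw [happ, hfe, one_mul]; module
    have hh : h ∈ lineStab (F := F) (κ := κ) := ⟨_, hhe⟩
    have hh'e : ((g⁻¹ * h⁻¹ * g : GL₁) : Matrix (Unit ⊕ κ) (Unit ⊕ κ) F) *ᵥ e₁ = (1 : F) • e₁ := by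
      have hinvy : ((h⁻¹ : GL₁) : Matrix (Unit ⊕ κ) (Unit ⊕ κ) F) *ᵥ y = y := by
        conv_lhs => rw [← hhy]
        rw [Matrix.mulVec_mulVec, ← Units.val_mul, inv_mul_cancel, Units.val_one, Matrix.one_mulVec]
      rw [Units.val_mul, Units.val_mul, ← Matrix.mulVec_mulVec, ← Matrix.mulVec_mulVec, ← hy, hinvy, hy,
        Matrix.mulVec_mulVec, ← Units.val_mul, inv_mul_cancel, Units.val_one, Matrix.one_mulVec, one_smul]
    have e := coeff_biinv R lineStab (stabChar α β) hχ hu hh ⟨_, hh'e⟩ g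
    rw [show h * g * (g⁻¹ * h⁻¹ * g) = g by group, stabChar, stabChar, eq_apply_of_mulVec hhe,
      eq_apply_of_mulVec hh'e, extHom_coe, map_one, one_mul, mul_assoc (α a), ← map_mul, ← Matrix.det_mul,
      ← Units.val_mul, show h * (g⁻¹ * h⁻¹ * g) = h * g⁻¹ * h⁻¹ * g by group, Units.val_mul, Units.val_mul,
      Units.val_mul, Matrix.det_mul, Matrix.det_mul, Matrix.det_mul] at e
    have hd1 : (h : Matrix (Unit ⊕ κ) (Unit ⊕ κ) F).det * ((g⁻¹ : GL₁) : Matrix (Unit ⊕ κ) (Unit ⊕ κ) F).det *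
        ((h⁻¹ : GL₁) : Matrix (Unit ⊕ κ) (Unit ⊕ κ) F).det * (g : Matrix (Unit ⊕ κ) (Unit ⊕ κ) F).det = 1 := by
      have hgi : ((g⁻¹ : GL₁) : Matrix (Unit ⊕ κ) (Unit ⊕ κ) F).det *
          (g : Matrix (Unit ⊕ κ) (Unit ⊕ κ) F).det = 1 := by
        rw [← Matrix.det_mul, ← Units.val_mul, inv_mul_cancel, Units.val_one, Matrix.det_one]
      have hhi : (h : Matrix (Unit ⊕ κ) (Unit ⊕ κ) F).det *
          ((h⁻¹ : GL₁) : Matrix (Unit ⊕ κ) (Unit ⊕ κ) F).det = 1 := by
        rw [← Matrix.det_mul, ← Units.val_mul, mul_inv_cancel, Units.val_one, Matrix.det_one]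
      linear_combination ((g⁻¹ : GL₁) : Matrix (Unit ⊕ κ) (Unit ⊕ κ) F).det *
        (g : Matrix (Unit ⊕ κ) (Unit ⊕ κ) F).det * hhi + hgi
    rw [hd1, map_one, mul_one] at e
    by_contra h0
    exact ha ((mul_eq_right₀ h0).1 e.symm)
  have hkH : (k : ℂ) * H.card = (Fintype.card GL₁ : ℂ) := by
    rw [← hdeg, ← Finset.sum_filter_add_sum_filter_not Finset.univ (fun g => g ∈ lineStab),
      Finset.sum_congr rfl (g := fun _ => (1 : ℂ)) (fun g hg => hinv g (Finset.mem_filter.1 hg).2),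
      Finset.sum_eq_zero (s := Finset.filter (fun g => ¬ g ∈ lineStab) Finset.univ) (fun g hg => by
        rw [hoff g (Finset.mem_filter.1 hg).2, zero_mul]), Finset.sum_const, nsmul_eq_mul, mul_one, add_zero]
  refine ⟨u, w, α, β, huw, hα, hχ, hu, hoff, fun x => ?_⟩
  have hterm : ∀ g : GL₁, coeff R u w (g⁻¹ * x * g) =
      eigTerm α β x ((g : Matrix (Unit ⊕ κ) (Unit ⊕ κ) F) *ᵥ e₁) := by
    intro g
    set v := (g : Matrix (Unit ⊕ κ) (Unit ⊕ κ) F) *ᵥ e₁ with hv
    have hiff : ∀ c : F, ((g⁻¹ * x * g : GL₁) : Matrix (Unit ⊕ κ) (Unit ⊕ κ) F) *ᵥ e₁ = c • e₁ ↔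
        (x : Matrix (Unit ⊕ κ) (Unit ⊕ κ) F) *ᵥ v = c • v := by
      intro c
      rw [Units.val_mul, Units.val_mul, ← Matrix.mulVec_mulVec, ← Matrix.mulVec_mulVec, ← hv]
      constructor
      · intro h
        have := congrArg ((g : Matrix (Unit ⊕ κ) (Unit ⊕ κ) F) *ᵥ ·) h
        rw [Matrix.mulVec_mulVec, ← Units.val_mul, mul_inv_cancel, Units.val_one, Matrix.one_mulVec,
          Matrix.mulVec_smul, ← hv] at this
        exact this
      · intro h
        rw [h, Matrix.mulVec_smul, hv, Matrix.mulVec_mulVec, ← Units.val_mul, inv_mul_cancel, Units.val_one,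
          Matrix.one_mulVec]
    by_cases hc : ∃ c : F, (x : Matrix (Unit ⊕ κ) (Unit ⊕ κ) F) *ᵥ v = c • v
    · obtain ⟨c, hc⟩ := hc
      have hv0 : v ≠ 0 := fun h => by
        have := congrArg (((g⁻¹ : GL₁) : Matrix (Unit ⊕ κ) (Unit ⊕ κ) F) *ᵥ ·) h
        simp only [hv, Matrix.mulVec_mulVec, ← Units.val_mul, inv_mul_cancel, Units.val_one,
          Matrix.one_mulVec, Matrix.mulVec_zero] at this
        exact he1 this
      rw [hin _ ⟨c, (hiff c).2 hc⟩, eigTerm_of_eigen α β hv0 hc, stabChar,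
        eq_apply_of_mulVec ((hiff c).2 hc)]
      congr 2
      rw [Units.val_mul, Units.val_mul, Matrix.det_mul, Matrix.det_mul, mul_right_comm, ← Matrix.det_mul,
        ← Units.val_mul, inv_mul_cancel, Units.val_one, Matrix.det_one, one_mul]
    · push Not at hc
      rw [hoff _ (fun ⟨c, hc'⟩ => hc c ((hiff c).1 hc')), eigTerm_of_not α β hc]
  have h := htrace x
  rw [Finset.sum_congr rfl (fun g _ => hterm g), sum_fibre (fun v => eigTerm α β x v), nsmul_eq_mul,
    ← hkH, mul_assoc] at h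
  have h' := mul_left_cancel₀ (show (k : ℂ) ≠ 0 from Nat.cast_ne_zero.2 hk0) h
  rw [hcardH, Nat.cast_mul, Nat.cast_sub (show 1 ≤ q by omega), Nat.cast_one, mul_assoc] at h'
  exact mul_left_cancel₀ (Nat.cast_ne_zero.2 hc0.ne') h'

end CfsgLib.OrthOddDeg
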