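import Cfsg.Agent.OrthOddDeg.SLCases
import Cfsg.Agent.OrthPlusDeg.AltOrbit
import Cfsg.Agent.OrthPlusDeg.PlusGroup
import Cfsg.Agent.Classical.Orth.Index
import Cfsg.Agent.OrthGeo.Generation
import Cfsg.Agent.OrthGeo.QuadOdd
import Cfsg.Agent.TwoGenClassical.OrthOdd

/-!
The group `Omega_{2n+1}(q)`: the Siegel radical, the Levi subgroup, root elements and an elimination lemma.
-/

set_option autoImplicit false
set_option linter.unusedSectionVars false
set_option linter.style.haveILetI false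

noncomputable section

namespace CfsgLib.OrthOddDeg

open Cfsg.Geo CfsgLib.OrthGeo Matrix CfsgLib.OrthPlusDeg CfsgLib.Classical.Orth
open scoped MatrixGroups _root_.Classical

/-- The odd form. -/
abbrev qOdd (n : ℕ) (F : Type*) [Field F] : (Unit ⊕ (Fin n ⊕ Fin n) → F) → F := Cfsg.quadFormOdd n F

/-- The isometries. -/
abbrev IsoOdd (n : ℕ) (F : Type*) [Field F] : Subgroup (GL (Unit ⊕ (Fin n ⊕ Fin n)) F) :=
  Cfsg.isometryGroup F (qOdd n F)

/-- The group `Omega`. -/
abbrev OmOdd (n : ℕ) (F : Type*) [Field F] : Subgroup (IsoOdd n F) := Cfsg.Omega F (qOdd n F)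

variable {F : Type*} [Field F] [Fintype F] [DecidableEq F] [NeZero (2 : F)] {n : ℕ}

/-- A vector by its three components. -/
def vec (d : F) (x y : Fin n → F) : Unit ⊕ (Fin n ⊕ Fin n) → F := Sum.elim (fun _ => d) (Sum.elim x y)

theorem exists_vec (v : Unit ⊕ (Fin n ⊕ Fin n) → F) : ∃ d x y, v = vec d x y :=
  ⟨v (Sum.inl ()), fun i => v (Sum.inr (Sum.inl i)), fun i => v (Sum.inr (Sum.inr i)), funext fun i => by
    rcases i with ⟨⟩ | i | i <;> rfl⟩

theorem vec_inj {d d' : F} {x x' y y' : Fin n → F} :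
    vec d x y = vec d' x' y' ↔ d = d' ∧ x = x' ∧ y = y' := by
  refine ⟨fun h => ⟨congrFun h (Sum.inl ()), funext fun i => congrFun h (Sum.inr (Sum.inl i)),
    funext fun i => congrFun h (Sum.inr (Sum.inr i))⟩, ?_⟩
  rintro ⟨rfl, rfl, rfl⟩; rfl

theorem vec_zero : (vec 0 0 0 : Unit ⊕ (Fin n ⊕ Fin n) → F) = 0 := by
  funext i; rcases i with ⟨⟩ | i | i <;> rfl

theorem vec_add (d d' : F) (x x' y y' : Fin n → F) :
    vec d x y + vec d' x' y' = vec (d + d') (x + x') (y + y') := by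
  funext i; rcases i with ⟨⟩ | i | i <;> rfl

theorem vec_sub (d d' : F) (x x' y y' : Fin n → F) :
    vec d x y - vec d' x' y' = vec (d - d') (x - x') (y - y') := by
  funext i; rcases i with ⟨⟩ | i | i <;> rfl

theorem vec_smul (c d : F) (x y : Fin n → F) : c • vec d x y = vec (c * d) (c • x) (c • y) := by
  funext i; rcases i with ⟨⟩ | i | i <;> rfl

theorem q_vec (d : F) (x y : Fin n → F) : qOdd n F (vec d x y) = d ^ 2 + x ⬝ᵥ y := rfl

theorem ndQ (n : ℕ) : IsNondegenerateQuadraticForm (qOdd n F) :=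
  isNondegenerateQuadraticForm_quadFormOdd n two_ne_zero

/-- The polar form. -/
abbrev bo : LinearMap.BilinForm F (Unit ⊕ (Fin n ⊕ Fin n) → F) := bform (ndQ (F := F) n)

theorem bo_vec (d d' : F) (x x' y y' : Fin n → F) :
    bo (vec d x y) (vec d' x' y') = 2 * (d * d') + (x ⬝ᵥ y' + x' ⬝ᵥ y) := by
  rw [bform_apply, CfsgLib.TwoGenClassical.polar_odd]
  simp only [vec, Sum.elim_inl, Sum.elim_inr, dotProduct, Finset.sum_add_distrib]
  congr 2
  exact Finset.sum_congr rfl fun i _ => mul_comm _ _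

/-- The anisotropic frame vector. -/
def dV : Unit ⊕ (Fin n ⊕ Fin n) → F := vec 1 0 0

/-- The first half of the frame. -/
def eV (i : Fin n) : Unit ⊕ (Fin n ⊕ Fin n) → F := vec 0 (Pi.single i 1) 0

/-- The second half of the frame. -/
def fV (i : Fin n) : Unit ⊕ (Fin n ⊕ Fin n) → F := vec 0 0 (Pi.single i 1)

theorem q_dV : qOdd n F dV = 1 := by simp [dV, q_vec]

theorem q_dV_ne : qOdd n F dV ≠ 0 := by rw [q_dV]; exact one_ne_zero

theorem q_eV (i : Fin n) : qOdd n F (eV i) = 0 := by simp [eV, q_vec]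

theorem q_fV (i : Fin n) : qOdd n F (fV i) = 0 := by simp [fV, q_vec]

theorem q_iota (a : Fin n → F) : qOdd n F (vec 0 a 0) = 0 := by simp [q_vec]

theorem bo_eV (i : Fin n) (d : F) (x y : Fin n → F) : bo (eV i) (vec d x y) = y i := by
  simp [eV, bo_vec, -bform_apply]

theorem bo_fV (i : Fin n) (d : F) (x y : Fin n → F) : bo (fV i) (vec d x y) = x i := by
  simp [fV, bo_vec, -bform_apply]

theorem bo_dV (d : F) (x y : Fin n → F) : bo dV (vec d x y) = 2 * d := by
  simp [dV, bo_vec, -bform_apply]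

/-- The action on vectors. -/
def act (g : IsoOdd n F) (v : Unit ⊕ (Fin n ⊕ Fin n) → F) : Unit ⊕ (Fin n ⊕ Fin n) → F :=
  ((g : GL (Unit ⊕ (Fin n ⊕ Fin n)) F) : Matrix _ _ F) *ᵥ v

theorem act_mul (g h : IsoOdd n F) (v : Unit ⊕ (Fin n ⊕ Fin n) → F) :
    act (g * h) v = act g (act h v) := by
  simp [act, Matrix.mulVec_mulVec]

theorem act_one (v : Unit ⊕ (Fin n ⊕ Fin n) → F) : act (1 : IsoOdd n F) v = v := by
  simp [act]

theorem act_inv_act (g : IsoOdd n F) (v : Unit ⊕ (Fin n ⊕ Fin n) → F) : act g⁻¹ (act g v) = v := by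
  rw [← act_mul, inv_mul_cancel, act_one]

theorem act_act_inv (g : IsoOdd n F) (v : Unit ⊕ (Fin n ⊕ Fin n) → F) : act g (act g⁻¹ v) = v := by
  rw [← act_mul, mul_inv_cancel, act_one]

theorem act_add (g : IsoOdd n F) (u v : Unit ⊕ (Fin n ⊕ Fin n) → F) :
    act g (u + v) = act g u + act g v := Matrix.mulVec_add _ _ _

theorem act_smul (g : IsoOdd n F) (c : F) (v : Unit ⊕ (Fin n ⊕ Fin n) → F) :
    act g (c • v) = c • act g v := Matrix.mulVec_smul _ _ _

theorem act_zero (g : IsoOdd n F) : act g 0 = 0 := Matrix.mulVec_zero _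

theorem act_q (g : IsoOdd n F) (v : Unit ⊕ (Fin n ⊕ Fin n) → F) : qOdd n F (act g v) = qOdd n F v :=
  mem_isometryGroup.1 g.2 v

theorem act_b (g : IsoOdd n F) (u v : Unit ⊕ (Fin n ⊕ Fin n) → F) : bo (act g u) (act g v) = bo u v :=
  isometry_b (ndQ n) g.2 u v

theorem iso_ext {g h : IsoOdd n F} (H : ∀ v, act g v = act h v) : g = h := Subtype.ext (gl_ext H)

theorem exc_odd (n : ℕ) : ¬ (Nat.card F = 2 ∧ Fintype.card (Unit ⊕ (Fin n ⊕ Fin n)) = 4) :=
  not_exc_of_two_ne_zero two_ne_zero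

/-- Squares of isometries lie in `Omega`. -/
theorem sq_mem_omega (g : IsoOdd n F) : g * g ∈ OmOdd n F := by
  have hsq : ∀ z : Multiplicative (ZMod 2) × Multiplicative (ZMod 2), z * z = 1 := by decide
  show g * g ∈ Cfsg.Omega F (qOdd n F)
  rw [← ker_classHom (ndQ n) (exc_odd n), MonoidHom.mem_ker, map_mul, hsq]

theorem half_ne_zero : (2⁻¹ : F) ≠ 0 := inv_ne_zero two_ne_zero

/-- The Siegel radical. -/
def zI (v : Fin n × Fin n → F) : IsoOdd n F :=
  ⟨⟨fromBlocks 1 0 0 (fromBlocks 1 (altOf v) 0 1), fromBlocks 1 0 0 (fromBlocks 1 (-altOf v) 0 1),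
    by simp [fromBlocks_multiply], by simp [fromBlocks_multiply]⟩,
   mem_isometryGroup.2 fun w => by
    obtain ⟨d, x, y, rfl⟩ := exists_vec w
    show qOdd n F (fromBlocks 1 0 0 (fromBlocks 1 (altOf v) 0 1) *ᵥ vec d x y) = _
    rw [show fromBlocks 1 0 0 (fromBlocks 1 (altOf v) 0 1) *ᵥ vec d x y = vec d (x + altOf v *ᵥ y) y by
      simp [vec, fromBlocks_mulVec], q_vec, q_vec, add_dotProduct, dotProduct_comm (altOf v *ᵥ y),
      dot_alt_self (isAlt_altOf v), add_zero]⟩

theorem act_zI (v : Fin n × Fin n → F) (d : F) (x y : Fin n → F) :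
    act (zI v) (vec d x y) = vec d (x + altOf v *ᵥ y) y := by
  show fromBlocks 1 0 0 (fromBlocks 1 (altOf v) 0 1) *ᵥ vec d x y = _
  simp [vec, fromBlocks_mulVec]

theorem zI_add (u v : Fin n × Fin n → F) : zI (u + v) = zI u * zI v := by
  refine iso_ext fun w => ?_
  obtain ⟨d, x, y, rfl⟩ := exists_vec w
  rw [act_mul, act_zI, act_zI, act_zI, altOf_add, Matrix.add_mulVec, vec_inj]
  exact ⟨rfl, by abel, rfl⟩

theorem zI_congr {u v : Fin n × Fin n → F} (h : altOf u = altOf v) : zI u = zI v := by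
  refine iso_ext fun w => ?_
  obtain ⟨d, x, y, rfl⟩ := exists_vec w
  rw [act_zI, act_zI, h]

theorem zI_mem (v : Fin n × Fin n → F) : zI v ∈ OmOdd n F := by
  have h : zI v = zI ((2⁻¹ : F) • v) * zI ((2⁻¹ : F) • v) := by
    rw [← zI_add, ← add_smul, show (2⁻¹ : F) + 2⁻¹ = 1 by field_simp; norm_num, one_smul]
  rw [h]; exact sq_mem_omega _

/-- The Siegel radical inside `Omega`. -/
def zO (v : Fin n × Fin n → F) : OmOdd n F := ⟨zI v, zI_mem v⟩

theorem zO_add (u v : Fin n × Fin n → F) : zO (u + v) = zO u * zO v := Subtype.ext (zI_add u v)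

theorem zO_congr {u v : Fin n × Fin n → F} (h : altOf u = altOf v) : zO u = zO v :=
  Subtype.ext (zI_congr h)

theorem zO_zero : zO (0 : Fin n × Fin n → F) = 1 := by
  have := zO_add (0 : Fin n × Fin n → F) 0
  rwa [add_zero, left_eq_mul] at this

/-- The Levi subgroup. -/
def levI : GL (Fin n) F →* IsoOdd n F where
  toFun g := ⟨⟨fromBlocks 1 0 0 (fromBlocks (g : Matrix (Fin n) (Fin n) F) 0 0
        ((g⁻¹ : GL (Fin n) F) : Matrix (Fin n) (Fin n) F)ᵀ),
      fromBlocks 1 0 0 (fromBlocks ((g⁻¹ : GL (Fin n) F) : Matrix (Fin n) (Fin n) F) 0 0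
        (g : Matrix (Fin n) (Fin n) F)ᵀ),
      by simp [fromBlocks_multiply, ← Matrix.transpose_mul, ← Units.val_mul, -Matrix.coe_units_inv],
      by simp [fromBlocks_multiply, ← Matrix.transpose_mul, ← Units.val_mul, -Matrix.coe_units_inv]⟩,
    mem_isometryGroup.2 fun w => by
      obtain ⟨d, x, y, rfl⟩ := exists_vec w
      show qOdd n F (fromBlocks 1 0 0 (fromBlocks _ 0 0 _) *ᵥ vec d x y) = _
      rw [show fromBlocks 1 0 0 (fromBlocks (g : Matrix (Fin n) (Fin n) F) 0 0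
          ((g⁻¹ : GL (Fin n) F) : Matrix (Fin n) (Fin n) F)ᵀ) *ᵥ vec d x y =
          vec d ((g : Matrix (Fin n) (Fin n) F) *ᵥ x)
            (((g⁻¹ : GL (Fin n) F) : Matrix (Fin n) (Fin n) F)ᵀ *ᵥ y) by
        simp [vec, fromBlocks_mulVec, -Matrix.coe_units_inv], q_vec, q_vec, Matrix.dotProduct_mulVec,
        Matrix.vecMul_transpose, Matrix.mulVec_mulVec, ← Units.val_mul, inv_mul_cancel, Units.val_one,
        Matrix.one_mulVec]⟩
  map_one' := Subtype.ext (Units.ext (by simp))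
  map_mul' g h := Subtype.ext (Units.ext (by
    simp [fromBlocks_multiply, _root_.mul_inv_rev, Matrix.transpose_mul, -Matrix.coe_units_inv]))

theorem act_levI (g : GL (Fin n) F) (d : F) (x y : Fin n → F) :
    act (levI g) (vec d x y) = vec d ((g : Matrix (Fin n) (Fin n) F) *ᵥ x)
      (((g⁻¹ : GL (Fin n) F) : Matrix (Fin n) (Fin n) F)ᵀ *ᵥ y) := by
  show fromBlocks 1 0 0 (fromBlocks _ 0 0 _) *ᵥ vec d x y = _
  simp [vec, fromBlocks_mulVec, -Matrix.coe_units_inv]

/-- The classes of Levi elements. -/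
def levClass : GL (Fin n) F →* Multiplicative (ZMod 2) × Multiplicative (ZMod 2) :=
  (classHom (ndQ n) (exc_odd n)).comp levI

theorem levI_mem {g : GL (Fin n) F} (hg : IsSquare (g : Matrix (Fin n) (Fin n) F).det) :
    levI g ∈ OmOdd n F := by
  have hsq : ∀ z : Multiplicative (ZMod 2) × Multiplicative (ZMod 2), z * z = 1 := by decide
  show levI g ∈ Cfsg.Omega F (qOdd n F)
  rw [← ker_classHom (ndQ n) (exc_odd n), MonoidHom.mem_ker]
  show levClass g = 1
  rcases Nat.eq_zero_or_pos n with rfl | hn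
  · rw [show g = 1 from Units.ext (Subsingleton.elim _ _), map_one]
  have hsl : ∀ S : Matrix.SpecialLinearGroup (Fin n) F,
      levClass (Matrix.SpecialLinearGroup.toGL S) = 1 := by
    refine CfsgLib.Classical.Linear.sl_induction (by simp) (fun i j hij c => ?_)
      (fun A B hA hB => by rw [map_mul, map_mul, hA, hB, one_mul])
    have e : Matrix.SpecialLinearGroup.transvection hij c =
        Matrix.SpecialLinearGroup.transvection hij (2⁻¹ * c) *
          Matrix.SpecialLinearGroup.transvection hij (2⁻¹ * c) := by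
      rw [← Matrix.SpecialLinearGroup.transvection_add, ← add_mul,
        show (2⁻¹ : F) + 2⁻¹ = 1 by field_simp; norm_num, one_mul]
    rw [e, map_mul, map_mul, hsq]
  obtain ⟨s, hs⟩ := hg
  have hs0 : s ≠ 0 := fun h => g.det_ne_zero (by rw [hs, h, zero_mul])
  set D : GL (Fin n) F := diagG (Function.update (1 : Fin n → Fˣ) ⟨0, hn⟩ (Units.mk0 s hs0)) with hD
  have hdet : ((g * (D * D)⁻¹ : GL (Fin n) F) : Matrix (Fin n) (Fin n) F).det = 1 := by
    have e : ((g * (D * D)⁻¹ : GL (Fin n) F) : Matrix (Fin n) (Fin n) F).det *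
        ((D * D : GL (Fin n) F) : Matrix (Fin n) (Fin n) F).det = (g : Matrix (Fin n) (Fin n) F).det := by
      rw [← Matrix.det_mul, ← Units.val_mul, inv_mul_cancel_right]
    have hDD : ((D * D : GL (Fin n) F) : Matrix (Fin n) (Fin n) F).det = s * s := by
      rw [Units.val_mul, Matrix.det_mul, hD, det_diagG, Finset.prod_update_of_mem (Finset.mem_univ _)]
      simp
    rw [hDD, hs] at e
    exact (mul_eq_right₀ (mul_ne_zero hs0 hs0)).1 e
  have hS : Matrix.SpecialLinearGroup.toGL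
      (⟨((g * (D * D)⁻¹ : GL (Fin n) F) : Matrix (Fin n) (Fin n) F), hdet⟩ :
        Matrix.SpecialLinearGroup (Fin n) F) = g * (D * D)⁻¹ := Units.ext rfl
  have e : levClass (g * (D * D)⁻¹) = 1 := hS ▸ hsl ⟨_, hdet⟩
  rwa [map_mul, map_inv, map_mul, hsq, inv_one, mul_one] at e

/-- The Levi elements inside `Omega`. -/
def sqO : sqDet F (Fin n) →* OmOdd n F where
  toFun g := ⟨levI g, levI_mem g.2⟩
  map_one' := Subtype.ext (by simp)
  map_mul' g h := Subtype.ext (by simp)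

theorem levI_zI (g : GL (Fin n) F) (v : Fin n × Fin n → F) :
    levI g * zI v = zI (flat2 ((g : Matrix (Fin n) (Fin n) F) * (Matrix.of fun i j => v (i, j)) *
      (g : Matrix (Fin n) (Fin n) F)ᵀ)) * levI g := by
  refine iso_ext fun w => ?_
  obtain ⟨d, x, y, rfl⟩ := exists_vec w
  have hA : altOf (flat2 ((g : Matrix (Fin n) (Fin n) F) * (Matrix.of fun i j => v (i, j)) *
      (g : Matrix (Fin n) (Fin n) F)ᵀ)) =
        (g : Matrix (Fin n) (Fin n) F) * altOf v * (g : Matrix (Fin n) (Fin n) F)ᵀ := by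
    set V : Matrix (Fin n) (Fin n) F := Matrix.of fun i j => v (i, j)
    change (g : Matrix (Fin n) (Fin n) F) * V * (g : Matrix (Fin n) (Fin n) F)ᵀ -
      ((g : Matrix (Fin n) (Fin n) F) * V * (g : Matrix (Fin n) (Fin n) F)ᵀ)ᵀ = _ * (V - Vᵀ) * _
    simp [Matrix.mul_sub, Matrix.sub_mul, Matrix.transpose_mul, Matrix.mul_assoc]
  rw [act_mul, act_mul, act_zI, act_levI, act_levI, act_zI, hA, vec_inj]
  refine ⟨rfl, ?_, rfl⟩
  rw [Matrix.mulVec_add, Matrix.mulVec_mulVec, Matrix.mulVec_mulVec, Matrix.mul_assoc _ _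
    ((g⁻¹ : GL (Fin n) F) : Matrix (Fin n) (Fin n) F)ᵀ, ← Matrix.transpose_mul, ← Units.val_mul,
    inv_mul_cancel, Units.val_one, Matrix.transpose_one, Matrix.mul_one]

/-- The Eichler elements inside `Omega`. -/
def eo (u w : Unit ⊕ (Fin n ⊕ Fin n) → F) : OmOdd n F :=
  if h : qOdd n F u = 0 ∧ bo u w = 0 ∧ 5 ≤ Fintype.card (Unit ⊕ (Fin n ⊕ Fin n)) then
    ⟨⟨eichler (ndQ n) h.1 h.2.1, eichler_mem_isometryGroup (ndQ n) h.1 h.2.1⟩, by
      obtain ⟨g, hg, hge⟩ := eichler_mem_omega (ndQ n) h.2.2 h.1 h.2.1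
      have e : (⟨eichler (ndQ n) h.1 h.2.1, eichler_mem_isometryGroup (ndQ n) h.1 h.2.1⟩ :
          IsoOdd n F) = g := Subtype.ext hge.symm
      rw [e]; exact hg⟩
  else 1

theorem card_idx (hn : 2 ≤ n) : 5 ≤ Fintype.card (Unit ⊕ (Fin n ⊕ Fin n)) := by simp; omega

theorem coe_eo (hn : 2 ≤ n) {u w : Unit ⊕ (Fin n ⊕ Fin n) → F} (hu : qOdd n F u = 0) (hw : bo u w = 0) :
    (((eo u w : OmOdd n F) : IsoOdd n F) : GL (Unit ⊕ (Fin n ⊕ Fin n)) F) = eichler (ndQ n) hu hw := by
  rw [eo, dif_pos ⟨hu, hw, card_idx hn⟩]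

theorem act_eo (hn : 2 ≤ n) {u w : Unit ⊕ (Fin n ⊕ Fin n) → F} (hu : qOdd n F u = 0) (hw : bo u w = 0)
    (x : Unit ⊕ (Fin n ⊕ Fin n) → F) :
    act ((eo u w : OmOdd n F) : IsoOdd n F) x = x + bo w x • u - bo u x • w - (qOdd n F w * bo u x) • u := by
  show ((((eo u w : OmOdd n F) : IsoOdd n F) : GL (Unit ⊕ (Fin n ⊕ Fin n)) F) : Matrix (Unit ⊕ (Fin n ⊕ Fin n)) (Unit ⊕ (Fin n ⊕ Fin n)) F) *ᵥ x = _
  rw [coe_eo hn hu hw, eichler_mulVec]

theorem eo_add (hn : 2 ≤ n) {u w w' : Unit ⊕ (Fin n ⊕ Fin n) → F} (hu : qOdd n F u = 0) (hw : bo u w = 0)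
    (hw' : bo u w' = 0) : eo u w * eo u w' = eo u (w + w') := by
  apply Subtype.ext; apply Subtype.ext
  rw [Subgroup.coe_mul, Subgroup.coe_mul, coe_eo hn hu hw, coe_eo hn hu hw',
    coe_eo hn hu (by rw [map_add, hw, hw', add_zero]), eichler_mul]

theorem eo_zero (hn : 2 ≤ n) {u : Unit ⊕ (Fin n ⊕ Fin n) → F} (hu : qOdd n F u = 0) : eo u 0 = 1 := by
  have h := eo_add hn hu (map_zero (bo u)) (map_zero (bo u))
  rwa [add_zero, mul_eq_left] at h

theorem conj_eo (hn : 2 ≤ n) (g : OmOdd n F) {u w : Unit ⊕ (Fin n ⊕ Fin n) → F} (hu : qOdd n F u = 0)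
    (hw : bo u w = 0) : g * eo u w * g⁻¹ = eo (act (g : IsoOdd n F) u) (act (g : IsoOdd n F) w) := by
  have hu' : qOdd n F (act (g : IsoOdd n F) u) = 0 := by rw [act_q, hu]
  have hw' : bo (act (g : IsoOdd n F) u) (act (g : IsoOdd n F) w) = 0 := by rw [act_b, hw]
  apply Subtype.ext; apply Subtype.ext
  simp only [Subgroup.coe_mul, Subgroup.coe_inv]
  rw [coe_eo hn hu hw, coe_eo hn hu' hw']
  exact conj_eichler (ndQ n) (g : IsoOdd n F).2 hu hw hu' hw' rfl rfl

theorem eo_fix (hn : 2 ≤ n) {u w x : Unit ⊕ (Fin n ⊕ Fin n) → F} (hu : qOdd n F u = 0) (hw : bo u w = 0)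
    (hux : bo u x = 0) (hwx : bo w x = 0) : act ((eo u w : OmOdd n F) : IsoOdd n F) x = x := by
  rw [act_eo hn hu hw, hux, hwx]; simp

/-- The elements of the radical outside its centre. -/
def uO (a : Fin n → F) : OmOdd n F := eo (vec 0 a 0) dV

theorem bo_iota_dV (a : Fin n → F) : bo (vec 0 a 0) dV = 0 := by simp [dV, bo_vec, -bform_apply]

theorem act_uO (hn : 2 ≤ n) (a : Fin n → F) (d : F) (x y : Fin n → F) :
    act ((uO a : OmOdd n F) : IsoOdd n F) (vec d x y) = vec (d - a ⬝ᵥ y) (x + (2 * d - a ⬝ᵥ y) • a) y := by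
  rw [uO, act_eo hn (q_iota a) (bo_iota_dV a), bo_dV, bo_vec, q_dV, dV]
  simp only [mul_zero, dotProduct_zero, zero_add, add_zero, one_mul, zero_mul, vec_smul, vec_add, vec_sub,
    smul_zero, sub_zero, mul_one, vec_inj]
  exact ⟨trivial, by rw [sub_smul]; abel, trivial⟩

/-- The commutation in the radical. -/
theorem uO_mul (hn : 2 ≤ n) (a b : Fin n → F) :
    uO a * uO b = zO (flat2 (vecMulVec b a)) * uO (a + b) := by
  apply Subtype.ext
  refine iso_ext fun w => ?_
  obtain ⟨d, x, y, rfl⟩ := exists_vec w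
  rw [Subgroup.coe_mul, Subgroup.coe_mul, act_mul, act_mul, act_uO hn, act_uO hn, act_uO hn]
  show _ = act (zI _) _
  rw [act_zI, vec_inj]
  refine ⟨by rw [add_dotProduct]; ring, ?_, rfl⟩
  have e : altOf (flat2 (vecMulVec b a)) = vecMulVec b a - vecMulVec a b := by
    ext i j; simp [altOf_apply, flat2, vecMulVec_apply, mul_comm]
  rw [e, Matrix.sub_mulVec, Matrix.vecMulVec_mulVec, Matrix.vecMulVec_mulVec, op_smul_eq_smul, op_smul_eq_smul]
  funext i
  simp only [Pi.add_apply, Pi.sub_apply, Pi.smul_apply, smul_eq_mul, add_dotProduct]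
  ring

theorem zO_uO_comm (hn : 2 ≤ n) (v : Fin n × Fin n → F) (a : Fin n → F) :
    zO v * uO a = uO a * zO v := by
  apply Subtype.ext
  refine iso_ext fun w => ?_
  obtain ⟨d, x, y, rfl⟩ := exists_vec w
  rw [Subgroup.coe_mul, Subgroup.coe_mul, act_mul, act_mul, act_uO hn]
  show act (zI v) _ = act ((uO a : OmOdd n F) : IsoOdd n F) (act (zI v) _)
  rw [act_zI, act_zI, act_uO hn, vec_inj]
  exact ⟨rfl, by abel, rfl⟩

theorem uO_zero (hn : 2 ≤ n) : uO (0 : Fin n → F) = 1 := by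
  apply Subtype.ext
  refine iso_ext fun w => ?_
  obtain ⟨d, x, y, rfl⟩ := exists_vec w
  rw [act_uO hn, Subgroup.coe_one, act_one, vec_inj]
  simp

theorem sqO_zO (g : sqDet F (Fin n)) (v : Fin n × Fin n → F) :
    sqO g * zO v = zO (flat2 (((g : GL (Fin n) F) : Matrix (Fin n) (Fin n) F) *
      (Matrix.of fun i j => v (i, j)) * ((g : GL (Fin n) F) : Matrix (Fin n) (Fin n) F)ᵀ)) * sqO g :=
  Subtype.ext (levI_zI _ v)

theorem sqO_uO (hn : 2 ≤ n) (g : sqDet F (Fin n)) (a : Fin n → F) :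
    sqO g * uO a = uO (((g : GL (Fin n) F) : Matrix (Fin n) (Fin n) F) *ᵥ a) * sqO g := by
  apply Subtype.ext
  refine iso_ext fun w => ?_
  obtain ⟨d, x, y, rfl⟩ := exists_vec w
  have h : (((g : GL (Fin n) F) : Matrix (Fin n) (Fin n) F) *ᵥ a) ⬝ᵥ
      ((((g : GL (Fin n) F)⁻¹ : GL (Fin n) F) : Matrix (Fin n) (Fin n) F)ᵀ *ᵥ y) = a ⬝ᵥ y := by
    rw [Matrix.dotProduct_mulVec, Matrix.vecMul_transpose, Matrix.mulVec_mulVec, ← Units.val_mul,
      inv_mul_cancel, Units.val_one, Matrix.one_mulVec]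
  rw [Subgroup.coe_mul, Subgroup.coe_mul, act_mul, act_mul, act_uO hn]
  show act (levI _) _ = act ((uO _ : OmOdd n F) : IsoOdd n F) (act (levI _) _)
  rw [act_levI, act_levI, act_uO hn, h, vec_inj]
  exact ⟨rfl, by rw [Matrix.mulVec_add, Matrix.mulVec_smul], rfl⟩

theorem q_eV_add_fV (i : Fin n) : qOdd n F (eV i + fV i) = 1 := by
  simp [eV, fV, vec_add, q_vec]

theorem q_eV_add_fV_ne (i : Fin n) : qOdd n F (eV i + fV i) ≠ 0 := by
  rw [q_eV_add_fV]; exact one_ne_zero

/-- The element exchanging `e_i` and `-f_i` and negating the anisotropic vector. -/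
def mO (i : Fin n) : OmOdd n F :=
  ⟨refl (ndQ n) (q_eV_add_fV_ne i) * refl (ndQ n) q_dV_ne,
    refl_mul_refl_mem_omega (ndQ n) (exc_odd n) q_dV_ne (q_eV_add_fV_ne i)
      (by rw [q_dV, q_eV_add_fV, one_mul]; exact IsSquare.one)⟩

theorem act_refl {a : Unit ⊕ (Fin n ⊕ Fin n) → F} (ha : qOdd n F a ≠ 0)
    (x : Unit ⊕ (Fin n ⊕ Fin n) → F) :
    act (refl (ndQ n) ha) x = x - ((qOdd n F a)⁻¹ * bo a x) • a := by
  show (((refl (ndQ n) ha : IsoOdd n F) : GL (Unit ⊕ (Fin n ⊕ Fin n)) F) : Matrix (Unit ⊕ (Fin n ⊕ Fin n)) (Unit ⊕ (Fin n ⊕ Fin n)) F) *ᵥ x = _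
  rw [coe_refl, reflection_mulVec]

theorem act_mO (i : Fin n) (d : F) (x y : Fin n → F) :
    act ((mO i : OmOdd n F) : IsoOdd n F) (vec d x y) =
      vec (-d) (Function.update x i (-y i)) (Function.update y i (-x i)) := by
  show act (refl (ndQ n) (q_eV_add_fV_ne i) * refl (ndQ n) q_dV_ne) _ = _
  rw [act_mul, act_refl, act_refl, q_dV, q_eV_add_fV, inv_one, one_mul, one_mul, bo_dV, dV, vec_smul,
    vec_sub, map_add, LinearMap.add_apply, bo_eV, bo_fV, eV, fV, vec_add, vec_smul, vec_sub, vec_inj]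
  refine ⟨by ring, funext fun j => ?_, funext fun j => ?_⟩ <;> by_cases h : j = i
  · subst h; simp
  · simp [h]
  · subst h; simp
  · simp [h]

/-- An isometry fixing the isotropic frame is trivial or the reflection in the anisotropic vector. -/
theorem eq_one_or_refl {g : IsoOdd n F} (hg : ∀ i, act g (eV i) = eV i ∧ act g (fV i) = fV i) :
    g = 1 ∨ g = refl (ndQ n) q_dV_ne := by
  obtain ⟨c, x, y, hc⟩ := exists_vec (act g dV)
  have hx : x = 0 := funext fun i => by
    have h := act_b g (fV i) dV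
    rw [(hg i).2, hc, bo_fV] at h
    rw [h, dV, bo_fV]
  have hy : y = 0 := funext fun i => by
    have h := act_b g (eV i) dV
    rw [(hg i).1, hc, bo_eV] at h
    rw [h, dV, bo_eV]
  subst hx hy
  have hcc : c ^ 2 = 1 := by
    have h := act_q g (dV (n := n) (F := F))
    rwa [hc, q_dV, q_vec, zero_dotProduct, add_zero] at h
  have key : ∀ h : IsoOdd n F, act h dV = act g dV → (∀ i, act h (eV i) = eV i ∧ act h (fV i) = fV i) →
      g = h := by
    intro h hd hf
    refine Subtype.ext (Units.ext (Matrix.ext_of_mulVec_single fun i => ?_))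
    show act g (Pi.single i 1) = act h (Pi.single i 1)
    rcases i with ⟨⟩ | i | i
    · rw [show (Pi.single (Sum.inl ()) 1 : Unit ⊕ (Fin n ⊕ Fin n) → F) = dV by
        funext j; rcases j with ⟨⟩ | j | j <;> simp [dV, vec], hd]
    · rw [show (Pi.single (Sum.inr (Sum.inl i)) 1 : Unit ⊕ (Fin n ⊕ Fin n) → F) = eV i by
        funext j; rcases j with ⟨⟩ | j | j <;> simp [eV, vec, Pi.single_apply], (hg i).1, (hf i).1]
    · rw [show (Pi.single (Sum.inr (Sum.inr i)) 1 : Unit ⊕ (Fin n ⊕ Fin n) → F) = fV i by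
        funext j; rcases j with ⟨⟩ | j | j <;> simp [fV, vec, Pi.single_apply], (hg i).2, (hf i).2]
  rcases sq_eq_one_iff.1 hcc with rfl | rfl
  · exact Or.inl (key 1 (by rw [act_one, hc]; rfl) fun i => ⟨act_one _, act_one _⟩)
  · refine Or.inr (key _ ?_ fun i => ⟨?_, ?_⟩)
    · rw [hc, act_refl, q_dV, inv_one, one_mul, dV, bo_vec, vec_smul, vec_sub, vec_inj]
      simp; ring
    · rw [act_refl, eV, bo_dV]; simp
    · rw [act_refl, fV, bo_dV]; simp

theorem class_eq_one {g : IsoOdd n F} (hg : g ∈ OmOdd n F) : classHom (ndQ n) (exc_odd n) g = 1 := by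
  rw [← MonoidHom.mem_ker, ker_classHom]; exact hg

theorem eq_one_of_fix_frame {g : OmOdd n F}
    (hg : ∀ i, act (g : IsoOdd n F) (eV i) = eV i ∧ act (g : IsoOdd n F) (fV i) = fV i) : g = 1 := by
  rcases eq_one_or_refl hg with h | h
  · exact Subtype.ext h
  · have h1 := congrArg Prod.fst (class_eq_one g.2)
    rw [h, classHom_refl_fst] at h1
    exact absurd h1 (by decide)

/-- A diagonal element of `Omega` fixing all but one pair of the frame has a square entry. -/
theorem isSquare_of_scale {g : OmOdd n F} {p : Fin n} {a : F} (ha : a ≠ 0)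
    (he : act (g : IsoOdd n F) (eV p) = a • eV p) (hf : act (g : IsoOdd n F) (fV p) = a⁻¹ • fV p)
    (hfix : ∀ j, j ≠ p → act (g : IsoOdd n F) (eV j) = eV j ∧ act (g : IsoOdd n F) (fV j) = fV j) :
    IsSquare a := by
  set a2 : Unit ⊕ (Fin n ⊕ Fin n) → F := eV p + a • fV p with ha2
  have hq2 : qOdd n F a2 = a := by simp [ha2, eV, fV, vec_add, vec_smul, q_vec]
  have hq2' : qOdd n F a2 ≠ 0 := by rw [hq2]; exact ha
  set t : IsoOdd n F := refl (ndQ n) (q_eV_add_fV_ne p) * refl (ndQ n) hq2' with ht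
  have hact : ∀ (d : F) (x y : Fin n → F), act t (vec d x y) =
      vec d (Function.update x p (a * x p)) (Function.update y p (a⁻¹ * y p)) := by
    intro d x y
    have inner : act (refl (ndQ n) hq2') (vec d x y) =
        vec d (x - (a⁻¹ * (y p + a * x p)) • (Pi.single p 1 : Fin n → F))
          (y - (a⁻¹ * (y p + a * x p)) • a • (Pi.single p 1 : Fin n → F)) := by
      rw [act_refl, hq2, ha2, map_add, LinearMap.add_apply, map_smul, LinearMap.smul_apply, bo_eV, bo_fV,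
        smul_eq_mul, eV, fV, vec_smul, vec_add, vec_smul, vec_sub, vec_inj]
      simp
    rw [ht, act_mul, inner, act_refl, q_eV_add_fV, inv_one, one_mul, map_add, LinearMap.add_apply, bo_eV,
      bo_fV, eV, fV, vec_add, vec_smul, vec_sub, vec_inj]
    refine ⟨by ring, funext fun j => ?_, funext fun j => ?_⟩ <;> by_cases h : j = p
    · subst h; simp; field_simp; ring
    · simp [h]
    · subst h; simp; field_simp; ring
    · simp [h]
  have h1 : ∀ i, act (t⁻¹ * (g : IsoOdd n F)) (eV i) = eV i ∧ act (t⁻¹ * (g : IsoOdd n F)) (fV i) = fV i := by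
    intro i
    rw [act_mul, act_mul]
    by_cases hi : i = p
    · subst hi
      have e1 : act t (eV i) = a • eV i := by
        rw [eV, hact, vec_smul, vec_inj]
        refine ⟨by simp, funext fun j => ?_, ?_⟩
        · by_cases h : j = i
          · subst h; simp
          · simp [h]
        · simp
      have e2 : act t (fV i) = a⁻¹ • fV i := by
        rw [fV, hact, vec_smul, vec_inj]
        refine ⟨by simp, ?_, funext fun j => ?_⟩
        · simp
        · by_cases h : j = i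
          · subst h; simp
          · simp [h]
      rw [he, hf, ← e1, ← e2, act_inv_act, act_inv_act]
      exact ⟨rfl, rfl⟩
    · have e1 : act t (eV i) = eV i := by
        rw [eV, hact, vec_inj]
        simp [Ne.symm hi]
      have e2 : act t (fV i) = fV i := by
        rw [fV, hact, vec_inj]
        simp [Ne.symm hi]
      rw [(hfix i hi).1, (hfix i hi).2]
      constructor
      · conv_lhs => rw [← e1]
        exact act_inv_act t _
      · conv_lhs => rw [← e2]
        exact act_inv_act t _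
  have hne : ∀ z : Multiplicative (ZMod 2), z ≠ 1 → z = Multiplicative.ofAdd 1 := by decide
  have hC := class_eq_one g.2
  have hg1 : t⁻¹ * (g : IsoOdd n F) = 1 := by
    rcases eq_one_or_refl h1 with h | h
    · exact h
    exfalso
    rw [inv_mul_eq_iff_eq_mul] at h
    rw [h, ht, map_mul, map_mul] at hC
    have := congrArg Prod.fst hC
    simp only [Prod.fst_mul, classHom_refl_fst, Prod.fst_one] at this
    exact absurd this (by decide)
  rw [inv_mul_eq_one] at hg1
  rw [← hg1, ht, map_mul] at hC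
  have h2 := congrArg Prod.snd hC
  rw [Prod.snd_mul, (classHom_refl_snd (ndQ n) (exc_odd n) (q_eV_add_fV_ne p)).2
    (by rw [q_eV_add_fV]; exact IsSquare.one), one_mul, Prod.snd_one,
    classHom_refl_snd (ndQ n) (exc_odd n) hq2', hq2] at h2
  exact h2

end CfsgLib.OrthOddDeg
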