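import Cfsg.Agent.OrthOddDeg.Radical
import Cfsg.Agent.OrthOddDeg.Classes

/-!
There is no representation of `Omega_{2n+1}(q)` of degree below `(q^{2n} - 1) / (q^2 - 1)`.
-/

set_option autoImplicit false
set_option linter.unusedSectionVars false
set_option linter.style.haveILetI false

noncomputable section

namespace CfsgLib.OrthOddDeg

open Cfsg.Geo CfsgLib.OrthGeo Matrix CfsgLib.OrthPlusDeg CfsgLib.SlMinDegree
open scoped MatrixGroups _root_.Classical

variable {F : Type*} [Field F] [Fintype F] [DecidableEq F] [NeZero (2 : F)]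

/-- The arithmetic of the coefficients. -/
theorem coeff_contradiction {q u k : ℕ} (hq : 5 ≤ q) (hu : q ^ 2 ≤ u) {a b : ℂ}
    (h2 : ((q : ℂ) - 1) + q * ((u : ℂ) - 1) * a = 0)
    (h1 : ((q : ℂ) - 1) + q * ((u : ℂ) - 1) * ((u : ℂ) + 1) * a + q * (u : ℂ) ^ 2 * ((q : ℂ) - 1) * b = 0)
    (h3 : (k : ℂ) * (((q : ℂ) - 1) + q * ((u : ℂ) - 1) * ((u : ℂ) + 1) * (a * a) +
      q * (u : ℂ) ^ 2 * ((q : ℂ) - 1) * (b * b)) = (q : ℂ) ^ 2 * (u : ℂ) ^ 2 - 1)
    (hsmall : k * (q ^ 2 - 1) < q ^ 2 * u ^ 2 - 1) : False := by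
  have hu2 : 25 ≤ u := le_trans (le_trans (by norm_num) (Nat.pow_le_pow_left hq 2)) hu
  have hq0 : (q : ℂ) - 1 ≠ 0 := sub_ne_zero.2 (by exact_mod_cast (show q ≠ 1 by omega))
  have hu0 : (u : ℂ) ≠ 0 := Nat.cast_ne_zero.2 (by omega)
  have hqub : (q : ℂ) * u * b = 1 := by
    have h : ((q : ℂ) - 1) * u * ((q : ℂ) * u * b - 1) = 0 := by linear_combination h1 - ((u : ℂ) + 1) * h2
    rcases mul_eq_zero.1 h with h | h
    · exact absurd h (mul_ne_zero hq0 hu0)
    · exact sub_eq_zero.1 h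
  have e : (q : ℂ) * u - 1 ≠ 0 := by
    refine sub_ne_zero.2 ?_
    exact_mod_cast (show q * u ≠ 1 by nlinarith)
  have key : 2 * ((q : ℂ) - 1) * k = q * ((u : ℂ) - 1) * ((q : ℂ) * u + 1) := by
    apply mul_left_cancel₀ e
    linear_combination ((q : ℂ) * ((u : ℂ) - 1)) * h3 -
      (k : ℂ) * ((u : ℂ) + 1) * ((q : ℂ) * ((u : ℂ) - 1) * a - ((q : ℂ) - 1)) * h2 -
      (k : ℂ) * ((q : ℂ) - 1) * ((u : ℂ) - 1) * ((q : ℂ) * u * b + 1) * hqub
  obtain ⟨Q, rfl⟩ : ∃ Q, q = Q + 1 := ⟨q - 1, by omega⟩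
  obtain ⟨U, rfl⟩ : ∃ U, u = U + 1 := ⟨u - 1, by omega⟩
  have keyN : 2 * Q * k = (Q + 1) * U * ((Q + 1) * (U + 1) + 1) := by
    have : ((2 * Q * k : ℕ) : ℂ) = (((Q + 1) * U * ((Q + 1) * (U + 1) + 1) : ℕ) : ℂ) := by
      push_cast at key ⊢; linear_combination key
    exact_mod_cast this
  rw [show (Q + 1) ^ 2 = Q * (Q + 2) + 1 by ring, Nat.add_sub_cancel] at hsmall
  have hpos : 1 ≤ (Q * (Q + 2) + 1) * (U + 1) ^ 2 := Nat.one_le_iff_ne_zero.2 (by positivity)
  have hs : k * (Q * (Q + 2)) + 1 < (Q * (Q + 2) + 1) * (U + 1) ^ 2 := by omega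
  have h4 : (Q + 2) * ((Q + 1) * U * (((Q + 1) * (U + 1)) + 1)) = (Q + 2) * (2 * Q * k) := by rw [keyN]
  have h5 : 2 * Q * (((Q + 1) * (U + 1)) + 1) ≤ (Q + 1) * U * Q * (((Q + 1) * (U + 1)) + 1) :=
    Nat.mul_le_mul_right _ (Nat.mul_le_mul_right Q (le_trans (show 2 ≤ Q + 1 by omega)
      (Nat.le_mul_of_pos_right _ (by omega))))
  have h6 : (Q * (Q + 2) + 1) * (U + 1) ^ 2 = ((Q + 1) * (U + 1)) * ((Q + 1) * (U + 1)) := by ring
  nlinarith

variable {n k : ℕ} (R : OmOdd n F →* Matrix (Fin k) (Fin k) ℂ)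

set_option maxHeartbeats 2000000 in
/-- Representations of small degree do not exist. -/
theorem no_small (hn : 3 ≤ n) (hq : 5 ≤ Fintype.card F) (hodd : Odd (Fintype.card F)) (hk0 : k ≠ 0)
    (hnf : NoFix R Set.univ) (hs : Schur R)
    (hsmall : k * (Fintype.card F ^ 2 - 1) < Fintype.card F ^ (2 * n) - 1) : False := by
  obtain ⟨ψ, hψ⟩ : ∃ ψ : AddChar F ℂ, ψ 1 ≠ 1 :=
    AddChar.exists_apply_ne_zero.2 (one_ne_zero : (1 : F) ≠ 0)
  obtain ⟨w, hw0, hw⟩ := exists_line_fixed R hn hq hψ hk0 hnf hsmall hodd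
  have hQ0 := fun y hy a => fixZ_uO R hn hq hψ hk0 hnf hsmall y hy a
  obtain ⟨m, rfl⟩ : ∃ m, n = m + 1 := ⟨n - 1, by omega⟩
  set q := Fintype.card F with hqdef
  set o : Fin (m + 1) := ⟨0, by omega⟩ with ho
  set p : Fin (m + 1) := ⟨1, by omega⟩ with hp
  have hop : o ≠ p := by simp [o, p]
  set e₀ : Unit ⊕ (Fin (m + 1) ⊕ Fin (m + 1)) → F := eV o with he₀
  haveI : Fintype (OmOdd (m + 1) F) := Fintype.ofFinite _
  -- the stabiliser of the line and the coefficient
  let H : Subgroup (OmOdd (m + 1) F) :=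
    { carrier := {g | ∃ c : F, act (g : IsoOdd (m + 1) F) e₀ = c • e₀}
      mul_mem' := by
        rintro g h ⟨c, hc⟩ ⟨d, hd⟩
        exact ⟨d * c, by rw [Subgroup.coe_mul, act_mul, hd, act_smul, hc, smul_smul]⟩
      one_mem' := ⟨1, by rw [Subgroup.coe_one, act_one, one_smul]⟩
      inv_mem' := by
        rintro g ⟨c, hc⟩
        refine ⟨c⁻¹, ?_⟩
        have h := congrArg (act (g : IsoOdd (m + 1) F)⁻¹) hc
        rw [act_inv_act, act_smul] at h
        rw [Subgroup.coe_inv]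
        rcases eq_or_ne c 0 with rfl | hc0
        · rw [zero_smul] at h
          rw [h, act_zero, smul_zero]
        · conv_rhs => rw [h, smul_smul, inv_mul_cancel₀ hc0, one_smul] }
  obtain ⟨uf, huw, hu⟩ := exists_functional R H (fun _ => 1) hw0 (fun g hg => by rw [one_smul]; exact hw g hg)
  set C : OmOdd (m + 1) F → ℂ := coeff R uf w with hC
  have hbi : ∀ a ∈ H, ∀ b ∈ H, ∀ g, C (a * g * b) = C g := fun a ha b hb g => by
    simp only [hC]
    rw [coeff_biinv R H (fun _ => 1) (fun g hg => by rw [one_smul]; exact hw g hg) hu ha hb, one_mul, one_mul]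
  have hclass : ∀ h g g' : OmOdd (m + 1) F, h ∈ H → (∃ c : F, act (h : IsoOdd (m + 1) F)
      (act (g : IsoOdd (m + 1) F) e₀) = c • act (g' : IsoOdd (m + 1) F) e₀) → C g = C g' := by
    rintro h g g' hh ⟨c, hc⟩
    have hmem : g'⁻¹ * (h * g) ∈ H := ⟨c, by
      rw [Subgroup.coe_mul, Subgroup.coe_mul, act_mul, act_mul, hc, act_smul, Subgroup.coe_inv, act_inv_act]⟩
    have e := hbi _ (inv_mem hh) _ hmem g'
    rwa [mul_assoc, mul_inv_cancel_left, inv_mul_cancel_left] at e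
  -- representatives
  obtain ⟨K, hK⟩ := exists_sl_mulVec_eq (ι := Fin (m + 1)) (by rw [Fintype.card_fin]; omega)
    (v := (Pi.single o 1 : Fin (m + 1) → F)) (w := Pi.single p 1) (by simp) (by simp)
  set gB : OmOdd (m + 1) F := sqO (slH K) with hgB
  have hgBe : act (gB : IsoOdd (m + 1) F) e₀ = eV p := by rw [hgB, he₀, act_sqO_slH, hK]; rfl
  set gC : OmOdd (m + 1) F := mO o with hgC
  have hgCe : act (gC : IsoOdd (m + 1) F) e₀ = -fV o := by rw [hgC, he₀, act_mO_eV, if_pos rfl]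
  set f : (Unit ⊕ (Fin (m + 1) ⊕ Fin (m + 1)) → F) → ℂ → ℂ → ℂ := fun v a b =>
    if ∃ c : F, v = c • e₀ then 1 else if bo e₀ v = 0 then a else b with hf
  set A : ℂ := C gB with hA
  set B : ℂ := C gC with hB
  have hq0 : qOdd (m + 1) F e₀ = 0 := q_eV o
  have hsing : ∀ g : OmOdd (m + 1) F, qOdd (m + 1) F (act (g : IsoOdd (m + 1) F) e₀) = 0 := fun g => by
    rw [act_q, hq0]
  have hCf : ∀ g : OmOdd (m + 1) F, C g = f (act (g : IsoOdd (m + 1) F) e₀) A B := by
    intro g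
    simp only [hf]
    split_ifs with h1 h2
    · obtain ⟨c, hc⟩ := h1
      rw [hclass 1 g 1 (one_mem _) ⟨c, by rw [Subgroup.coe_one, act_one, act_one, hc]⟩]
      rw [hC, coeff, map_one, Matrix.one_mulVec, huw]
    · obtain ⟨h, hh, c, hc⟩ := exists_to_eV (show 2 ≤ m + 1 by omega) hop (hsing g) h2 fun c hc => h1 ⟨c, hc⟩
      exact hclass h g gB ⟨1, by rw [one_smul]; exact hh⟩ ⟨c, by rw [hgBe]; exact hc⟩
    · obtain ⟨h, hh, hc⟩ := exists_to_fV (show 2 ≤ m + 1 by omega) o (hsing g) h2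
      exact hclass h g gC ⟨1, by rw [one_smul]; exact hh⟩ ⟨-(bo e₀ (act (g : IsoOdd (m + 1) F) e₀)), by
        rw [hgCe, smul_neg, neg_smul, neg_neg]; exact hc⟩
  have hinv : ∀ g : OmOdd (m + 1) F, C g⁻¹ = C g := by
    intro g
    rw [hCf, hCf]
    simp only [hf]
    have e1 : (∃ c : F, act ((g⁻¹ : OmOdd (m + 1) F) : IsoOdd (m + 1) F) e₀ = c • e₀) ↔
        ∃ c : F, act (g : IsoOdd (m + 1) F) e₀ = c • e₀ :=
      ⟨fun h => inv_inv g ▸ H.inv_mem (show g⁻¹ ∈ H from h), fun h => H.inv_mem (show g ∈ H from h)⟩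
    have e2 : bo e₀ (act ((g⁻¹ : OmOdd (m + 1) F) : IsoOdd (m + 1) F) e₀) =
        bo e₀ (act (g : IsoOdd (m + 1) F) e₀) := by
      rw [Subgroup.coe_inv]
      conv_lhs => rw [← act_b (g : IsoOdd (m + 1) F), act_act_inv, b_symm (ndQ (m + 1))]
    rw [e2]
    simp only [e1]
  -- the orbit
  set τ : OmOdd (m + 1) F →* GL (Unit ⊕ (Fin (m + 1) ⊕ Fin (m + 1))) F :=
    (IsoOdd (m + 1) F).subtype.comp (OmOdd (m + 1) F).subtype with hτ
  set O := (Finset.univ : Finset (Unit ⊕ (Fin (m + 1) ⊕ Fin (m + 1)) → F)).filter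
    fun v => v ≠ 0 ∧ qOdd (m + 1) F v = 0 with hO
  have he0 : e₀ ≠ 0 := fun h => one_ne_zero (show (1 : F) = 0 by
    simpa [he₀, eV, vec] using congrFun h (Sum.inr (Sum.inl o)))
  have hOm : ∀ g : OmOdd (m + 1) F, act (g : IsoOdd (m + 1) F) e₀ ∈ O := fun g => by
    refine Finset.mem_filter.2 ⟨Finset.mem_univ _, fun h => he0 ?_, hsing g⟩
    rw [← act_inv_act (g : IsoOdd (m + 1) F) e₀, h, act_zero]
  have hOT : ∀ v ∈ O, ∃ g : OmOdd (m + 1) F, act (g : IsoOdd (m + 1) F) e₀ = v := by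
    intro v hv
    obtain ⟨-, hv0, hvq⟩ := Finset.mem_filter.1 hv
    have key : ∀ (g : OmOdd (m + 1) F) (h : OmOdd (m + 1) F) (c : F),
        act (h : IsoOdd (m + 1) F) v = c • act (g : IsoOdd (m + 1) F) e₀ →
        ∃ g : OmOdd (m + 1) F, act (g : IsoOdd (m + 1) F) e₀ = v := by
      intro g h c hc
      have hc0 : c ≠ 0 := fun h0 => hv0 (by
        rw [h0, zero_smul] at hc
        rw [← act_inv_act (h : IsoOdd (m + 1) F) v, hc, act_zero])
      obtain ⟨d, hd⟩ := exists_scale hop hc0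
      refine ⟨h⁻¹ * (g * d), ?_⟩
      rw [Subgroup.coe_mul, Subgroup.coe_mul, act_mul, act_mul, hd, act_smul, ← hc, Subgroup.coe_inv,
        act_inv_act]
    by_cases h1 : ∃ c : F, v = c • e₀
    · obtain ⟨c, hc⟩ := h1
      exact key 1 1 c (by rw [Subgroup.coe_one, act_one, act_one, hc])
    by_cases h2 : bo e₀ v = 0
    · obtain ⟨h, -, c, hc⟩ := exists_to_eV (show 2 ≤ m + 1 by omega) hop hvq h2 fun c hc => h1 ⟨c, hc⟩
      exact key gB h c (by rw [hgBe, hc])
    · obtain ⟨h, -, hc⟩ := exists_to_fV (show 2 ≤ m + 1 by omega) o hvq h2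
      exact key gC h (-(bo e₀ v)) (by rw [hgCe, smul_neg, neg_smul, neg_neg]; exact hc)
  set N := ((Finset.univ : Finset (OmOdd (m + 1) F)).filter fun g : OmOdd (m + 1) F =>
    ((τ g : GL (Unit ⊕ (Fin (m + 1) ⊕ Fin (m + 1))) F) :
      Matrix (Unit ⊕ (Fin (m + 1) ⊕ Fin (m + 1))) (Unit ⊕ (Fin (m + 1) ⊕ Fin (m + 1))) F) *ᵥ e₀ = e₀).card
    with hN
  have hN0 : (N : ℂ) ≠ 0 := Nat.cast_ne_zero.2 (Finset.card_ne_zero.2 ⟨1, Finset.mem_filter.2
    ⟨Finset.mem_univ _, by rw [map_one, Units.val_one, Matrix.one_mulVec]⟩⟩)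
  have horb : ∀ φ : (Unit ⊕ (Fin (m + 1) ⊕ Fin (m + 1)) → F) → ℂ,
      ∑ g : OmOdd (m + 1) F, φ (act (g : IsoOdd (m + 1) F) e₀) = (N : ℂ) * ∑ v ∈ O, φ v := fun φ => by
    rw [← nsmul_eq_mul]
    exact sum_orbit τ O hOm hOT φ
  -- the numbers of vectors in the classes
  set P : (Unit ⊕ (Fin (m + 1) ⊕ Fin (m + 1)) → F) → Prop := fun v => ∃ c : F, v = c • e₀ with hP
  set Q : (Unit ⊕ (Fin (m + 1) ⊕ Fin (m + 1)) → F) → Prop := fun v => bo e₀ v = 0 with hQ
  have hPQ : ∀ v, P v → Q v := by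
    rintro v ⟨c, rfl⟩
    show bo e₀ (c • e₀) = 0
    rw [map_smul, b_self_eq_zero (ndQ _) hq0, smul_zero]
  have hQ' : ∀ v : Unit ⊕ (Fin (m + 1) ⊕ Fin (m + 1)) → F, bo e₀ v = v (Sum.inr (Sum.inr 0)) := fun v => by
    obtain ⟨d, x, y, rfl⟩ := exists_vec v
    rw [he₀, bo_eV]
    rfl
  have hnP : (O.filter P).card + 1 = q := by
    have e : O.filter P = ((Finset.univ : Finset F).erase 0).image fun c => c • e₀ := by
      ext v
      simp only [hP, hO, Finset.mem_filter, Finset.mem_univ, true_and, Finset.mem_image, Finset.mem_erase]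
      constructor
      · rintro ⟨⟨h0, -⟩, c, rfl⟩
        exact ⟨c, ⟨fun h => h0 (by rw [h, zero_smul]), trivial⟩, rfl⟩
      · rintro ⟨c, ⟨hc, -⟩, rfl⟩
        exact ⟨⟨smul_ne_zero hc he0, by rw [q_smul (ndQ _), hq0, mul_zero]⟩, c, rfl⟩
    rw [e, Finset.card_image_of_injective _ (smul_left_injective F he0),
      Finset.card_erase_of_mem (Finset.mem_univ _), Finset.card_univ, ← hqdef]
    omega
  have hnO : O.card + 1 = q ^ (2 * (m + 1)) := by
    have h := CfsgLib.QuadZeros.card_zeros_odd (F := F) rfl (m + 1)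
    rw [Nat.card_eq_fintype_card, Fintype.card_subtype] at h
    rw [← h, hO, ← Finset.card_insert_of_notMem (s := Finset.filter _ _) (a := 0) (by simp)]
    congr 1
    ext v
    simp only [Finset.mem_insert, Finset.mem_filter, Finset.mem_univ, true_and]
    constructor
    · rintro (rfl | h)
      · show qOdd (m + 1) F 0 = 0
        rw [← vec_zero, q_vec]; simp
      · exact h.2
    · exact fun h => (eq_or_ne v 0).imp id fun hv => ⟨hv, h⟩
  have hnQ : (O.filter Q).card + 1 = q ^ (2 * m + 1) := by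
    have h := card_perp_zeros (F := F) m
    rw [Nat.card_eq_fintype_card, Fintype.card_subtype, ← hqdef, ← pow_succ'] at h
    rw [← h, hO, Finset.filter_filter,
      ← Finset.card_insert_of_notMem (s := Finset.filter _ _) (a := 0) (by simp)]
    congr 1
    ext v
    simp only [Finset.mem_insert, Finset.mem_filter, Finset.mem_univ, true_and, hQ, hQ']
    constructor
    · rintro (rfl | h)
      · refine ⟨?_, rfl⟩
        rw [← vec_zero, q_vec]; simp
      · exact ⟨h.1.2, h.2⟩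
    · exact fun h => (eq_or_ne v 0).imp id fun hv => ⟨⟨hv, h.1⟩, h.2⟩
  set nP := (O.filter P).card
  set nB := ((O.filter fun v => ¬ P v).filter Q).card
  set nC := ((O.filter fun v => ¬ P v).filter fun v => ¬ Q v).card
  have hsplit : ∀ a b : ℂ, ∑ v ∈ O, f v a b = (nP : ℂ) + nB * a + nC * b := fun a b => by
    simp only [hf]
    rw [Finset.sum_ite, Finset.sum_ite, Finset.sum_const, Finset.sum_const, Finset.sum_const, nsmul_eq_mul,
      nsmul_eq_mul, nsmul_eq_mul, mul_one, add_assoc]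
  have hB1 : nP + nB = (O.filter Q).card := by
    rw [← Finset.card_filter_add_card_filter_not (s := O.filter Q) (p := P)]
    congr 1
    · rw [Finset.filter_filter]
      exact congrArg Finset.card (Finset.filter_congr fun v _ => ⟨fun h => ⟨hPQ v h, h⟩, And.right⟩)
    · exact congrArg Finset.card (Finset.filter_comm _ _ _)
  have hC1 : nP + nB + nC = O.card := by
    rw [add_assoc, Finset.card_filter_add_card_filter_not,
      Finset.card_filter_add_card_filter_not]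
  -- the two linear relations
  have hrel1 : (nP : ℂ) + nB * A + nC * B = 0 := by
    have h0 : ∑ g : OmOdd (m + 1) F, C g = 0 := by
      simp only [hC, coeff]
      rw [← dotProduct_sum, sum_mulVec_eq_zero R hnf, dotProduct_zero]
    rw [Finset.sum_congr rfl (fun g _ => hCf g), horb fun v => f v A B, hsplit] at h0
    exact (mul_eq_zero.1 h0).resolve_left hN0
  have hrel3 : (k : ℂ) * ((nP : ℂ) + nB * (A * A) + nC * (B * B)) = (nP : ℂ) + nB + nC := by
    have h3 := (trace_formula R hs huw).1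
    have hsq : ∀ g : OmOdd (m + 1) F,
        C g * C g⁻¹ = f (act (g : IsoOdd (m + 1) F) e₀) (A * A) (B * B) := fun g => by
      rw [hinv, hCf]; simp only [hf]; split_ifs <;> ring
    rw [← hC, Finset.sum_congr rfl (fun g _ => hsq g),
      horb fun v => f v (A * A) (B * B), hsplit] at h3
    have h1 : (Fintype.card (OmOdd (m + 1) F) : ℂ) = (N : ℂ) * ((nP : ℂ) + nB + nC) := by
      rw [← Finset.card_univ, ← mul_one (((Finset.univ : Finset (OmOdd (m + 1) F)).card : ℂ)), ← nsmul_eq_mul,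
        ← Finset.sum_const, horb fun _ => (1 : ℂ), Finset.sum_const, nsmul_eq_mul, mul_one, ← hC1]
      push_cast; ring
    rw [h1, mul_left_comm] at h3
    exact mul_left_cancel₀ hN0 h3
  -- the relation inside the Levi subgroup
  haveI : Fintype (Matrix.SpecialLinearGroup (Fin (m + 1)) F) := Fintype.ofFinite _
  set x₀ : Fin (m + 1) → F := Pi.single o 1 with hx₀
  have hwZ : FixZ R w := fun v => hw _ ⟨1, by
    rw [one_smul]
    show act (zI v) _ = _
    rw [he₀, eV, act_zI, Matrix.mulVec_zero, add_zero]⟩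
  have hlevi0 : ∑ S : Matrix.SpecialLinearGroup (Fin (m + 1)) F, R (sqO (slH S)) *ᵥ w = 0 := by
    refine hnf _ fun g _ => stab_elim hQ0 (show 2 ≤ m + 1 by omega) (i0 := 0) (fun v => ?_)
      (fun i j h c _ => ?_) g (fun j hj => absurd hj (Nat.not_lt_zero _))
    · rw [Matrix.mulVec_sum]
      refine Finset.sum_congr rfl fun S _ => ?_
      set M := slH (F := F) S
      have e : zO v * sqO M = sqO M * zO (flat2 ((((M⁻¹ : sqDet F (Fin (m + 1))) : GL (Fin (m + 1)) F) :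
          Matrix (Fin (m + 1)) (Fin (m + 1)) F) * (Matrix.of fun i j => v (i, j)) *
          (((M⁻¹ : sqDet F (Fin (m + 1))) : GL (Fin (m + 1)) F) :
            Matrix (Fin (m + 1)) (Fin (m + 1)) F)ᵀ)) := by
        have h := sqO_zO M⁻¹ v
        rw [map_inv] at h
        rw [← inv_mul_eq_iff_eq_mul, ← mul_assoc, h, inv_mul_cancel_right]
      rw [← R_mul_mulVec, e, R_mul_mulVec, hwZ]
    · rw [Matrix.mulVec_sum]
      refine Fintype.sum_equiv (Equiv.mulLeft (Matrix.SpecialLinearGroup.transvection h c)) _ _ fun S => ?_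
      rw [← R_mul_mulVec, ← map_mul, ← map_mul]
      rfl
  have hrel2 : ((q : ℂ) - 1) + ((q : ℂ) ^ (m + 1) - q) * A = 0 := by
    have h0 : ∑ S : Matrix.SpecialLinearGroup (Fin (m + 1)) F, C (sqO (slH S)) = 0 := by
      simp only [hC, coeff]
      rw [← dotProduct_sum, hlevi0, dotProduct_zero]
    set O' := (Finset.univ : Finset (Fin (m + 1) → F)).erase 0
    set τ' : Matrix.SpecialLinearGroup (Fin (m + 1)) F →* GL (Fin (m + 1)) F :=
      Matrix.SpecialLinearGroup.toGL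
    have hval : ∀ S : Matrix.SpecialLinearGroup (Fin (m + 1)) F, C (sqO (slH S)) =
        if ∃ c : F, ((τ' S : GL (Fin (m + 1)) F) : Matrix (Fin (m + 1)) (Fin (m + 1)) F) *ᵥ x₀ = c • x₀
          then 1 else A := by
      intro S
      rw [hCf, he₀, act_sqO_slH, ← hx₀]
      simp only [hf]
      have e1 : ∀ x : Fin (m + 1) → F, (∃ c : F, vec 0 x 0 = c • e₀) ↔ ∃ c : F, x = c • x₀ := fun x => by
        simp only [he₀, eV, vec_smul, vec_inj, mul_zero, smul_zero, true_and, and_true]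
        rfl
      simp only [show ∀ x : Fin (m + 1) → F, bo e₀ (vec 0 x 0) = 0 from fun x => by rw [he₀, bo_eV]; rfl, e1,
        if_true]
      rfl
    have hT' : ∀ x ∈ O', ∃ S, ((τ' S : GL (Fin (m + 1)) F) : Matrix (Fin (m + 1)) (Fin (m + 1)) F) *ᵥ x₀ = x :=
      fun x hx => exists_sl_mulVec_eq (by rw [Fintype.card_fin]; omega) (by simp [x₀])
        (Finset.ne_of_mem_erase hx)
    have hO' : ∀ S, ((τ' S : GL (Fin (m + 1)) F) : Matrix (Fin (m + 1)) (Fin (m + 1)) F) *ᵥ x₀ ∈ O' := by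
      refine fun S => Finset.mem_erase.2 ⟨fun h => ?_, Finset.mem_univ _⟩
      have h' := congrArg ((((τ' S)⁻¹ : GL (Fin (m + 1)) F) : Matrix (Fin (m + 1)) (Fin (m + 1)) F) *ᵥ ·) h
      rw [Matrix.mulVec_mulVec, ← Units.val_mul, inv_mul_cancel, Units.val_one, Matrix.one_mulVec,
        Matrix.mulVec_zero] at h'
      simp [x₀] at h'
    rw [Finset.sum_congr rfl (fun S _ => hval S),
      sum_orbit τ' O' hO' hT' (fun x => if ∃ c : F, x = c • x₀ then (1 : ℂ) else A), nsmul_eq_mul] at h0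
    replace h0 := (mul_eq_zero.1 h0).resolve_left (Nat.cast_ne_zero.2 (Finset.card_ne_zero.2
      ⟨1, Finset.mem_filter.2 ⟨Finset.mem_univ _, by rw [map_one, Units.val_one, Matrix.one_mulVec]⟩⟩))
    rw [Finset.sum_ite, Finset.sum_const, Finset.sum_const, nsmul_eq_mul, nsmul_eq_mul, mul_one] at h0
    have hx0 : x₀ ≠ 0 := by simp [x₀]
    have e : O'.filter (fun x => ∃ c : F, x = c • x₀) =
        ((Finset.univ : Finset F).erase 0).image fun c => c • x₀ := by
      ext x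
      simp only [O', Finset.mem_filter, Finset.mem_erase, Finset.mem_univ, and_true, Finset.mem_image]
      constructor
      · rintro ⟨hx, c, rfl⟩
        exact ⟨c, fun h => hx (by rw [h, zero_smul]), rfl⟩
      · rintro ⟨c, hc, rfl⟩
        exact ⟨smul_ne_zero hc hx0, c, rfl⟩
    have hn1 : (O'.filter fun x => ∃ c : F, x = c • x₀).card + 1 = q := by
      rw [e, Finset.card_image_of_injective _ (smul_left_injective F hx0),
        Finset.card_erase_of_mem (Finset.mem_univ _), Finset.card_univ, ← hqdef]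
      omega
    have hn2 : (O'.filter fun x => ∃ c : F, x = c • x₀).card +
        (O'.filter fun x => ¬ ∃ c : F, x = c • x₀).card + 1 = q ^ (m + 1) := by
      rw [Finset.card_filter_add_card_filter_not, Finset.card_erase_of_mem (Finset.mem_univ _),
        Finset.card_univ, Fintype.card_fun, Fintype.card_fin, ← hqdef]
      have := Nat.one_le_pow (m + 1) q (by omega)
      omega
    have hn1' := congrArg (Nat.cast (R := ℂ)) hn1
    have hn2' := congrArg (Nat.cast (R := ℂ)) hn2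
    push_cast at hn1' hn2'
    linear_combination h0 - hn1' - A * hn2' + A * hn1'
  -- the end
  have h1 : (nP : ℂ) + 1 = q := by exact_mod_cast hnP
  have h2 : (nP : ℂ) + nB + 1 = (q : ℂ) ^ (2 * m + 1) := by
    rw [← hB1] at hnQ; exact_mod_cast hnQ
  have h3 : (nP : ℂ) + nB + nC + 1 = (q : ℂ) ^ (2 * (m + 1)) := by
    rw [← hC1] at hnO; exact_mod_cast hnO
  refine coeff_contradiction (q := q) (u := q ^ m) (k := k) (a := A) (b := B) hq
    (Nat.pow_le_pow_right (by omega) (by omega)) ?_ ?_ ?_ ?_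
  · push_cast
    rw [← hrel2, pow_succ]
    ring
  · push_cast
    have e1 : (nP : ℂ) = (q : ℂ) - 1 := by linear_combination h1
    have e2 : (nB : ℂ) = (q : ℂ) ^ (2 * m + 1) - q := by linear_combination h2 - h1
    have e3 : (nC : ℂ) = (q : ℂ) ^ (2 * (m + 1)) - (q : ℂ) ^ (2 * m + 1) := by linear_combination h3 - h2
    rw [e1, e2, e3] at hrel1
    linear_combination hrel1
  · push_cast
    have e1 : (nP : ℂ) = (q : ℂ) - 1 := by linear_combination h1
    have e2 : (nB : ℂ) = (q : ℂ) ^ (2 * m + 1) - q := by linear_combination h2 - h1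
    have e3 : (nC : ℂ) = (q : ℂ) ^ (2 * (m + 1)) - (q : ℂ) ^ (2 * m + 1) := by linear_combination h3 - h2
    rw [e1, e2, e3] at hrel3
    linear_combination hrel3
  · rw [show q ^ 2 * (q ^ m) ^ 2 = q ^ (2 * (m + 1)) by ring]
    exact hsmall

end CfsgLib.OrthOddDeg
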