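import Cfsg.Agent.OrthOddDeg.Elim
import Cfsg.Agent.OrthOddDeg.Basic

/-!
Vectors fixed by the Siegel radical and by a column are fixed by the pointwise stabiliser of the rest
of the frame.
-/

set_option autoImplicit false
set_option linter.unusedSectionVars false
set_option linter.style.haveILetI false

noncomputable section

namespace CfsgLib.OrthOddDeg

open Cfsg.Geo CfsgLib.OrthGeo Matrix CfsgLib.OrthPlusDeg
open scoped MatrixGroups _root_.Classical

variable {F : Type*} [Field F] [Fintype F] [DecidableEq F] [NeZero (2 : F)] {n : ℕ}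

theorem eo_smul_left (hn : 2 ≤ n) {u w : Unit ⊕ (Fin n ⊕ Fin n) → F} (hu : qOdd n F u = 0)
    (hw : bo u w = 0) (a : F) : eo (a • u) w = eo u (a • w) := by
  have h1 : qOdd n F (a • u) = 0 := by rw [q_smul (ndQ n), hu, mul_zero]
  have h2 : bo (a • u) w = 0 := by rw [map_smul, LinearMap.smul_apply, hw, smul_zero]
  have h3 : bo u (a • w) = 0 := by rw [map_smul, hw, smul_zero]
  apply Subtype.ext
  refine iso_ext fun x => ?_
  rw [act_eo hn h1 h2, act_eo hn hu h3, q_smul (ndQ n)]
  simp only [map_smul, LinearMap.smul_apply, smul_eq_mul, smul_smul]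
  module

theorem eo_self (hn : 2 ≤ n) {u : Unit ⊕ (Fin n ⊕ Fin n) → F} (hu : qOdd n F u = 0) (c : F) :
    eo u (c • u) = 1 := by
  have h : bo u (c • u) = 0 := by rw [map_smul, b_self_eq_zero (ndQ n) hu, smul_zero]
  apply Subtype.ext
  refine iso_ext fun x => ?_
  rw [act_eo hn hu h, Subgroup.coe_one, act_one, q_smul (ndQ n), hu]
  simp only [map_smul, LinearMap.smul_apply, smul_eq_mul, smul_smul]
  module

theorem eo_swap (hn : 2 ≤ n) {u w : Unit ⊕ (Fin n ⊕ Fin n) → F} (hu : qOdd n F u = 0)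
    (hw0 : qOdd n F w = 0) (hw : bo u w = 0) : eo w u = eo u (-w) := by
  have h2 : bo w u = 0 := by rw [b_symm]; exact hw
  have h3 : bo u (-w) = 0 := by rw [map_neg, hw, neg_zero]
  apply Subtype.ext
  refine iso_ext fun x => ?_
  rw [act_eo hn hw0 h2, act_eo hn hu h3, q_neg (ndQ n), hu, hw0]
  simp only [map_neg, LinearMap.neg_apply]
  module

theorem vec_neg (d : F) (x y : Fin n → F) : -vec d x y = vec (-d) (-x) (-y) := by
  funext i; rcases i with ⟨⟩ | i | i <;> rfl

theorem bo_eV_dV (p : Fin n) : bo (eV p) (dV : Unit ⊕ (Fin n ⊕ Fin n) → F) = 0 := by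
  rw [dV, bo_eV]; rfl

theorem bo_fV_dV (p : Fin n) : bo (fV p) (dV : Unit ⊕ (Fin n ⊕ Fin n) → F) = 0 := by
  rw [dV, bo_fV]; rfl

theorem bo_eV_eV (p r : Fin n) : bo (eV p) (eV r : Unit ⊕ (Fin n ⊕ Fin n) → F) = 0 := by
  rw [eV, eV, bo_vec]; simp

theorem bo_eV_fV (p r : Fin n) :
    bo (eV p) (fV r : Unit ⊕ (Fin n ⊕ Fin n) → F) = if p = r then 1 else 0 := by
  rw [fV, bo_eV, Pi.single_apply]

theorem bo_fV_eV (p r : Fin n) :
    bo (fV p) (eV r : Unit ⊕ (Fin n ⊕ Fin n) → F) = if p = r then 1 else 0 := by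
  rw [eV, bo_fV, Pi.single_apply]

theorem eo_eV_dV (hn : 2 ≤ n) (p : Fin n) (c : F) :
    eo (eV p) (c • (dV : Unit ⊕ (Fin n ⊕ Fin n) → F)) = uO (c • (Pi.single p 1 : Fin n → F)) := by
  rw [uO, ← eo_smul_left hn (q_eV p) (bo_eV_dV p), eV, vec_smul, mul_zero, smul_zero]

theorem eo_eV_eV (hn : 2 ≤ n) (p r : Fin n) (c : F) :
    eo (eV p) (c • (eV r : Unit ⊕ (Fin n ⊕ Fin n) → F)) = zO (c • (Pi.single (p, r) 1 : Fin n × Fin n → F)) := by
  have hb : bo (eV p) (c • (eV r : Unit ⊕ (Fin n ⊕ Fin n) → F)) = 0 := by rw [map_smul, bo_eV_eV, smul_zero]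
  apply Subtype.ext
  refine iso_ext fun w => ?_
  obtain ⟨d, x, y, rfl⟩ := exists_vec w
  rw [act_eo hn (q_eV p) hb, map_smul, LinearMap.smul_apply, bo_eV, bo_eV, q_smul (ndQ n), q_eV, mul_zero,
    zero_mul, zero_smul, sub_zero, eV, eV, vec_smul, vec_smul, vec_smul, vec_add, vec_sub]
  show _ = act (zI _) _
  rw [act_zI, altOf_smul, Matrix.smul_mulVec, vec_inj]
  refine ⟨by simp, funext fun i => ?_, by simp⟩
  rw [show altOf (Pi.single (p, r) 1 : Fin n × Fin n → F) = Matrix.single p r 1 - Matrix.single r p 1 by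
    ext a b; simp [altOf_apply, Matrix.single_apply, Pi.single_apply, eq_comm, and_comm],
    Matrix.sub_mulVec, Matrix.single_mulVec, Matrix.single_mulVec]
  simp [Function.update_apply, Pi.single_apply]
  by_cases h1 : i = p
  · subst h1
    by_cases h2 : i = r
    · subst h2; simp; ring
    · simp [h2, Ne.symm h2]
  · by_cases h2 : i = r
    · subst h2; simp [h1, Ne.symm h1]; ring
    · simp [h1, h2]

theorem eo_eV_fV (hn : 2 ≤ n) {p r : Fin n} (h : p ≠ r) (c : F) :
    eo (eV p) (c • (fV r : Unit ⊕ (Fin n ⊕ Fin n) → F)) =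
      sqO (slH (Matrix.SpecialLinearGroup.transvection h c)) := by
  have hb : bo (eV p) (c • (fV r : Unit ⊕ (Fin n ⊕ Fin n) → F)) = 0 := by
    rw [map_smul, bo_eV_fV, if_neg h, smul_zero]
  apply Subtype.ext
  refine iso_ext fun w => ?_
  obtain ⟨d, x, y, rfl⟩ := exists_vec w
  have hinv : (((Matrix.SpecialLinearGroup.toGL (Matrix.SpecialLinearGroup.transvection h c))⁻¹ :
      GL (Fin n) F) : Matrix (Fin n) (Fin n) F) = Matrix.transvection p r (-c) := by
    refine Units.inv_eq_of_mul_eq_one_right ?_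
    change Matrix.transvection p r c * _ = 1
    rw [Matrix.transvection_mul_transvection_same _ _ h, add_neg_cancel, Matrix.transvection_zero]
  rw [act_eo hn (q_eV p) hb, map_smul, LinearMap.smul_apply, bo_fV, bo_eV, q_smul (ndQ n), q_fV, mul_zero,
    zero_mul, zero_smul, sub_zero, eV, fV, vec_smul, vec_smul, vec_smul, vec_add, vec_sub]
  show _ = act (levI (Matrix.SpecialLinearGroup.toGL (Matrix.SpecialLinearGroup.transvection h c))) _
  rw [act_levI, hinv]
  show _ = vec d (Matrix.transvection p r c *ᵥ x) _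
  rw [vec_inj]
  refine ⟨by simp, funext fun i => ?_, funext fun i => ?_⟩
  · simp [Matrix.transvection, Matrix.add_mulVec, Matrix.single_mulVec, Function.update_apply, Pi.single_apply]
  · simp [Matrix.transvection, Matrix.transpose_single, Matrix.add_mulVec, Matrix.single_mulVec,
      Function.update_apply, Pi.single_apply]
    by_cases h1 : i = r <;> simp [h1]
    ring

theorem act_mO_eV (L i : Fin n) :
    act ((mO L : OmOdd n F) : IsoOdd n F) (eV i) = if i = L then -fV L else eV i := by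
  rw [eV, act_mO]
  split_ifs with h
  · subst h
    rw [fV, vec_neg, vec_inj]
    refine ⟨by simp, funext fun j => ?_, funext fun j => ?_⟩ <;> by_cases hj : j = i <;> simp [hj]
  · rw [vec_inj]
    refine ⟨neg_zero, funext fun j => ?_, funext fun j => ?_⟩ <;> by_cases hj : j = L <;>
      simp [hj, Ne.symm h]

theorem act_mO_dV (L : Fin n) :
    act ((mO L : OmOdd n F) : IsoOdd n F) dV = -(dV : Unit ⊕ (Fin n ⊕ Fin n) → F) := by
  rw [dV, act_mO, vec_neg, vec_inj]
  refine ⟨by simp, funext fun j => ?_, funext fun j => ?_⟩ <;> by_cases hj : j = L <;> simp [hj]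

variable {k : ℕ} (R : OmOdd n F →* Matrix (Fin k) (Fin k) ℂ)

/-- Fixed by the centre of the radical. -/
def FixZ (y : Fin k → ℂ) : Prop := ∀ v, R (zO v) *ᵥ y = y

/-- Fixed by the columns from a given index on. -/
def FixCol (i0 : ℕ) (y : Fin k → ℂ) : Prop :=
  ∀ (i j : Fin n) (h : i ≠ j) (c : F), i0 ≤ (j : ℕ) →
    R (sqO (slH (Matrix.SpecialLinearGroup.transvection h c))) *ᵥ y = y

variable {R}

/-- A condition on the unit parameters of the centre of the radical extends to all of it. -/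
theorem zO_mem_of_single (S : Subgroup (OmOdd n F))
    (h : ∀ i j : Fin n, i ≠ j → ∀ c : F, zO (c • (Pi.single (i, j) 1 : Fin n × Fin n → F)) ∈ S)
    (v : Fin n × Fin n → F) : zO v ∈ S := by
  rw [← Finset.univ_sum_single v]
  induction (Finset.univ : Finset (Fin n × Fin n)) using Finset.induction_on with
  | empty => rw [Finset.sum_empty, zO_zero]; exact one_mem _
  | insert a t ha ih =>
    rw [Finset.sum_insert ha, zO_add]
    refine mul_mem ?_ ih
    obtain ⟨i, j⟩ := a
    by_cases hij : i = j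
    · subst hij
      rw [zO_congr (v := 0) (by
        ext a b; simp [altOf_apply, Pi.single_apply]; split_ifs <;> simp_all), zO_zero]
      exact one_mem _
    · have := h i j hij (v (i, j))
      rwa [show v (i, j) • (Pi.single (i, j) 1 : Fin n × Fin n → F) = Pi.single (i, j) (v (i, j)) by
        funext x; simp [Pi.single_apply]] at this

/-- The exchange of `e_L` and `f_L` keeps such a vector fixed by the centre of the radical. -/
theorem m_trick (hn : 2 ≤ n) (L : Fin n) {y : Fin k → ℂ}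
    (hz : ∀ i j : Fin n, i ≠ L → j ≠ L → ∀ c : F, R (zO (c • (Pi.single (i, j) 1 : Fin n × Fin n → F))) *ᵥ y = y)
    (hc : ∀ (i : Fin n) (h : i ≠ L) (c : F),
      R (sqO (slH (Matrix.SpecialLinearGroup.transvection h c))) *ᵥ y = y) :
    FixZ R (R (mO L)⁻¹ *ᵥ y) := by
  intro v
  have hmem : zO v ∈ (vecStab R y).comap (MulAut.conj (mO L)).toMonoidHom := by
    refine zO_mem_of_single _ (fun i j hij c => ?_) v
    rw [Subgroup.mem_comap, MulEquiv.coe_toMonoidHom, MulAut.conj_apply, mem_vecStab]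
    have hb : bo (eV i) (c • (eV j : Unit ⊕ (Fin n ⊕ Fin n) → F)) = 0 := by rw [map_smul, bo_eV_eV, smul_zero]
    rw [← eo_eV_eV hn, conj_eo hn _ (q_eV i) hb, act_smul, act_mO_eV, act_mO_eV]
    by_cases hi : i = L
    · subst hi
      rw [if_pos rfl, if_neg (Ne.symm hij), ← neg_one_smul F (fV i),
        eo_smul_left hn (q_fV i) (by rw [map_smul, bo_fV_eV, if_neg hij, smul_zero]), smul_smul,
        eo_swap hn (by rw [q_smul (ndQ n), q_eV, mul_zero]) (q_fV i)
          (by rw [map_smul, LinearMap.smul_apply, bo_eV_fV, if_neg (Ne.symm hij), smul_zero]),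
        eo_smul_left hn (q_eV j) (by rw [map_neg, bo_eV_fV, if_neg (Ne.symm hij), neg_zero]),
        show ((-1 : F) * c) • -(fV i : Unit ⊕ (Fin n ⊕ Fin n) → F) = c • fV i by module,
        eo_eV_fV hn (Ne.symm hij)]
      exact hc j _ c
    rw [if_neg hi]
    by_cases hj : j = L
    · subst hj
      rw [if_pos rfl, smul_neg, ← neg_smul, eo_eV_fV hn hi]
      exact hc i hi _
    · rw [if_neg hj, eo_eV_eV hn]
      exact hz i j hi hj c
  rw [Subgroup.mem_comap, MulEquiv.coe_toMonoidHom, MulAut.conj_apply, mem_vecStab] at hmem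
  have h : R (mO L * zO v * (mO L)⁻¹) *ᵥ y = y := hmem
  have h' := congrArg (R (mO L)⁻¹ *ᵥ ·) h
  rw [R_mul_mulVec, R_mul_mulVec, R_inv_mulVec] at h'
  exact h'

variable (hQ0 : ∀ y, FixZ R y → ∀ a, R (uO a) *ᵥ y = y)
include hQ0

theorem fix_eo_fV_dV (hn : 2 ≤ n) (L : Fin n) {y : Fin k → ℂ} (hz : FixZ R y)
    (hc : ∀ (i : Fin n) (h : i ≠ L) (c : F),
      R (sqO (slH (Matrix.SpecialLinearGroup.transvection h c))) *ᵥ y = y) (c : F) :
    R (eo (fV L) (c • dV)) *ᵥ y = y := by
  have h := hQ0 _ (m_trick hn L (fun i j _ _ c => hz _) hc) (c • Pi.single L 1)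
  rw [← eo_eV_dV hn] at h
  have hb : bo (eV L) (c • (dV : Unit ⊕ (Fin n ⊕ Fin n) → F)) = 0 := by rw [map_smul, bo_eV_dV, smul_zero]
  have e := conj_eo hn (mO L) (q_eV L) hb
  rw [act_smul, act_mO_eV, if_pos rfl, act_mO_dV, ← neg_one_smul F (fV L), eo_smul_left hn (q_fV L)
    (by rw [map_smul, map_neg, bo_fV_dV, neg_zero, smul_zero]),
    show (-1 : F) • c • -(dV : Unit ⊕ (Fin n ⊕ Fin n) → F) = c • dV by module] at e
  rw [← e, R_mul_mulVec, R_mul_mulVec, h, ← R_mul_mulVec, mul_inv_cancel, map_one, Matrix.one_mulVec]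

/-- Such a vector is fixed by the pointwise stabiliser of the first part of the frame. -/
theorem stab_elim (hn : 2 ≤ n) {i0 : ℕ} {y : Fin k → ℂ} (hz : FixZ R y) (hc : FixCol R i0 y)
    (g : OmOdd n F) (hg : ∀ j : Fin n, (j : ℕ) < i0 →
      act (g : IsoOdd n F) (eV j) = eV j ∧ act (g : IsoOdd n F) (fV j) = fV j) : R g *ᵥ y = y := by
  refine elim hn (vecStab R y) (fun p hp u hu b hb c hbb => ?_) g hg
  have hfd : ∀ r : Fin n, i0 ≤ (r : ℕ) → ∀ c : F, eo (fV r) (c • dV) ∈ vecStab R y := fun r hr c =>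
    fix_eo_fV_dV hQ0 hn r hz (fun i h c => hc i r h c hr) c
  rcases hu with rfl | rfl
  · rcases hb with rfl | ⟨r, hr, rfl | rfl⟩
    · rw [eo_eV_dV hn]; exact hQ0 y hz _
    · rw [eo_eV_eV hn]; exact hz _
    · by_cases hpr : p = r
      · subst hpr
        rw [map_smul, bo_eV_fV, if_pos rfl, smul_eq_mul, mul_one] at hbb
        rw [hbb, zero_smul, eo_zero hn (q_eV p)]
        exact one_mem _
      · rw [eo_eV_fV hn hpr]; exact hc p r hpr c hr
  · rcases hb with rfl | ⟨r, hr, rfl | rfl⟩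
    · exact hfd p hp c
    · by_cases hpr : p = r
      · subst hpr
        rw [map_smul, bo_fV_eV, if_pos rfl, smul_eq_mul, mul_one] at hbb
        rw [hbb, zero_smul, eo_zero hn (q_fV p)]
        exact one_mem _
      · rw [eo_swap hn (by rw [q_smul (ndQ n), q_eV, mul_zero]) (q_fV p)
            (by rw [map_smul, LinearMap.smul_apply, bo_eV_fV, if_neg (Ne.symm hpr), smul_zero]),
          eo_smul_left hn (q_eV r) (by rw [map_neg, bo_eV_fV, if_neg (Ne.symm hpr), neg_zero]),
          show c • -(fV p : Unit ⊕ (Fin n ⊕ Fin n) → F) = (-c) • fV p by module, eo_eV_fV hn (Ne.symm hpr)]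
        exact hc r p (Ne.symm hpr) _ hp
    · by_cases hpr : p = r
      · subst hpr
        rw [eo_self hn (q_fV p)]
        exact one_mem _
      · have hb1 : bo (fV r) (dV : Unit ⊕ (Fin n ⊕ Fin n) → F) = 0 := bo_fV_dV r
        have hb2 : bo (fV p) ((c / 2) • (dV : Unit ⊕ (Fin n ⊕ Fin n) → F)) = 0 := by
          rw [map_smul, bo_fV_dV, smul_zero]
        have e := conj_eo hn (eo (fV r) dV) (q_fV p) hb2
        rw [eo_fix hn (q_fV r) hb1 (by rw [fV, fV, bo_vec]; simp) (by rw [b_symm]; exact bo_fV_dV p),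
          act_smul, act_eo hn (q_fV r) hb1, bo_fV_dV, show bo dV (dV : Unit ⊕ (Fin n ⊕ Fin n) → F) = 2 by
            conv_lhs => arg 2; rw [dV]
            rw [bo_dV, mul_one]] at e
        have hsum : (c / 2) • ((dV : Unit ⊕ (Fin n ⊕ Fin n) → F) + (2 : F) • fV r - (0 : F) • dV -
            (qOdd n F dV * 0) • fV r) = (c / 2) • dV + c • fV r := by
          rw [zero_smul, mul_zero, zero_smul, sub_zero, sub_zero, smul_add, smul_smul,
            div_mul_cancel₀ c two_ne_zero]
        rw [hsum, ← eo_add hn (q_fV p) hb2 hbb] at e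
        have h1 : eo (fV r) dV ∈ vecStab R y := by simpa using hfd r hr 1
        have h2 : eo (fV r) dV * eo (fV p) ((c / 2) • dV) * (eo (fV r) dV)⁻¹ ∈ vecStab R y :=
          mul_mem (mul_mem h1 (hfd p hp _)) (inv_mem h1)
        rw [e] at h2
        simpa using mul_mem (inv_mem (hfd p hp (c / 2))) h2

end CfsgLib.OrthOddDeg
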