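import Cfsg.Agent.OrthOddDeg.Exists

/-!
A representation of small degree of `Omega_{2n+1}(q)` has a vector fixed by the stabiliser of a singular
line.
-/

set_option autoImplicit false
set_option linter.unusedSectionVars false
set_option linter.style.haveILetI false

noncomputable section

namespace CfsgLib.OrthOddDeg

open Cfsg.Geo CfsgLib.OrthGeo Matrix CfsgLib.OrthPlusDeg CfsgLib.SlMinDegree
open scoped MatrixGroups _root_.Classical

variable {F : Type*} [Field F] [Fintype F] [DecidableEq F] [NeZero (2 : F)]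

/-- Transport of matrices of square determinant along a bijection of the indices. -/
def sqCongr {ι ι' : Type} [Fintype ι] [DecidableEq ι] [Fintype ι'] [DecidableEq ι'] (e : ι ≃ ι') :
    sqDet F ι →* sqDet F ι' :=
  ((glCongr e).toMonoidHom.comp (sqDet F ι).subtype).codRestrict (sqDet F ι') fun g => by
    rw [mem_sqDet]
    show IsSquare ((glCongr e (g : GL ι F) : GL ι' F) : Matrix ι' ι' F).det
    rw [det_glCongr]
    exact g.2

theorem coe_sqCongr {ι ι' : Type} [Fintype ι] [DecidableEq ι] [Fintype ι'] [DecidableEq ι'] (e : ι ≃ ι')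
    (g : sqDet F ι) (i j : ι') :
    (((sqCongr e g : sqDet F ι') : GL ι' F) : Matrix ι' ι' F) i j =
      ((g : GL ι F) : Matrix ι ι F) (e.symm i) (e.symm j) := rfl

theorem sqCongr_transvection {ι ι' : Type} [Fintype ι] [DecidableEq ι] [Fintype ι'] [DecidableEq ι']
    (e : ι ≃ ι') {i j : ι'} (h : i ≠ j) (h' : e.symm i ≠ e.symm j) (c : F) :
    sqCongr e (slH (Matrix.SpecialLinearGroup.transvection h' c)) =
      slH (Matrix.SpecialLinearGroup.transvection h c) := by
  apply Subtype.ext; apply Units.ext; ext p r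
  rw [coe_sqCongr]
  show Matrix.transvection (e.symm i) (e.symm j) c (e.symm p) (e.symm r) = Matrix.transvection i j c p r
  simp [Matrix.transvection, Matrix.one_apply, Matrix.single_apply]

variable {n k : ℕ} (R : OmOdd n F →* Matrix (Fin k) (Fin k) ℂ) {ψ : AddChar F ℂ}
variable (hn : 3 ≤ n) (hq : 5 ≤ Fintype.card F) (hψ : ψ 1 ≠ 1) (hk0 : k ≠ 0) (hnf : NoFix R Set.univ)
  (hsmall : k * (Fintype.card F ^ 2 - 1) < Fintype.card F ^ (2 * n) - 1)
include hn hq hψ hk0 hnf hsmall

set_option maxHeartbeats 1000000 in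
/-- A vector fixed by the stabiliser of the line of `e_0`. -/
theorem exists_line_fixed (hodd : Odd (Fintype.card F)) :
    ∃ w : Fin k → ℂ, w ≠ 0 ∧ ∀ g : OmOdd n F,
      (∃ c : F, act (g : IsoOdd n F) (eV ⟨0, by omega⟩) = c • eV ⟨0, by omega⟩) → R g *ᵥ w = w := by
  obtain ⟨l, rfl⟩ : ∃ l, n = l + 2 := ⟨n - 2, by omega⟩
  have hQ0 := fun y hy a => fixZ_uO R hn hq hψ hk0 hnf hsmall y hy a
  obtain ⟨y1, hy1, hy1z⟩ := exists_fixZ R hn hq hψ hk0 hnf hsmall
  have hlt := (rad_structure R hn hq hψ hk0 hnf hsmall).2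
  set o : Fin (l + 2) := ⟨0, by omega⟩
  set last : Fin (l + 2) := ⟨l + 1, by omega⟩
  set j0 : Fin l := ⟨0, by omega⟩
  obtain ⟨e0⟩ : Nonempty (Unit ⊕ (Unit ⊕ Fin l) ≃ Fin (l + 2)) :=
    ⟨Fintype.equivFinOfCardEq (by simp; omega)⟩
  obtain ⟨σ, hσ1, hσ2⟩ := exists_perm_pair (a := e0 (Sum.inl ())) (b := e0 (Sum.inr (Sum.inr j0)))
    (p := o) (q := last) (e0.injective.ne (by simp)) (by simp [o, last, Fin.ext_iff])
  set e := e0.trans σ with he
  have heo : e (Sum.inl ()) = o := hσ1
  have hel : e (Sum.inr (Sum.inr j0)) = last := hσ2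
  set f : sqDet F (Unit ⊕ (Unit ⊕ Fin l)) →* OmOdd (l + 2) F := sqO.comp (sqCongr e) with hf
  set P := weightProj (zR R) ψ (0 : Fin (l + 2) × Fin (l + 2) → F) with hP
  have hcomm : ∀ h, R (f h) * P = P * R (f h) := fun h => by
    have h1 := levi_comm R (ψ := ψ) (sqCongr e h) 0
    rwa [Matrix.mul_zero, Matrix.zero_mul,
      show flat2 (0 : Matrix (Fin (l + 2)) (Fin (l + 2)) F) = 0 from rfl] at h1
  obtain ⟨A, B, φ, hAB, hBA, hφ⟩ := exists_compress R f (weightProj_idem (zR_add R) hψ _)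
    (trace_weightProj (zR_add R) hψ _) hcomm
  have hD0 : weightMult (zR R) ψ (0 : Fin (l + 2) × Fin (l + 2) → F) ≠ 0 := fun h => hy1 (by
    have h1 : P *ᵥ y1 = y1 := weightProj_zero_mulVec (S := zR R) hy1z
    rw [← h1, hP, weightProj_eq_zero (zR_add R) hψ h, Matrix.zero_mulVec])
  have hZ : ∀ z, FixZ R (A *ᵥ z) := fun z v => by
    rw [Matrix.mulVec_mulVec, zR_mul_range R hAB hBA, dotProduct_zero, AddChar.map_zero_eq_one, one_smul]
  have hRA : ∀ h z, R (f h) *ᵥ (A *ᵥ z) = A *ᵥ (φ h *ᵥ z) :=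
    compress_mulVec R f (fun x => (hφ x).2.1)
  have hinj : ∀ z, A *ᵥ z = 0 → z = 0 := fun z hz => by
    rw [← Matrix.one_mulVec z, ← hBA, ← Matrix.mulVec_mulVec, hz, Matrix.mulVec_zero]
  have hfix : ∀ z (i j : Fin (l + 2)) (h : i ≠ j) (c : F),
      φ (slH (Matrix.SpecialLinearGroup.transvection (e.symm.injective.ne h) c)) *ᵥ z = z →
      R (sqO (slH (Matrix.SpecialLinearGroup.transvection h c))) *ᵥ (A *ᵥ z) = A *ᵥ z := by
    intro z i j h c hz
    rw [← sqCongr_transvection e h (e.symm.injective.ne h) c]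
    exact (hRA _ z).trans (by rw [hz])
  have hnf' : NoFix (φ.comp slH) Set.univ := by
    intro z hz
    refine hinj z (hnf _ fun g _ => stab_elim hQ0 (by omega) (i0 := 0) (hZ z) (fun i j h c _ => ?_) g
      (fun j hj => absurd hj (Nat.not_lt_zero _)))
    exact hfix z i j h c (hz _ (Set.mem_univ _))
  have hcol : ∀ z, (∀ (i : Unit ⊕ (Unit ⊕ Fin l)) (h : i ≠ Sum.inr (Sum.inr j0)) (a : F),
        φ (slH (Matrix.SpecialLinearGroup.transvection h a)) *ᵥ z = z) →
      ∀ g : sqDet F (Unit ⊕ (Unit ⊕ Fin l)), (∃ s : F, s ≠ 0 ∧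
        ((g : GL (Unit ⊕ (Unit ⊕ Fin l)) F) : Matrix (Unit ⊕ (Unit ⊕ Fin l)) (Unit ⊕ (Unit ⊕ Fin l)) F) =
        Matrix.diagonal (Function.update (1 : Unit ⊕ (Unit ⊕ Fin l) → F) (Sum.inr (Sum.inr j0)) (s ^ 2))) →
      φ g *ᵥ z = z := by
    intro z hz g hg
    obtain ⟨s, hs, hgm⟩ := hg
    have h2 : R (f g) *ᵥ (A *ᵥ z) = A *ᵥ z := by
      refine stab_elim hQ0 (by omega) (i0 := l + 1) (hZ z) (fun i j h c hj => ?_) _ fun j hj => ?_
      · have hj' : j = e (Sum.inr (Sum.inr j0)) := by
          rw [hel]; exact Fin.ext (by simp [last]; omega)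
        refine hfix z i j h c ?_
        subst hj'
        have hne : e.symm i ≠ Sum.inr (Sum.inr j0) := fun h' => h (by rw [← h', Equiv.apply_symm_apply])
        have := hz (e.symm i) hne c
        revert this
        generalize e.symm.injective.ne h = hne'
        revert hne'
        rw [Equiv.symm_apply_apply]
        exact fun _ h => h
      · have hjne : e.symm j ≠ Sum.inr (Sum.inr j0) := fun h' => by
          have : j = last := by rw [← hel, ← h', Equiv.apply_symm_apply]
          rw [this] at hj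
          simp [last] at hj
        have hcoe : ((sqCongr e g : GL (Fin (l + 2)) F) : Matrix (Fin (l + 2)) (Fin (l + 2)) F) =
            Matrix.diagonal (fun p => Function.update (1 : Unit ⊕ (Unit ⊕ Fin l) → F) (Sum.inr (Sum.inr j0))
              (s ^ 2) (e.symm p)) := by
          ext p r
          rw [coe_sqCongr, hgm, Matrix.diagonal_apply, Matrix.diagonal_apply]
          simp
        have h1 : ((sqCongr e g : GL (Fin (l + 2)) F) : Matrix (Fin (l + 2)) (Fin (l + 2)) F) *ᵥ
            (Pi.single j 1 : Fin (l + 2) → F) = Pi.single j 1 := by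
          rw [hcoe]
          funext p
          rw [Matrix.mulVec_diagonal]
          by_cases hp : p = j
          · subst hp; simp [hjne]
          · simp [Pi.single_eq_of_ne hp]
        have h1t : ((sqCongr e g : GL (Fin (l + 2)) F) : Matrix (Fin (l + 2)) (Fin (l + 2)) F)ᵀ *ᵥ
            (Pi.single j 1 : Fin (l + 2) → F) = Pi.single j 1 := by
          rw [hcoe, Matrix.diagonal_transpose, ← hcoe]; exact h1
        constructor
        · show act (levI _) (eV j) = _
          rw [eV, act_levI, h1, Matrix.mulVec_zero]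
        · show act (levI _) (fV j) = _
          rw [fV, act_levI, Matrix.mulVec_zero]
          conv_lhs => arg 3; arg 2; rw [← h1t]
          rw [Matrix.mulVec_mulVec, ← Matrix.transpose_mul, ← Units.val_mul, mul_inv_cancel, Units.val_one,
            Matrix.transpose_one, Matrix.one_mulVec]
    rw [← Matrix.one_mulVec (φ g *ᵥ z), ← hBA, ← Matrix.mulVec_mulVec, ← hRA, h2, Matrix.mulVec_mulVec, hBA,
      Matrix.one_mulVec]
  obtain ⟨z, hz0, hzfix⟩ := exists_sl_fixed hq hodd j0 hD0 hlt hnf' hcol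
  set y := A *ᵥ z with hy
  have hyS : ∀ g : OmOdd (l + 2) F, act (g : IsoOdd (l + 2) F) (eV o) = eV o →
      act (g : IsoOdd (l + 2) F) (fV o) = fV o → R g *ᵥ y = y := by
    intro g hge hgf
    refine stab_elim hQ0 (by omega) (i0 := 1) (hZ z) (fun i j h c hj => hfix z i j h c (hzfix _ ⟨1, ?_⟩)) g
      fun j hj => ?_
    · have hjo : e.symm j ≠ Sum.inl () := fun h' => by
        have : j = o := by rw [← heo, ← h', Equiv.apply_symm_apply]
        rw [this] at hj
        simp [o] at hj
      show Matrix.transvection (e.symm i) (e.symm j) c *ᵥ _ = _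
      rw [one_smul, Matrix.transvection, Matrix.add_mulVec, Matrix.one_mulVec, Matrix.single_mulVec,
        Pi.single_eq_of_ne hjo, mul_zero]
      simp
    · obtain rfl : j = o := Fin.ext (show (j : ℕ) = 0 by omega)
      exact ⟨hge, hgf⟩
  refine ⟨y, fun h => hz0 (hinj z h), fun g hg => ?_⟩
  obtain ⟨c, hgc⟩ := hg
  set p1 : Fin (l + 2) := ⟨1, by omega⟩
  have hop : o ≠ p1 := by simp [o, p1]
  have hc : c ≠ 0 := fun h => by
    rw [h, zero_smul] at hgc
    have := congrArg (act (g : IsoOdd (l + 2) F)⁻¹) hgc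
    rw [act_inv_act, act_zero] at this
    simpa [eV, vec] using congrFun this (Sum.inr (Sum.inl o))
  set d : Fin (l + 2) → Fˣ := Function.update (Function.update 1 p1 (Units.mk0 c hc)⁻¹) o (Units.mk0 c hc)
    with hd
  have hdet : ((diagG d : GL (Fin (l + 2)) F) : Matrix (Fin (l + 2)) (Fin (l + 2)) F).det = 1 := by
    rw [det_diagG, hd, Finset.prod_update_of_mem (Finset.mem_univ _), Finset.prod_update_of_mem
      (by simp [hop.symm])]
    simp
  set T : sqDet F (Fin (l + 2)) := ⟨diagG d, mem_sqDet.2 (by rw [hdet]; exact IsSquare.one)⟩ with hT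
  have hTy : R (sqO T) *ᵥ y = y := by
    set T0 : Matrix.SpecialLinearGroup (Unit ⊕ (Unit ⊕ Fin l)) F :=
      ⟨((diagG (d ∘ e) : GL (Unit ⊕ (Unit ⊕ Fin l)) F) :
        Matrix (Unit ⊕ (Unit ⊕ Fin l)) (Unit ⊕ (Unit ⊕ Fin l)) F), by
        rw [det_diagG, show (∏ i, (d ∘ e) i) = ∏ i, d i from Equiv.prod_comp e d, ← det_diagG]
        exact hdet⟩
    have hT0 : sqCongr e (slH T0) = T := by
      apply Subtype.ext; apply Units.ext; ext p r
      rw [coe_sqCongr]
      show (diagonal fun i => ((d ∘ e) i : F)) (e.symm p) (e.symm r) = diagonal (fun i => (d i : F)) p r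
      simp [Matrix.diagonal_apply]
    rw [← hT0, hy]
    refine (hRA _ z).trans ?_
    rw [hzfix T0 ⟨c, ?_⟩]
    show (diagonal fun i => ((d ∘ e) i : F)) *ᵥ _ = _
    funext i
    rw [Matrix.mulVec_diagonal]
    by_cases hi : i = Sum.inl ()
    · subst hi; simp [heo, hd]
    · simp [Pi.single_eq_of_ne hi]
  set g1 : OmOdd (l + 2) F := (sqO T)⁻¹ * g with hg1
  have hTe : act ((sqO T : OmOdd (l + 2) F) : IsoOdd (l + 2) F) (eV o) = c • eV o := by
    show act (levI (diagG d)) _ = _
    rw [eV, act_levI, vec_smul, coe_diagG, Matrix.mulVec_zero, smul_zero, mul_zero, vec_inj]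
    refine ⟨rfl, funext fun i => ?_, rfl⟩
    rw [Matrix.mulVec_diagonal]
    by_cases hi : i = o
    · subst hi; simp [hd]
    · simp [Pi.single_eq_of_ne hi]
  have hg1e : act (g1 : IsoOdd (l + 2) F) (eV o) = eV o := by
    rw [hg1, Subgroup.coe_mul, Subgroup.coe_inv, act_mul, hgc, ← hTe, act_inv_act]
  obtain ⟨dd, x, u, hv⟩ := exists_vec (act (g1 : IsoOdd (l + 2) F) (fV o))
  have hu0 : u o = 1 := by
    have := act_b (g1 : IsoOdd (l + 2) F) (eV o) (fV o)
    rw [hg1e, hv, bo_eV, bo_eV_fV, if_pos rfl] at this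
    exact this
  have hq0 : dd ^ 2 + x ⬝ᵥ u = 0 := by
    rw [← q_vec, ← hv, act_q, q_fV]
  set x' : Fin (l + 2) → F := Function.update x o 0 with hx'
  set u' : Fin (l + 2) → F := Function.update u o 0 with hu'
  set w := vec (-dd) (-x') (-u') with hw
  have hqw : qOdd (l + 2) F w = -(x o) := by
    rw [hw, q_vec]
    have e1 : (-x') ⬝ᵥ (-u') + x o = x ⬝ᵥ u := by
      rw [neg_dotProduct_neg, dotProduct, dotProduct, ← Finset.add_sum_erase _ _ (Finset.mem_univ o),
        ← Finset.add_sum_erase Finset.univ (fun i => x i * u i) (Finset.mem_univ o)]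
      simp only [hx', hu', Function.update_self, mul_zero, zero_add, hu0, mul_one]
      rw [add_comm]
      congr 1
      exact Finset.sum_congr rfl fun i hi => by
        rw [Function.update_of_ne (Finset.ne_of_mem_erase hi), Function.update_of_ne (Finset.ne_of_mem_erase hi)]
    linear_combination hq0 + e1
  have hbw : bo (eV o) w = 0 := by rw [hw, bo_eV]; simp [hu']
  have hew : act ((eo (eV o) w : OmOdd (l + 2) F) : IsoOdd (l + 2) F) (fV o) =
      act (g1 : IsoOdd (l + 2) F) (fV o) := by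
    rw [act_eo (by omega) (q_eV o) hbw, hv, hqw, bo_eV_fV, if_pos rfl, b_symm, show bo (fV o) w = 0 by
      rw [hw, bo_fV]; simp [hx']]
    rw [hw, eV, fV, one_smul, zero_smul, mul_one, add_zero, vec_smul, vec_sub, vec_sub, vec_inj]
    refine ⟨by ring, funext fun i => ?_, funext fun i => ?_⟩ <;> by_cases hi : i = o
    · subst hi; simp [hx']
    · simp [hx', hi]
    · subst hi; simp [hu', hu0]
    · simp [hu', hi]
  have hee : act ((eo (eV o) w : OmOdd (l + 2) F) : IsoOdd (l + 2) F) (eV o) = eV o :=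
    eo_fix (by omega) (q_eV o) hbw (bo_eV_eV o o) (by rw [b_symm]; exact hbw)
  have heoy : eo (eV o) w ∈ vecStab R y := by
    refine eo_mem_of_inW (by omega) (vecStab R y) (i0 := 0) (Or.inl rfl) (fun b hb c hbb => ?_)
      (fun j hj => absurd hj (Nat.not_lt_zero _)) hbw
    rcases hb with rfl | ⟨r, -, rfl | rfl⟩
    · rw [eo_eV_dV (by omega)]; exact hQ0 y (hZ z) _
    · rw [eo_eV_eV (by omega)]; exact hZ z _
    · by_cases hor : o = r
      · subst hor
        rw [map_smul, bo_eV_fV, if_pos rfl, smul_eq_mul, mul_one] at hbb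
        rw [hbb, zero_smul, eo_zero (by omega) (q_eV o)]
        exact one_mem _
      · rw [eo_eV_fV (by omega) hor]
        refine hfix z o r hor c (hzfix _ ⟨1, ?_⟩)
        show Matrix.transvection (e.symm o) (e.symm r) c *ᵥ _ = _
        have hro : e.symm r ≠ Sum.inl () := fun h' => hor (by rw [← heo, ← h', Equiv.apply_symm_apply])
        rw [one_smul, Matrix.transvection, Matrix.add_mulVec, Matrix.one_mulVec, Matrix.single_mulVec,
          Pi.single_eq_of_ne hro, mul_zero]
        simp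
  have hg2 : (eo (eV o) w)⁻¹ * g1 ∈ vecStab R y :=
    hyS _ (by rw [Subgroup.coe_mul, Subgroup.coe_inv, act_mul, hg1e]; conv_lhs => arg 2; rw [← hee]
              rw [act_inv_act])
      (by rw [Subgroup.coe_mul, Subgroup.coe_inv, act_mul, ← hew, act_inv_act])
  have h3 := mul_mem (show sqO T ∈ vecStab R y from hTy) (mul_mem heoy hg2)
  rwa [mul_inv_cancel_left, hg1, mul_inv_cancel_left] at h3

end CfsgLib.OrthOddDeg
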