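import Cfsg.Agent.OrthOddDeg.SLCases

/-!
A representation of the matrices of square determinant of degree below `[n]`, without vectors fixed by
`SL_n` and with the column condition, has a vector fixed by the `SL_n`-stabiliser of a line.
-/

set_option autoImplicit false
set_option linter.unusedSectionVars false
set_option linter.style.haveILetI false

noncomputable section

namespace CfsgLib.OrthOddDeg

open Matrix CfsgLib.OrthPlusDeg CfsgLib.SlMinDegree
open scoped MatrixGroups _root_.Classical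

variable {F : Type*} [Field F] [Fintype F] [DecidableEq F] {l D : ℕ}

local notation "I₁" => (Unit ⊕ Fin l)
local notation "I₀" => (Unit ⊕ (Unit ⊕ Fin l))

/-- The determinant as a unit. -/
abbrev detU {ι : Type} [Fintype ι] [DecidableEq ι] (M : GL ι F) : Fˣ := Matrix.GeneralLinearGroup.det M

theorem coe_detU {ι : Type} [Fintype ι] [DecidableEq ι] (M : GL ι F) :
    ((detU M : Fˣ) : F) = (M : Matrix ι ι F).det := rfl

theorem glExt {ι : Type} [Fintype ι] [DecidableEq ι] {g h : GL ι F}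
    (H : ∀ x, (g : Matrix ι ι F) *ᵥ x = (h : Matrix ι ι F) *ᵥ x) : g = h :=
  Units.ext (Matrix.ext_of_mulVec_single fun i => H _)

theorem det_scal_emb (a : Fˣ) (M : GL I₁ F) :
    ((scalG a * embG M : GL I₀ F) : Matrix I₀ I₀ F).det = (a : F) * (M : Matrix I₁ I₁ F).det := by
  rw [Units.val_mul, Matrix.det_mul, det_embG, coe_scalG, det_fromBlocks_zero₂₁, Matrix.det_unique,
    Matrix.of_apply, det_one, mul_one]

theorem scal_diag (a : Fˣ) (d : I₁ → Fˣ) :
    (scalG a * embG (diagG d) : GL I₀ F) = diagG (Sum.elim (fun _ => a) d) := by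
  apply Units.ext
  rw [Units.val_mul, coe_scalG, coe_embG, coe_diagG, coe_diagG, fromBlocks_multiply]
  ext i j
  rcases i with i | i <;> rcases j with j | j <;> simp [Matrix.mul_apply, Matrix.diagonal_apply]

/-- The translations in the matrices of square determinant. -/
def evS (v : I₁ → F) : sqDet F I₀ := slH (ev (Multiplicative.ofAdd v))

theorem coe_evS (v : I₁ → F) : ((evS v : sqDet F I₀) : GL I₀ F) = evG v := rfl

theorem evS_add (u v : I₁ → F) : evS (u + v) = evS u * evS v := by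
  rw [evS, evS, evS, ofAdd_add, map_mul, map_mul]

theorem evS_zero : evS (0 : I₁ → F) = 1 := by rw [evS, ofAdd_zero, map_one, map_one]

/-- `GL_{n-1}` inside `SL_n`. -/
def embS : GL I₁ F →* sqDet F I₀ where
  toFun M := ⟨scalG (detU M)⁻¹ * embG M, by
    rw [mem_sqDet, det_scal_emb, ← coe_detU, ← Units.val_mul, inv_mul_cancel, Units.val_one]
    exact IsSquare.one⟩
  map_one' := Subtype.ext (by simp)
  map_mul' M N := Subtype.ext (by
    show scalG (detU (M * N))⁻¹ * embG (M * N) = scalG (detU M)⁻¹ * embG M * (scalG (detU N)⁻¹ * embG N)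
    rw [show detU (M * N) = detU M * detU N from map_mul _ _ _, mul_inv, map_mul, map_mul, mul_assoc, mul_assoc]
    congr 1
    rw [← mul_assoc, ← mul_assoc, scalG_comm_embG])

theorem coe_embS (M : GL I₁ F) :
    ((embS M : sqDet F I₀) : GL I₀ F) = scalG (detU M)⁻¹ * embG M := rfl

theorem coe_embS_of_det (M : GL I₁ F) (h : (M : Matrix I₁ I₁ F).det = 1) :
    ((embS M : sqDet F I₀) : GL I₀ F) = embG M := by
  rw [coe_embS, show detU M = 1 from Units.ext h, inv_one, map_one, one_mul]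

theorem scalG_emb_mul_evG (a : Fˣ) (M : GL I₁ F) (v : I₁ → F) :
    (scalG a * embG M : GL I₀ F) * evG v =
      evG ((a : F) • (v ᵥ* ((M⁻¹ : GL I₁ F) : Matrix I₁ I₁ F))) * (scalG a * embG M) := by
  rw [mul_assoc, embG_mul_evG, ← mul_assoc, scalG_mul_evG, mul_assoc]

variable (Ψ : sqDet F (Unit ⊕ (Unit ⊕ Fin l)) →* Matrix (Fin D) (Fin D) ℂ) {ψ : AddChar F ℂ}

/-- The translations in the representation. -/
def SR (v : I₁ → F) : Matrix (Fin D) (Fin D) ℂ := Ψ (evS v)

theorem SR_zero : SR Ψ 0 = 1 := by rw [SR, evS_zero, map_one]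

theorem SR_add (u v : I₁ → F) : SR Ψ (u + v) = SR Ψ u * SR Ψ v := by
  rw [SR, evS_add, map_mul]; rfl

theorem comm_blk {g : sqDet F I₀} {a : Fˣ} {M : GL I₁ F} (hg : (g : GL I₀ F) = scalG a * embG M)
    (w : I₁ → F) : Ψ g * weightProj (SR Ψ) ψ w =
      weightProj (SR Ψ) ψ (((a⁻¹ : Fˣ) : F) • ((M : Matrix I₁ I₁ F) *ᵥ w)) * Ψ g := by
  refine comm_weightProj
    { toFun := fun v => (a : F) • (v ᵥ* ((M⁻¹ : GL I₁ F) : Matrix I₁ I₁ F))
      invFun := fun v => ((a⁻¹ : Fˣ) : F) • (v ᵥ* (M : Matrix I₁ I₁ F))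
      left_inv := fun v => by
        simp only [Matrix.smul_vecMul, smul_smul, Matrix.vecMul_vecMul, ← Units.val_mul, inv_mul_cancel,
          Units.val_one, Matrix.vecMul_one, one_smul]
      right_inv := fun v => by
        simp only [Matrix.smul_vecMul, smul_smul, Matrix.vecMul_vecMul, ← Units.val_mul, mul_inv_cancel,
          Units.val_one, Matrix.vecMul_one, one_smul] }
    (fun v => ?_) (fun v => ?_)
  · show Ψ g * Ψ (evS v) = Ψ (evS _) * Ψ g
    rw [← map_mul, ← map_mul]
    congr 1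
    apply Subtype.ext
    rw [Subgroup.coe_mul, Subgroup.coe_mul, hg, coe_evS, coe_evS, scalG_emb_mul_evG]
    rfl
  · show ((a : F) • (v ᵥ* _)) ⬝ᵥ (((a⁻¹ : Fˣ) : F) • _) = _
    rw [smul_dotProduct, dotProduct_smul, Matrix.dotProduct_mulVec, Matrix.vecMul_vecMul, ← Units.val_mul,
      inv_mul_cancel, Units.val_one, Matrix.vecMul_one, smul_smul, ← Units.val_mul, mul_inv_cancel,
      Units.val_one, one_smul]

theorem comm_embS_zero (M : GL I₁ F) :
    Ψ (embS M) * weightProj (SR Ψ) ψ 0 = weightProj (SR Ψ) ψ 0 * Ψ (embS M) := by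
  have h := comm_blk Ψ (ψ := ψ) (coe_embS M) 0
  rwa [Matrix.mulVec_zero, smul_zero] at h

/-- The multiplicities, the commutant and the degree. -/
theorem sl_degree (hl : 1 ≤ l) (hq : 5 ≤ Fintype.card F) (hψ : ψ 1 ≠ 1) (hD0 : D ≠ 0)
    (hD : D < geomN (l + 2) (Fintype.card F)) (hnf : NoFix (Ψ.comp slH) Set.univ) :
    (∀ w, w ≠ 0 → weightMult (SR Ψ) ψ w = 1) ∧ Schur (Ψ.comp slH) ∧
      D + 1 = geomN (l + 2) (Fintype.card F) ∧
      weightMult (SR Ψ) ψ 0 = geomN (l + 1) (Fintype.card F) := by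
  set q := Fintype.card F with hqdef
  set μ := weightMult (SR Ψ) ψ with hμ
  have hone : w0 F l ≠ 0 := w0_ne_zero
  set a := μ (w0 F l)
  have hconst : ∀ w, w ≠ 0 → μ w = a := fun w hw => by
    obtain ⟨K, rfl⟩ := exists_sl_mulVec_eq (by simp; omega) hone hw
    have hK : (((slH (emb K) : sqDet F I₀)) : GL I₀ F) =
        scalG 1 * embG (Matrix.SpecialLinearGroup.toGL K) := by
      rw [map_one, one_mul]
      apply Units.ext
      rw [coe_slH, coe_embG]
      show fromBlocks _ (replicateRow Unit (0 : I₁ → F)) _ _ = _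
      rw [show replicateRow Unit (0 : I₁ → F) = 0 from by ext; simp [replicateRow]]
      rfl
    have h := comm_blk Ψ (ψ := ψ) hK (w0 F l)
    rw [inv_one, Units.val_one, one_smul] at h
    exact (weightMult_eq_of_comm (SR_add Ψ) hψ
      (show Ψ (slH (emb K))⁻¹ * Ψ (slH (emb K)) = 1 by rw [← map_mul, inv_mul_cancel, map_one]) h).symm
  have hsum : D = μ 0 + (q ^ (l + 1) - 1) * a := by
    have h := sum_weightMult (R := SR Ψ) (SR_zero Ψ) (SR_add Ψ) hψ
    rw [← Finset.add_sum_erase _ _ (Finset.mem_univ (0 : I₁ → F)),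
      Finset.sum_congr rfl (g := fun _ => a) (fun w hw => hconst w (Finset.ne_of_mem_erase hw)),
      Finset.sum_const, Finset.card_erase_of_mem (Finset.mem_univ _), Finset.card_univ, Fintype.card_fun,
      smul_eq_mul, Fintype.card_sum, Fintype.card_unit, Fintype.card_fin, add_comm 1 l] at h
    exact h.symm
  have hsucc : geomN (l + 2) q = geomN (l + 1) q + q ^ (l + 1) := geomN_succ (l + 1) q
  have hgs := sub_one_mul_geomN (l + 1) (show 1 ≤ q by omega)
  have hge := le_geomN (l + 1) (show 1 ≤ q by omega)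
  have h4 : 4 * geomN (l + 1) q + 1 ≤ q ^ (l + 1) := by
    rw [← hgs]; exact Nat.add_le_add_right (Nat.mul_le_mul_right _ (by omega)) _
  have ha : a = 1 := by
    have ha2 : a < 2 := by
      by_contra h
      have := Nat.mul_le_mul_left (q ^ (l + 1) - 1) (Nat.le_of_not_lt h)
      omega
    by_contra hne
    have ha0 : a = 0 := by omega
    have hev : ∀ v, SR Ψ v = 1 := eq_one_of_weightMult (SR_zero Ψ) (SR_add Ψ) hψ
      (fun w hw => (hconst w hw).trans ha0)
    have hall : ∀ g, (Ψ.comp slH) g = 1 := fun g => by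
      have hle : Subgroup.normalClosure (Set.range fun v : I₁ → F =>
          (ev (Multiplicative.ofAdd v) : Matrix.SpecialLinearGroup I₀ F)) ≤ (Ψ.comp slH).ker := by
        refine Subgroup.normalClosure_le_normal ?_
        rintro _ ⟨v, rfl⟩
        exact hev v
      rw [normalClosure_ev (κ := I₁) (by simp; omega)] at hle
      exact hle (Subgroup.mem_top g)
    set y : Fin D → ℂ := Pi.single ⟨0, Nat.pos_of_ne_zero hD0⟩ 1 with hy
    have hy0 : y = 0 := hnf y fun g _ => by rw [hall, Matrix.one_mulVec]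
    exact one_ne_zero (show (1 : ℂ) = 0 by simpa [hy] using congrFun hy0 ⟨0, Nat.pos_of_ne_zero hD0⟩)
  have h1 : ∀ w, w ≠ 0 → μ w = 1 := fun w hw => (hconst w hw).trans ha
  have hs : Schur (Ψ.comp slH) := by
    refine schur_of_weights (Ψ.comp slH) (fun v => ev (Multiplicative.ofAdd v))
      (fun u v => SR_add Ψ u v) (SR_zero Ψ) hψ ⟨w0 F l, hone⟩ h1 (fun w w' hw hw' => ?_) fun y hy => ?_
    · obtain ⟨K, rfl⟩ := exists_sl_mulVec_eq (by simp; omega) hw hw'
      exact ⟨emb K, R_emb_mul_wproj (ψ := ψ) (Ψ.comp slH) K w⟩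
    · refine hnf y fun g _ => ?_
      have hle : Subgroup.normalClosure (Set.range fun v : I₁ → F =>
          (ev (Multiplicative.ofAdd v) : Matrix.SpecialLinearGroup I₀ F)) ≤ vecStab (Ψ.comp slH) y := by
        refine (Subgroup.closure_le _).2 fun x hx => ?_
        obtain ⟨_, ⟨v, rfl⟩, hc⟩ := Group.mem_conjugatesOfSet_iff.1 hx
        obtain ⟨c, rfl⟩ := isConj_iff.1 hc
        exact hy c v
      rw [normalClosure_ev (κ := I₁) (by simp; omega)] at hle
      exact hle (Subgroup.mem_top g)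
  have hlow := lower_bound (Ψ.comp slH) (k := D) (by rw [ha, mul_one] at hsum; omega) hl
    ⟨fun h => by omega, fun h => by omega, fun h => by omega, fun h => by omega⟩ hs
  rw [ha, mul_one] at hsum
  rw [← hqdef] at hlow
  exact ⟨h1, hs, by omega, by omega⟩

/-- A column of a matrix off the diagonal. -/
def colV (j : I₁) (v : {i : I₁ // i ≠ j} → F) : I₁ → F := fun i => if h : i ≠ j then v ⟨i, h⟩ else 0

theorem colV_self (j : I₁) (v : {i : I₁ // i ≠ j} → F) : colV j v j = 0 := by simp [colV]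

/-- The column group. -/
def colT (j : I₁) (v : {i : I₁ // i ≠ j} → F) : GL I₁ F :=
  GeneralLinearGroup.mkOfDetNeZero (1 + vecMulVec (colV j v) (Pi.single j 1)) (by
    rw [Matrix.vecMulVec_eq Unit, Matrix.det_one_add_replicateCol_mul_replicateRow, single_dotProduct,
      colV_self, mul_zero, add_zero]
    exact one_ne_zero)

theorem det_colT (j : I₁) (v : {i : I₁ // i ≠ j} → F) : (colT j v : Matrix I₁ I₁ F).det = 1 := by
  show (1 + vecMulVec (colV j v) (Pi.single j 1)).det = 1
  rw [Matrix.vecMulVec_eq Unit, Matrix.det_one_add_replicateCol_mul_replicateRow, single_dotProduct,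
    colV_self, mul_zero, add_zero]

theorem colT_mulVec (j : I₁) (v : {i : I₁ // i ≠ j} → F) (x : I₁ → F) :
    (colT j v : Matrix I₁ I₁ F) *ᵥ x = x + x j • colV j v := by
  show (1 + vecMulVec (colV j v) (Pi.single j 1)) *ᵥ x = _
  rw [Matrix.add_mulVec, Matrix.one_mulVec, Matrix.vecMulVec_mulVec, op_smul_eq_smul, single_dotProduct,
    one_mul]

theorem colT_add (j : I₁) (u v : {i : I₁ // i ≠ j} → F) : colT j (u + v) = colT j u * colT j v := by
  refine glExt fun x => ?_
  rw [Units.val_mul, ← Matrix.mulVec_mulVec, colT_mulVec, colT_mulVec, colT_mulVec, Pi.add_apply,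
    Pi.smul_apply, colV_self, smul_zero, add_zero, add_assoc, ← smul_add]
  congr 2
  funext i
  by_cases h : i = j <;> simp [colV, h, add_comm]

theorem colT_zero (j : I₁) : colT j (0 : {i : I₁ // i ≠ j} → F) = 1 := by
  have := colT_add j (0 : {i : I₁ // i ≠ j} → F) 0
  rwa [add_zero, left_eq_mul] at this

theorem diag_colT (j : I₁) (z : Fˣ) (v : {i : I₁ // i ≠ j} → F) :
    diagG (Function.update (1 : I₁ → Fˣ) j z) * colT j v =
      colT j (z⁻¹ • v) * diagG (Function.update (1 : I₁ → Fˣ) j z) := by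
  refine glExt fun x => ?_
  simp only [Units.val_mul, ← Matrix.mulVec_mulVec, colT_mulVec]
  funext i
  simp only [coe_diagG, Matrix.mulVec_diagonal, Pi.add_apply, Pi.smul_apply, smul_eq_mul,
    Function.update_self]
  by_cases h : i = j
  · subst h; simp [colV_self]
  · simp [colV, h, Units.smul_def]
    field_simp

theorem diagG_mem_lineStab {κ : Type} [Fintype κ] [DecidableEq κ] (d : Unit ⊕ κ → Fˣ) :
    diagG d ∈ lineStab (F := F) (κ := κ) ∧ ∀ α β : Fˣ →* ℂ,
      stabChar α β (diagG d) = α (d (Sum.inl ())) * β (∏ i, d i) := by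
  have h : ((diagG d : GL (Unit ⊕ κ) F) : Matrix (Unit ⊕ κ) (Unit ⊕ κ) F) *ᵥ Pi.single (Sum.inl ()) 1 =
      (d (Sum.inl ()) : F) • (Pi.single (Sum.inl ()) 1 : Unit ⊕ κ → F) := by
    rw [coe_diagG]
    funext i
    rw [Matrix.mulVec_diagonal, Pi.smul_apply, smul_eq_mul]
    by_cases hi : i = Sum.inl ()
    · rw [hi]
    · rw [Pi.single_eq_of_ne hi, mul_zero, mul_zero]
  exact ⟨⟨_, h⟩, fun α β => by rw [stabChar, eq_apply_of_mulVec h, extHom_coe, det_diagG, extHom_coe]⟩

theorem permG_swap_mulVec {ι : Type} [Fintype ι] [DecidableEq ι] (σ : Equiv.Perm ι) (x : ι → F) :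
    ((permG σ : GL ι F) : Matrix ι ι F) *ᵥ x = x ∘ σ := by
  show σ.permMatrix F *ᵥ x = _
  rw [Matrix.permMatrix_mulVec]

theorem det_permG {ι : Type} [Fintype ι] [DecidableEq ι] (σ : Equiv.Perm ι) :
    ((permG σ : GL ι F) : Matrix ι ι F).det = ((Equiv.Perm.sign σ : ℤ) : F) := by
  show (σ.permMatrix F).det = _
  rw [Matrix.det_permutation]

variable {Ψ}

/-- The squares lie in the kernel of the inducing character. -/
theorem alpha_square {D1 : ℕ} {A : Matrix (Fin D) (Fin D1) ℂ} {B : Matrix (Fin D1) (Fin D) ℂ}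
    {φ : GL I₁ F →* Matrix (Fin D1) (Fin D1) ℂ} (hψ : ψ 1 ≠ 1)
    (hAB : A * B = weightProj (SR Ψ) ψ 0) (hBA : B * A = 1)
    (hφ : ∀ M, φ M = B * Ψ (embS M) * A ∧ Ψ (embS M) * A = A * φ M ∧ B * Ψ (embS M) = φ M * B)
    (hs : Schur φ) {u w : Fin D1 → ℂ} {α β : Fˣ →* ℂ} (huw : u ⬝ᵥ w = 1)
    (hχ : ∀ g ∈ lineStab, φ g *ᵥ w = stabChar α β g • w)
    (hoff : ∀ g, g ∉ lineStab → coeff φ u w g = 0) (j0 : Fin l)
    (hcol : ∀ y, (∀ (i : I₀) (h : i ≠ Sum.inr (Sum.inr j0)) (a : F),
        Ψ (slH (Matrix.SpecialLinearGroup.transvection h a)) *ᵥ y = y) →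
      ∀ g : sqDet F I₀, (∃ s : F, s ≠ 0 ∧ ((g : GL I₀ F) : Matrix I₀ I₀ F) =
        Matrix.diagonal (Function.update (1 : I₀ → F) (Sum.inr (Sum.inr j0)) (s ^ 2))) → Ψ g *ᵥ y = y)
    (s : Fˣ) : α (s * s) = 1 := by
  set j : I₁ := Sum.inr j0 with hj
  set z : Fˣ := s * s with hz
  have hzsq : IsSquare (z : F) := ⟨(s : F), by rw [hz, Units.val_mul]⟩
  let Z : sqDet F I₀ := ⟨scalG z, by
    rw [mem_sqDet, show (scalG z : GL I₀ F) = scalG z * embG 1 by rw [map_one, mul_one], det_scal_emb,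
      Units.val_one, det_one, mul_one]
    exact hzsq⟩
  have hZP : Ψ Z * weightProj (SR Ψ) ψ 0 = weightProj (SR Ψ) ψ 0 * Ψ Z := by
    have h := comm_blk Ψ (ψ := ψ) (g := Z) (a := z) (M := 1) (by rw [map_one, mul_one]) 0
    rwa [Matrix.mulVec_zero, smul_zero] at h
  have hZe : ∀ M, Ψ Z * Ψ (embS M) = Ψ (embS M) * Ψ Z := fun M => by
    rw [← map_mul, ← map_mul]
    congr 1
    apply Subtype.ext
    show scalG z * (scalG (detU M)⁻¹ * embG M) = scalG (detU M)⁻¹ * embG M * scalG z
    rw [← mul_assoc, ← map_mul, mul_comm z, map_mul, mul_assoc, mul_assoc, scalG_comm_embG]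
  obtain ⟨ζ, hζ⟩ := hs (B * Ψ Z * A) (fun M => by
    rw [Matrix.mul_assoc (B * Ψ Z), ← (hφ M).2.1, ← Matrix.mul_assoc (B * Ψ Z), Matrix.mul_assoc B, hZe,
      ← Matrix.mul_assoc B, (hφ M).2.2, Matrix.mul_assoc, Matrix.mul_assoc, ← Matrix.mul_assoc B])
  have hZA : ∀ y, Ψ Z *ᵥ (A *ᵥ y) = ζ • (A *ᵥ y) := fun y => by
    have hPA : weightProj (SR Ψ) ψ 0 * A = A := by rw [← hAB, Matrix.mul_assoc, hBA, Matrix.mul_one]
    have e : Ψ Z * A = A * (B * Ψ Z * A) := by
      rw [← Matrix.mul_assoc, ← Matrix.mul_assoc, hAB, ← hZP, Matrix.mul_assoc, hPA]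
    rw [Matrix.mulVec_mulVec, e, hζ, Matrix.mul_smul, Matrix.mul_one, Matrix.smul_mulVec]
  set dM : I₁ → Fˣ := Function.update 1 j z with hdM
  have hprod : ∀ i, ∏ x, Function.update (1 : I₁ → Fˣ) i z x = z := fun i => by
    rw [Finset.prod_update_of_mem (Finset.mem_univ i)]; simp
  have hdetM : detU (diagG dM) = z := Units.ext (by rw [coe_detU, det_diagG, hprod])
  set S : Matrix (Fin D1) (Fin D1) ℂ := ∑ v : {i : I₁ // i ≠ j} → F, φ (colT j v) with hS
  have hSfix : ∀ v, φ (colT j v) * S = S := fun v => by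
    rw [hS, Finset.mul_sum]
    exact Fintype.sum_equiv (Equiv.addLeft v) _ _ fun x => by rw [Equiv.coe_addLeft, ← map_mul, colT_add]
  have hMS : φ (diagG dM) * S = S * φ (diagG dM) := by
    rw [hS, Finset.mul_sum, Finset.sum_mul]
    exact Fintype.sum_equiv (MulAction.toPerm z⁻¹) _ _ fun x => by
      rw [MulAction.toPerm_apply, ← map_mul, ← map_mul, diag_colT]
  have hkey : ∀ y, ζ • (S *ᵥ (φ (diagG dM) *ᵥ y)) = S *ᵥ y := by
    intro y
    have hfix : ∀ (i : I₀) (h : i ≠ Sum.inr j) (a : F),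
        Ψ (slH (Matrix.SpecialLinearGroup.transvection h a)) *ᵥ (A *ᵥ (S *ᵥ y)) = A *ᵥ (S *ᵥ y) := by
      intro i h a
      rcases i with ⟨⟩ | i
      · rw [transvection_inl_inr]
        have e : A *ᵥ (S *ᵥ y) = weightProj (SR Ψ) ψ 0 *ᵥ (A *ᵥ (S *ᵥ y)) := by
          rw [← hAB, Matrix.mulVec_mulVec _ (A * B) A, Matrix.mul_assoc A B A, hBA, Matrix.mul_one]
        rw [e]
        exact apply_mulVec_weightProj_zero (S := SR Ψ) (SR_add Ψ) hψ _ _
      · have hij : i ≠ j := fun e => h (by rw [e])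
        have e : slH (Matrix.SpecialLinearGroup.transvection h a) =
            embS (colT j (Pi.single ⟨i, hij⟩ a)) := by
          apply Subtype.ext
          rw [coe_embS_of_det _ (det_colT _ _)]
          apply Units.ext
          rw [coe_slH, coe_embG]
          ext p p'
          rw [CfsgLib.Classical.Linear.transvection_apply]
          show _ = fromBlocks 1 0 0 (1 + vecMulVec (colV j (Pi.single ⟨i, hij⟩ a)) (Pi.single j 1)) p p'
          rcases p with p | p <;> rcases p' with p' | p'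
          · simp [Matrix.one_apply]
          · simp
          · simp
          · by_cases h1 : p = i
            · subst h1
              by_cases h2 : p' = j <;> simp [h2, colV, hij, vecMulVec_apply, Matrix.one_apply]
            · by_cases h3 : p = j
              · subst h3; simp [h1, colV, vecMulVec_apply, Matrix.one_apply]
              · simp [h1, h3, colV, vecMulVec_apply, Matrix.one_apply]
        rw [e, compress_mulVec Ψ embS (fun M => (hφ M).2.1), Matrix.mulVec_mulVec _ (φ _) S, hSfix]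
    have hdet : ((scalG z * scalG z⁻¹ * embG (diagG dM) : GL I₀ F) : Matrix I₀ I₀ F) =
        Matrix.diagonal (Function.update (1 : I₀ → F) (Sum.inr j) ((s : F) ^ 2)) := by
      rw [← map_mul, mul_inv_cancel, scal_diag, coe_diagG]
      congr 1
      funext i
      rcases i with i | i
      · simp
      · by_cases hi : i = j
        · subst hi; simp [hdM, hz, sq]
        · simp [hdM, hi]
    have h := hcol _ hfix (Z * embS (diagG dM)) ⟨s, s.ne_zero, by
      rw [Subgroup.coe_mul, coe_embS, hdetM, ← mul_assoc]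
      exact hdet⟩
    rw [R_mul_mulVec, compress_mulVec Ψ embS (fun M => (hφ M).2.1), hZA] at h
    have h' := congrArg (B *ᵥ ·) h
    simp only [Matrix.mulVec_smul, Matrix.mulVec_mulVec, hBA, Matrix.one_mulVec, ← Matrix.mul_assoc,
      Matrix.one_mul, hMS] at h'
    rw [Matrix.mulVec_mulVec]
    exact h'
  have hstab : ∀ v : {i : I₁ // i ≠ j} → F, (colT j v : Matrix I₁ I₁ F) *ᵥ Pi.single (Sum.inl ()) 1 =
      (1 : F) • (Pi.single (Sum.inl ()) 1 : I₁ → F) := fun v => by
    rw [colT_mulVec, Pi.single_eq_of_ne (by simp [hj]), zero_smul, add_zero, one_smul]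
  have hS1 : u ⬝ᵥ (S *ᵥ w) ≠ 0 := by
    rw [hS, Matrix.sum_mulVec, dotProduct_sum, Finset.sum_congr rfl (g := fun _ => (1 : ℂ)) (fun v _ => by
      rw [hχ _ ⟨1, hstab v⟩, stabChar, eq_apply_of_mulVec (hstab v), det_colT, map_one, map_one, one_mul,
        one_smul, huw]), Finset.sum_const, nsmul_eq_mul, mul_one, Finset.card_univ]
    exact Nat.cast_ne_zero.2 Fintype.card_ne_zero
  have hzβ : ζ * β z = 1 := by
    have h := hkey w
    rw [hχ _ (diagG_mem_lineStab dM).1, (diagG_mem_lineStab dM).2, hprod,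
      show dM (Sum.inl ()) = 1 by simp [hdM, hj], map_one, one_mul, Matrix.mulVec_smul, smul_smul] at h
    have h' := congrArg (u ⬝ᵥ ·) h
    simp only [dotProduct_smul, smul_eq_mul] at h'
    exact mul_right_cancel₀ hS1 (h'.trans (one_mul _).symm)
  set σ : Equiv.Perm I₁ := Equiv.swap (Sum.inl ()) j with hσ
  have hσσ : ∀ i, σ (σ i) = i := fun i => Equiv.swap_apply_self _ _ _
  have hPP : (permG σ : GL I₁ F) * permG σ = 1 := glExt fun x => by
    rw [Units.val_mul, ← Matrix.mulVec_mulVec, permG_swap_mulVec, permG_swap_mulVec, Units.val_one,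
      Matrix.one_mulVec]
    funext i
    simp [hσσ]
  have hS2 : u ⬝ᵥ (φ (permG σ) *ᵥ (S *ᵥ (φ (permG σ) *ᵥ w))) ≠ 0 := by
    rw [hS, Matrix.sum_mulVec, Matrix.mulVec_sum, dotProduct_sum, Finset.sum_eq_single 0]
    · rw [colT_zero, map_one, Matrix.one_mulVec, Matrix.mulVec_mulVec, ← map_mul, hPP, map_one,
        Matrix.one_mulVec, huw]
      exact one_ne_zero
    · intro v _ hv
      rw [Matrix.mulVec_mulVec, Matrix.mulVec_mulVec, ← map_mul, ← map_mul]
      refine hoff _ fun ⟨c, hc⟩ => ?_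
      obtain ⟨⟨i, hi⟩, hvi⟩ := Function.ne_iff.1 hv
      have hσi : σ i ≠ Sum.inl () := fun e => hi (by
        have := congrArg σ e
        rwa [hσσ, hσ, Equiv.swap_apply_left] at this)
      rw [Units.val_mul, Units.val_mul, ← Matrix.mulVec_mulVec, ← Matrix.mulVec_mulVec, permG_swap_mulVec,
        permG_swap_mulVec, colT_mulVec] at hc
      have h1 := congrFun hc (σ i)
      simp only [Function.comp_apply, hσσ, Pi.add_apply, Pi.smul_apply, smul_eq_mul, Pi.single_eq_of_ne hσi,
        mul_zero, zero_add] at h1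
      rw [show σ j = Sum.inl () from Equiv.swap_apply_right _ _, Pi.single_eq_same, one_mul] at h1
      rw [colV, dif_pos hi] at h1
      exact hvi h1
    · exact fun h => absurd (Finset.mem_univ _) h
  have hzα : ζ * (α z * β z) = 1 := by
    have h := hkey (φ (permG σ) *ᵥ w)
    have hd : dM ∘ σ = Function.update (1 : I₁ → Fˣ) (Sum.inl ()) z := by
      funext i
      rw [Function.comp_apply, hσ]
      by_cases h1 : i = Sum.inl ()
      · subst h1; simp [hdM]
      · by_cases h2 : i = j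
        · subst h2; simp [hdM, hj]
        · rw [Equiv.swap_apply_of_ne_of_ne h1 h2]; simp [hdM, h1, h2]
    have e : diagG dM * (permG σ : GL I₁ F) = permG σ * diagG (dM ∘ σ) := by
      rw [permG_diagG]
      congr 2
      funext i
      simp [hσσ]
    rw [← R_mul_mulVec φ (diagG dM), e, R_mul_mulVec, hχ _ (diagG_mem_lineStab _).1,
      (diagG_mem_lineStab _).2, hd, hprod, Function.update_self, Matrix.mulVec_smul, Matrix.mulVec_smul,
      smul_smul] at h
    have h' := congrArg (fun x => u ⬝ᵥ (φ (permG σ) *ᵥ x)) h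
    simp only [Matrix.mulVec_smul, dotProduct_smul, smul_eq_mul] at h'
    exact mul_right_cancel₀ hS2 (h'.trans (one_mul _).symm)
  calc α z = ζ * (α z * β z) := by rw [mul_left_comm, hzβ, mul_one]
    _ = 1 := hzα

end CfsgLib.OrthOddDeg
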