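import Cfsg.Agent.OrthOddDeg.GLPoint

/-!
Tools for the representations of degree `[n]-1` of the matrices of square determinant.
-/

set_option autoImplicit false
set_option linter.unusedSectionVars false
set_option linter.style.haveILetI false

noncomputable section

namespace CfsgLib.OrthOddDeg

open Matrix CfsgLib.OrthPlusDeg CfsgLib.SlMinDegree
open scoped MatrixGroups _root_.Classical

variable {F : Type*} [Field F] [Fintype F] [DecidableEq F]

/-- The matrices of square determinant. -/
def sqDet (F : Type*) [Field F] (ι : Type) [Fintype ι] [DecidableEq ι] : Subgroup (GL ι F) where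
  carrier := {g | IsSquare (g : Matrix ι ι F).det}
  mul_mem' {a b} ha hb := by
    show IsSquare ((a * b : GL ι F) : Matrix ι ι F).det
    rw [Units.val_mul, Matrix.det_mul]
    exact IsSquare.mul ha hb
  one_mem' := by
    show IsSquare ((1 : GL ι F) : Matrix ι ι F).det
    rw [Units.val_one, Matrix.det_one]
    exact IsSquare.one
  inv_mem' {a} ha := by
    show IsSquare ((a⁻¹ : GL ι F) : Matrix ι ι F).det
    have h : ((a⁻¹ : GL ι F) : Matrix ι ι F).det * (a : Matrix ι ι F).det = 1 := by
      rw [← Matrix.det_mul, ← Units.val_mul, inv_mul_cancel, Units.val_one, Matrix.det_one]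
    rw [eq_inv_of_mul_eq_one_left h]
    exact IsSquare.inv ha

theorem mem_sqDet {ι : Type} [Fintype ι] [DecidableEq ι] {g : GL ι F} :
    g ∈ sqDet F ι ↔ IsSquare (g : Matrix ι ι F).det := Iff.rfl

/-- `SL` inside the matrices of square determinant. -/
def slH {ι : Type} [Fintype ι] [DecidableEq ι] : Matrix.SpecialLinearGroup ι F →* sqDet F ι where
  toFun g := ⟨Matrix.SpecialLinearGroup.toGL g, by
    rw [mem_sqDet, show (Matrix.SpecialLinearGroup.toGL g : Matrix ι ι F).det = 1 from g.2]
    exact IsSquare.one⟩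
  map_one' := Subtype.ext (map_one _)
  map_mul' g h := Subtype.ext (map_mul _ g h)

theorem coe_slH {ι : Type} [Fintype ι] [DecidableEq ι] (g : Matrix.SpecialLinearGroup ι F) :
    (((slH g : sqDet F ι) : GL ι F) : Matrix ι ι F) = (g : Matrix ι ι F) := rfl

/-- An element of `sqDet` of determinant one comes from `SL`. -/
theorem exists_slH {ι : Type} [Fintype ι] [DecidableEq ι] {g : sqDet F ι}
    (h : ((g : GL ι F) : Matrix ι ι F).det = 1) : ∃ S : Matrix.SpecialLinearGroup ι F, slH S = g :=
  ⟨⟨((g : GL ι F) : Matrix ι ι F), h⟩, Subtype.ext (Units.ext rfl)⟩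

/-- Diagonal matrices. -/
def diagG {ι : Type} [Fintype ι] [DecidableEq ι] (d : ι → Fˣ) : GL ι F :=
  ⟨Matrix.diagonal fun i => (d i : F), Matrix.diagonal fun i => ((d i)⁻¹ : Fˣ),
    by simp [Matrix.diagonal_mul_diagonal], by simp [Matrix.diagonal_mul_diagonal]⟩

theorem coe_diagG {ι : Type} [Fintype ι] [DecidableEq ι] (d : ι → Fˣ) :
    ((diagG d : GL ι F) : Matrix ι ι F) = Matrix.diagonal fun i => (d i : F) := rfl

theorem det_diagG {ι : Type} [Fintype ι] [DecidableEq ι] (d : ι → Fˣ) :
    ((diagG d : GL ι F) : Matrix ι ι F).det = ((∏ i, d i : Fˣ) : F) := by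
  rw [coe_diagG, Matrix.det_diagonal, Units.coe_prod]

theorem permG_diagG {ι : Type} [Fintype ι] [DecidableEq ι] (σ : Equiv.Perm ι) (d : ι → Fˣ) :
    (permG σ : GL ι F) * diagG d = diagG (d ∘ σ) * permG σ := by
  apply Units.ext
  rw [Units.val_mul, Units.val_mul, coe_diagG, coe_diagG]
  show σ.toPEquiv.toMatrix * _ = _ * σ.toPEquiv.toMatrix
  rw [PEquiv.toMatrix_toPEquiv_mul, PEquiv.mul_toMatrix_toPEquiv]
  ext x y
  simp only [Matrix.submatrix_apply, Matrix.diagonal_apply, id_eq, Function.comp_apply]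
  by_cases h : σ x = y
  · rw [if_pos h, if_pos (by rw [← h, Equiv.symm_apply_apply])]
  · rw [if_neg h, if_neg (fun h' => h (by rw [h', Equiv.apply_symm_apply]))]

/-- The vectors vanishing at given places. -/
theorem card_vanish {ι : Type} [Fintype ι] [DecidableEq ι] (s : Finset ι) :
    ((Finset.univ : Finset (ι → F)).filter fun v => ∀ i ∈ s, v i = 0).card =
      Fintype.card F ^ (Fintype.card ι - s.card) := by
  have h : ((Finset.univ : Finset (ι → F)).filter fun v => ∀ i ∈ s, v i = 0) =
      Fintype.piFinset (fun i => if i ∈ s then ({0} : Finset F) else Finset.univ) := by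
    ext v
    simp only [Finset.mem_filter, Finset.mem_univ, true_and, Fintype.mem_piFinset]
    refine ⟨fun h i => ?_, fun h i hi => by simpa [hi] using h i⟩
    by_cases hi : i ∈ s
    · simp [hi, h i hi]
    · simp [hi]
  rw [h, Fintype.card_piFinset, ← Finset.prod_mul_prod_compl s,
    Finset.prod_congr rfl (g := fun _ => 1) (fun i hi => by rw [if_pos hi, Finset.card_singleton]),
    Finset.prod_const_one, one_mul,
    Finset.prod_congr rfl (g := fun _ => Fintype.card F)
      (fun i hi => by rw [if_neg (Finset.mem_compl.1 hi), Finset.card_univ]),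
    Finset.prod_const, Finset.card_compl]

/-- The sum defining the induced character at a diagonal matrix. -/
theorem sum_eigTerm_diag {κ : Type} [Fintype κ] [DecidableEq κ] (α β : Fˣ →* ℂ) (d : Unit ⊕ κ → Fˣ)
    (C : Finset Fˣ) (hC : ∀ i, d i ∈ C) :
    ∑ v ∈ (Finset.univ : Finset (Unit ⊕ κ → F)).erase 0, eigTerm α β (diagG d) v =
      β (∏ i, d i) * ∑ c ∈ C, α c *
        ((Fintype.card F : ℂ) ^ ((Finset.univ : Finset (Unit ⊕ κ)).filter fun i => d i = c).card - 1) := by
  set E := (Finset.univ : Finset (Unit ⊕ κ → F)).erase 0 with hE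
  set W : Fˣ → Finset (Unit ⊕ κ → F) := fun c =>
    E.filter fun v => ∀ i ∈ ((Finset.univ : Finset (Unit ⊕ κ)).filter fun i => d i ≠ c), v i = 0 with hW
  have hmem : ∀ (v : Unit ⊕ κ → F) (c : Fˣ), ((diagG d : GL (Unit ⊕ κ) F) : Matrix _ _ F) *ᵥ v = (c : F) • v ↔
      ∀ i ∈ ((Finset.univ : Finset (Unit ⊕ κ)).filter fun i => d i ≠ c), v i = 0 := by
    intro v c
    rw [coe_diagG]
    constructor
    · intro h i hi
      have hi' := (Finset.mem_filter.1 hi).2
      have := congrFun h i
      rw [Matrix.mulVec_diagonal, Pi.smul_apply, smul_eq_mul] at this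
      by_contra h0
      exact hi' (Units.ext (mul_right_cancel₀ h0 this))
    · intro h
      funext i
      rw [Matrix.mulVec_diagonal, Pi.smul_apply, smul_eq_mul]
      by_cases hi : d i = c
      · rw [hi]
      · rw [h i (Finset.mem_filter.2 ⟨Finset.mem_univ _, hi⟩), mul_zero, mul_zero]
  have hterm : ∀ v ∈ E, eigTerm α β (diagG d) v =
      ∑ c ∈ C, if v ∈ W c then α c * β (∏ i, d i) else 0 := by
    intro v hv
    have hv0 := Finset.ne_of_mem_erase hv
    obtain ⟨i, hi⟩ := Function.ne_iff.1 hv0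
    by_cases hex : ∃ c : Fˣ, ((diagG d : GL (Unit ⊕ κ) F) : Matrix _ _ F) *ᵥ v = (c : F) • v
    · obtain ⟨c, hc⟩ := hex
      have hdi : d i = c := by
        by_contra h
        exact hi ((hmem v c).1 hc i (Finset.mem_filter.2 ⟨Finset.mem_univ _, h⟩))
      rw [eigTerm_of_eigen α β hv0 hc, extHom_coe, det_diagG, extHom_coe, Finset.sum_eq_single c]
      · rw [if_pos (Finset.mem_filter.2 ⟨hv, (hmem v c).1 hc⟩)]
      · intro c' _ hne
        rw [if_neg]
        intro h
        refine hi ((Finset.mem_filter.1 h).2 i (Finset.mem_filter.2 ⟨Finset.mem_univ _, ?_⟩))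
        rw [hdi]; exact hne.symm
      · intro h
        exact absurd (hdi ▸ hC i) h
    · push Not at hex
      rw [Finset.sum_eq_zero (fun c _ => if_neg (fun h => hex c ((hmem v c).2 (Finset.mem_filter.1 h).2)))]
      refine eigTerm_of_not α β fun c hc => ?_
      have hci := congrFun hc i
      rw [coe_diagG, Matrix.mulVec_diagonal, Pi.smul_apply, smul_eq_mul] at hci
      exact hex (d i) (by rw [mul_right_cancel₀ hi hci]; exact hc)
  rw [Finset.sum_congr rfl hterm, Finset.sum_comm, Finset.mul_sum]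
  refine Finset.sum_congr rfl fun c _ => ?_
  set s := (Finset.univ : Finset (Unit ⊕ κ)).filter fun i => d i ≠ c with hs
  have hWc : W c = (((Finset.univ : Finset (Unit ⊕ κ → F)).filter fun v => ∀ i ∈ s, v i = 0)).erase 0 := by
    rw [hW, hE, ← Finset.filter_erase]
  have hscard : Fintype.card (Unit ⊕ κ) - s.card =
      ((Finset.univ : Finset (Unit ⊕ κ)).filter fun i => d i = c).card := by
    have h := Finset.card_filter_add_card_filter_not (s := (Finset.univ : Finset (Unit ⊕ κ))) (fun i => d i = c)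
    rw [Finset.card_univ] at h
    simp only [hs, ne_eq]
    omega
  simp only [hW] at hWc
  rw [← Finset.sum_filter, Finset.sum_const, nsmul_eq_mul, Finset.filter_mem_eq_inter,
    Finset.inter_eq_right.2 (Finset.filter_subset _ _), hWc,
    Finset.card_erase_of_mem (Finset.mem_filter.2 ⟨Finset.mem_univ _, fun i _ => rfl⟩), card_vanish, hscard,
    Nat.cast_sub (Nat.one_le_pow _ _ Fintype.card_pos), Nat.cast_pow, Nat.cast_one]
  ring

/-- The elements moving a vector to the points of an orbit are evenly distributed. -/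
theorem sum_orbit {G : Type*} [Group G] [Fintype G] {ι : Type} [Fintype ι] [DecidableEq ι]
    (τ : G →* GL ι F) {v0 : ι → F} (O : Finset (ι → F))
    (hO : ∀ g, ((τ g : GL ι F) : Matrix ι ι F) *ᵥ v0 ∈ O)
    (hT : ∀ v ∈ O, ∃ g, ((τ g : GL ι F) : Matrix ι ι F) *ᵥ v0 = v)
    {M : Type*} [AddCommMonoid M] (f : (ι → F) → M) :
    ∑ g : G, f (((τ g : GL ι F) : Matrix ι ι F) *ᵥ v0) =
      ((Finset.univ : Finset G).filter fun g : G => ((τ g : GL ι F) : Matrix ι ι F) *ᵥ v0 = v0).card •
        ∑ v ∈ O, f v := by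
  rw [Finset.smul_sum, ← Finset.sum_fiberwise_of_maps_to (t := O)
    (g := fun g : G => ((τ g : GL ι F) : Matrix ι ι F) *ᵥ v0) (fun g _ => hO g)]
  refine Finset.sum_congr rfl fun v hv => ?_
  rw [Finset.sum_congr rfl (g := fun _ => f v) (fun g hg => by rw [(Finset.mem_filter.1 hg).2]),
    Finset.sum_const]
  congr 1
  obtain ⟨K, hK⟩ := hT v hv
  refine Finset.card_equiv (Equiv.mulLeft K⁻¹) fun g => ?_
  simp only [Finset.mem_filter, Finset.mem_univ, true_and, Equiv.coe_mulLeft]
  rw [map_mul, map_inv, Units.val_mul, ← Matrix.mulVec_mulVec]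
  constructor
  · intro h
    rw [h, ← hK, Matrix.mulVec_mulVec, ← Units.val_mul, inv_mul_cancel, Units.val_one, Matrix.one_mulVec]
  · intro h
    have h' := congrArg (((τ K : GL ι F) : Matrix ι ι F) *ᵥ ·) h
    rw [Matrix.mulVec_mulVec, ← Units.val_mul, mul_inv_cancel, Units.val_one, Matrix.one_mulVec, hK] at h'
    exact h'

/-- The translations generate `SL` as a normal subgroup. -/
theorem normalClosure_ev {κ : Type} [Fintype κ] [DecidableEq κ] (hκ : 2 ≤ Fintype.card κ) :
    Subgroup.normalClosure (Set.range fun v : κ → F =>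
      (ev (Multiplicative.ofAdd v) : Matrix.SpecialLinearGroup (Unit ⊕ κ) F)) = ⊤ := by
  set N := Subgroup.normalClosure (Set.range fun v : κ → F =>
      (ev (Multiplicative.ofAdd v) : Matrix.SpecialLinearGroup (Unit ⊕ κ) F)) with hN
  have hnorm : N.Normal := Subgroup.normalClosure_normal
  have hzj : ∀ (j : Unit ⊕ κ) (h : Sum.inl () ≠ j) (c : F),
      Matrix.SpecialLinearGroup.transvection h c ∈ N := by
    intro j h c
    rcases j with u | i
    · exact absurd rfl h
    · rw [transvection_inl_inr]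
      exact Subgroup.subset_normalClosure ⟨_, rfl⟩
  have hcomm : ∀ x y : Matrix.SpecialLinearGroup (Unit ⊕ κ) F, (x ∈ N ∨ y ∈ N) →
      x * y * x⁻¹ * y⁻¹ ∈ N := by
    intro x y h
    rcases h with h | h
    · rw [show x * y * x⁻¹ * y⁻¹ = x * (y * x⁻¹ * y⁻¹) by group]
      exact mul_mem h (hnorm.conj_mem _ (inv_mem h) y)
    · exact mul_mem (hnorm.conj_mem _ h x) (inv_mem h)
  have hij : ∀ (i j : Unit ⊕ κ) (h : i ≠ j) (c : F), j ≠ Sum.inl () →
      Matrix.SpecialLinearGroup.transvection h c ∈ N := by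
    intro i j h c hj
    rcases eq_or_ne i (Sum.inl ()) with rfl | hi
    · exact hzj j h c
    · rw [← mul_one c, ← CfsgLib.Classical.Linear.transvection_commutator hi hj.symm h c 1]
      exact hcomm _ _ (Or.inr (hzj j _ _))
  refine eq_top_iff.2 fun g _ => CfsgLib.Classical.Linear.sl_induction (P := fun g => g ∈ N) (one_mem _)
    (fun i j h c => ?_) (fun a b ha hb => mul_mem ha hb) g
  rcases eq_or_ne j (Sum.inl ()) with rfl | hj
  · obtain ⟨x, hxi, hxz⟩ := CfsgLib.Classical.Linear.exists_third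
      (ι := Unit ⊕ κ) (by simp; omega) i (Sum.inl ())
    rw [← mul_one c, ← CfsgLib.Classical.Linear.transvection_commutator hxi.symm hxz h c 1]
    exact hcomm _ _ (Or.inl (hij i x _ _ hxz))
  · exact hij i j h c hj

end CfsgLib.OrthOddDeg
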