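import Cfsg.Agent.OrthOddDeg.RadFix
import Cfsg.Agent.OrthPlusDeg.Weights2

/-!
The weights of the centre of the Siegel radical in a representation of `Omega_{2n+1}(q)` of small degree.
-/

set_option autoImplicit false
set_option linter.unusedSectionVars false
set_option linter.style.haveILetI false

noncomputable section

namespace CfsgLib.OrthOddDeg

open Cfsg.Geo Matrix CfsgLib.OrthPlusDeg CfsgLib.SlMinDegree
open scoped MatrixGroups _root_.Classical

variable {F : Type*} [Field F] [Fintype F] [DecidableEq F] [NeZero (2 : F)] {n k : ℕ}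
variable (R : OmOdd n F →* Matrix (Fin k) (Fin k) ℂ) {ψ : AddChar F ℂ}

/-- The centre of the radical in the representation. -/
def zR (v : Fin n × Fin n → F) : Matrix (Fin k) (Fin k) ℂ := R (zO v)

theorem zR_zero : zR R 0 = 1 := by rw [zR, zO_zero, map_one]

theorem zR_add (u v : Fin n × Fin n → F) : zR R (u + v) = zR R u * zR R v := by
  rw [zR, zO_add, map_mul]; rfl

theorem zR_eq_one {v : Fin n × Fin n → F} (h : altOf v = 0) : zR R v = 1 := by
  rw [zR, zO_congr (show altOf v = altOf 0 by rw [h]; ext i j; simp [altOf_apply]), zO_zero, map_one]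

theorem levi_comm (g : sqDet F (Fin n)) (W : Matrix (Fin n) (Fin n) F) :
    R (sqO g) * weightProj (zR R) ψ
        (flat2 (((g : GL (Fin n) F) : Matrix (Fin n) (Fin n) F)ᵀ * W *
          ((g : GL (Fin n) F) : Matrix (Fin n) (Fin n) F))) =
      weightProj (zR R) ψ (flat2 W) * R (sqO g) := by
  set M := ((g : GL (Fin n) F) : Matrix (Fin n) (Fin n) F)
  set M' := (((g : GL (Fin n) F)⁻¹ : GL (Fin n) F) : Matrix (Fin n) (Fin n) F)
  have h1 : M * M' = 1 := by rw [← Units.val_mul, mul_inv_cancel, Units.val_one]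
  have h2 : M' * M = 1 := by rw [← Units.val_mul, inv_mul_cancel, Units.val_one]
  let e : (Fin n × Fin n → F) ≃ (Fin n × Fin n → F) :=
    { toFun := fun v => flat2 (M * sq2 v * Mᵀ)
      invFun := fun v => flat2 (M' * sq2 v * M'ᵀ)
      left_inv := fun v => by
        simp only [sq2_flat2, ← Matrix.mul_assoc, h2, Matrix.one_mul]
        rw [Matrix.mul_assoc, ← Matrix.transpose_mul, h2, Matrix.transpose_one, Matrix.mul_one, flat2_sq2]
      right_inv := fun v => by
        simp only [sq2_flat2, ← Matrix.mul_assoc, h1, Matrix.one_mul]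
        rw [Matrix.mul_assoc, ← Matrix.transpose_mul, h1, Matrix.transpose_one, Matrix.mul_one, flat2_sq2] }
  refine comm_weightProj e (fun v => ?_) (fun v => ?_)
  · rw [zR, zR, ← map_mul, ← map_mul, sqO_zO]
    rfl
  · exact flat2_dot_congr _ _ _

theorem mult_congr (hψ : ψ 1 ≠ 1) {h : Matrix (Fin n) (Fin n) F} (hd : h.det ≠ 0) (hs : IsSquare h.det)
    (W : Matrix (Fin n) (Fin n) F) :
    weightMult (zR R) ψ (flat2 (h * W * hᵀ)) = weightMult (zR R) ψ (flat2 W) := by
  let g : sqDet F (Fin n) := ⟨GeneralLinearGroup.mkOfDetNeZero hᵀ (by rwa [Matrix.det_transpose]), by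
    rw [mem_sqDet]; change IsSquare hᵀ.det; rwa [Matrix.det_transpose]⟩
  have e := levi_comm R (ψ := ψ) g W
  have e' : ((g : GL (Fin n) F) : Matrix (Fin n) (Fin n) F)ᵀ * W *
      ((g : GL (Fin n) F) : Matrix (Fin n) (Fin n) F) = h * W * hᵀ := by
    change hᵀᵀ * W * hᵀ = _
    rw [Matrix.transpose_transpose]
  rw [e'] at e
  exact weightMult_eq_of_comm (zR_add R) hψ
    (show R (sqO g)⁻¹ * R (sqO g) = 1 by rw [← map_mul, inv_mul_cancel, map_one]) e

theorem isAlt_of_mult (hψ : ψ 1 ≠ 1) {w : Fin n × Fin n → F} (h : weightMult (zR R) ψ w ≠ 0) :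
    IsAlt (sq2 w) := by
  refine ⟨fun i => ?_, fun i j => ?_⟩
  · have := dot_eq_zero_of_weightMult (zR_add R) hψ h (v := Pi.single (i, i) 1)
      (fun x => zR_eq_one R (by
        ext a b
        by_cases ha : a = i <;> by_cases hb : b = i <;> simp [altOf_apply, Pi.single_apply, ha, hb]))
    simpa [sq2] using this
  · have := dot_eq_zero_of_weightMult (zR_add R) hψ h (v := Pi.single (i, j) 1 + Pi.single (j, i) 1)
      (fun x => zR_eq_one R (by
        ext a b
        simp [altOf_apply, Pi.single_apply, and_comm]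
        split_ifs <;> ring))
    rw [add_dotProduct, single_dotProduct, single_dotProduct, one_mul, one_mul] at this
    exact eq_neg_of_add_eq_zero_right this

theorem uO_comm_weight (hn : 2 ≤ n) (a : Fin n → F) (w : Fin n × Fin n → F) :
    R (uO a) * weightProj (zR R) ψ w = weightProj (zR R) ψ w * R (uO a) :=
  comm_weightProj (Equiv.refl _) (fun v => by
    show R (uO a) * R (zO v) = R (zO v) * R (uO a)
    rw [← map_mul, ← map_mul, zO_uO_comm hn]) (fun _ => rfl)

theorem cmp_mul {D : ℕ} {A : Matrix (Fin k) (Fin D) ℂ} {B : Matrix (Fin D) (Fin k) ℂ}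
    {P : Matrix (Fin k) (Fin k) ℂ} (hAB : A * B = P) (hBA : B * A = 1) (X : Matrix (Fin k) (Fin k) ℂ)
    {Y : Matrix (Fin k) (Fin k) ℂ} (hY : Y * P = P * Y) :
    B * X * A * (B * Y * A) = B * (X * Y) * A := by
  have hPA : P * A = A := by rw [← hAB, Matrix.mul_assoc, hBA, Matrix.mul_one]
  calc B * X * A * (B * Y * A) = B * X * ((A * B) * Y * A) := by simp only [Matrix.mul_assoc]
    _ = B * X * (Y * (P * A)) := by rw [hAB, ← hY]; simp only [Matrix.mul_assoc]
    _ = B * (X * Y) * A := by rw [hPA]; simp only [Matrix.mul_assoc]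

theorem cmp_range {D : ℕ} {A : Matrix (Fin k) (Fin D) ℂ} {B : Matrix (Fin D) (Fin k) ℂ}
    {P : Matrix (Fin k) (Fin k) ℂ} (hAB : A * B = P) (hBA : B * A = 1) {X : Matrix (Fin k) (Fin k) ℂ}
    (hX : X * P = P * X) : X * A = A * (B * X * A) := by
  rw [← Matrix.mul_assoc, ← Matrix.mul_assoc, hAB, ← hX, Matrix.mul_assoc X P A, ← hAB,
    Matrix.mul_assoc A B A, hBA, Matrix.mul_one]

theorem dot_flat2_vecMulVec (a b : Fin n → F) (w : Fin n × Fin n → F) :
    flat2 (vecMulVec b a) ⬝ᵥ w = b ⬝ᵥ (sq2 w *ᵥ a) := by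
  simp only [flat2, dotProduct, Fintype.sum_prod_type, sq2, Matrix.mulVec, Matrix.of_apply, vecMulVec_apply,
    Finset.mul_sum]
  exact Finset.sum_congr rfl fun i _ => Finset.sum_congr rfl fun j _ => by ring

/-- The radical on a weight space of its centre. -/
theorem exists_heis (hn : 2 ≤ n) (hψ : ψ 1 ≠ 1) (w : Fin n × Fin n → F) :
    ∃ (A : Matrix (Fin k) (Fin (weightMult (zR R) ψ w)) ℂ) (B : Matrix (Fin (weightMult (zR R) ψ w)) (Fin k) ℂ),
      A * B = weightProj (zR R) ψ w ∧ B * A = 1 ∧ (B * R (uO 0) * A = 1) ∧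
      ∀ a b, B * R (uO a) * A * (B * R (uO b) * A) =
        ψ (b ⬝ᵥ (sq2 w *ᵥ a)) • (B * R (uO (a + b)) * A) := by
  obtain ⟨A, B, hAB, hBA⟩ := exists_factor' (weightProj_idem (zR_add R) hψ w)
    (trace_weightProj (zR_add R) hψ w)
  refine ⟨A, B, hAB, hBA, by rw [uO_zero hn, map_one, Matrix.mul_one, hBA], fun a b => ?_⟩
  rw [cmp_mul hAB hBA (R (uO a)) (uO_comm_weight R hn b w), ← map_mul, uO_mul hn, zO_uO_comm hn, map_mul,
    ← Matrix.mul_assoc, Matrix.mul_assoc (B * R (uO (a + b)))]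
  have hz : R (zO (flat2 (vecMulVec b a))) * A = ψ (flat2 (vecMulVec b a) ⬝ᵥ w) • A := by
    have h1 : weightProj (zR R) ψ w * A = A := by rw [← hAB, Matrix.mul_assoc, hBA, Matrix.mul_one]
    have h2 := mul_weightProj (ψ := ψ) (zR_add R) (flat2 (vecMulVec b a)) w
    calc R (zO (flat2 (vecMulVec b a))) * A
        = zR R (flat2 (vecMulVec b a)) * weightProj (zR R) ψ w * A := by rw [Matrix.mul_assoc, h1]; rfl
      _ = _ := by rw [h2, Matrix.smul_mul, h1]
  rw [hz, Matrix.mul_smul, dot_flat2_vecMulVec]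

/-- The multiplicity of a nonzero weight is divisible by the order of the field. -/
theorem card_dvd_mult (hn : 2 ≤ n) (hψ : ψ 1 ≠ 1) {w : Fin n × Fin n → F} (hw : w ≠ 0)
    (halt : IsAlt (sq2 w)) : Fintype.card F ∣ weightMult (zR R) ψ w := by
  set W := sq2 w with hW
  obtain ⟨p, r, hpr⟩ := exists_ne_zero_of_row (W := W) (fun h => hw (by rw [← flat2_sq2 w, ← hW, h]; rfl))
  obtain ⟨A, B, hAB, hBA, hU0, hUU⟩ := exists_heis R hn hψ w
  set U : (Fin n → F) → Matrix (Fin (weightMult (zR R) ψ w)) (Fin (weightMult (zR R) ψ w)) ℂ :=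
    fun a => B * R (uO a) * A with hU
  have hpair : ∀ (s t : F) (i j : Fin n),
      (s • (Pi.single i 1 : Fin n → F)) ⬝ᵥ (W *ᵥ (t • (Pi.single j 1 : Fin n → F))) = s * t * W i j := by
    intro s t i j
    rw [Matrix.mulVec_smul, smul_dotProduct, dotProduct_smul, Matrix.mulVec_single_one, single_dotProduct]
    simp [smul_eq_mul]; ring
  set S : (Unit → F) → Matrix (Fin (weightMult (zR R) ψ w)) (Fin (weightMult (zR R) ψ w)) ℂ :=
    fun v => U (v () • (Pi.single p 1 : Fin n → F)) with hS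
  have hS0 : S 0 = 1 := by simpa [hS, hU] using hU0
  have hSadd : ∀ u v, S (u + v) = S u * S v := fun u v => by
    simp only [hS, hU]
    rw [hUU, hpair, halt.1, mul_zero, AddChar.map_zero_eq_one, one_smul, Pi.add_apply, add_smul]
  have hshift : ∀ x : Unit → F, weightMult S ψ x = weightMult S ψ 0 := by
    intro x
    set s : F := x () / (2 * W p r)
    set L := U (s • (Pi.single r 1 : Fin n → F)) with hL
    have hLL : U (-(s • (Pi.single r 1 : Fin n → F))) * L = 1 := by
      simp only [hL, hU]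
      rw [hUU, ← neg_smul, hpair, halt.1, mul_zero, AddChar.map_zero_eq_one, one_smul, neg_smul,
        neg_add_cancel, hU0]
    have hcm : ∀ v, L * S v = ψ (v ⬝ᵥ x) • (S v * L) := by
      intro v
      simp only [hL, hS, hU]
      rw [hUU, hUU, hpair, hpair, add_comm (v () • (Pi.single p 1 : Fin n → F)), smul_smul,
        ← AddChar.map_add_eq_mul]
      congr 2
      have e : x () = s * (2 * W p r) := (div_mul_cancel₀ _ (mul_ne_zero two_ne_zero hpr)).symm
      simp only [dotProduct, Finset.univ_unique, Finset.sum_singleton]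
      rw [show (default : Unit) = () from rfl, e, halt.2 p r]
      ring
    have := weightMult_eq_of_comm hSadd hψ hLL (comm_weightProj_twist (ψ := ψ) x hcm x)
    rwa [sub_self] at this
  have h := sum_weightMult (R := S) hS0 hSadd hψ
  rw [Finset.sum_congr rfl (fun x _ => hshift x), Finset.sum_const, Finset.card_univ, Fintype.card_fun,
    Fintype.card_unit, pow_one, smul_eq_mul] at h
  exact Dvd.intro _ h

/-- A normal subgroup is central or everything. -/
theorem normal_center_or_top (hn : 2 ≤ n) (N : Subgroup (OmOdd n F)) [N.Normal] :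
    N ≤ Subgroup.center (OmOdd n F) ∨ N = ⊤ := by
  let e : OmOdd n F ≃* omegaGL (qOdd n F) :=
    (OmOdd n F).equivMapOfInjective (IsoOdd n F).subtype Subtype.val_injective
  have : (N.map e.toMonoidHom).Normal := Subgroup.Normal.map inferInstance _ e.surjective
  rcases CfsgLib.OrthGeo.omegaGL_normal_le_center_or_top (ndQ n) (card_idx hn) (N.map e.toMonoidHom) with h | h
  · refine Or.inl fun x hx => Subgroup.mem_center_iff.2 fun y => e.injective ?_
    rw [map_mul, map_mul]
    exact Subgroup.mem_center_iff.1 (h ⟨x, hx, rfl⟩) (e y)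
  · refine Or.inr (eq_top_iff.2 fun x _ => ?_)
    obtain ⟨y, hy, hxy⟩ := h.symm ▸ Subgroup.mem_top (e x)
    exact e.injective hxy ▸ hy

/-- An alternating matrix of size three is decomposable. -/
theorem isWedge_three {W : Matrix (Fin 3) (Fin 3) F} (hW : IsAlt W) (h0 : W ≠ 0) : IsWedge W := by
  obtain ⟨p, r, hpr⟩ := exists_ne_zero_of_row h0
  refine ⟨h0, (W p r)⁻¹ • W p, W r, ?_⟩
  ext i j
  rw [wedge_apply]
  simp only [Pi.smul_apply, smul_eq_mul]
  have key : W p i * W r j - W r i * W p j = W p r * W i j := by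
    have e10 := hW.2 0 1
    have e20 := hW.2 0 2
    have e21 := hW.2 1 2
    have d0 := hW.1 0
    have d1 := hW.1 1
    have d2 := hW.1 2
    fin_cases p <;> fin_cases r <;> fin_cases i <;> fin_cases j <;> simp_all <;> ring
  field_simp
  linear_combination key

variable (hn : 3 ≤ n) (hq : 5 ≤ Fintype.card F) (hψ : ψ 1 ≠ 1) (hk0 : k ≠ 0) (hnf : NoFix R Set.univ)
  (hsmall : k * (Fintype.card F ^ 2 - 1) < Fintype.card F ^ (2 * n) - 1)
include hn hq hψ hk0 hnf hsmall

set_option maxHeartbeats 1600000 in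
/-- The multiplicities of the weights. -/
theorem rad_structure :
    (∀ W : Matrix (Fin n) (Fin n) F, IsWedge W → weightMult (zR R) ψ (flat2 W) = Fintype.card F) ∧
      weightMult (zR R) ψ 0 < geomN n (Fintype.card F) := by
  set q := Fintype.card F with hqdef
  set μ := weightMult (zR R) ψ with hμ
  have hsum : ∑ w, μ w = k := sum_weightMult (zR_zero R) (zR_add R) hψ
  set X := q ^ n - 1 with hX'
  set u := q ^ (n - 1) with hu
  have hpw : q ^ n = q * u := by rw [hu, ← pow_succ']; congr 1; omega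
  have hqn : 1 ≤ q ^ n := Nat.one_le_pow _ _ (by omega)
  have hu2 : q ^ 2 ≤ u := Nat.pow_le_pow_right (by omega) (by omega)
  have h25 : 25 ≤ q ^ 2 := by nlinarith
  have hX : 0 < X := by
    have : q ≤ q ^ n := Nat.le_self_pow (by omega) q
    omega
  have hfac : q ^ (2 * n) - 1 = X * (q * u + 1) := by
    rw [← hpw, hX', mul_comm 2 n, pow_mul]
    obtain ⟨T, hT⟩ : ∃ T, q ^ n = T + 1 := ⟨q ^ n - 1, by omega⟩
    rw [hT, Nat.add_sub_cancel, show (T + 1) ^ 2 = T * (T + 1 + 1) + 1 by ring, Nat.add_sub_cancel]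
  rw [hfac] at hsmall
  have hge : ∀ w, w ≠ 0 → μ w ≠ 0 → q ≤ μ w := fun w hw h =>
    Nat.le_of_dvd (Nat.pos_of_ne_zero h) (card_dvd_mult R (by omega) hψ hw (isAlt_of_mult R hψ h))
  have hno : ∀ w, w ≠ 0 → ¬ IsWedge (sq2 w) → μ w = 0 := by
    intro w hw hwd
    by_contra hne
    have halt := isAlt_of_mult R hψ hne
    have hW0 : sq2 w ≠ 0 := fun h0 => hw (by rw [← flat2_sq2 w, h0]; rfl)
    have hn4 : 4 ≤ n := by
      by_contra h
      obtain rfl : n = 3 := by omega
      exact hwd (isWedge_three halt hW0)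
    have hbig := card_sqOrbit_ge hn4 (show 4 ≤ q by omega) halt hW0 hwd
    rw [← hqdef, ← hX', ← hu] at hbig
    have hle : (sqOrbit (sq2 w)).card * q ≤ k := by
      rw [← hsum, ← Finset.card_image_of_injective _ flat2_injective, ← smul_eq_mul]
      refine le_trans ?_ (Finset.sum_le_sum_of_subset (Finset.subset_univ ((sqOrbit (sq2 w)).image flat2)))
      refine Finset.card_nsmul_le_sum _ _ _ fun x hx => ?_
      obtain ⟨M, hM, rfl⟩ := Finset.mem_image.1 hx
      obtain ⟨g, hg, hgs, rfl⟩ := mem_sqOrbit.1 hM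
      rw [show μ (flat2 (g * sq2 w * gᵀ)) = μ (flat2 (sq2 w)) from mult_congr R hψ hg hgs _, flat2_sq2]
      exact hge w hw hne
    obtain ⟨Q, hQ⟩ : ∃ Q, q ^ 2 = Q + 1 := ⟨q ^ 2 - 1, by omega⟩
    obtain ⟨U, hU⟩ : ∃ U, u = U + 1 := ⟨u - 1, by omega⟩
    rw [hQ, Nat.add_sub_cancel, hU] at hsmall
    rw [hQ, hU, Nat.add_sub_cancel] at hbig
    have h1 : X * (2 * U * Q) < X * (q * (q * (U + 1) + 1)) := by
      calc X * (2 * U * Q) = 2 * (X * U) * Q := by ring
        _ ≤ (Q + 1) * (sqOrbit (sq2 w)).card * Q := Nat.mul_le_mul_right _ hbig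
        _ = q * ((sqOrbit (sq2 w)).card * q * Q) := by rw [← hQ]; ring
        _ ≤ q * (k * Q) := Nat.mul_le_mul_left _ (Nat.mul_le_mul_right _ hle)
        _ < q * (X * (q * (U + 1) + 1)) := Nat.mul_lt_mul_of_pos_left hsmall (by omega)
        _ = _ := by ring
    have h2 := Nat.lt_of_mul_lt_mul_left h1
    have h3 : Q ≤ U + 1 := by omega
    have h4 : q ≤ Q := by nlinarith
    nlinarith
  have hn2 : (⟨0, by omega⟩ : Fin n) ≠ ⟨1, by omega⟩ := by simp
  obtain ⟨w₀, hw₀, hμ₀⟩ : ∃ w, w ≠ 0 ∧ μ w ≠ 0 := by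
    by_contra hc
    push Not at hc
    set v : Fin n × Fin n → F := Pi.single (⟨0, by omega⟩, ⟨1, by omega⟩) 1
    have hv : R (zO v) = 1 := eq_one_of_weightMult (zR_zero R) (zR_add R) hψ hc v
    rcases normal_center_or_top (show 2 ≤ n by omega) R.ker with h | h
    · obtain ⟨c, hc⟩ := CfsgLib.Classical.Orth.scalar_of_mem_center (ndQ n) (card_idx (by omega))
        (h (MonoidHom.mem_ker.2 hv))
      have := congrFun (hc (vec 0 0 (Pi.single ⟨1, by omega⟩ 1))) (Sum.inr (Sum.inl ⟨0, by omega⟩))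
      change act (zI v) _ _ = _ at this
      rw [act_zI] at this
      simp [vec, v, altOf_apply, hn2, hn2.symm] at this
    · have h0 := hnf (Pi.single ⟨0, Nat.pos_of_ne_zero hk0⟩ 1) (fun g _ => by
        rw [MonoidHom.mem_ker.1 (h ▸ Subgroup.mem_top g : g ∈ R.ker), Matrix.one_mulVec])
      exact one_ne_zero (show (1 : ℂ) = 0 by simpa using congrFun h0 ⟨0, Nat.pos_of_ne_zero hk0⟩)
  have hwedge₀ : IsWedge (sq2 w₀) := by
    by_contra h
    exact hμ₀ (hno w₀ hw₀ h)
  have hconst : ∀ W : Matrix (Fin n) (Fin n) F, IsWedge W → μ (flat2 W) = μ w₀ := by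
    intro W hW
    obtain ⟨g, hg, hgW⟩ := hW.exists_det_one (by omega) hn2
    obtain ⟨g₀, hg₀, hgW₀⟩ := hwedge₀.exists_det_one (by omega) hn2
    rw [← flat2_sq2 w₀, ← hgW, ← hgW₀, hμ]
    rw [mult_congr R hψ (by rw [hg]; exact one_ne_zero) (by rw [hg]; exact IsSquare.one),
      mult_congr R hψ (by rw [hg₀]; exact one_ne_zero) (by rw [hg₀]; exact IsSquare.one)]
  have hdvd := card_dvd_mult R (show 2 ≤ n by omega) hψ hw₀ hwedge₀.isAlt
  have hle : μ 0 + (wedgeSet F n).card * μ w₀ ≤ k := by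
    rw [← hsum, ← Finset.card_image_of_injective _ flat2_injective,
      ← Finset.add_sum_erase _ _ (Finset.mem_univ (0 : Fin n × Fin n → F)), ← smul_eq_mul]
    refine Nat.add_le_add_left (le_trans ?_ (Finset.sum_le_sum_of_subset
      (s := (wedgeSet F n).image flat2) fun x hx => ?_)) _
    · refine Finset.card_nsmul_le_sum _ _ _ fun x hx => ?_
      obtain ⟨M, hM, rfl⟩ := Finset.mem_image.1 hx
      exact (hconst M (mem_wedgeSet.1 hM)).ge
    · obtain ⟨M, hM, rfl⟩ := Finset.mem_image.1 hx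
      exact Finset.mem_erase.2 ⟨fun h => (mem_wedgeSet.1 hM).1 (flat2_injective (h.trans rfl)),
        Finset.mem_univ _⟩
  have hS := card_wedgeSet (F := F) n
  rw [← hqdef, ← hX', ← hu] at hS
  obtain ⟨a, ha⟩ := hdvd
  change μ w₀ = q * a at ha
  set S2 := (wedgeSet F n).card
  obtain ⟨U, hU⟩ : ∃ U, u = U + 1 := ⟨u - 1, by omega⟩
  obtain ⟨Q, hQ⟩ : ∃ Q, q ^ 2 = Q + 1 := ⟨q ^ 2 - 1, by omega⟩
  rw [hQ, Nat.add_sub_cancel, hU, Nat.add_sub_cancel] at hS
  rw [hQ, Nat.add_sub_cancel, hU] at hsmall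
  have h1 : μ 0 * Q + X * (U * (q * a)) < X * (q * (U + 1) + 1) := by
    calc μ 0 * Q + X * (U * (q * a)) = (μ 0 + S2 * μ w₀) * Q := by
          rw [ha, ← mul_assoc X, ← hS]; ring
      _ ≤ k * Q := Nat.mul_le_mul_right _ hle
      _ < _ := hsmall
  have ha1 : a = 1 := by
    by_contra hne
    have ha2 : 2 ≤ a := by
      rcases Nat.eq_zero_or_pos a with h | h
      · rw [h, mul_zero] at ha; exact absurd ha hμ₀
      · omega
    have h2 : X * (U * (q * a)) < X * (q * (U + 1) + 1) := lt_of_le_of_lt (Nat.le_add_left _ _) h1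
    have h3 := Nat.lt_of_mul_lt_mul_left h2
    have h4 : U * (q * 2) ≤ U * (q * a) := Nat.mul_le_mul_left _ (Nat.mul_le_mul_left _ ha2)
    nlinarith
  refine ⟨fun W hW => by rw [hconst W hW, ha, ha1, mul_one], ?_⟩
  rw [ha1, mul_one] at h1
  have hgs := sub_one_mul_geomN n (show 1 ≤ q by omega)
  have hD : μ 0 * Q < X * (q + 1) := by
    have e : X * (q * (U + 1) + 1) = X * (q + 1) + X * (U * q) := by ring
    omega
  have hQ' : Q = (q - 1) * (q + 1) := by
    obtain ⟨t, ht⟩ : ∃ t, q = t + 1 := ⟨q - 1, by omega⟩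
    rw [ht] at hQ ⊢
    rw [Nat.add_sub_cancel]
    nlinarith
  rw [hQ', ← mul_assoc] at hD
  have hD' := Nat.lt_of_mul_lt_mul_right hD
  have e : X = geomN n q * (q - 1) := by rw [mul_comm]; omega
  rw [e] at hD'
  exact Nat.lt_of_mul_lt_mul_right hD'

/-- Vectors fixed by the centre are fixed by the radical. -/
theorem fixZ_uO (y : Fin k → ℂ) (hy : FixZ R y) (a : Fin n → F) : R (uO a) *ᵥ y = y := by
  set q := Fintype.card F with hqdef
  have hlt := (rad_structure R hn hq hψ hk0 hnf hsmall).2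
  obtain ⟨A, B, hAB, hBA, hU0, hUU⟩ := exists_heis R (show 2 ≤ n by omega) hψ 0
  set S : (Fin n → F) → Matrix (Fin (weightMult (zR R) ψ 0)) (Fin (weightMult (zR R) ψ 0)) ℂ :=
    fun a => B * R (uO a) * A with hS
  have hadd : ∀ u v, S (u + v) = S u * S v := fun u v => by
    simp only [hS]
    rw [hUU, show sq2 (0 : Fin n × Fin n → F) = 0 from rfl, Matrix.zero_mulVec, dotProduct_zero,
      AddChar.map_zero_eq_one, one_smul]
  have hmult : ∀ w w' : Fin n → F, w ≠ 0 → w' ≠ 0 → weightMult S ψ w = weightMult S ψ w' := by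
    intro w w' hw hw'
    obtain ⟨K, hK⟩ := exists_sl_mulVec_eq (by simp; omega) hw' hw
    set g : sqDet F (Fin n) := slH K.transpose with hg
    have hcomm : R (sqO g) * weightProj (zR R) ψ 0 = weightProj (zR R) ψ 0 * R (sqO g) := by
      have h := levi_comm R (ψ := ψ) g 0
      rwa [Matrix.mul_zero, Matrix.zero_mul, show flat2 (0 : Matrix (Fin n) (Fin n) F) = 0 from rfl] at h
    have hcomm' : R (sqO g⁻¹) * weightProj (zR R) ψ 0 = weightProj (zR R) ψ 0 * R (sqO g⁻¹) := by
      have h := levi_comm R (ψ := ψ) g⁻¹ 0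
      rwa [Matrix.mul_zero, Matrix.zero_mul, show flat2 (0 : Matrix (Fin n) (Fin n) F) = 0 from rfl] at h
    have hLL : B * R (sqO g⁻¹) * A * (B * R (sqO g) * A) = 1 := by
      rw [cmp_mul hAB hBA _ hcomm, ← map_mul, ← map_mul, inv_mul_cancel, map_one, map_one, Matrix.mul_one, hBA]
    refine weightMult_eq_of_comm hadd hψ hLL (comm_weightProj
      { toFun := fun v => ((g : GL (Fin n) F) : Matrix (Fin n) (Fin n) F) *ᵥ v
        invFun := fun v => (((g : GL (Fin n) F)⁻¹ : GL (Fin n) F) : Matrix (Fin n) (Fin n) F) *ᵥ v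
        left_inv := fun v => by
          simp only [Matrix.mulVec_mulVec, ← Units.val_mul, inv_mul_cancel, Units.val_one, Matrix.one_mulVec]
        right_inv := fun v => by
          simp only [Matrix.mulVec_mulVec, ← Units.val_mul, mul_inv_cancel, Units.val_one, Matrix.one_mulVec] }
      (fun v => ?_) (fun v => ?_))
    · simp only [hS]
      rw [cmp_mul hAB hBA _ (uO_comm_weight R (by omega) v 0), cmp_mul hAB hBA _ hcomm, ← map_mul, ← map_mul,
        sqO_uO (by omega)]
      rfl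
    · show ((K : Matrix (Fin n) (Fin n) F)ᵀ *ᵥ v) ⬝ᵥ w' = v ⬝ᵥ w
      rw [← hK, Matrix.mulVec_transpose, ← Matrix.dotProduct_mulVec]
  have hzero : ∀ w, w ≠ 0 → weightMult S ψ w = 0 := by
    intro w hw
    by_contra hne
    have h := sum_weightMult (R := S) hU0 hadd hψ
    have hle : ((Finset.univ : Finset (Fin n → F)).erase 0).card • 1 ≤ weightMult (zR R) ψ 0 := by
      rw [← h]
      refine le_trans ?_ (Finset.sum_le_sum_of_subset (Finset.erase_subset 0 _))
      refine Finset.card_nsmul_le_sum _ _ _ fun x hx => Nat.one_le_iff_ne_zero.2 ?_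
      rw [hmult x w (Finset.ne_of_mem_erase hx) hw]
      exact hne
    rw [smul_eq_mul, mul_one, Finset.card_erase_of_mem (Finset.mem_univ _), Finset.card_univ, Fintype.card_fun,
      Fintype.card_fin, ← hqdef] at hle
    have hgs := sub_one_mul_geomN n (show 1 ≤ q by omega)
    have := Nat.le_mul_of_pos_left (geomN n q) (show 0 < q - 1 by omega)
    rw [← hqdef] at hlt
    omega
  have h1 : S a = 1 := eq_one_of_weightMult hU0 hadd hψ hzero a
  have h2 := cmp_range hAB hBA (uO_comm_weight R (show 2 ≤ n by omega) a (0 : Fin n × Fin n → F) (ψ := ψ))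
  rw [show B * R (uO a) * A = 1 from h1, Matrix.mul_one] at h2
  have hPy : weightProj (zR R) ψ 0 *ᵥ y = y := weightProj_zero_mulVec (S := zR R) hy
  rw [← hPy, ← hAB, ← Matrix.mulVec_mulVec, Matrix.mulVec_mulVec _ (R (uO a)) A, h2]

end CfsgLib.OrthOddDeg
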